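import Cfsg.Statements.S4743
import Cfsg.Agent.Blk.DefectZero


set_option autoImplicit false
open Cfsg

namespace Cfsg.Agent.S4743

theorem aux1 {G : Type*} [Group G] [Finite G] {p q : ℕ} (hp : p.Prime) (hq : q.Prime) (hpq : p ≠ q)
    (h : ∀ g : G, orderOf g ≠ q * p) (N : Subgroup G) [hN : N.Normal] (h1 : q ∣ Nat.card N)
    (h2 : ¬ p ∣ Nat.card N) : ∃ χ : Cfsg.IrrCharacter G,
      (Cfsg.charDegree (χ : G → ℂ)).factorization p = (Nat.card G).factorization p := by
  haveI := Fact.mk hq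
  obtain ⟨z, hzN, hz⟩ := Cfsg.exists_orderOf_eq_prime_of_dvd_card h1
  refine Cfsg.exists_defectZero_of_class hp
    (Cfsg.not_dvd_card_centralizer_of_orderOf_ne hp hq hpq h hz.symm.dvd) fun g k hg hk hgk => h2 ?_
  rw [← hgk]
  obtain ⟨c, rfl⟩ := isConj_iff.1 hg
  obtain ⟨d, rfl⟩ := isConj_iff.1 hk
  exact Subgroup.orderOf_dvd_natCard _ (N.mul_mem (hN.conj_mem _ hzN _)
    (N.inv_mem (hN.conj_mem _ hzN _)))

theorem aux2 {G : Type*} [Group G] [Finite G] {p q : ℕ} (hp : p.Prime) (hq : q.Prime) (hpq : p ≠ q)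
    (hpG : p ∣ Nat.card G) (hs : Cfsg.IsPSolvable p G) : ∃ N : Subgroup G, N.Normal ∧
      ((q ∣ Nat.card N ∧ ¬ p ∣ Nat.card N) ∨ (p ∣ Nat.card N ∧ ¬ q ∣ Nat.card N)) := by
  by_contra hcon
  push Not at hcon
  obtain ⟨n, H, h0, hl, hm, hn, hi⟩ := hs
  have key : ∀ i : Fin (n + 1), ¬ p ∣ Nat.card (H i) ∧ ¬ q ∣ Nat.card (H i) := by
    intro i
    induction i using Fin.induction with
    | zero =>
      rw [h0, Subgroup.card_bot]
      exact ⟨hp.not_dvd_one, hq.not_dvd_one⟩
    | succ i ih =>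
      have hle : H i.castSucc ≤ H i.succ := hm (Fin.castSucc_lt_succ (i := i)).le
      have hc : Nat.card (H i.succ) = Nat.card (H i.castSucc) * (H i.castSucc).relIndex (H i.succ) := by
        rw [Subgroup.relIndex, ← Subgroup.card_mul_index ((H i.castSucc).subgroupOf (H i.succ)),
          Nat.card_congr (Subgroup.subgroupOfEquivOfLe hle).toEquiv]
      obtain ⟨h1, h2⟩ := hcon _ (hn i.succ)
      rcases hi i with ⟨m, hm⟩ | hm
      · have : ¬ q ∣ Nat.card (H i.succ) := by
          rw [hc, hm, hq.dvd_mul, not_or]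
          exact ⟨ih.2, fun h => hpq ((Nat.prime_dvd_prime_iff_eq hq hp).1 (hq.dvd_of_dvd_pow h)).symm⟩
        exact ⟨fun h => this (h2 h), this⟩
      · have : ¬ p ∣ Nat.card (H i.succ) := by
          rw [hc, hp.dvd_mul, not_or]
          exact ⟨ih.1, (Nat.Prime.coprime_iff_not_dvd hp).1 hm.symm⟩
        exact ⟨this, fun h => this (h1 h)⟩
  have := (key (Fin.last n)).1
  rw [hl, Subgroup.card_top] at this
  exact this hpG


/-- Let p ≠ q be primes dividing the order of the finite group G, suppose the centralizer of every non-identity p-element has order prime to q, and suppose G is p-solvable or q-solvable. Then G has an irreducible character of p-defect zero or an irreducible character of q-defect zero. -/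
theorem result {G : Type*} [Group G] [Finite G] (p q : ℕ) [Fact p.Prime] [Fact q.Prime] (hppq : p ≠ q) (hpG : p ∣ Nat.card G) (hqG : q ∣ Nat.card G) (hC : ∀ g : G, g ≠ 1 → (∃ k : ℕ, orderOf g = p ^ k) → ¬ q ∣ Nat.card ↥(Subgroup.centralizer ({g} : Set G))) (hsolv : Cfsg.IsPSolvable p G ∨ Cfsg.IsPSolvable q G) : (∃ χ : Cfsg.IrrCharacter G, (Cfsg.charDegree (χ : G → ℂ)).factorization p = (Nat.card G).factorization p) ∨ (∃ χ : Cfsg.IrrCharacter G, (Cfsg.charDegree (χ : G → ℂ)).factorization q = (Nat.card G).factorization q) := by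
  have hp : p.Prime := Fact.out
  have hq : q.Prime := Fact.out
  have h1 := Cfsg.orderOf_ne_of_centralizer hp hq hC
  have h2 : ∀ g : G, orderOf g ≠ p * q := fun g => mul_comm q p ▸ h1 g
  rcases hsolv with hs | hs
  · obtain ⟨N, hN, h | h⟩ := aux2 hp hq hppq hpG hs
    · exact Or.inl (aux1 hp hq hppq h1 N h.1 h.2)
    · exact Or.inr (aux1 hq hp hppq.symm h2 N h.1 h.2)
  · obtain ⟨N, hN, h | h⟩ := aux2 hq hp hppq.symm hqG hs
    · exact Or.inr (aux1 hq hp hppq.symm h2 N h.1 h.2)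
    · exact Or.inl (aux1 hp hq hppq h1 N h.1 h.2)

end Cfsg.Agent.S4743
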