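import Cfsg.Statements.S4466
import Cfsg.Agent.CT.Blichfeldt
import Cfsg.Agent.CT.Det
import Cfsg.Agent.CT.Burnside
import Cfsg.Agent.CT.Clifford
import Cfsg.Agent.Grp.Coprime

set_option autoImplicit false
open Cfsg

namespace Cfsg.Agent.S4466

universe u

theorem simple_case {G : Type u} [Group G] [Finite G] [IsSimpleGroup G]
    (h : ∀ χ : IrrCharacter G, charDegree χ.1 ≠ 1 → (charDegree χ.1).Prime) :
    IsMulCommutative G := by
  classical
  by_contra hG
  have hZ : Subgroup.center G = ⊥ :=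
    (IsSimpleGroup.eq_bot_or_eq_top_of_normal _ inferInstance).resolve_right
      fun h => hG (Subgroup.center_eq_top_iff.1 h)
  have hperf : commutator G = ⊤ :=
    (IsSimpleGroup.eq_bot_or_eq_top_of_normal _ inferInstance).resolve_left
      fun h => hG (Subgroup.center_eq_top_iff.1 ((commutator_eq_bot_iff_center_eq_top G).1 h))
  have hnl : ∀ χ : IrrCharacter G, χ ≠ IrrCharacter.triv G → charDegree χ.1 ≠ 1 := fun χ hχ h1 =>
    hχ (χ.charKer_eq_top_iff.1 (top_le_iff.1 (hperf ▸ χ.charDegree_eq_one_iff_commutator_le.1 h1)))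
  have hcen : ∀ χ : IrrCharacter G, χ ≠ IrrCharacter.triv G → charCenter χ.1 = ⊥ := fun χ hχ =>
    (χ.charCenter_eq_center_of_faithful (χ.charKer_eq_bot_of_isSimpleGroup hχ)).trans hZ
  obtain ⟨g, hg⟩ := exists_ne (1 : G)
  obtain ⟨χ₁, h1, -⟩ := exists_irr_ne_triv_not_dvd_ne_zero Nat.prime_two hg
  obtain ⟨χ, hχ, hmin⟩ := Finset.exists_min_image
    (Finset.univ.filter fun χ : IrrCharacter G => χ ≠ IrrCharacter.triv G)
    (fun χ => charDegree χ.1) ⟨χ₁, by simpa using h1⟩
  simp only [Finset.mem_filter, Finset.mem_univ, true_and] at hχ hmin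
  have hq := h χ (hnl χ hχ)
  have hker := χ.charKer_eq_bot_of_isSimpleGroup hχ
  have hq2 : charDegree χ.1 ≠ 2 := fun h2 => by
    obtain ⟨t, ht⟩ := exists_prime_orderOf_dvd_card' (G := G) 2 (h2 ▸ χ.charDegree_dvd_card)
    have ht1 : t ≠ 1 := by rintro rfl; simp at ht
    obtain ⟨a, h3, h4, h5⟩ := χ.isCharacter.exists_int_of_sq_eq_one (g := t)
      (ht ▸ pow_orderOf_eq_one t)
    have h6 : detChar χ.1 t = 1 := by
      have := mem_commutator_iff_forall_unitsHom.1 (hperf ▸ Subgroup.mem_top t) (detHom χ.1)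
      rw [← coe_detHom, this, Units.val_one]
    rw [h2] at h3 h4
    interval_cases a
    · refine ht1 (χ.charKer_eq_bot_iff.1 hker t ?_)
      rw [h4, χ.one_eq_charDegree, h2]; simp
    · rw [h6] at h5; norm_num at h5
    · refine ht1 ?_
      rw [← Subgroup.mem_bot, ← hcen χ hχ, χ.mem_charCenter, h4, h2]
      norm_num
  have hbig : ∀ ψ : IrrCharacter G, ψ ≠ IrrCharacter.triv G → ¬ charDegree χ.1 ∣ charDegree ψ.1 →
      charDegree χ.1 + 1 < charDegree ψ.1 := fun ψ h1 h2 => by
    have h3 := hmin ψ h1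
    have h4 : charDegree χ.1 ≠ charDegree ψ.1 := fun h => h2 (h ▸ dvd_rfl)
    by_contra h5
    have h6 : charDegree ψ.1 = charDegree χ.1 + 1 := by omega
    have h7 := (h ψ (hnl ψ h1)).eq_two_or_odd
    have h8 := hq.eq_two_or_odd
    have h9 := hq.two_le
    omega
  obtain ⟨A, hA1, -, hA2⟩ := exists_abelian_hall_of_faithful χ.isCharacter
    (χ.charKer_eq_bot_iff.1 hker)
  rcases A.bot_or_exists_ne_one with rfl | ⟨y, hy, hy1⟩
  · obtain ⟨ψ, h1, h2, -⟩ := exists_irr_ne_triv_not_dvd_ne_zero hq hg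
    have := hA2 _ (h ψ (hnl ψ h1)) (by rw [Subgroup.index_bot]; exact ψ.charDegree_dvd_card)
    have := hbig ψ h1 h2
    omega
  · obtain ⟨ψ, h1, h2, h3⟩ := exists_irr_ne_triv_not_dvd_ne_zero hq hy1
    have h4 : A ≤ Subgroup.centralizer {y} := fun a ha =>
      Subgroup.mem_centralizer_singleton_iff.2 (hA1 a ha y hy)
    have h5 := (ψ.eq_zero_or_mem_charCenter_of_coprime (g := y)
      ((Nat.Prime.coprime_iff_not_dvd (h ψ (hnl ψ h1))).2 fun hd => by
        have := hA2 _ (h ψ (hnl ψ h1)) (hd.trans (Subgroup.index_dvd_of_le h4))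
        have := hbig ψ h1 h2
        omega)).resolve_left h3
    rw [hcen ψ h1] at h5
    exact hy1 h5

/-- If every irreducible character of the finite group G of degree greater than one has prime degree, then G is solvable. -/
theorem result {G : Type*} [Group G] [Finite G] (h : ∀ χ : Cfsg.IrrCharacter G, Cfsg.charDegree (χ : G → ℂ) ≠ 1 → (Cfsg.charDegree (χ : G → ℂ)).Prime) : Group.IsSolvable G := by
  classical
  revert h
  refine induction_on_card (P := fun G _ _ => (∀ χ : IrrCharacter G, charDegree χ.1 ≠ 1 →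
    (charDegree χ.1).Prime) → Group.IsSolvable G) (fun G _ _ ih h => ?_) G
  have := Fintype.ofFinite G
  rcases subsingleton_or_nontrivial G with _ | _
  · infer_instance
  by_cases hs : IsSimpleGroup G
  · exact isSolvable_of_isMulCommutative (simple_case h)
  obtain ⟨N, hN, h1, h2⟩ : ∃ N : Subgroup G, N.Normal ∧ N ≠ ⊥ ∧ N ≠ ⊤ := by
    by_contra h3
    push Not at h3
    exact hs ⟨fun N hN => or_iff_not_imp_left.2 (h3 N hN)⟩
  have := ih N (card_lt_of_ne_top h2) fun θ hθ => by
    obtain ⟨χ, hχ⟩ := θ.exists_over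
    have h3 := clifford_charDegree_dvd χ hχ
    have h4 := h χ fun h4 => hθ (Nat.dvd_one.1 (h4 ▸ h3))
    rwa [((Nat.dvd_prime h4).1 h3).resolve_left hθ]
  have := ih (G ⧸ N) (card_quotient_lt h1) fun ψ hψ => by
    rw [← IrrCharacter.charDegree_inflate] at hψ ⊢
    exact h _ hψ
  exact Group.isSolvable_of_ker_le_range N.subtype (QuotientGroup.mk' N) (by simp)

end Cfsg.Agent.S4466
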