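import Cfsg.Statements.S4514
import Cfsg.Agent.CT.SL2Even

set_option autoImplicit false
open Cfsg

namespace Cfsg.Agent.S4514

theorem main {G : Type*} [Group G] [Finite G] {M : Ideal AlgInt} (hM : IsPModular 2 M) {u : G}
    {k : ℂ} (hk : ∀ χ ∈ principalBlock M G, χ ≠ IrrCharacter.triv G → χ.1 1 - χ.1 u = k)
    (hO : pPrimeCore 2 G = ⊥) (hu : u ≠ 1) : Nat.card G = 2 ∨ (u ^ 2 = 1 ∧
      ∃ (F : Type) (_ : Field F) (_ : Fintype F) (n : ℕ), 2 ≤ n ∧ Fintype.card F = 2 ^ n ∧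
        Nonempty (G ≃* Matrix.SpecialLinearGroup (Fin 2) F)) := by
  have hk0 : k ≠ 0 := fun h => hu (by
    rw [← Subgroup.mem_bot, ← hO, ← hM.blockKerSub_principalBlock, mem_blockKerSub]
    intro χ hχ
    by_cases h1 : χ = IrrCharacter.triv G
    · rw [h1]; rfl
    · exact (sub_eq_zero.1 ((hk χ hχ h1).trans h)).symm)
  have he : 2 ∣ Nat.card G := by
    by_contra h
    rw [pPrimeCore_eq_top_iff.2 ((Nat.prime_two.coprime_iff_not_dvd.2 h).symm)] at hO
    exact hu (Subgroup.mem_bot.1 (hO ▸ Subgroup.mem_top u))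
  have hc := fun v => constDiff_isConj hM hk he hk0 (v := v)
  obtain ⟨z, hz⟩ := exists_prime_orderOf_dvd_card' 2 he
  have hz1 : z ≠ 1 := fun h => by rw [h, orderOf_one] at hz; exact absurd hz (by decide)
  obtain ⟨g, hg⟩ := isConj_iff.1 (hc z ⟨1, hz⟩ hz1).symm
  have ht1 : pPart 2 u ≠ 1 := by rw [← hg]; simpa using hz1
  have ht2 : pPart 2 u * pPart 2 u = 1 := by
    rw [← hg, conj_mul, ← sq, ← hz, pow_orderOf_eq_one]; simp
  obtain ⟨P, hP⟩ := exists_mem_sylow_of_orderOf (exists_orderOf_pPart (p := 2) u)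
  have hf : ∀ v ∈ (P : Subgroup G), v ≠ 1 → IsConj (pPart 2 u) v := fun v hv =>
    hc v (exists_orderOf_eq_pow_of_mem P.isPGroup' hv)
  have h2 : ∀ v ∈ (P : Subgroup G), v * v = 1 := fun v hv => by
    by_cases h : v = 1
    · simp [h]
    · obtain ⟨x, rfl⟩ := isConj_iff.1 (hf v hv h)
      rw [conj_mul, ht2]; simp
  have := isMulCommutative_of_mul_self h2
  by_cases h4 : 2 < Nat.card (P : Subgroup G)
  · have H : CDiff M P (pPart 2 u) := ⟨hM, hP, ht1, h2, hf, hO, fun χ hχ =>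
      constDiff_apply hM hk hk0 he hP ht1 (mem_prinNT.1 hχ).1 (mem_prinNT.1 hχ).2, h4⟩
    refine Or.inr ⟨?_, H.exists_iso⟩
    rw [sq]
    exact h2 u (H.centralizer_eq ▸ self_mem_centralizer_pPart 2 u)
  · left
    have h5 : Nat.card (P : Subgroup G) = 2 :=
      le_antisymm (by omega) (Nat.le_of_dvd Nat.card_pos (P.dvd_card_of_dvd_card he))
    have := isCyclic_of_prime_card h5
    have h6 := (hasNormalPComplement_iff_sup_sylow P).1
      (hasNormalPComplement_of_normalizer_le_centralizer P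
        (IsCyclic.normalizer_le_centralizer ((Nat.minFac_eq_two_iff _).2 he) this))
    rw [hO, bot_sup_eq] at h6
    rw [← h5, h6, Subgroup.card_top]


/-- Let G be a finite group, u an element of G, and fix a maximal ideal M of the algebraic integers containing 2 (defining the 2-blocks). There is a complex number k with χ(1) − χ(u) = k for every non-principal irreducible character χ in the principal 2-block if and only if one of the following holds: u lies in O(G); or G/O(G) has order 2 and u ∉ O(G); or G/O(G) ≅ PSL(2, 2ⁿ) for some n ≥ 2, u ∉ O(G) and u² ∈ O(G). -/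
theorem result {G : Type*} [Group G] [Finite G] (M : Ideal Cfsg.AlgInt) (hM : Cfsg.IsPModular 2 M) (u : G) :
    (∃ k : ℂ, ∀ χ : Cfsg.IrrCharacter G, χ ∈ Cfsg.principalBlock M G → (χ : G → ℂ) ≠ (fun _ => 1) →
        (χ : G → ℂ) 1 - (χ : G → ℂ) u = k) ↔
      (u ∈ Cfsg.oddCore G ∨ (Nat.card (G ⧸ Cfsg.oddCore G) = 2 ∧ u ∉ Cfsg.oddCore G) ∨
        (∃ (F : Type) (_ : Field F) (_ : Fintype F) (n : ℕ), 2 ≤ n ∧ Fintype.card F = 2 ^ n ∧
          Nonempty (G ⧸ Cfsg.oddCore G ≃* Matrix.ProjectiveSpecialLinearGroup (Fin 2) F) ∧ u ∉ Cfsg.oddCore G ∧ u ^ 2 ∈ Cfsg.oddCore G)) := by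
  have hO := pPrimeCore_quotient_pPrimeCore (G := G) 2
  constructor
  · rintro ⟨k, hk⟩
    by_cases hu : u ∈ oddCore G
    · exact Or.inl hu
    refine Or.inr ((main hM (u := (u : G ⧸ oddCore G)) (k := k) (fun χ hχ h1 =>
      hk _ (hM.inflate_mem_principalBlock _ hχ) fun h => h1 (IrrCharacter.inflate_injective _
        (Subtype.ext h))) hO fun h => hu ((QuotientGroup.eq_one_iff u).1 h)).imp
      (fun h => ⟨h, hu⟩) ?_)
    rintro ⟨h2, F, _, _, n, hn, hF, ⟨e⟩⟩
    have : CharP F 2 := ringChar.of_eq (FiniteField.even_card_iff_char_two.2 (by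
      rw [hF]; exact Nat.even_iff.1 (Nat.even_pow.2 ⟨even_two, by omega⟩)))
    exact ⟨F, _, _, n, hn, hF, ⟨e.trans (psl2EquivOfCharTwo F).symm⟩, hu,
      (QuotientGroup.eq_one_iff _).1 h2⟩
  have key : ∀ k : ℂ, (∀ ψ : IrrCharacter (G ⧸ oddCore G), ψ ≠ IrrCharacter.triv _ →
      ψ.1 1 - ψ.1 u = k) → ∃ k : ℂ, ∀ χ : IrrCharacter G, χ ∈ principalBlock M G →
        (χ : G → ℂ) ≠ (fun _ => 1) → (χ : G → ℂ) 1 - (χ : G → ℂ) u = k := fun k h =>
    ⟨k, fun χ hχ h1 => by
      obtain ⟨ψ, rfl⟩ := χ.exists_inflate_eq (oddCore G)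
        (hM.le_charKer_of_mem_principalBlock (not_dvd_card_pPrimeCore 2) hχ)
      exact h ψ fun e => h1 (by rw [e]; rfl)⟩
  rintro (h | ⟨h, hu⟩ | ⟨F, _, _, n, hn, hF, ⟨e⟩, hu, h2⟩)
  · exact key 0 fun ψ _ => by rw [(QuotientGroup.eq_one_iff u).2 h, sub_self]
  · refine key 2 fun ψ hψ => ?_
    have := isCyclic_of_prime_card h
    have := this.isMulCommutative
    obtain ⟨f, rfl⟩ := ψ.exists_eq_ofHom ψ.charDegree_eq_one_of_comm
    have h1 : f u ≠ 1 := fun h1 => hψ (by
      have h2 := zpowers_eq_top_of_prime_card h fun e => hu ((QuotientGroup.eq_one_iff u).1 e)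
      rw [← IrrCharacter.ofHom_one]
      refine congrArg _ (MonoidHom.ext fun x => ?_)
      obtain ⟨j, rfl⟩ := h2.ge (Subgroup.mem_top x)
      simp [h1])
    have h2 : (f u : ℂ) * f u = 1 := by
      have h3 := pow_card_eq_one' (x := (u : G ⧸ oddCore G))
      rw [h] at h3
      rw [← Units.val_mul, ← map_mul, ← sq, h3, map_one, Units.val_one]
    rw [IrrCharacter.ofHom_apply, IrrCharacter.ofHom_apply, map_one, Units.val_one,
      (mul_self_eq_one_iff.1 h2).resolve_left fun e => h1 (Units.ext e)]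
    norm_num
  · have : CharP F 2 := ringChar.of_eq (FiniteField.even_card_iff_char_two.2 (by
      rw [hF]; exact Nat.even_iff.1 (Nat.even_pow.2 ⟨even_two, by omega⟩)))
    let e' := e.trans (psl2EquivOfCharTwo F)
    refine key (Fintype.card F) fun ψ hψ => ?_
    have := sl2_even_sub_apply (t := e' u) (hF ▸ Nat.pow_le_pow_right two_pos hn)
      (fun h => hu ((QuotientGroup.eq_one_iff u).1 (e'.map_eq_one_iff.1 h)))
      (by rw [← map_mul, ← QuotientGroup.mk_mul, ← sq, (QuotientGroup.eq_one_iff _).2 h2, map_one])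
      (χ := ψ.comap e'.symm.toMonoidHom e'.symm.surjective) fun h => hψ
        (IrrCharacter.comap_injective _ e'.symm.surjective (h.trans (IrrCharacter.comap_triv _ _).symm))
    simpa [IrrCharacter.comap_apply] using this

end Cfsg.Agent.S4514
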