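import Cfsg.Statements.S4519
import Cfsg.Agent.CT.OddIndex
import Cfsg.Agent.Grp.PPart


set_option autoImplicit false
open Cfsg

namespace Cfsg.Agent.S4519


/-- Let N be a normal subgroup of odd index in the finite group G, and let k be coprime to the order of G with k ^ (2 ^ e) ≡ 1 modulo the order of G for some e and g ^ k = g⁻¹ for every element g of odd order (so g ↦ g ^ k induces a field automorphism of 2-power order inverting the roots of unity of odd order). If an irreducible character θ of N satisfies θ (n ^ k) = θ n for all n, then there is exactly one irreducible character χ of G with θ a constituent of its restriction to N and χ (g ^ k) = χ g for all g; moreover, if θ is invariant under conjugation by G, that χ restricts to θ. -/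
theorem result {G : Type*} [Group G] [Fintype G] (N : Subgroup G) [hN : N.Normal] [Fintype N] (hidx : Odd N.index) (k e : ℕ) (hk : Nat.Coprime k (Nat.card G)) (hke : k ^ (2 ^ e) ≡ 1 [MOD Nat.card G]) (hk₂ : ∀ g : G, Odd (orderOf g) → g ^ k = g⁻¹) (θ : Cfsg.IrrCharacter N) (hθ : ∀ n : N, (θ : N → ℂ) (n ^ k) = (θ : N → ℂ) n) : ∃ χ : Cfsg.IrrCharacter G, (Cfsg.classInner (fun n : N => (χ : G → ℂ) n) (θ : N → ℂ) ≠ 0 ∧ (∀ g : G, (χ : G → ℂ) (g ^ k) = (χ : G → ℂ) g) ∧ ((∀ g : G, ∀ n : N, (θ : N → ℂ) ⟨g * n * g⁻¹, hN.conj_mem n n.2 g⟩ = (θ : N → ℂ) n) → ∀ n : N, (χ : G → ℂ) n = (θ : N → ℂ) n)) ∧ ∀ χ' : Cfsg.IrrCharacter G, Cfsg.classInner (fun n : N => (χ' : G → ℂ) n) (θ : N → ℂ) ≠ 0 → (∀ g : G, (χ' : G → ℂ) (g ^ k) = (χ' : G → ℂ) g) → χ' = χ := by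
  have hkN : ∀ g : G, g ^ k * g ∈ N := by
    intro g
    haveI : Fact (Nat.Prime 2) := ⟨Nat.prime_two⟩
    have h1 : pPart 2 g ∈ N := by
      obtain ⟨j, hj⟩ := exists_orderOf_pPart (p := 2) g
      refine mem_of_coprime_orderOf_index ?_
      rw [hj]
      exact Nat.Coprime.pow_left _ ((Nat.coprime_two_left).2 hidx)
    have h2 : ((g : G) : G ⧸ N) = (pRegPart 2 g : G) := by
      conv_lhs => rw [← pPart_mul_pRegPart 2 g]
      rw [QuotientGroup.mk_mul, (QuotientGroup.eq_one_iff _).2 h1, one_mul]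
    have h3 := hk₂ (pRegPart 2 g) (by
      rw [← Nat.not_even_iff_odd, even_iff_two_dvd]; exact not_dvd_orderOf_pRegPart (p := 2) g)
    rw [← QuotientGroup.eq_one_iff, QuotientGroup.mk_mul, QuotientGroup.mk_pow, h2,
      ← QuotientGroup.mk_pow, h3, QuotientGroup.mk_inv, inv_mul_cancel]
  obtain ⟨χ, ⟨h1, h2⟩, h3⟩ := existsUnique_over_pow_fixed hidx hk hkN θ hθ
  exact ⟨χ, ⟨h1, h2, fun hinv => extends_of_pow_fixed hidx hk hkN hθ
    (charInertia_eq_top_iff.2 hinv) χ h1 h2⟩, fun χ' h h' => h3 χ' ⟨h, h'⟩⟩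

end Cfsg.Agent.S4519
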