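import Cfsg.Statements.S4520
import Cfsg.Agent.Blk.CoverDeg
import Cfsg.Agent.Blk.BlockGalois
import Cfsg.Agent.CT.OddIndex

set_option autoImplicit false
open Cfsg

namespace Cfsg.Agent.S4520

open Cfsg in
theorem sum_eq_sum_powConj_fixed {G : Type*} [Group G] [Finite G] {q k e : ℕ} [Fact q.Prime]
    (hk : k.Coprime (Nat.card G)) (hke : k ^ (q ^ e) ≡ 1 [MOD Nat.card G]) {A : Type*}
    [AddCommMonoid A] (hA : ∀ a : A, q • a = 0) (s : Finset (IrrCharacter G))
    (hs : ∀ χ ∈ s, χ.powConj k hk ∈ s) (f : IrrCharacter G → A)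
    (hf : ∀ χ, f (χ.powConj k hk) = f χ) [DecidablePred fun χ : IrrCharacter G => χ.powConj k hk = χ] :
    ∑ χ ∈ s, f χ = ∑ χ ∈ s.filter (fun χ => χ.powConj k hk = χ), f χ := by
  classical
  let u := ZMod.unitOfCoprime k hk
  have hu : u ^ (q ^ e) = 1 := by
    apply Units.ext
    simp only [u, Units.val_pow_eq_pow_val, ZMod.coe_unitOfCoprime, Units.val_one]
    rw [← Nat.cast_pow, (ZMod.natCast_eq_natCast_iff _ _ _).2 hke, Nat.cast_one]
  have : NeZero (Nat.card G) := ⟨Nat.card_pos.ne'⟩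
  have hp : IsPGroup q (Subgroup.zpowers u) := by
    obtain ⟨j, -, hj⟩ := (Nat.dvd_prime_pow (Fact.out : q.Prime)).1 (orderOf_dvd_of_pow_eq_one hu)
    exact isPGroup_zpowers_iff.2 ⟨j, hj⟩
  have key : ∀ (P : IrrCharacter G → IrrCharacter G → Prop), (∀ χ, P χ χ) →
      (∀ χ ψ, P χ ψ → P χ (ψ.powConj k hk)) → ∀ (g : Subgroup.zpowers u) (χ : IrrCharacter G),
      P χ (g • χ) := fun P h1 h2 g χ => by
    obtain ⟨g, hg⟩ := g
    obtain ⟨j, rfl⟩ := mem_powers_iff_mem_zpowers.2 hg
    show P χ (u ^ j • χ)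
    clear hg
    induction j with
    | zero => rw [pow_zero, one_smul]; exact h1 χ
    | succ j ih => rw [pow_succ', mul_smul, IrrCharacter.unitOfCoprime_smul]; exact h2 _ _ ih
  rw [sum_eq_sum_fixed hp hA s
    (fun g χ => key (fun χ ψ => χ ∈ s → ψ ∈ s) (fun _ h => h) (fun _ _ h h' => hs _ (h h')) g χ) f
    (fun g χ _ => key (fun χ ψ => f ψ = f χ) (fun _ => rfl) (fun _ _ h => (hf _).trans h) g χ)]
  refine Finset.sum_congr (Finset.filter_congr fun χ _ => ⟨fun h => ?_, fun h g => ?_⟩)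
    fun _ _ => rfl
  · rw [← IrrCharacter.unitOfCoprime_smul]
    exact h ⟨u, Subgroup.mem_zpowers u⟩
  · exact key (fun χ ψ => χ.powConj k hk = χ → ψ = χ) (fun _ _ => rfl)
      (fun _ _ h h' => by rw [h h', h']) g χ h


/-- Let N be a normal subgroup of odd index in the finite group G, M a maximal ideal of the algebraic integers containing 2, and k coprime to the order of G with k ^ (2 ^ e) ≡ 1 modulo the order of G for some e and g ^ k = g⁻¹ for every element g of odd order. Let θ be an irreducible character of N and χ an irreducible character of G over θ, both unchanged by composing with g ↦ g ^ k. Then χ lies in the principal 2-block of G if and only if θ lies in the principal 2-block of N. -/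
theorem result {G : Type*} [Group G] [Fintype G] (M : Ideal Cfsg.AlgInt) (hM : Cfsg.IsPModular 2 M) (N : Subgroup G) [N.Normal] [Fintype N] (hidx : Odd N.index) (k e : ℕ) (hk : Nat.Coprime k (Nat.card G)) (hke : k ^ (2 ^ e) ≡ 1 [MOD Nat.card G]) (hk₂ : ∀ g : G, Odd (orderOf g) → g ^ k = g⁻¹) (θ : Cfsg.IrrCharacter N) (hθ : ∀ n : N, (θ : N → ℂ) (n ^ k) = (θ : N → ℂ) n) (χ : Cfsg.IrrCharacter G) (hχ : ∀ g : G, (χ : G → ℂ) (g ^ k) = (χ : G → ℂ) g) (hover : Cfsg.classInner (fun n : N => (χ : G → ℂ) n) (θ : N → ℂ) ≠ 0) : χ ∈ Cfsg.principalBlock M G ↔ θ ∈ Cfsg.principalBlock M N := by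
  classical
  refine ⟨fun h => hM.mem_principalBlock_of_over h hover, fun hθ0 => ?_⟩
  have := hM.charP
  have hkN : ∀ g : G, g ^ k * g ∈ N := fun g => by
    have h1 : pPart 2 g ∈ N := sylow_le_of_not_dvd_index (p := 2)
      (by rwa [← even_iff_two_dvd, Nat.not_even_iff_odd]) (isPGroup_zpowers_pPart g)
      (Subgroup.mem_zpowers _)
    have h2 := hk₂ (pRegPart 2 g) (by
      rw [← Nat.not_even_iff_odd, even_iff_two_dvd]; exact not_dvd_orderOf_pRegPart g)
    have hc := commute_pPart_pRegPart 2 g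
    have h3 : g ^ k * g = pPart 2 g ^ k * pPart 2 g := by
      conv_lhs => rw [← pPart_mul_pRegPart 2 g]
      rw [hc.mul_pow, h2, hc.eq, mul_assoc, inv_mul_cancel_left]
    rw [h3]
    exact N.mul_mem (N.pow_mem h1 k) h1
  obtain ⟨σ, hσ⟩ := exists_ringEquiv_complex_pow (n := Nat.card G) Nat.card_pos.ne' hk
  have hB : ∀ ψ ∈ irrFinset (principalBlock M G),
      ψ.powConj k hk ∈ irrFinset (principalBlock M G) := fun ψ hψ => by
    rw [mem_irrFinset, ψ.powConj_eq_galois hk (σ := (σ : ℂ →+* ℂ)) (fun g => pow_card_eq_one') hσ,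
      hM.galois_mem_principalBlock_iff]
    exact mem_irrFinset.1 hψ
  have hmem : ∀ (ψ : IrrCharacter G) (φ : IrrCharacter N),
      classInner (fun n : N => ψ.1 n) φ.1 ^ 2 ∈ valO M := fun ψ φ => by
    obtain ⟨m, hm⟩ := (ψ.2.isCharacter.res N).exists_classInner_eq_nat φ.2.isCharacter
    rw [hm]; exact pow_mem (natCast_mem_valO m) 2
  have hU := (isPBlock_principalBlock (G := G)).isBlockUnion hM
  have hom : ∀ φ : IrrCharacter N, omega φ.1 (gaTrunc ℂ N (idemC (principalBlock M G))) ∈ valO M ∧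
      red M (omega φ.1 (gaTrunc ℂ N (idemC (principalBlock M G)))) =
        lam M φ.1 (gaTrunc (resK M) N (idemK M (principalBlock M G))) := fun φ => by
    rw [← hU.toC_idemO hM, ← toK_idemO]
    exact ⟨omega_gaTrunc_toC_mem N φ (IsFixedGA.of_mem_center (idemO_mem_center _) N),
      red_omega_gaTrunc_toC N φ (IsFixedGA.of_mem_center (idemO_mem_center _) N)⟩
  have main : ∀ φ : IrrCharacter N, (∀ n : N, φ.1 (n ^ k) = φ.1 n) →
      (N.relIndex (charInertia φ.1) : resK M) *
        lam M φ.1 (gaTrunc (resK M) N (idemK M (principalBlock M G))) =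
      ∑ ψ ∈ (irrFinset (principalBlock M G)).filter (fun ψ => ψ.powConj k hk = ψ),
        red M (classInner (fun n : N => ψ.1 n) φ.1 ^ 2) := fun φ hφ => by
    rw [← sum_eq_sum_powConj_fixed (q := 2) hk hke (charP_nsmul_eq_zero (R := resK M) 2) _ hB,
      ← red_sum _ fun ψ _ => hmem ψ φ, sum_sq_classInner_res_eq_omega,
      red_mul (natCast_mem_valO _) (hom φ).1, red_natCast, (hom φ).2]
    intro ψ
    rw [← classInner_res_powConj ψ φ hk, funext hφ]
    rfl
  have h1 := main (IrrCharacter.triv N) fun n => rfl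
  rw [Finset.sum_eq_single (IrrCharacter.triv G),
    classInner_res_of_eq (θ := IrrCharacter.triv N) fun n => rfl, one_pow, red_one] at h1
  rotate_left
  · intro ψ hψ hne
    by_cases h : classInner (fun n : N => ψ.1 n) (IrrCharacter.triv N).1 = 0
    · rw [h]; simp
    · refine absurd ((existsUnique_over_pow_fixed hidx hk hkN (IrrCharacter.triv N)
        fun n => rfl).unique ⟨h, fun g => congrFun (congrArg Subtype.val
          (Finset.mem_filter.1 hψ).2) g⟩ ⟨?_, fun g => rfl⟩) hne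
      rw [classInner_res_of_eq (θ := IrrCharacter.triv N) fun n => rfl]
      exact one_ne_zero
  · intro h
    have h7 : (IrrCharacter.triv G).powConj k hk = IrrCharacter.triv G :=
      Subtype.ext (funext fun g => by
        rw [IrrCharacter.powConj_apply, IrrCharacter.triv_apply, IrrCharacter.triv_apply])
    refine (h ?_).elim
    rw [Finset.mem_filter, mem_irrFinset]
    exact ⟨hM.triv_mem_principalBlock, h7⟩
  have h2 := main θ hθ
  have h3 : (N.relIndex (charInertia θ.1) : resK M) ≠ 0 := by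
    rw [Ne, CharP.cast_eq_zero_iff (resK M) 2, ← even_iff_two_dvd, Nat.not_even_iff_odd]
    exact hidx.of_dvd_nat (Subgroup.relIndex_dvd_index_of_le θ.le_charInertia)
  have h4 := mul_ne_zero h3 (right_ne_zero_of_mul (h1.trans_ne one_ne_zero))
  rw [isPBlock_principalBlock.lam_eq hM hM.triv_mem_principalBlock hθ0, h2] at h4
  obtain ⟨ψ, hψ, h5⟩ := Finset.exists_ne_zero_of_sum_ne_zero h4
  have h6 : ψ = χ := (existsUnique_over_pow_fixed hidx hk hkN θ hθ).unique
    ⟨fun h => h5 (by rw [h]; simp), fun g => congrFun (congrArg Subtype.val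
      (Finset.mem_filter.1 hψ).2) g⟩ ⟨hover, hχ⟩
  exact h6 ▸ mem_irrFinset.1 (Finset.mem_filter.1 hψ).1

end Cfsg.Agent.S4520
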