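import Cfsg.Statements.S4529
import Cfsg.Agent.Blk.Tame4
import Cfsg.Agent.Blk.SecTwo

set_option autoImplicit false
open Cfsg

namespace Cfsg.Agent.S4529

/-- Let B be a 2-block of the finite group G (relative to a maximal ideal M of the algebraic integers containing 2) whose defect group D is semidihedral (quasi-dihedral) of order 2 ^ n, n ≥ 4. Then the number of irreducible characters in B is 2 ^ (n - 2) + 3 or 2 ^ (n - 2) + 4, its 2-regular rank l is between 1 and 3, with l = 3 forcing 2 ^ (n - 2) + 4 characters and l = 1 forcing 2 ^ (n - 2) + 3; exactly four members have height zero, exactly 2 ^ (n - 2) - 1 have height one, and every other member has height n - 2. -/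
theorem result {G : Type*} [Group G] [Finite G] (M : Ideal Cfsg.AlgInt) (hM : Cfsg.IsPModular 2 M) (B : Set (Cfsg.IrrCharacter G)) (hB : Cfsg.IsPBlock M B) (D : Subgroup G) (hD : Cfsg.IsDefectGroup 2 M B D) (n : ℕ) (hn : 4 ≤ n) (hcard : Nat.card D = 2 ^ n) (hsd : Cfsg.IsQuasiDihedral D) : (Nat.card B = 2 ^ (n - 2) + 3 ∨ Nat.card B = 2 ^ (n - 2) + 4) ∧ 1 ≤ Cfsg.blockRank 2 B ∧ Cfsg.blockRank 2 B ≤ 3 ∧ (Cfsg.blockRank 2 B = 3 → Nat.card B = 2 ^ (n - 2) + 4) ∧ (Cfsg.blockRank 2 B = 1 → Nat.card B = 2 ^ (n - 2) + 3) ∧ Nat.card {χ : Cfsg.IrrCharacter G // χ ∈ B ∧ Cfsg.blockHeight 2 B (χ : G → ℂ) = 0} = 4 ∧ Nat.card {χ : Cfsg.IrrCharacter G // χ ∈ B ∧ Cfsg.blockHeight 2 B (χ : G → ℂ) = 1} = 2 ^ (n - 2) - 1 ∧ ∀ χ ∈ B, Cfsg.blockHeight 2 B (χ : G → ℂ) = 0 ∨ Cfsg.blockHeight 2 B (χ : G → ℂ) = 1 ∨ Cfsg.blockHeight 2 B (χ : G → ℂ) = n - 2 := by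
  classical
  have := Fintype.ofFinite G
  obtain ⟨e, S⟩ := hD.exists_starSetup hM hB
  obtain ⟨σ, τ, m, h, h4, hτ⟩ := exists_isTame_of_quasiDihedral hsd
  have hq : σ * τ * (σ * τ) = σ ^ m := by
    rw [h.στ_mul_self, hτ, mul_one, ← zpow_one_add, add_sub_cancel, zpow_natCast]
  obtain rfl : m = 2 ^ (n - 2) := by
    have := h.card
    rw [hcard, show n = n - 2 + 2 by omega, pow_add] at this
    omega
  have hm : 2 ^ (n - 2) ≠ 2 := fun h1 => by rw [h1] at h4; omega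
  obtain ⟨r, h1, h2, h3, h5, h6, h7⟩ := S.tame_quaternion_like h hq
  obtain ⟨n', h8, h9, h10, -⟩ := S.tame_rank_z h hq
  have h11 := S.tame_card h
  have h12 := h10 hτ
  have h13 : (tameReps e σ τ).card = 0 → n' ≤ 1 := fun h13 => h9 fun h14 => by
    rw [card_tameReps h] at h13
    split_ifs at h13 with a b b <;> try omega
    exact b ⟨h14, fun c => a (S.free_of_fuse c.symm h14)⟩
  rw [if_neg hm] at h1 h2 h3
  refine ⟨by omega, by omega, by omega, by omega, by omega,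
    by rw [natCard_subtype_mem_and]; convert h5, ?_, fun χ hχ => ?_⟩
  · rw [natCard_subtype_mem_and, ← Nat.eq_sub_of_add_eq (h7 hm)]
  · exact (h6 χ hχ).imp_right (Or.imp_right fun h => Nat.pow_right_injective le_rfl h)

end Cfsg.Agent.S4529
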