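import Cfsg.Statements.S4531
import Cfsg.Agent.Blk.Tame4
import Cfsg.Agent.Blk.Fong

set_option autoImplicit false
open Cfsg

namespace Cfsg.Agent.S4531

/-- Let the finite group G have a 2-block B (relative to a maximal ideal M of the algebraic integers containing 2) of 2-regular rank three (three irreducible Brauer characters) whose defect group D is dihedral of order 2 ^ n with n ≥ 3 or semidihedral. Then the centre of G has odd order and G is not solvable. -/
theorem eq_bot {G : Type*} [Group G] [Finite G] {M : Ideal AlgInt} (hM : IsPModular 2 M)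
    {B : Set (IrrCharacter G)} (hB : IsPBlock M B) {D : Subgroup G} (hD : IsDefectGroup 2 M B D)
    {σ τ : D} {m : ℕ} {k : ℤ} (h : IsTame σ τ m k) (hτ : τ * τ = 1) (hl : blockRank 2 B = 3)
    {N : Subgroup G} [hN : N.Normal] (hN2 : IsPGroup 2 N) : N = ⊥ := by
  classical
  have := Fintype.ofFinite G
  obtain ⟨e, S⟩ := hD.exists_starSetup hM hB
  by_contra hne
  set Z := N ⊓ Subgroup.centralizer (N : Set G) with hZ
  have hZD : Z ≤ D := inf_le_left.trans (hD.le_of_normal hM hB hN2)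
  have hz : ((σ ^ m : D) : G) ∈ Z := by
    have := (Subgroup.nontrivial_iff_ne_bot N).2 hne
    obtain ⟨⟨x, hx⟩, hx1⟩ := @exists_ne _ hN2.center_nontrivial 1
    have h1 : (x : G) ∈ Z := ⟨x.2, fun y hy =>
      congrArg Subtype.val (Subgroup.mem_center_iff.1 hx ⟨y, hy⟩)⟩
    obtain ⟨y, hy⟩ := (Subgroup.ne_bot_iff_exists_ne_one).1
      (inf_center_ne_bot_of_isNilpotent h.isPGroup.isNilpotent (N := Z.subgroupOf D) fun h2 =>
        hx1 (Subtype.ext (Subtype.ext (congrArg (Subtype.val : D → G)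
          ((Subgroup.eq_bot_iff_forall _).1 h2 ⟨x, hZD h1⟩ h1)))))
    exact (h.eq_of_mem_center y.2.2).resolve_left (fun h2 => hy (Subtype.ext h2)) ▸ y.2.1
  have h1 : ∀ t : D, t ∉ Subgroup.zpowers σ → t * t = 1 → ¬ TameFree e σ t → (t : G) ∈ Z :=
    fun t ht h1 h2 => by
      simp only [TameFree, not_forall, not_not] at h2
      obtain ⟨a, ha, h2⟩ := h2
      rcases (h.mul_self_eq_one_iff ha).1
        ((mul_self_eq_one_iff_of_orderOf_eq h2.orderOf_eq).1 h1) with rfl | rfl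
      · exact absurd (show t = 1 from Subtype.ext (isConj_one_left.1 h2.isConj)) fun h3 =>
          ht (h3 ▸ one_mem _)
      · obtain ⟨c, hc⟩ := isConj_iff.1 h2.isConj.symm
        exact hc ▸ (inferInstance : Z.Normal).conj_mem _ hz c
  have h2 : ∀ a ∈ Subgroup.zpowers σ, ((a * τ : D) : G) ∈ Z → (τ : G) ∈ Z → a * a = 1 :=
    fun a ha h2 h3 => (h.mul_self_eq_one_iff ha).2 (h.eq_of_commute ha h.notMem (by
      have h4 : a * τ * τ = τ * (a * τ) := Subtype.ext (h3.2 _ h2.1)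
      exact mul_right_cancel ((mul_assoc _ _ _).trans h4.symm)))
  have h3 : (tameReps e σ τ).card = 0 → ¬ TameFree e σ τ ∧ ¬ TameFree e σ (σ * τ) := fun h3 => by
    rw [card_tameReps h] at h3
    split_ifs at h3 with a b b <;> try omega
    exact ⟨a, fun h4 => b ⟨h4, fun c => a (S.free_of_fuse c.symm h4)⟩⟩
  rcases h.kind with ⟨rfl, -⟩ | ⟨-, h4⟩ | ⟨rfl, h4, -⟩
  · have h4 := fun t ht => (h.mul_self_eq (t := t) ht).trans hτ
    have h5 := h3 (by have := (S.tame_dihedral h h4).2.1; omega)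
    exact h.σ_mul_σ_ne_one (h2 σ (Subgroup.mem_zpowers σ)
      (h1 _ h.στ_notMem (h4 _ h.στ_notMem) h5.2) (h1 _ h.notMem hτ h5.1))
  · exact h.z_ne_one (h4.symm.trans hτ)
  · have hq : σ * τ * (σ * τ) = σ ^ m := by
      rw [h.στ_mul_self, hτ, mul_one, ← zpow_one_add, add_sub_cancel, zpow_natCast]
    obtain ⟨r, h5, -, h6, -⟩ := S.tame_quaternion_like h hq
    have h7 := S.tame_card h
    rw [if_neg (by omega)] at h5 h6
    have h8 := h1 _ h.notMem hτ (h3 (by omega)).1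
    obtain ⟨c, hc, h9⟩ := h.exists_conj_τ
    have h10 := h2 (σ ^ 2) (Subgroup.pow_mem _ (Subgroup.mem_zpowers σ) 2) (by
      rw [← h9, ← h.τ_conj hc, show c * (τ * c * τ⁻¹)⁻¹ * τ = c * τ * c⁻¹ by group]
      exact (inferInstance : Z.Normal).conj_mem _ h8 c) h8
    rw [← pow_add, ← orderOf_dvd_iff_pow_eq_one, h.ord] at h10
    have := Nat.le_of_dvd (by norm_num) h10
    have := h.two_le
    omega

theorem result {G : Type*} [Group G] [Finite G] (M : Ideal Cfsg.AlgInt) (hM : Cfsg.IsPModular 2 M) (B : Set (Cfsg.IrrCharacter G)) (hB : Cfsg.IsPBlock M B) (D : Subgroup G) (hD : Cfsg.IsDefectGroup 2 M B D) (hD' : (∃ n : ℕ, 3 ≤ n ∧ Nonempty (D ≃* DihedralGroup (2 ^ (n - 1)))) ∨ Cfsg.IsQuasiDihedral D) (hl : Cfsg.blockRank 2 B = 3) : Odd (Nat.card (Subgroup.center G)) ∧ ¬ Group.IsSolvable G := by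
  obtain ⟨σ, τ, m, k, h, hτ⟩ : ∃ (σ τ : D) (m : ℕ) (k : ℤ), IsTame σ τ m k ∧ τ * τ = 1 := by
    rcases hD' with ⟨n, hn, ⟨e⟩⟩ | hsd
    · obtain ⟨σ, τ, h⟩ := exists_isTame_of_dihedral hn e
      exact ⟨σ, τ, _, _, h⟩
    · obtain ⟨σ, τ, m, h, -, h1⟩ := exists_isTame_of_quasiDihedral hsd
      exact ⟨σ, τ, _, _, h, h1⟩
  refine ⟨Nat.not_even_iff_odd.1 fun h1 => ?_, fun h1 => ?_⟩
  · obtain ⟨u, hu⟩ := exists_prime_orderOf_dvd_card' 2 h1.two_dvd
    have : (Subgroup.zpowers (u : G)).Normal := ⟨fun n hn g => by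
      rwa [Subgroup.mem_center_iff.1 (Subgroup.zpowers_le.2 u.2 hn) g, mul_inv_cancel_right]⟩
    have h2 := eq_bot hM hB hD h hτ hl (N := Subgroup.zpowers (u : G))
      (IsPGroup.of_card (n := 1) (by rw [Nat.card_zpowers, Subgroup.orderOf_coe, hu]; rfl))
    rw [Subgroup.zpowers_eq_bot, ← orderOf_eq_one_iff, Subgroup.orderOf_coe, hu] at h2
    omega
  · obtain ⟨R⟩ := (IsPSolvable.of_isSolvable 2 h1).nonempty_fongReduction hM hB
    obtain ⟨D', hD'⟩ := R.isPBlock.exists_isDefectGroup hM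
    obtain ⟨ι : D ≃* D'⟩ := R.defect D hD (Sylow.ofCard D' (by rw [hD'.card_eq hM R.isPBlock, R.full]))
    have h2 := eq_bot hM R.isPBlock hD' (h.congr ι) (by rw [← map_mul, hτ, map_one])
      ((R.Φ.blockRank_eq hM (R.isPBlock.isBlockUnion hM)).symm.trans hl) (isPGroup_pCore 2 R.E)
    refine not_dvd_card_pPrimeCore 2 (G := R.E) (Dvd.dvd.trans ?_ (Subgroup.card_dvd_of_le
      (H := D') fun x _ => R.isPSolvable.centralizer_pPrimeCore_le h2 fun y hy =>
        (Subgroup.mem_center_iff.1 (R.central hy) x).symm))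
    exact (h.congr ι).card ▸ (by norm_num : 2 ∣ 4).mul_right m

end Cfsg.Agent.S4531
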