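import Cfsg.Statements.S4537
import Cfsg.Agent.GUn.Blk
import Cfsg.Agent.GUn.CC
import Cfsg.Agent.GUn.Ch
import Cfsg.Agent.GUn.Cls
import Cfsg.Agent.GUn.Cnt
import Cfsg.Agent.GUn.DG2
import Cfsg.Agent.GUn.FF
import Cfsg.Agent.GUn.GCT
import Cfsg.Agent.GUn.HL
import Cfsg.Agent.GUn.Int
import Cfsg.Agent.GUn.Irr
import Cfsg.Agent.GUn.Iso
import Cfsg.Agent.GUn.LW
import Cfsg.Agent.GUn.Lang
import Cfsg.Agent.GUn.MC
import Cfsg.Agent.GUn.Main
import Cfsg.Agent.GUn.Meas
import Cfsg.Agent.GUn.Nrm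
import Cfsg.Agent.GUn.Peel
import Cfsg.Agent.GUn.Pl
import Cfsg.Agent.GUn.Q8
import Cfsg.Agent.GUn.UniC
import Cfsg.Agent.GUn.Up
import Cfsg.Agent.GUn.W
import Cfsg.Agent.GUn.Weil

set_option autoImplicit false
open Cfsg

namespace Cfsg.Agent.S4537

open GUn in
theorem main.{u} (k : Type u) [Field k] [Big k] : StMain k := by
  have hC := stCh k stHL
  have hMe := stMeas (stLang k) (stUni k)
  have hO := stIso hMe
  have hI := stIrr stHL hO (stInt hC (stWeil k) (stTheta hMe))
  have hCl := stCls k hC hO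
  have hE := stEmb (stLang k)
  have hP := stPeel k hC hO
  have hB := stBlk k hI hCl hE hP stPl
  have hG := stMerge k hC hO
  exact stMain k hI hCl hB stCC (stW (stMC k hB hP hE stPl hC hI) stUp stLW0 stLW (stGCT (stLang k))
    (stNrm k hI) (stCan k hI hB hC hE hP stPl) (stUni k)) (stDG1 k hB hP hE hI)
    (stDG2 k hI hB hG (stQ8 k hB hG hE stPl hI)) (stCnt k)

/-- Let F be a finite field with q ^ 2 elements, n ≥ 3, and suppose the special unitary group SU(n, q) (the determinant-one isometries of the standard Hermitian form over F) is quasisimple. Let p be a prime different from the characteristic of F and B a p-block of SU(n, q) (relative to a maximal ideal M of the algebraic integers containing p) with a defect group D all of whose sections have p-rank at most s. Then the p-regular rank of B is at most p ^ s. -/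
theorem result {F : Type*} [Field F] [Fintype F] (q n : ℕ) (hF : Fintype.card F = q ^ 2) (hn : 3 ≤ n) (hqs : Cfsg.IsQuasisimple ↥(Cfsg.SU n F q)) (p : ℕ) [Fact p.Prime] (hp : p ≠ ringChar F) (M : Ideal Cfsg.AlgInt) (hM : Cfsg.IsPModular p M) (B : Set (Cfsg.IrrCharacter ↥(Cfsg.SU n F q))) (hB : Cfsg.IsPBlock M B) (D : Subgroup ↥(Cfsg.SU n F q)) (hD : Cfsg.IsDefectGroup p M B D) (s : ℕ) (hs : Cfsg.SectionalPRankLE p s D) : Cfsg.blockRank p B ≤ p ^ s := by
  obtain ⟨Φ, ⟨e⟩⟩ := GUn.stSU F q n hF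
  have : Finite (SU n F q) := Finite.of_equiv _ e.symm.toEquiv
  exact GUn.Main.transport_iso e.symm hM (fun b Q hb hQ h => main _ Φ (Fin n) p
    (Algebra.ringChar_eq F (AlgebraicClosure F) ▸ hp) M hM b hb Q hQ s h) hB hD hs

end Cfsg.Agent.S4537
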