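import Cfsg.Statements.S4538
import Cfsg.Agent.Grp.SLn
import Cfsg.Agent.Blk.Induced
-- import your own Cfsg.Agent.* helpers here

set_option autoImplicit false
open Cfsg

namespace Cfsg.Agent.S4538

/-- Let F be a finite field of characteristic p and n ≥ 2. Relative to a maximal ideal M of the algebraic integers containing p, the group SL(n, F) has exactly one p-block of defect zero, and every other p-block has full defect (its defect equals the exponent of p in the order of the group, so its defect groups are Sylow p-subgroups). -/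
theorem result {F : Type*} [Field F] [Fintype F] (n : ℕ) (hn : 2 ≤ n) (p : ℕ) [Fact p.Prime] [CharP F p] (M : Ideal Cfsg.AlgInt) (hM : Cfsg.IsPModular p M) : Nat.card {B : Set (Cfsg.IrrCharacter (Matrix.SpecialLinearGroup (Fin n) F)) // Cfsg.IsPBlock M B ∧ Cfsg.blockDefect p B = 0} = 1 ∧ ∀ B : Set (Cfsg.IrrCharacter (Matrix.SpecialLinearGroup (Fin n) F)), Cfsg.IsPBlock M B → Cfsg.blockDefect p B = 0 ∨ Cfsg.blockDefect p B = (Nat.card (Matrix.SpecialLinearGroup (Fin n) F)).factorization p := by
  classical
  constructor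
  · obtain ⟨χ, hχ⟩ := exists_steinberg_SL (F := F) hn
    have h1 := card_slUnip_eq_pow F n p
    refine Nat.card_eq_one_iff_exists.2 ⟨⟨blockOf M χ.1, isPBlock_blockOf χ,
      ((isPBlock_blockOf χ).blockDefect_eq_zero_iff_dvd hM (hM.mem_blockOf_self χ)).2
        (by rw [hχ, h1])⟩, fun B => Subtype.ext ?_⟩
    exact StData.eq_of_blockDefect_eq_zero (D := slStData F n hn) hM (IsPGroup.of_card h1) B.2.1
      (isPBlock_blockOf χ) B.2.2 (((isPBlock_blockOf χ).blockDefect_eq_zero_iff_dvd hM
        (hM.mem_blockOf_self χ)).2 (by rw [hχ, h1]))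
  · intro B hB
    obtain ⟨D, hD⟩ := hB.exists_isDefectGroup hM
    obtain ⟨x, hx, hxD⟩ := isDefectGroup_iff.1 hD
    by_cases h0 : D = ⊥
    · left
      have h1 := hD.card_eq hM hB
      rw [h0, Subgroup.card_bot, eq_comm, Nat.pow_eq_one] at h1
      exact h1.resolve_left hM.prime.one_lt.ne'
    right
    let W : Submodule F (Fin n → F) :=
      { carrier := {v | ∀ d ∈ D, d • v = v}
        zero_mem' := fun d _ => smul_zero d
        add_mem' := fun hv hw d hd => by rw [smul_add, hv d hd, hw d hd]
        smul_mem' := fun c v hv d hd => by rw [smul_comm, hv d hd] }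
    have hW0 : W ≠ ⊥ := by
      obtain ⟨w, -, h1, h2⟩ := exists_fixed_ne_zero_of_isPGroup hD.isPGroup (V := Fin n → F)
        (charP_nsmul_eq_zero (R := F) p) ⊤ (fun _ _ _ => trivial) (v := fun _ => 1) trivial
        fun h => one_ne_zero (congrFun h ⟨0, by omega⟩)
      exact (Submodule.ne_bot_iff W).2 ⟨w, fun d hd => h2 ⟨d, hd⟩, h1⟩
    have hW1 : W ≠ ⊤ := fun h => h0 (eq_bot_iff.2 fun d hd =>
      Subtype.ext (Matrix.toLin'.injective (LinearMap.ext fun v =>
        ((eq_top_iff.1 h Submodule.mem_top : v ∈ W) d hd).trans (Matrix.one_mulVec v).symm)))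
    have hN : ∀ y ∈ Subgroup.normalizer (D : Set (Matrix.SpecialLinearGroup (Fin n) F)),
        ∀ w ∈ W, y • w ∈ W := fun y hy w hw d hd => by
      rw [← mul_smul, show d * y = y * (y⁻¹ * d * y) by group, mul_smul,
        hw _ ((Subgroup.mem_normalizer_iff''.1 hy d).1 hd)]
    obtain ⟨b, hb, hbD⟩ := hD.exists_isInducedBlock_of_normalizer_le hM hB le_rfl
    have hA : slTrans W ≤ D := by
      refine le_of_radical hD.isPGroup (isPGroup_slTrans p W) (fun y hy => ?_) fun R hR hRn => ?_
      · refine Subgroup.mem_normalizer_fintype fun g hg => conj_mem_slTrans (fun w => ⟨hN y hy w,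
          fun h => ?_⟩) hg
        simpa using hN _ (Subgroup.inv_mem _ hy) _ h
      · intro y hy
        exact hbD.le_of_normal hM hb.1 (P := R.subgroupOf _) hR.comap_subtype (x := ⟨y, hy.2⟩) hy.1
    have hxc := mem_center_of_centralizes_slTrans p hW0 hW1
      (fun g hg => hxD.mem_centralizer g (hA hg)) (hx.not_dvd_orderOf hM hB)
    rw [← hx.factorization_card_centralizer hM hB, Subgroup.centralizer_eq_top_iff_subset.2
      (Set.singleton_subset_iff.2 hxc), Subgroup.card_top]

end Cfsg.Agent.S4538
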