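import Cfsg.Statements.S4541
import Cfsg.Agent.Blk.SecTwo

set_option autoImplicit false
open Cfsg

namespace Cfsg.Agent.S4541

/-- Let B be a 2-block of the finite group G (relative to a maximal ideal M of the algebraic integers containing 2), u a 2-element, and b a block of the centralizer of u inducing B (a subsection (u, b)), of defect q and 2-regular rank l; write s for the integer square root of l and k₀(B) for the number of members of B of height zero. If s is odd then k₀(B) ≤ s·2 ^ q, and otherwise (s + 1)·k₀(B) ≤ l·2 ^ q; in particular k₀(B) ≤ 2 ^ q when l ≤ 3. -/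
theorem result {G : Type*} [Group G] [Finite G] (M : Ideal Cfsg.AlgInt) (hM : Cfsg.IsPModular 2 M) (B : Set (Cfsg.IrrCharacter G)) (hB : Cfsg.IsPBlock M B) (u : G) (hu : ∃ j : ℕ, orderOf u = 2 ^ j) (b : Set (Cfsg.IrrCharacter ↥(Subgroup.centralizer ({u} : Set G)))) (hb : Cfsg.IsInducedBlock M (Subgroup.centralizer ({u} : Set G)) b B) : (Odd (Nat.sqrt (Cfsg.blockRank 2 b)) → Nat.card {χ : Cfsg.IrrCharacter G // χ ∈ B ∧ Cfsg.blockHeight 2 B (χ : G → ℂ) = 0} ≤ Nat.sqrt (Cfsg.blockRank 2 b) * 2 ^ Cfsg.blockDefect 2 b) ∧ (¬ Odd (Nat.sqrt (Cfsg.blockRank 2 b)) → (Nat.sqrt (Cfsg.blockRank 2 b) + 1) * Nat.card {χ : Cfsg.IrrCharacter G // χ ∈ B ∧ Cfsg.blockHeight 2 B (χ : G → ℂ) = 0} ≤ Cfsg.blockRank 2 b * 2 ^ Cfsg.blockDefect 2 b) ∧ (Cfsg.blockRank 2 b ≤ 3 → Nat.card {χ : Cfsg.IrrCharacter G // χ ∈ B ∧ Cfsg.blockHeight 2 B (χ : G → ℂ) = 0} ≤ 2 ^ Cfsg.blockDefect 2 b) := by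
  classical
  obtain ⟨A, hA0, hsum, hA, -⟩ := hb.exists_avg_two hM hu rfl
  rw [natCard_subtype_mem_and]
  set S := (irrFinset B).filter fun ψ => blockHeight 2 B ψ.1 = 0 with hS
  set l := blockRank 2 b with hl
  set q := blockDefect 2 b with hq
  obtain ⟨ξ, hξ, hξ0⟩ := exists_blockHeight_eq_zero (hB.nonempty hM) 2
  obtain ⟨χ, hχ, hmin⟩ := S.exists_min_image A ⟨ξ, by simp [hS, hξ, hξ0]⟩
  obtain ⟨hχB, hχ0⟩ := Finset.mem_filter.1 hχ
  obtain ⟨hodd, h1⟩ := hA χ (mem_irrFinset.1 hχB) hχ0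
  have h2 : (S.card : ℤ) * A χ ≤ 2 ^ q * l := by
    rw [← hsum]
    calc (S.card : ℤ) * A χ = ∑ _ψ ∈ S, A χ := by simp
      _ ≤ ∑ ψ ∈ S, A ψ := Finset.sum_le_sum hmin
      _ ≤ _ := Finset.sum_le_sum_of_subset_of_nonneg (Finset.filter_subset _ _) fun ψ _ _ => hA0 ψ
  have hs1 : Nat.sqrt l * Nat.sqrt l ≤ l := Nat.sqrt_le l
  have hs2 : l < (Nat.sqrt l + 1) * (Nat.sqrt l + 1) := Nat.lt_succ_sqrt l
  set s := Nat.sqrt l with hs
  have hs1' : (s : ℤ) * s ≤ l := by exact_mod_cast hs1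
  have hs2' : (l : ℤ) < (s + 1) * (s + 1) := by exact_mod_cast hs2
  have hq0 : (0 : ℤ) < 2 ^ q := by positivity
  have hc0 : (0 : ℤ) ≤ S.card := by positivity
  have hs0 : (0 : ℤ) ≤ s := by positivity
  have hodd1 : Odd s → S.card ≤ s * 2 ^ q := fun hso => by
    have : (S.card : ℤ) ≤ s * 2 ^ q := by
      rcases le_or_gt (A χ) s with h | h
      · nlinarith
      · obtain ⟨x, hx⟩ := hodd
        obtain ⟨y, hy⟩ := hso
        have h3 : (s : ℤ) + 2 ≤ A χ := by omega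
        have h4 : (S.card : ℤ) * (s + 2) ≤ (s * 2 ^ q) * (s + 2) := by nlinarith
        exact le_of_mul_le_mul_right h4 (by omega)
    exact_mod_cast this
  refine ⟨hodd1, fun hse => ?_, fun h3 => ?_⟩
  · have : ((s : ℤ) + 1) * S.card ≤ l * 2 ^ q := by
      rcases le_or_gt (A χ) s with h | h
      · obtain ⟨x, hx⟩ := hodd
        obtain ⟨y, hy⟩ := Nat.not_odd_iff_even.1 hse
        have h3 : A χ ≤ s - 1 := by omega
        have h4 : (S.card : ℤ) ≤ 2 ^ q * (s - 1) := by nlinarith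
        nlinarith
      · nlinarith
    exact_mod_cast this
  · have hl0 : 0 < l := hb.1.blockRank_pos hM
    have : s = 1 := by
      rcases Nat.lt_trichotomy s 1 with h | h | h
      · have : s = 0 := by omega
        rw [this] at hs2; omega
      · exact h
      · nlinarith
    simpa [this] using hodd1 (by rw [this]; exact odd_one)

end Cfsg.Agent.S4541
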