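import Cfsg.Statements.S4544
import Cfsg.Agent.Blk.CycFourC
import Cfsg.Agent.S4540

set_option autoImplicit false
open Cfsg

namespace Cfsg.Agent.S4544

/-- Let B be a 2-block of the finite group G (relative to a maximal ideal M of the algebraic integers containing 2) whose defect group D contains a cyclic subgroup of index at most 4 in D. Then B contains at most as many irreducible characters as D has elements. -/
theorem result {G : Type*} [Group G] [Finite G] (M : Ideal Cfsg.AlgInt) (hM : Cfsg.IsPModular 2 M) (B : Set (Cfsg.IrrCharacter G)) (hB : Cfsg.IsPBlock M B) (D : Subgroup G) (hD : Cfsg.IsDefectGroup 2 M B D) (C : Subgroup G) (hCD : C ≤ D) (hcyc : IsCyclic C) (hidx : C.relIndex D ≤ 4) : Nat.card B ≤ Nat.card D := by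
  have := Fintype.ofFinite G
  obtain ⟨e, S⟩ := hD.exists_starSetup hM hB
  obtain ⟨x, hx⟩ := hcyc.exists_generator
  have h1 : Subgroup.zpowers (⟨x, hCD x.2⟩ : D) = C.subgroupOf D :=
    le_antisymm (Subgroup.zpowers_le.2 x.2) fun a ha => coe_mem_zpowers_coe.1
      (coe_mem_zpowers_coe (P := C) (a := ⟨a, ha⟩) (b := x).2 (hx _))
  obtain ⟨z, hz, h2⟩ := S.exists_rank_below_le_three (x := (⟨x, hCD x.2⟩ : D))
    (by rw [h1]; exact hidx)
  have h3 := Cfsg.Agent.S4540.result M hM B hB D hD z z.2
    (fun d hd => congrArg Subtype.val (Subgroup.mem_center_iff.1 hz ⟨d, hd⟩)) _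
    (S.isInducedBlock_below z) (S.isDefectGroup_below (StarSetup.le_centralizer_of_mem_center hz)) h2
  rw [hD.card_eq hM hB]
  omega

end Cfsg.Agent.S4544
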