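import Cfsg.Statements.S4549
import Cfsg.Agent.Blk.PrincFixed

set_option autoImplicit false
open Cfsg

namespace Cfsg.Agent.S4549

/-- Let G be a finite group and M a maximal ideal of the algebraic integers containing 2. Let k be a natural number with g ^ k = g ^ 3 for every 2-element g and g ^ k = g for every element g of odd order (such k exist); an irreducible character χ is unchanged by g ↦ g ^ k exactly when it is fixed by the field automorphism that cubes the 2-power roots of unity and fixes the roots of unity of odd order. Then G has a normal 2-complement if and only if every member χ of the principal 2-block of odd degree with χ (g ^ k) = χ g for all g has degree one. -/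
theorem result {G : Type*} [Group G] [Finite G] (M : Ideal Cfsg.AlgInt) (hM : Cfsg.IsPModular 2 M) (k : ℕ) (hk₁ : ∀ g : G, (∃ j : ℕ, orderOf g = 2 ^ j) → g ^ k = g ^ 3) (hk₂ : ∀ g : G, Odd (orderOf g) → g ^ k = g) : Cfsg.HasNormalPComplement 2 G ↔ ∀ χ ∈ Cfsg.principalBlock M G, Odd (Cfsg.charDegree (χ : G → ℂ)) → (∀ g : G, (χ : G → ℂ) (g ^ k) = (χ : G → ℂ) g) → Cfsg.charDegree (χ : G → ℂ) = 1 := by
  have := hM.fact_prime
  constructor
  · intro h χ hχ hodd _
    obtain ⟨ψ, rfl⟩ := χ.exists_inflate_eq _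
      ((hM.mem_principalBlock_iff_of_hasNormalPComplement h χ).1 hχ)
    rw [IrrCharacter.charDegree_inflate] at hodd ⊢
    exact ψ.charDegree_eq_one_of_isPGroup (hasNormalPComplement_iff_isPGroup_quotient.1 h)
      hodd.not_two_dvd_nat
  intro h
  by_contra hn
  have : NeZero (Nat.card G) := ⟨Nat.card_pos.ne'⟩
  set a := (Nat.card G).factorization 2
  have hco : (2 ^ a).Coprime (Nat.card G / 2 ^ a) :=
    (Nat.coprime_ordCompl Nat.prime_two Nat.card_pos.ne').pow_left a
  have hcard : 2 ^ a * (Nat.card G / 2 ^ a) = Nat.card G := Nat.ordProj_mul_ordCompl_eq_self _ _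
  obtain ⟨k', h1, h2⟩ := Nat.chineseRemainder hco 3 1
  have h3 : k'.Coprime (2 ^ a) := by
    rw [Nat.Coprime, h1.gcd_eq]; exact Nat.Coprime.pow_right a (by norm_num)
  have hk' : k'.Coprime (Nat.card G) := hcard ▸ Nat.Coprime.mul_right h3 (by
    rw [Nat.Coprime, h2.gcd_eq, Nat.gcd_one_left])
  have hkk : ∀ g : G, g ^ k = g ^ k' := fun g => by
    have h4 := orderOf_dvd_natCard g
    rw [← pPart_mul_pRegPart 2 g, (commute_pPart_pRegPart 2 g).mul_pow,
      (commute_pPart_pRegPart 2 g).mul_pow, hk₁ _ (exists_orderOf_pPart g),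
      hk₂ _ (Nat.odd_iff.2 (Nat.two_dvd_ne_zero.1 (not_dvd_orderOf_pRegPart g)))]
    congr 1
    · refine pow_eq_pow_iff_modEq.2 (h1.symm.of_dvd ?_)
      rw [orderOf_pPart]
      exact Nat.ordProj_dvd_ordProj_of_dvd Nat.card_pos.ne' h4 2
    · refine (pow_one _).symm.trans (pow_eq_pow_iff_modEq.2 (h2.symm.of_dvd ?_))
      rw [orderOf_pRegPart]
      exact Nat.ordCompl_dvd_ordCompl_of_dvd h4 2
  let T := CommGroup.primaryComponent (ZMod (Nat.card G))ˣ 2
  have hT : ∀ {v : (ZMod (Nat.card G))ˣ} (j : ℕ), v ^ 2 ^ j = 1 → v ∈ T := fun j hv => ⟨j, hv⟩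
  obtain ⟨χ, hχ, h4, h5, h6, h7⟩ := hM.exists_principal_fixed hn (T := T)
    CommGroup.primaryComponent.isPGroup
  have h8 := h7 (ZMod.unitOfCoprime k' hk') (hT (a - 1) (Units.ext (by
    rw [Units.val_pow_eq_pow_val, ZMod.coe_unitOfCoprime, ← Nat.cast_pow, Units.val_one,
      ← Nat.cast_one (R := ZMod (Nat.card G)), ZMod.natCast_eq_natCast_iff, ← hcard,
      ← Nat.modEq_and_modEq_iff_modEq_mul hco]
    refine ⟨?_, by simpa using h2.pow _⟩
    rw [show 2 ^ (a - 1) = (2 ^ a).totient by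
      rcases a with _ | a <;> simp [Nat.totient_prime_pow_succ Nat.prime_two]]
    exact Nat.ModEq.pow_totient h3)))
  rw [IrrCharacter.unitOfCoprime_smul] at h8
  obtain ⟨f, rfl⟩ := χ.exists_eq_ofHom (h χ hχ (Nat.odd_iff.2 (Nat.two_dvd_ne_zero.1 h5))
    fun g => hkk g ▸ congrFun (congrArg Subtype.val h8) g)
  have h9 : f ^ 2 = 1 := by
    ext g
    have := congrFun (congrArg Subtype.val (h7 (-1) (hT 1 (by simp)))) g
    rw [IrrCharacter.zmodUnits_smul_apply, show g ^ ((-1 : (ZMod (Nat.card G))ˣ) :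
      ZMod (Nat.card G)).val = g⁻¹ from eq_inv_of_mul_eq_one_left (by
        rw [← pow_succ, ← orderOf_dvd_iff_pow_eq_one]
        refine (orderOf_dvd_natCard g).trans ((ZMod.natCast_eq_zero_iff _ _).1 (by simp)))] at this
    have h10 : f g⁻¹ = f g := Units.ext this
    rw [MonoidHom.pow_apply, sq, MonoidHom.one_apply]
    nth_rw 1 [← h10]
    rw [← map_mul, inv_mul_cancel, map_one]
  rw [detOrder_eq_orderOf_detHom] at h6
  change ¬ 2 ∣ orderOf (detHom fun x => (f x : ℂ)) at h6
  rw [detHom_unitsHom] at h6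
  rcases (Nat.dvd_prime Nat.prime_two).1 (orderOf_dvd_of_pow_eq_one h9) with h10 | h10
  · exact h4 (by rw [orderOf_eq_one_iff.1 h10]; rfl)
  · exact h6 (h10 ▸ dvd_rfl)

end Cfsg.Agent.S4549
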