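import Cfsg.Statements.S4548
import Cfsg.Agent.S4549
import Cfsg.Agent.Blk.FixSum
import Cfsg.Agent.CT.SigmaPow

set_option autoImplicit false
open Cfsg

namespace Cfsg.Agent.S4548

theorem card_sq_eq_one_iff {Q : Type*} [Group Q] [Finite Q] [Nontrivial Q] (hQ : IsPGroup 2 Q) :
    IsCyclic Q ↔ Nat.card {f : Q →* ℂˣ // f ^ 2 = 1} = 2 := by
  classical
  have h0 : (1 : Q →* ℂˣ) ^ 2 = 1 := by ext; simp
  have h1 : ∀ H : Subgroup Q, IsCoatom H → ∃ f : {f : Q →* ℂˣ // f ^ 2 = 1},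
      f ≠ ⟨1, h0⟩ ∧ ∀ x, f.1 x = 1 ↔ x ∈ H := fun H hH => by
    have hi := (index_eq_of_isCoatom_of_isPGroup hQ hH).2
    have hne : (-1 : ℂˣ) ≠ 1 := by simp [Units.ext_iff]; norm_num
    let f : Q →* ℂˣ := MonoidHom.mk' (fun x => if x ∈ H then 1 else -1) fun a b => by
      simp only [Subgroup.mul_mem_iff_of_index_two hi]
      by_cases ha : a ∈ H <;> by_cases hb : b ∈ H <;> simp [ha, hb]
    have hf : ∀ x, f x = 1 ↔ x ∈ H := fun x => by
      change (if x ∈ H then 1 else -1 : ℂˣ) = 1 ↔ _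
      by_cases hx : x ∈ H <;> simp [hx, hne]
    refine ⟨⟨f, MonoidHom.ext fun x => ?_⟩, fun h => hH.1 (eq_top_iff.2 fun x _ => (hf x).1 ?_), hf⟩
    · change (if x ∈ H then 1 else -1 : ℂˣ) ^ 2 = 1
      split_ifs <;> simp
    · rw [show f = 1 from congrArg Subtype.val h]; rfl
  obtain ⟨H, hH, -⟩ := (eq_top_or_exists_le_coatom (⊥ : Subgroup Q)).resolve_left bot_ne_top
  obtain ⟨f, hf, hfH⟩ := h1 H hH
  rw [Nat.card_eq_two_iff' ⟨1, h0⟩]
  constructor
  · rintro ⟨x, hx⟩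
    have h2 : ∀ f : {f : Q →* ℂˣ // f ^ 2 = 1}, f ≠ ⟨1, h0⟩ → f.1 x = -1 := fun f hf => by
      have h3 : ((f.1 x : ℂˣ) : ℂ) ^ 2 = 1 := by
        rw [← Units.val_pow_eq_pow_val, ← MonoidHom.pow_apply, f.2]; rfl
      rcases sq_eq_one_iff.1 h3 with h | h
      · exact absurd (Subtype.ext (MonoidHom.ext fun y => by
          obtain ⟨n, rfl⟩ := hx y
          simp only [map_zpow]
          rw [show f.1 x = 1 from Units.ext h]; simp)) hf
      · exact Units.ext h
    refine ⟨f, hf, fun f' hf' => Subtype.ext (MonoidHom.ext fun y => ?_)⟩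
    obtain ⟨n, rfl⟩ := hx y
    simp only [map_zpow]
    rw [h2 f hf, h2 f' hf']
  · rintro ⟨y, -, hy⟩
    obtain ⟨x, hx⟩ : ∃ x, x ∉ H := by
      by_contra! h
      exact hH.1 (eq_top_iff.2 fun x _ => h x)
    rcases eq_top_or_exists_le_coatom (Subgroup.zpowers x) with h | ⟨K, hK, hle⟩
    · exact ⟨x, fun y => (h ▸ Subgroup.mem_top y : y ∈ Subgroup.zpowers x)⟩
    · obtain ⟨f', hf', hfK⟩ := h1 K hK
      rw [(hy f' hf').trans (hy f hf).symm] at hfK
      exact absurd ((hfH x).1 ((hfK x).2 (hle (Subgroup.mem_zpowers x)))) hx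

/-- Let G be a finite group of even order with Sylow 2-subgroup P and M a maximal ideal of the algebraic integers containing 2. Let k be a natural number with g ^ k = g ^ 3 for every 2-element g and g ^ k = g for every element g of odd order (such k exist); an irreducible character χ is unchanged by g ↦ g ^ k exactly when it is fixed by the field automorphism that cubes the 2-power roots of unity and fixes the roots of unity of odd order. Then P is cyclic if and only if exactly two members χ of the principal 2-block of odd degree satisfy χ (g ^ k) = χ g for all g. -/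
theorem result {G : Type*} [Group G] [Finite G] (M : Ideal Cfsg.AlgInt) (hM : Cfsg.IsPModular 2 M) (hev : Even (Nat.card G)) (P : Sylow 2 G) (k : ℕ) (hk₁ : ∀ g : G, (∃ j : ℕ, orderOf g = 2 ^ j) → g ^ k = g ^ 3) (hk₂ : ∀ g : G, Odd (orderOf g) → g ^ k = g) : IsCyclic P ↔ Nat.card {χ : Cfsg.IrrCharacter G // χ ∈ Cfsg.principalBlock M G ∧ Odd (Cfsg.charDegree (χ : G → ℂ)) ∧ ∀ g : G, (χ : G → ℂ) (g ^ k) = (χ : G → ℂ) g} = 2 := by
  have := Fact.mk Nat.prime_two
  have h2 : 2 ∣ Nat.card G := hev.two_dvd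
  have hodd : ∀ n : ℕ, Odd n ↔ ¬ 2 ∣ n := fun n => ⟨Odd.not_two_dvd_nat, fun h =>
    Nat.odd_iff.2 (Nat.two_dvd_ne_zero.1 h)⟩
  have hk₂' : ∀ g : G, ¬ 2 ∣ orderOf g → g ^ k = g := fun g hg => hk₂ g ((hodd _).2 hg)
  have hk : k.Coprime (Nat.card G) := sigma_coprime_card (p := 2) hk₁ hk₂'
  have key := S4549.result M hM k hk₁ hk₂
  suffices h : HasNormalPComplement 2 G → (IsCyclic P ↔ Nat.card {χ : Cfsg.IrrCharacter G // χ ∈ Cfsg.principalBlock M G ∧ Odd (Cfsg.charDegree (χ : G → ℂ)) ∧ ∀ g : G, (χ : G → ℂ) (g ^ k) = (χ : G → ℂ) g} = 2) by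
    refine ⟨fun hc => (h (hasNormalPComplement_two_of_isCyclic P hc)).1 hc, fun hc =>
      (h (key.2 fun χ h1 h3 h4 => ?_)).2 hc⟩
    obtain ⟨e, he⟩ := exists_sigma_pow_eq_self (p := 2) hk₁ hk₂'
    simp only [hodd] at hc h3
    exact hM.charDegree_eq_one_of_card_fixed_two h2 hk he hk₂' hc h1 h3 h4
  intro hN
  let φ := (hN.isComplement' P).symm.QuotientMulEquiv
  have : Nontrivial P := (Subgroup.nontrivial_iff_ne_bot _).2 (P.ne_bot_of_dvd_card h2)
  have : Nontrivial (G ⧸ pPrimeCore 2 G) := φ.toEquiv.nontrivial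
  rw [← φ.isCyclic, card_sq_eq_one_iff (hasNormalPComplement_iff_isPGroup_quotient.1 hN)]
  refine Eq.congr_left (Nat.card_eq_of_bijective (fun f => ⟨IrrCharacter.ofHom
    (f.1.comp (QuotientGroup.mk' _)), ?_, by simp, fun g => ?_⟩) ⟨fun f f' h => ?_, ?_⟩)
  · refine (hM.mem_principalBlock_iff_of_hasNormalPComplement hN _).2 fun g hg => ?_
    rw [IrrCharacter.mem_charKer]
    simp [(QuotientGroup.eq_one_iff g).2 hg]
  · obtain ⟨j, rfl⟩ : Odd k := (hodd k).2 fun h =>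
      Nat.prime_two.one_lt.ne' (Nat.eq_one_of_dvd_coprimes hk h h2)
    have h3 : f.1 g ^ 2 = 1 := by rw [← MonoidHom.pow_apply, f.2]; rfl
    simp only [IrrCharacter.ofHom_apply, map_pow, MonoidHom.comp_apply, QuotientGroup.mk'_apply]
    rw [pow_succ, pow_mul, h3, one_pow, one_mul]
  · exact Subtype.ext ((MonoidHom.cancel_right (QuotientGroup.mk'_surjective _)).1
      (IrrCharacter.ofHom_injective (congrArg Subtype.val h)))
  · rintro ⟨χ, h1, h3, h4⟩
    obtain ⟨f, rfl⟩ := χ.exists_eq_ofHom (key.1 hN χ h1 h3 h4)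
    have h5 : pPrimeCore 2 G ≤ f.ker := fun g hg => by
      have := (hM.mem_principalBlock_iff_of_hasNormalPComplement hN _).1 h1 hg
      rw [IrrCharacter.mem_charKer] at this
      simpa using this
    refine ⟨⟨QuotientGroup.lift _ f h5, MonoidHom.ext fun q => ?_⟩, Subtype.ext rfl⟩
    obtain ⟨g, rfl⟩ := QuotientGroup.mk_surjective q
    have h6 := h4 (pPart 2 g)
    rw [hk₁ _ (exists_orderOf_pPart g)] at h6
    have h7 : f (pPart 2 g) ^ 2 * f (pPart 2 g) = 1 * f (pPart 2 g) := by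
      rw [← pow_succ, ← map_pow, one_mul]; exact Units.ext h6
    rw [MonoidHom.pow_apply, QuotientGroup.lift_mk, ← pPart_mul_pRegPart 2 g, map_mul,
      h5 (hasNormalPComplement_iff_forall_mem_pPrimeCore.1 hN _ (not_dvd_orderOf_pRegPart g)),
      mul_one, mul_right_cancel h7]
    rfl

end Cfsg.Agent.S4548
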