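import Cfsg.Statements.S4550
import Cfsg.Agent.CT.SigmaPow
import Cfsg.Agent.Blk.Contrib
import Cfsg.Agent.Blk.BlockGalois


set_option autoImplicit false
open Cfsg

namespace Cfsg.Agent.S4550


/-- Let G be a finite group of even order and M a maximal ideal of the algebraic integers containing 2. Let k be a natural number with g ^ k = g ^ 3 for every 2-element g and g ^ k = g for every element g of odd order (such k exist); an irreducible character χ is unchanged by g ↦ g ^ k exactly when it is fixed by the field automorphism that cubes the 2-power roots of unity and fixes the roots of unity of odd order. Then the number of members χ of the principal 2-block of odd degree with χ (g ^ k) = χ g for all g is even. -/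
theorem result {G : Type*} [Group G] [Finite G] (M : Ideal Cfsg.AlgInt) (hM : Cfsg.IsPModular 2 M) (hev : Even (Nat.card G)) (k : ℕ) (hk₁ : ∀ g : G, (∃ j : ℕ, orderOf g = 2 ^ j) → g ^ k = g ^ 3) (hk₂ : ∀ g : G, Odd (orderOf g) → g ^ k = g) : Even (Nat.card {χ : Cfsg.IrrCharacter G // χ ∈ Cfsg.principalBlock M G ∧ Odd (Cfsg.charDegree (χ : G → ℂ)) ∧ ∀ g : G, (χ : G → ℂ) (g ^ k) = (χ : G → ℂ) g}) := by
-----
  classical
  haveI : Fact (Nat.Prime 2) := ⟨Nat.prime_two⟩
  have hk₂' : ∀ g : G, ¬ 2 ∣ orderOf g → g ^ k = g := fun g hg =>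
    hk₂ g (Nat.odd_iff.2 (Nat.two_dvd_ne_zero.1 hg))
  have hkc : k.Coprime (Nat.card G) := sigma_coprime_card (p := 2) hk₁ hk₂'
  obtain ⟨e, he⟩ := exists_sigma_pow_eq_self (p := 2) hk₁ hk₂'
  obtain ⟨σ, hσ, -⟩ := exists_galois_pow.{0} (Nat.card_pos (α := G)).ne' hkc
  let X := {χ : IrrCharacter G // χ ∈ principalBlock M G ∧ Odd (charDegree χ.1)}
  let f : Function.End X := fun χ => ⟨χ.1.powConj k hkc, by
    rw [χ.1.powConj_eq_galois hkc (σ := σ) (fun g => pow_card_eq_one') hσ,
      hM.galois_mem_principalBlock_iff]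
    exact χ.2.1, by rw [IrrCharacter.charDegree_powConj]; exact χ.2.2⟩
  have hf : ∀ (i : ℕ) (χ : X) (g : G), ((f ^ i) χ).1.1 g = χ.1.1 (g ^ k ^ i) := by
    intro i
    induction i with
    | zero => intro χ g; simp; rfl
    | succ i ih =>
      intro χ g
      rw [pow_succ', pow_succ', pow_mul, ← ih]
      rfl
  have hf1 : f ^ 2 ^ e = 1 := by
    funext χ
    refine Subtype.ext (Subtype.ext (funext fun g => ?_))
    rw [hf, he]
    rfl
  haveI : Fintype X := Fintype.ofFinite X
  have h1 := Equiv.Perm.card_fixedPoints_modEq hf1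
  have h2 : Nat.card {χ : IrrCharacter G // χ ∈ principalBlock M G ∧ Odd (charDegree χ.1) ∧
      ∀ g : G, χ.1 (g ^ k) = χ.1 g} = Fintype.card (Function.fixedPoints f) := by
    rw [← Nat.card_eq_fintype_card]
    refine Nat.card_congr ⟨fun χ => ⟨⟨χ.1, χ.2.1, χ.2.2.1⟩, Subtype.ext (Subtype.ext
      (funext χ.2.2.2))⟩, fun χ => ⟨χ.1.1, χ.1.2.1, χ.1.2.2, fun g =>
        congrFun (congrArg (fun x : X => x.1.1) χ.2) g⟩, fun _ => rfl, fun _ => rfl⟩
  rw [h2, even_iff_two_dvd, ← Nat.modEq_zero_iff_dvd]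
  refine h1.symm.trans ?_
  have h3 := (isPBlock_principalBlock (M := M) (G := G)).factorization_sum_charDegree_sq hM
  have h4 := blockDefect_le (p := 2) (B := principalBlock M G)
  have h5 : 0 < (Nat.card G).factorization 2 :=
    Nat.prime_two.factorization_pos_of_dvd Nat.card_pos.ne' hev.two_dvd
  have h6 : 2 ∣ ∑ χ ∈ irrFinset (principalBlock M G), charDegree χ.1 ^ 2 :=
    Nat.dvd_of_factorization_pos (by omega)
  have h7 : Fintype.card X = ∑ χ ∈ irrFinset (principalBlock M G), charDegree χ.1 ^ 2 % 2 := by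
    have : ∀ χ : IrrCharacter G, charDegree χ.1 ^ 2 % 2 = if Odd (charDegree χ.1) then 1 else 0 := by
      intro χ
      split_ifs with h
      · exact Nat.odd_iff.1 h.pow
      · exact Nat.even_iff.1 ((Nat.not_odd_iff_even.1 h).pow_of_ne_zero two_ne_zero)
    simp only [this]
    rw [Finset.sum_boole, Nat.cast_id, Fintype.card_subtype]
    congr 1
    ext χ
    simp [mem_irrFinset]
  rw [h7, Nat.ModEq, ← Finset.sum_nat_mod]
  exact (Nat.modEq_zero_iff_dvd.2 h6)

end Cfsg.Agent.S4550
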