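import Cfsg.Statements.S4551
import Cfsg.Agent.Blk.CoverDeg

set_option autoImplicit false
open Cfsg

namespace Cfsg.Agent.S4551

/-- Let N be a normal subgroup of the finite group G of index prime to p, P a Sylow p-subgroup of G with G = N·C_G(P), and M a maximal ideal of the algebraic integers containing p. Then restriction to N is a bijection from the principal p-block of G onto the principal p-block of N: every member of the principal block of G restricts to a member of the principal block of N, and every member of the principal block of N is the restriction of exactly one member of the principal block of G. -/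
theorem result {G : Type*} [Group G] [Finite G] (p : ℕ) [Fact p.Prime] (M : Ideal Cfsg.AlgInt) (hM : Cfsg.IsPModular p M) (N : Subgroup G) [N.Normal] (hidx : ¬ p ∣ N.index) (P : Sylow p G) (hsup : N ⊔ Subgroup.centralizer ((P : Subgroup G) : Set G) = ⊤) : (∀ χ ∈ Cfsg.principalBlock M G, ∃ θ ∈ Cfsg.principalBlock M ↥N, ∀ n : N, (χ : G → ℂ) n = (θ : N → ℂ) n) ∧ ∀ θ ∈ Cfsg.principalBlock M ↥N, ∃! χ : Cfsg.IrrCharacter G, χ ∈ Cfsg.principalBlock M G ∧ ∀ n : N, (χ : G → ℂ) n = (θ : N → ℂ) n := by
  have hQN : (P : Subgroup G) ≤ N := sylow_le_of_not_dvd_index hidx P.isPGroup'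
  have hQ : ¬ p ∣ (P : Subgroup G).relIndex N := fun h =>
    P.not_dvd_index (h.trans (Subgroup.relIndex_dvd_index_of_le hQN))
  exact ⟨fun χ hχ => hM.alperinDade_res hidx hQN hQ hsup hχ,
    fun θ hθ => hM.alperinDade_existsUnique hidx hQN hQ hsup hθ⟩

end Cfsg.Agent.S4551
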