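import Cfsg.Statements.S4552
import Cfsg.Agent.Blk.GlueGram
import Cfsg.Agent.Blk.AbTwo

set_option autoImplicit false
open Cfsg

namespace Cfsg.Agent.S4552

theorem aut_eq_one {D : Type*} [CommGroup D] (hD : IsPGroup 2 D) {σ : MulAut D}
    (hσ : Odd (orderOf σ)) (h : ∀ x : D, x ^ 2 = 1 → σ x = x) : σ = 1 := by
  have key : ∀ k : ℕ, ∀ x : D, x ^ 2 ^ k = 1 → σ x = x := fun k => by
    induction k with
    | zero => intro x hx; rw [pow_zero, pow_one] at hx; rw [hx, map_one]
    | succ k ih =>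
      intro x hx
      have h1 := ih (x ^ 2) (by rw [← pow_mul, ← pow_succ', hx])
      have h2 : (σ x * x⁻¹) ^ 2 = 1 := by rw [mul_pow, ← map_pow, h1, ← mul_pow, mul_inv_cancel, one_pow]
      have h3 : ∀ n : ℕ, (σ ^ n) x = (σ x * x⁻¹) ^ n * x := fun n => by
        induction n with
        | zero => simp
        | succ n ih =>
          rw [pow_succ', MulAut.mul_apply, ih, map_mul, map_pow, h _ h2, pow_succ, mul_assoc,
            inv_mul_cancel_right]
      obtain ⟨n, hn⟩ := hσ
      have h4 := h3 (orderOf σ)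
      rw [pow_orderOf_eq_one, hn, pow_succ, pow_mul, h2, one_pow, one_mul,
        inv_mul_cancel_right] at h4
      exact h4.symm
  ext x
  obtain ⟨k, hk⟩ := hD x
  exact key k x hk

theorem exists_invol {D : Type*} [Group D] (hD : IsPGroup 2 D) {x : D} (hx : x ≠ 1) :
    ∃ n : ℕ, x ^ n ≠ 1 ∧ (x ^ n) ^ 2 = 1 := by
  obtain ⟨k, hk⟩ := hD x
  induction k with
  | zero => exact (hx (by simpa using hk)).elim
  | succ k ih =>
    by_cases h : x ^ 2 ^ k = 1
    · exact ih h
    · exact ⟨2 ^ k, h, by rw [← pow_mul, ← pow_succ, hk]⟩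

theorem aut_eq_one_of_fix {D : Type*} [CommGroup D] [Fintype D] [DecidableEq D]
    (hD : IsPGroup 2 D) (h4 : (Finset.univ.filter fun x : D => x ^ 2 = 1).card ≤ 4)
    {σ : MulAut D} (hσ : Odd (orderOf σ)) {x : D} (hx : x ≠ 1) (h : σ x = x) : σ = 1 := by
  obtain ⟨n, h1, h2⟩ := exists_invol hD hx
  have h3 : σ (x ^ n) = x ^ n := by rw [map_pow, h]
  generalize x ^ n = z at h1 h2 h3
  refine aut_eq_one hD hσ fun y hy => ?_
  by_contra h5
  have h6 : σ (σ y) ≠ y := fun h6 => h5 (by
    obtain ⟨k, hk⟩ := hσ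
    have h7 : ∀ j : ℕ, ((σ ^ 2) ^ j) y = y := fun j => by
      induction j with
      | zero => simp
      | succ j ih => rw [pow_succ, MulAut.mul_apply, sq, MulAut.mul_apply, h6, ← sq, ih]
    have h8 : (σ ^ orderOf σ) y = y := by rw [pow_orderOf_eq_one]; rfl
    rwa [hk, pow_succ', MulAut.mul_apply, pow_mul, h7] at h8)
  have hy1 : y ≠ 1 := fun h => h5 (by rw [h, map_one])
  have hyz : y ≠ z := fun h => h5 (by rw [h, h3])
  have a1 : σ y ≠ 1 := by simpa using hy1
  have a2 : σ (σ y) ≠ 1 := by simpa using hy1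
  have a3 : σ y ≠ z := fun h => hyz (σ.injective (h.trans h3.symm))
  have a4 : σ (σ y) ≠ z := fun h => a3 (σ.injective (h.trans h3.symm))
  have a5 : σ (σ y) ≠ σ y := fun h => h5 (σ.injective h)
  have h9 : ({1, z, y, σ y, σ (σ y)} : Finset D) ⊆ Finset.univ.filter fun x : D => x ^ 2 = 1 := by
    intro w hw
    simp only [Finset.mem_insert, Finset.mem_singleton] at hw
    rcases hw with rfl | rfl | rfl | rfl | rfl <;> simp [← map_pow, *]
  have h10 := Finset.card_le_card h9
  rw [Finset.card_insert_of_notMem (by simp [h1.symm, hy1.symm, a1.symm, a2.symm]),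
    Finset.card_insert_of_notMem (by simp [hyz.symm, a3.symm, a4.symm]),
    Finset.card_insert_of_notMem (by simp [Ne.symm h5, h6.symm]),
    Finset.card_insert_of_notMem (by simp [a5.symm]), Finset.card_singleton] at h10
  omega

theorem card_sq_le {D : Type*} [Group D] [Fintype D] [DecidableEq D] {n : ℕ} [NeZero n]
    (φ : D ≃* Multiplicative (ZMod n × ZMod n)) :
    (Finset.univ.filter fun x : D => x ^ 2 = 1).card ≤ 4 := by
  have h1 : (Finset.univ.filter fun a : ZMod n => 2 • a = 0).card ≤ 2 :=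
    IsAddCyclic.card_nsmul_eq_zero_le two_pos
  refine (Finset.card_le_card_of_injOn (t := (Finset.univ.filter fun a : ZMod n => 2 • a = 0) ×ˢ
    (Finset.univ.filter fun a : ZMod n => 2 • a = 0)) (fun x => (φ x).toAdd) (fun x hx => ?_)
    fun x _ y _ h => φ.injective h).trans ?_
  · have h2 : 2 • (φ x).toAdd = 0 := by
      rw [← toAdd_pow, ← map_pow, (Finset.mem_filter.1 hx).2, map_one, toAdd_one]
    simp only [Finset.coe_product, Finset.coe_filter, Finset.mem_univ, true_and, Set.mem_prod,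
      Set.mem_setOf_eq]
    exact ⟨congrArg Prod.fst h2, congrArg Prod.snd h2⟩
  · rw [Finset.card_product]
    exact Nat.mul_le_mul h1 h1

/-- Let B be a 2-block of the finite group G (relative to a maximal ideal M of the algebraic integers containing 2) whose defect group D is the direct product of two cyclic groups of the same order 2 ^ m, m ≥ 2. Then either B has 2-regular rank one and exactly 4 ^ m irreducible characters, or B has 2-regular rank three and exactly (4 ^ m + 8) / 3 irreducible characters. -/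
theorem result {G : Type*} [Group G] [Finite G] (M : Ideal Cfsg.AlgInt) (hM : Cfsg.IsPModular 2 M) (B : Set (Cfsg.IrrCharacter G)) (hB : Cfsg.IsPBlock M B) (D : Subgroup G) (hD : Cfsg.IsDefectGroup 2 M B D) (m : ℕ) (hm : 2 ≤ m) (hiso : Nonempty (D ≃* Multiplicative (ZMod (2 ^ m) × ZMod (2 ^ m)))) : (Cfsg.blockRank 2 B = 1 ∧ Nat.card B = 4 ^ m) ∨ (Cfsg.blockRank 2 B = 3 ∧ 3 * Nat.card B = 4 ^ m + 8) := by
  classical
  have := Fintype.ofFinite G
  have := Fintype.ofFinite D
  obtain ⟨φ⟩ := hiso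
  obtain ⟨e, S⟩ := hD.exists_starSetup hM hB
  have hcomm : ∀ x y : D, x * y = y * x := fun x y => φ.injective (by
    rw [map_mul, map_mul, mul_comm])
  have hab : D ≤ Subgroup.centralizer (D : Set G) := fun x hx y hy =>
    congrArg Subtype.val (hcomm ⟨y, hy⟩ ⟨x, hx⟩)
  have hcard : Nat.card D = 4 ^ m := by
    rw [Nat.card_congr φ.toEquiv, Nat.card_congr Multiplicative.toAdd, Nat.card_prod, Nat.card_zmod,
      ← mul_pow]
    norm_num
  have hP : IsPGroup 2 D := IsPGroup.of_card S.card_eq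
  have h4 := card_sq_le φ
  have hE := pairStab_le_normalizer ⊤ D e
  have hodd : Odd (Nat.card (autInducedBy (pairStab ⊤ D e) D)) := by
    rw [card_autInducedBy hE, ← Nat.not_even_iff_odd, even_iff_two_dvd]
    exact S.not_dvd_inertialIndex hab
  have hfix : ∀ σ ∈ autInducedBy (pairStab ⊤ D e) D, ∀ x : D, x ≠ 1 → σ x = x → σ = 1 :=
    fun σ hσ x hx h => by
      letI : CommGroup D := { (inferInstance : Group D) with mul_comm := hcomm }
      exact aut_eq_one_of_fix hP h4 (hodd.of_dvd_nat (Subgroup.orderOf_dvd_natCard _ hσ)) hx h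
  have hfree : ∀ t ∈ pairStab ⊤ D e, ∀ x ∈ D, x ≠ 1 → t * x * t⁻¹ = x →
      t ∈ Subgroup.centralizer (D : Set G) := fun t ht x hx hx1 h => by
    obtain ⟨σ, hσ, h'⟩ := exists_mem_autInducedBy hE ht
    rw [mem_centralizer_iff_aut_eq_one h']
    exact hfix σ hσ ⟨x, hx⟩ (fun h => hx1 (congrArg Subtype.val h)) (Subtype.ext ((h' _).trans h))
  have hD1 : D ≠ ⊥ := by
    rw [← Subgroup.one_lt_card_iff_ne_bot, hcard]
    exact Nat.one_lt_pow (by omega) (by norm_num)
  have := (Subgroup.nontrivial_iff_ne_bot D).2 hD1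
  obtain ⟨x, hx⟩ := exists_ne (1 : D)
  obtain ⟨n, h1, h2⟩ := exists_invol hP hx
  generalize x ^ n = z at h1 h2
  have h3 : Nat.card (autInducedBy (pairStab ⊤ D e) D) ≤ 3 := by
    have := Fintype.ofFinite (autInducedBy (pairStab ⊤ D e) D)
    rw [Nat.card_eq_fintype_card, ← Finset.card_univ]
    refine (Finset.card_le_card_of_injOn (t := (Finset.univ.filter fun x : D => x ^ 2 = 1).erase 1)
      (fun σ => σ.1 z) (fun σ _ => ?_) fun σ _ τ _ h => ?_).trans ?_
    · simp [← map_pow, h1, h2]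
    · have := hfix (τ⁻¹ * σ).1 (τ⁻¹ * σ).2 z h1 (by
        simp only at h
        simp [h])
      exact (inv_mul_eq_one.1 (Subtype.ext this)).symm
    · rw [Finset.card_erase_of_mem (by simp)]
      omega
  rw [card_autInducedBy hE] at hodd h3
  have h5 := (S.blockRank_le_of_free hab hfree hD1).2 h3
  have h6 := S.card_mul_of_free hab hfree
  rw [h5, hcard] at h6
  rw [h5]
  obtain ⟨k, hk⟩ := hodd
  have : k = 0 ∨ k = 1 := by omega
  rcases this with rfl | rfl <;> rw [hk] at h6 ⊢ <;> omega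

end Cfsg.Agent.S4552
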