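import Cfsg.Statements.S4553
import Cfsg.Agent.CT.SigmaPow
import Cfsg.Agent.Blk.Cover
import Cfsg.Agent.CT.Degrees
import Cfsg.Agent.CT.GlBasic


set_option autoImplicit false
open Cfsg

namespace Cfsg.Agent.S4553

theorem card_hom {Q : Type*} [Group Q] [Finite Q] {p : ℕ} [hp : Fact p.Prime] (hQ : IsPGroup p Q)
    (hc : IsCyclic Q) [Nontrivial Q] : Nat.card {l : Q →* ℂˣ // l ^ p = 1} = p := by
  letI : CommGroup Q := IsCyclic.commGroup
  obtain ⟨e⟩ := CommGroup.monoidHom_mulEquiv_of_hasEnoughRootsOfUnity Q ℂ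
  have h1 := IsCyclic.card_powMonoidHom_ker (G := Q) p
  obtain ⟨n, hn, hQn⟩ := hQ.nontrivial_iff_card.1 inferInstance
  rw [Nat.gcd_eq_right (by rw [hQn]; exact dvd_pow_self p hn.ne')] at h1
  refine Eq.trans ?_ h1
  refine Nat.card_congr (e.toEquiv.subtypeEquiv fun l => ?_)
  rw [MonoidHom.mem_ker, powMonoidHom_apply]
  change _ ↔ e l ^ p = 1
  rw [← map_pow, EmbeddingLike.map_eq_one_iff]

/-- Let G be a finite group, p a prime, P a Sylow p-subgroup, N the p-residual of G (the subgroup generated by the elements of order prime to p, the smallest normal subgroup with G/N a p-group), and M a maximal ideal of the algebraic integers containing p; suppose G/N is cyclic and nontrivial. Let k be a natural number with g ^ k = g ^ (1 + p) for every p-element g and g ^ k = g for every element g of order prime to p (so that χ (g ^ k) is the image of χ g under the field automorphism that raises p-power roots of unity to the power 1 + p and fixes the roots of unity of order prime to p). Then the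 number of members χ of the principal block of G of degree prime to p with χ (g ^ k) = χ g for all g equals p times the number of members θ of the principal block of N of degree prime to p that are invariant under conjugation by P and satisfy θ (n ^ k) = θ n for all n. -/
theorem result {G : Type*} [Group G] [Finite G] (p : ℕ) [Fact p.Prime] (M : Ideal Cfsg.AlgInt) (hM : Cfsg.IsPModular p M) (P : Sylow p G) (N : Subgroup G) [hN : N.Normal] (hNres : N = Cfsg.pResidual p G) (hcyc : IsCyclic (G ⧸ N)) (hnt : N ≠ ⊤) (k : ℕ) (hk₁ : ∀ g : G, (∃ j : ℕ, orderOf g = p ^ j) → g ^ k = g ^ (1 + p)) (hk₂ : ∀ g : G, Nat.Coprime (orderOf g) p → g ^ k = g) : Nat.card {χ : Cfsg.IrrCharacter G // χ ∈ Cfsg.principalBlock M G ∧ ¬ p ∣ Cfsg.charDegree (χ : G → ℂ) ∧ ∀ g : G, (χ : G → ℂ) (g ^ k) = (χ : G → ℂ) g} = p * Nat.card {θ : Cfsg.IrrCharacter ↥N // θ ∈ Cfsg.principalBlock M ↥N ∧ ¬ p ∣ Cfsg.charDegree (θ : ↥N → ℂ) ∧ (∀ x ∈ (P : Subgroup G), ∀ n : ↥N, (θ : ↥N → ℂ) ⟨x * n * x⁻¹, hN.conj_mem n n.2 x⟩ = (θ :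 ↥N → ℂ) n) ∧ ∀ n : ↥N, (θ : ↥N → ℂ) (n ^ k) = (θ : ↥N → ℂ) n} := by
  classical
  have hp : p.Prime := Fact.out
  haveI := Fintype.ofFinite G
  haveI := Fintype.ofFinite N
  have hk₂' : ∀ g : G, ¬ p ∣ orderOf g → g ^ k = g := fun g hg =>
    hk₂ g ((Nat.Prime.coprime_iff_not_dvd hp).2 hg).symm
  have hkc : k.Coprime (Nat.card G) := sigma_coprime_card hk₁ hk₂'
  obtain ⟨σ, hσ, -⟩ := exists_galois_pow.{0} (Nat.card_pos (α := G)).ne' hkc
  have hQ : IsPGroup p (G ⧸ N) := by subst hNres; exact isPGroup_quotient_pResidual p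
  obtain ⟨a, ha⟩ : ∃ a, N.index = p ^ a := hQ.exists_card_eq
  haveI : Nontrivial (G ⧸ N) := QuotientGroup.nontrivial_iff.2 hnt
  have hsup : N ⊔ (P : Subgroup G) = ⊤ := by rw [hNres]; exact pResidual_sup_sylow P
  let X := {χ : IrrCharacter G // χ ∈ principalBlock M G ∧ ¬ p ∣ charDegree χ.1 ∧
    ∀ g : G, χ.1 (g ^ k) = χ.1 g}
  let Y := {θ : IrrCharacter N // θ ∈ principalBlock M N ∧ ¬ p ∣ charDegree θ.1 ∧
    (∀ x ∈ (P : Subgroup G), ∀ n : N, θ.1 ⟨x * n * x⁻¹, hN.conj_mem n n.2 x⟩ = θ.1 n) ∧
    ∀ n : N, θ.1 (n ^ k) = θ.1 n}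
  let r : X → Y := fun χ => ⟨⟨fun n : N => χ.1.1 n, isIrr_res_of_index_pow hp ha χ.1 χ.2.2.1⟩,
    hM.mem_principalBlock_of_over χ.2.1 (by
      rw [classInner_res_of_eq (θ := ⟨fun n : N => χ.1.1 n,
        isIrr_res_of_index_pow hp ha χ.1 χ.2.2.1⟩) (fun _ => rfl)]
      exact one_ne_zero),
    χ.2.2.1, fun x _ n => χ.1.isClassFunction _ _, fun n => χ.2.2.2 n⟩
  have hfib : ∀ θ : Y, Nat.card {χ : X // r χ = θ} = p := by
    rintro ⟨θ, hθB, hθd, hθP, hθk⟩
    have hinv : charInertia θ.1 = ⊤ := by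
      rw [eq_top_iff, ← hsup]
      exact sup_le θ.le_charInertia fun x hx => mem_charInertia.2 (hθP x hx)
    have hdet : ¬ p ∣ detOrder θ.1 := by
      subst hNres
      exact not_dvd_detOrder_pResidual θ.1
    obtain ⟨η, ⟨hη, hηo⟩, huniq⟩ := existsUnique_canonical_extension hinv (by
      rw [ha]
      exact Nat.Coprime.pow_right _ ((Nat.Prime.coprime_iff_not_dvd hp).2
        (hp.not_dvd_mul hθd hdet)).symm)
    have hηk : ∀ g, η.1 (g ^ k) = η.1 g := by
      have := huniq (η.powConj k hkc) ⟨fun n => by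
        rw [IrrCharacter.powConj_apply, ← Subgroup.coe_pow, hη, hθk], by
        rw [η.powConj_eq_galois hkc (σ := σ) (fun g => pow_card_eq_one') hσ,
          IrrCharacter.galois_val, η.isCharacter.detOrder_galois]
        exact hηo⟩
      exact fun g => congrFun (congrArg Subtype.val this) g
    have hirr := isIrr_res_of_extends hη
    have hlk : ∀ (l : G ⧸ N →* ℂˣ) (g : G), l (g ^ k : G) = l g * (l ^ p) g := by
      intro l g
      have h1 : ((pRegPart p g : G) : G ⧸ N) = 1 :=
        (QuotientGroup.eq_one_iff _).2 (mem_of_not_dvd_orderOf_of_isPGroup hQ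
          (not_dvd_orderOf_pRegPart g))
      have h2 : (g : G ⧸ N) = (pPart p g : G) := by
        conv_lhs => rw [← pPart_mul_pRegPart p g, QuotientGroup.mk_mul, h1, mul_one]
      rw [QuotientGroup.mk_pow, h2, ← QuotientGroup.mk_pow, hk₁ _ (exists_orderOf_pPart g),
        QuotientGroup.mk_pow, map_pow, pow_add, pow_one, MonoidHom.pow_apply]
    refine Eq.trans ?_ (card_hom hQ hcyc)
    symm
    refine Nat.card_eq_of_bijective (fun l => ⟨⟨η.twist (l.1.comp (QuotientGroup.mk' N)), ?_, ?_,
      ?_⟩, ?_⟩) ⟨?_, ?_⟩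
    · refine hM.mem_principalBlock_of_over_of_isPGroup hQ hθB ?_
      rw [classInner_res_of_eq]
      · exact one_ne_zero
      · intro n
        simp [IrrCharacter.twist_apply, (QuotientGroup.eq_one_iff _).2 n.2, hη]
    · rw [IrrCharacter.charDegree_twist, charDegree_eq_of_extends hη]
      exact hθd
    · intro g
      simp only [IrrCharacter.twist_apply, MonoidHom.comp_apply, QuotientGroup.mk'_apply]
      rw [hlk, l.2, hηk]
      simp
    · refine Subtype.ext (Subtype.ext (funext fun n => ?_))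
      change (η.twist _).1 n = θ.1 n
      simp [IrrCharacter.twist_apply, (QuotientGroup.eq_one_iff _).2 n.2, hη]
    · intro l l' h
      have h1 : ∀ g, (η.twist (l.1.comp (QuotientGroup.mk' N))).1 g =
          (η.twist (l'.1.comp (QuotientGroup.mk' N))).1 g := fun g =>
        congrFun (congrArg (fun x => x.1.1.1) h) g
      have h2 := linear_eq_of_mul_extends η.isCharacter hirr (lam := l.1.comp (QuotientGroup.mk' N))
        (mu := l'.1.comp (QuotientGroup.mk' N)) (fun n hn => by
          simp [(QuotientGroup.eq_one_iff _).2 hn]) h1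
      exact Subtype.ext (QuotientGroup.monoidHom_ext N h2)
    · rintro ⟨⟨χ, hχB, hχd, hχk⟩, hχ⟩
      have hext : ∀ n : N, χ.1 n = θ.1 n := fun n =>
        congrFun (congrArg (fun x : Y => x.1.1) hχ) n
      obtain ⟨l, hl⟩ := exists_linear_of_extends η.isCharacter χ.isCharacter hη hext
      refine ⟨⟨l, ?_⟩, Subtype.ext (Subtype.ext (Subtype.ext hl.symm))⟩
      have h2 := linear_eq_of_mul_extends η.isCharacter hirr
        (lam := (l * l ^ p).comp (QuotientGroup.mk' N))
        (mu := l.comp (QuotientGroup.mk' N)) (fun n hn => by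
          simp [(QuotientGroup.eq_one_iff _).2 hn]) (fun g => by
          have := hχk g
          rw [hl] at this
          simp only at this
          rw [hlk, hηk] at this
          exact this)
      have h3 := QuotientGroup.monoidHom_ext N h2
      exact mul_left_cancel (a := l) (h3.trans (mul_one l).symm)
  haveI : Fintype Y := Fintype.ofFinite Y
  change Nat.card X = p * Nat.card Y
  rw [← Nat.card_congr (Equiv.sigmaFiberEquiv r), Nat.card_sigma]
  simp only [hfib]
  rw [Finset.sum_const, Finset.card_univ, smul_eq_mul, mul_comm, Nat.card_eq_fintype_card]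

end Cfsg.Agent.S4553
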