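import Cfsg.Statements.S4561
import Cfsg.Agent.CT.CentralType

set_option autoImplicit false
universe u
open Cfsg

namespace Cfsg.Agent.S4561

/-- For every finite solvable group G there is a finite group H with a faithful irreducible character χ whose degree squared equals the index of the centre Z(H) (so χ is fully ramified over the centre), such that G is isomorphic to a subgroup of H/Z(H), the primes dividing the orders of H, of Z(H) and of G are the same, and the order of Z(H) is squarefree. -/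
theorem result {G : Type u} [Group G] [Finite G] (hsolv : Group.IsSolvable G) : ∃ (H : Type u) (_ : Group H) (_ : Finite H) (χ : Cfsg.IrrCharacter H), (∀ h : H, (χ : H → ℂ) h = (χ : H → ℂ) 1 → h = 1) ∧ (Cfsg.charDegree (χ : H → ℂ)) ^ 2 = (Subgroup.center H).index ∧ (∃ f : G →* H ⧸ Subgroup.center H, Function.Injective f) ∧ (∀ p : ℕ, p.Prime → ((p ∣ Nat.card H ↔ p ∣ Nat.card G) ∧ (p ∣ Nat.card (Subgroup.center H) ↔ p ∣ Nat.card G))) ∧ Squarefree (Nat.card (Subgroup.center H)) := by
  have hG : Nat.card G ≠ 0 := Nat.card_pos.ne'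
  have hm : ∀ q : ℕ, q.Prime → (q ∣ ∏ r ∈ (Nat.card G).primeFactors, r ↔ q ∣ Nat.card G) :=
    fun q hq => ⟨fun h => h.trans (Nat.prod_primeFactors_dvd _),
      fun h => Finset.dvd_prod_of_mem _ (Nat.mem_primeFactors.2 ⟨hq, h, hG⟩)⟩
  obtain ⟨K, Q, _, _, _, π, l, h, f, hf⟩ := exists_isCTData (∏ r ∈ (Nat.card G).primeFactors, r)
    G hsolv fun q hq => (hm q hq).2
  obtain ⟨H, _, _, χ, h1, h2, ⟨e⟩, h3⟩ := h.exists_centralType
  have h4 : Nat.card H = Nat.card (Subgroup.center H) * Nat.card Q := by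
    rw [← Nat.card_congr e.toEquiv, ← Subgroup.index_eq_card, Subgroup.card_mul_index]
  have h5 : ∀ p : ℕ, p.Prime → p ∣ Nat.card G → p ∣ Nat.card H := fun p _ hd =>
    h4 ▸ (hd.trans (Subgroup.card_dvd_of_injective f hf)).mul_left _
  refine ⟨H, inferInstance, inferInstance, χ, (IrrCharacter.charKer_eq_bot_iff χ).1 h1, h2,
    ⟨e.symm.toMonoidHom.comp f, e.symm.injective.comp hf⟩, fun p hp => ⟨⟨fun hd => ?_, h5 p hp⟩,
      fun hd => (hm p hp).1 (hd.trans h3),
      fun hd => χ.dvd_card_center_of_centralType h2 hp (h5 p hp hd)⟩, ?_⟩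
  · rw [h4] at hd
    rcases (Nat.Prime.dvd_mul hp).1 hd with h6 | h6
    · exact (hm p hp).1 (h6.trans h3)
    · exact (hm p hp).1 (h.primes p hp h6)
  · refine Squarefree.squarefree_of_dvd h3 ?_
    refine Finset.squarefree_prod_of_pairwise_isCoprime (fun a ha b hb hab => ?_)
      fun a ha => (Nat.prime_of_mem_primeFactors ha).prime.squarefree
    exact Nat.coprime_iff_isRelPrime.1 ((Nat.coprime_primes (Nat.prime_of_mem_primeFactors ha)
      (Nat.prime_of_mem_primeFactors hb)).2 hab)

end Cfsg.Agent.S4561
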