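import Cfsg.Statements.S4563
import Cfsg.Agent.CT.FullyRam

set_option autoImplicit false
open Cfsg

namespace Cfsg.Agent.S4563

/-- Let χ be an irreducible character of the finite group H that is fully ramified over the normal subgroup Z: the restriction of χ to Z is e times an irreducible character of Z with e ^ 2 equal to the index of Z. If K is a proper normal subgroup of H containing Z and χ is induced from a character of K, then H/K is solvable; in particular, if K is solvable then so is H. -/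
theorem result {H : Type*} [Group H] [Fintype H] (Z : Subgroup H) [Z.Normal] (χ : Cfsg.IrrCharacter H) (hfr : ∃ (θ : Cfsg.IrrCharacter ↥Z) (e : ℕ), e ^ 2 = Z.index ∧ ∀ z : ↥Z, (χ : H → ℂ) z = (e : ℂ) * (θ : ↥Z → ℂ) z) (K : Subgroup H) [K.Normal] [Fintype K] (hZK : Z ≤ K) (hK : K ≠ ⊤) (φ : ↥K → ℂ) (hφ : Cfsg.IsCharacter ↥K φ) (hind : Cfsg.indFun K φ = (χ : H → ℂ)) : Group.IsSolvable (H ⧸ K) ∧ (Group.IsSolvable ↥K → Group.IsSolvable H) := by
  obtain ⟨θ, e, he, h⟩ := hfr
  obtain ⟨hinv, hu, hχ⟩ := uniqOver_top_of_fullyRamified he h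
  have hirr : IsIrrCharacter K φ := hφ.isIrr_of_indFun (hind ▸ χ.2)
  set φ' : IrrCharacter K := ⟨φ, hirr⟩ with hφ'
  have hI : ezStab φ' ≤ K := by
    rw [ezStab_eq_charInertia]
    exact ((IrrCharacter.isIrr_indFun_iff φ').1 (hind ▸ χ.2)).le
  have h1 : rmult (IrrCharacter.toTop χ) φ' ≠ 0 := by
    rw [rmult_toTop_ne_zero_iff, ← classInner_indFun_right K _ χ.isClassFunction, hind,
      χ.classInner_self]
    exact one_ne_zero
  have h2 : rmult φ' θ ≠ 0 := rmult_ne_zero_of_le_ezStab hZK le_top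
    (by rw [Subgroup.normalizer_eq_top]) hinv hχ h1
  have hs : Group.IsSolvable (H ⧸ K) := by
    refine isSolvable_of_forall_exists_pComplement _ fun p hp => ?_
    have : Fact p.Prime := ⟨hp⟩
    obtain ⟨S⟩ : Nonempty (Sylow p H) := inferInstance
    obtain ⟨μ, hμ⟩ :=
      exists_rmult_over (le_inf le_sup_left hZK : Z ≤ (Z ⊔ (S : Subgroup H)) ⊓ K) θ
    obtain ⟨M, hKM, hM⟩ := hu.exists_pComplement hZK hinv S rfl rfl hμ
      (hu.inf_ezStab_le_of_ezStab_le hZK hinv S rfl rfl hμ h2 hI)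
    exact ⟨_, exists_pComplement_quotient S hKM hM⟩
  exact ⟨hs, fun _ => Group.isSolvable_of_ker_le_range K.subtype (QuotientGroup.mk' K) (by simp)⟩

end Cfsg.Agent.S4563
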