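import Cfsg.Statements.S4564
import Cfsg.Agent.CT.FullyRam

set_option autoImplicit false
open Cfsg

namespace Cfsg.Agent.S4564

/-- Let χ be an irreducible character of the finite group H that is fully ramified over the normal subgroup Z: the restriction of χ to Z is e times an irreducible character of Z with e ^ 2 equal to the index of Z. Let K be a normal subgroup of H containing Z and P a cyclic Sylow p-subgroup of H/K. Then P has a complement in H/K: a subgroup meeting P trivially whose product with P is the whole group. -/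
theorem result {H : Type*} [Group H] [Finite H] (Z : Subgroup H) [Z.Normal] (χ : Cfsg.IrrCharacter H) (hfr : ∃ (θ : Cfsg.IrrCharacter ↥Z) (e : ℕ), e ^ 2 = Z.index ∧ ∀ z : ↥Z, (χ : H → ℂ) z = (e : ℂ) * (θ : ↥Z → ℂ) z) (K : Subgroup H) [K.Normal] (hZK : Z ≤ K) (p : ℕ) [Fact p.Prime] (P : Sylow p (H ⧸ K)) (hcyc : IsCyclic P) : ∃ M : Subgroup (H ⧸ K), M.IsComplement' (P : Subgroup (H ⧸ K)) := by
  obtain ⟨θ, e, he, h⟩ := hfr
  obtain ⟨hinv, hu, -⟩ := uniqOver_top_of_fullyRamified he h
  obtain ⟨S, hS⟩ := Sylow.mapSurjective_surjective (QuotientGroup.mk'_surjective K) p P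
  obtain ⟨μ, hμ⟩ := exists_rmult_over (le_inf le_sup_left hZK : Z ≤ (Z ⊔ (S : Subgroup H)) ⊓ K) θ
  have hP : (S : Subgroup H).map (QuotientGroup.mk' K) = P := by rw [← hS]; rfl
  obtain ⟨M, hKM, hM⟩ := hu.exists_pComplement hZK hinv S rfl rfl hμ
    (hu.inf_ezStab_le_of_cyclic hZK hinv S rfl rfl hμ (hP ▸ hcyc))
  obtain ⟨h1, k, h2⟩ := exists_pComplement_quotient S hKM hM
  refine ⟨M.map (QuotientGroup.mk' K), isComplement'_of_card_eq_index ?_ ?_⟩
  · rw [h2]
    exact (((Nat.Prime.coprime_iff_not_dvd Fact.out).2 h1).symm.pow_right k)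
  · rw [← hP, card_map_mk, index_map_mk, sup_eq_left.2 hKM, hM]

end Cfsg.Agent.S4564
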