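import Cfsg.Statements.S4565
import Cfsg.Agent.CT.FullyRam

set_option autoImplicit false
open Cfsg

namespace Cfsg.Agent.S4565

/-- Let χ be an irreducible character of the finite group H that is fully ramified over the normal subgroup Z: the restriction of χ to Z is e times an irreducible character of Z with e ^ 2 equal to the index of Z. If Z ≠ H, then H/Z has no cyclic subgroup that is its own centralizer. -/
theorem result {H : Type*} [Group H] [Finite H] (Z : Subgroup H) [Z.Normal] (χ : Cfsg.IrrCharacter H) (hfr : ∃ (θ : Cfsg.IrrCharacter ↥Z) (e : ℕ), e ^ 2 = Z.index ∧ ∀ z : ↥Z, (χ : H → ℂ) z = (e : ℂ) * (θ : ↥Z → ℂ) z) (hZ : Z ≠ ⊤) (C : Subgroup (H ⧸ Z)) (hC : IsCyclic C) : Subgroup.centralizer (C : Set (H ⧸ Z)) ≠ C := by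
  obtain ⟨θ, e, he, h⟩ := hfr
  have := Fintype.ofFinite Z
  obtain ⟨hinv, -, hχ⟩ := uniqOver_top_of_fullyRamified he h
  intro hcen
  have hinv' : charInertia θ.1 = ⊤ := by
    rw [← ezStab_eq_charInertia]; exact top_le_iff.1 hinv
  have h1 := card_over_eq_card_good hinv' (QuotientGroup.mk' Z) (QuotientGroup.mk'_surjective Z)
    (QuotientGroup.ker_mk' Z)
  have h2 : Nat.card {χ' : IrrCharacter H // classInner (fun n : Z => χ'.1 n) θ.1 ≠ 0} = 1 := by
    rw [Nat.card_eq_one_iff_unique]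
    have hu := (fullyRamified_iff_unique χ θ e h).1 he
    exact ⟨⟨fun a b => Subtype.ext ((hu _ a.2).trans (hu _ b.2).symm)⟩,
      ⟨⟨χ, rmult_toTop_ne_zero_iff.1 hχ⟩⟩⟩
  have hext : ∀ (U : Subgroup (H ⧸ Z)) (c : H ⧸ Z), U ≤ Subgroup.zpowers c →
      θ.ExtTo (U.comap (QuotientGroup.mk' Z)) := fun U c hU => by
    obtain ⟨y, rfl⟩ := QuotientGroup.mk'_surjective Z c
    refine (extTo_sup_zpowers (y := y) (by rw [Subgroup.normalizer_eq_top]; trivial)
      (hinv (Subgroup.mem_top _))).mono (le_comap_mk _ _) ?_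
    refine (Subgroup.comap_mono hU).trans ?_
    rw [← MonoidHom.map_zpowers, comap_map_mk, sup_comm]
  obtain ⟨c, hc⟩ := (Subgroup.isCyclic_iff_exists_zpowers_eq_top _).1 hC
  rw [h2] at h1
  have h3 := (Nat.card_eq_one_iff_unique.1 h1.symm).1
  have h4 := @Subsingleton.elim _ h3 ⟨ConjClasses.mk c, c, rfl, fun b hb => hext _ c (by
      rw [Subgroup.closure_le]
      rintro x (rfl | rfl)
      · exact Subgroup.mem_zpowers _
      · rw [hc, ← hcen, ← hc, SetLike.mem_coe, Subgroup.mem_centralizer_iff]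
        rintro _ ⟨n, rfl⟩
        exact (hb.zpow_left n).eq)⟩
    ⟨ConjClasses.mk 1, 1, rfl, fun b _ => hext _ b (by
      rw [Subgroup.closure_le]
      rintro x (rfl | rfl)
      · exact one_mem _
      · exact Subgroup.mem_zpowers _)⟩
  have h5 : c = 1 := by
    have := ConjClasses.mk_eq_mk_iff_isConj.1 (congrArg Subtype.val h4)
    simpa using this
  rw [h5, Subgroup.zpowers_one_eq_bot] at hc
  subst hc
  apply hZ
  rw [eq_top_iff]
  intro x _
  have : (QuotientGroup.mk x : H ⧸ Z) ∈ (⊥ : Subgroup (H ⧸ Z)) := by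
    rw [← hcen, Subgroup.mem_centralizer_iff]
    intro y hy
    rw [SetLike.mem_coe, Subgroup.mem_bot] at hy
    simp [hy]
  exact (QuotientGroup.eq_one_iff x).1 (Subgroup.mem_bot.1 this)

end Cfsg.Agent.S4565
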