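import Cfsg.Statements.S4566
import Cfsg.Agent.CT.Clifford
import Cfsg.Agent.CT.Kernel

set_option autoImplicit false
open Cfsg

namespace Cfsg.Agent.S4566


/-- Let N be a central subgroup of the finite group G, ψ a faithful irreducible (hence degree-one) character of N, and χ an irreducible character of G whose restriction to N contains ψ. If g ∈ G and some x ∈ G has commutator x⁻¹ g⁻¹ x g in N but different from 1, then χ g = 0. -/
theorem result {G : Type*} [Group G] [Fintype G] (N : Subgroup G) [Fintype N] (hN : N ≤ Subgroup.center G) (ψ : Cfsg.IrrCharacter ↥N) (hfaith : ∀ n : ↥N, (ψ : ↥N → ℂ) n = (ψ : ↥N → ℂ) 1 → n = 1) (χ : Cfsg.IrrCharacter G) (hover : Cfsg.classInner (fun n : ↥N => (χ : G → ℂ) n) (ψ : ↥N → ℂ) ≠ 0) (g x : G) (hcomm : x⁻¹ * g⁻¹ * x * g ∈ N) (hne : x⁻¹ * g⁻¹ * x * g ≠ 1) : (χ : G → ℂ) g = 0 := by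
  have hn : N.Normal := ⟨fun x hx y => by
    rwa [Subgroup.mem_center_iff.1 (hN hx) y, mul_inv_cancel_right]⟩
  have hinv : charInertia ψ.1 = ⊤ := by
    rw [eq_top_iff]
    refine le_trans (fun y _ => ?_) (centralizer_le_charInertia ψ.1)
    exact Subgroup.mem_centralizer_iff.2 fun n hn => (Subgroup.mem_center_iff.1 (hN hn) y).symm
  obtain ⟨e, he, -, h1, -⟩ := clifford_of_invariant χ hinv hover
  have h2 : χ.1 g⁻¹ = 0 := by
    refine χ.isCharacter.eq_zero_of_commutator_mem_charCenter (x := x⁻¹) ?_ ?_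
    · refine χ.center_le_charCenter (hN ?_)
      have := N.inv_mem hcomm
      simpa [commutatorElement_def, mul_assoc] using this
    · intro h3
      apply hne
      have h4 : x⁻¹ * g⁻¹ * x * g ∈ charKer χ.1 := by
        have := (charKer χ.1).inv_mem h3
        simpa [commutatorElement_def, mul_assoc] using this
      rw [χ.mem_charKer] at h4
      have h5 := h1 ⟨_, hcomm⟩
      have h6 := h1 1
      rw [OneMemClass.coe_one, ← h4] at h6
      exact congrArg Subtype.val (hfaith ⟨_, hcomm⟩
        (mul_left_cancel₀ (Nat.cast_ne_zero.2 he.ne') (h5.symm.trans h6)))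
  rw [χ.apply_inv] at h2
  simpa using h2

end Cfsg.Agent.S4566
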