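import Cfsg.Statements.S4567
import Cfsg.Agent.CT.GoodClasses

set_option autoImplicit false
open Cfsg

namespace Cfsg.Agent.S4567


/-- Let N be a central subgroup of the finite group G and ψ a faithful irreducible (hence degree-one) character of N. Call a coset g N special when every x ∈ G whose commutator x⁻¹ g⁻¹ x g lies in N actually commutes with g (this depends only on the coset). Then the number of irreducible characters of G whose restriction to N contains ψ equals the number of conjugacy classes of G/N consisting of special cosets. -/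
theorem result {G : Type*} [Group G] [Fintype G] (N : Subgroup G) [N.Normal] [Fintype N] (hN : N ≤ Subgroup.center G) (ψ : Cfsg.IrrCharacter ↥N) (hfaith : ∀ n : ↥N, (ψ : ↥N → ℂ) n = (ψ : ↥N → ℂ) 1 → n = 1) : Nat.card {χ : Cfsg.IrrCharacter G // Cfsg.classInner (fun n : ↥N => (χ : G → ℂ) n) (ψ : ↥N → ℂ) ≠ 0} = Nat.card {C : ConjClasses (G ⧸ N) // ∃ g : G, ConjClasses.mk (g : G ⧸ N) = C ∧ ∀ x : G, x⁻¹ * g⁻¹ * x * g ∈ N → x * g = g * x} := by
  have hc : IsMulCommutative N := ⟨⟨fun a b => Subtype.ext
    (Subgroup.mem_center_iff.1 (hN a.2) b).symm⟩⟩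
  obtain ⟨lam, rfl⟩ := ψ.exists_eq_ofHom ψ.charDegree_eq_one_of_comm
  refine (card_over_central_eq_card_good hN lam).trans
    (Nat.card_congr (Equiv.subtypeEquivRight fun C => ?_))
  refine exists_congr fun g => and_congr_right fun _ => ⟨fun h x hx => ?_, fun h x hx => ?_⟩
  · have h1 : x * g * x⁻¹ * g⁻¹ ∈ N := by
      have := Subgroup.Normal.conj_mem inferInstance _ hx (g * x)
      simpa [mul_assoc] using this
    have h2 := congrArg Subtype.val (hfaith ⟨_, h1⟩ (by simp [h x h1]))
    simp only [OneMemClass.coe_one, mul_inv_eq_one, mul_inv_eq_iff_eq_mul, one_mul] at h2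
    exact h2
  · have h1 : x⁻¹ * g⁻¹ * x * g ∈ N := by
      have := Subgroup.Normal.conj_mem inferInstance _ hx (g * x)⁻¹
      simpa [mul_assoc] using this
    rw [← map_one lam]
    congr 1
    ext
    simp [h x h1]

end Cfsg.Agent.S4567
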