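import Cfsg.Statements.S4574
import Cfsg.Agent.CT.Burnside

set_option autoImplicit false
open Cfsg

namespace Cfsg.Agent.S4574


/-- Let χ be an irreducible character of the finite group G, of degree d, and let Z(χ) be the set of elements g with |χ g| = d (the centre of χ). Then χ vanishes on at least (d ^ 2 - 1) · |Z(χ)| elements of G, with equality when every value |χ g| is 0, 1 or d. -/
theorem result {G : Type*} [Group G] [Fintype G] [DecidableEq G] (χ : G → ℂ) (hχ : Cfsg.IsIrrCharacter G χ) : (Cfsg.charDegree χ ^ 2 - 1) * (Finset.univ.filter (fun g : G => ‖χ g‖ = (Cfsg.charDegree χ : ℝ))).card ≤ (Finset.univ.filter (fun g : G => χ g = 0)).card ∧ ((∀ g : G, ‖χ g‖ = 0 ∨ ‖χ g‖ = 1 ∨ ‖χ g‖ = (Cfsg.charDegree χ : ℝ)) → (Cfsg.charDegree χ ^ 2 - 1) * (Finset.univ.filter (fun g : G => ‖χ g‖ = (Cfsg.charDegree χ : ℝ))).card = (Finset.univ.filter (fun g : G => χ g = 0)).card) := by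
  classical
  let ξ : IrrCharacter G := ⟨χ, hχ⟩
  have hd : (0 : ℝ) < charDegree χ := by exact_mod_cast ξ.charDegree_pos
  set d := charDegree χ with hdd
  set Z := Finset.univ.filter (fun g : G => ‖χ g‖ = (d : ℝ)) with hZ
  set A := Finset.univ.filter (fun g : G => χ g = 0) with hA
  let S := Finset.univ.filter (fun g : G => ‖χ g‖ ≠ (d : ℝ) ∧ χ g ≠ 0)
  have hsum : ∀ f : G → ℝ, ∑ g, f g = ∑ g ∈ Z, f g + ∑ g ∈ A, f g + ∑ g ∈ S, f g := by
    intro f
    simp only [hZ, hA, S, Finset.sum_filter, ← Finset.sum_add_distrib]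
    refine Finset.sum_congr rfl fun g _ => ?_
    by_cases h1 : χ g = 0
    · simp [h1, hd.ne]
    · by_cases h2 : ‖χ g‖ = (d : ℝ) <;> simp [h1, h2]
  have h1 := hsum (fun _ => 1)
  have h2 := hsum (fun g => ‖χ g‖ ^ 2)
  have h3 : ∑ g : G, ‖χ g‖ ^ 2 = (Nat.card G : ℝ) := ξ.sum_norm_sq
  simp only [Finset.sum_const, Finset.card_univ, nsmul_eq_mul, mul_one,
    ← Nat.card_eq_fintype_card] at h1
  rw [h3, Finset.sum_congr rfl (fun g hg => by rw [(Finset.mem_filter.1 hg).2] :
      ∀ g ∈ Z, ‖χ g‖ ^ 2 = (d : ℝ) ^ 2),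
    Finset.sum_eq_zero (fun g hg => by simp [(Finset.mem_filter.1 hg).2] :
      ∀ g ∈ A, ‖χ g‖ ^ 2 = 0), Finset.sum_const, nsmul_eq_mul, add_zero] at h2
  have h4 : (((d ^ 2 - 1) * Z.card : ℕ) : ℝ) = ((d : ℝ) ^ 2 - 1) * Z.card := by
    rw [Nat.cast_mul, Nat.cast_sub (Nat.one_le_pow 2 d ξ.charDegree_pos)]
    simp
  constructor
  · have h5 : (S.card : ℝ) ≤ ∑ g ∈ S, ‖χ g‖ ^ 2 := by
      refine hχ.isCharacter.isGeneralizedCharacter.card_ne_zero_le_sum_norm_sq S ?_
        (fun g hg => (Finset.mem_filter.1 hg).2.2)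
      intro g hg k hk
      obtain ⟨h6, h7⟩ := (Finset.mem_filter.1 hg).2
      have hk' : (orderOf g).Coprime k := hk.coprime_dvd_left (orderOf_dvd_natCard g)
      obtain ⟨m, hm⟩ := exists_pow_eq_self_of_coprime hk'.symm
      refine Finset.mem_filter.2 ⟨Finset.mem_univ _, fun h8 => h6 ?_, fun h8 => h7 ?_⟩
      · rw [← hm]
        exact ξ.mem_charCenter.1 (Subgroup.pow_mem _ (ξ.mem_charCenter.2 h8) m)
      · have h9 : orderOf (g ^ k) = orderOf g := hk'.orderOf_pow
        have h10 : (orderOf (g ^ k)).Coprime m := by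
          by_contra h11
          obtain ⟨p, hp, h12, h13⟩ := Nat.Prime.not_coprime_iff_dvd.1 h11
          have h14 := orderOf_pow' (g ^ k) (n := m) (by
            rintro rfl
            rw [pow_zero] at hm
            rw [h9, ← hm, orderOf_one] at h12
            exact hp.one_lt.ne' (Nat.dvd_one.1 h12))
          rw [hm, ← h9] at h14
          have h15 := Nat.div_lt_self (orderOf_pos (g ^ k))
            (lt_of_lt_of_le hp.one_lt (Nat.le_of_dvd
              (Nat.gcd_pos_of_pos_left m (orderOf_pos (g ^ k))) (Nat.dvd_gcd h12 h13)))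
          omega
        rw [← hm]
        exact hχ.isCharacter.isGeneralizedCharacter.apply_pow_eq_zero_of_coprime h8 h10
    have h6 : (((d ^ 2 - 1) * Z.card : ℕ) : ℝ) ≤ A.card := by rw [h4]; linarith
    exact_mod_cast h6
  · intro h
    have h5 : ∑ g ∈ S, ‖χ g‖ ^ 2 = S.card := by
      rw [Finset.card_eq_sum_ones, Nat.cast_sum]
      refine Finset.sum_congr rfl fun g hg => ?_
      obtain ⟨h6, h7⟩ := (Finset.mem_filter.1 hg).2
      rcases h g with h8 | h8 | h8
      · exact absurd (norm_eq_zero.1 h8) h7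
      · simp [h8]
      · exact absurd h8 h6
    have h6 : (((d ^ 2 - 1) * Z.card : ℕ) : ℝ) = A.card := by rw [h4]; linarith
    exact_mod_cast h6

end Cfsg.Agent.S4574
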