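import Cfsg.Statements.S4575
import Cfsg.Agent.Blk.SecTwo

set_option autoImplicit false
open Cfsg

namespace Cfsg.Agent.S4575

/-- Let B be a 2-block of the finite group G (relative to a maximal ideal M of the algebraic integers containing 2) of defect d with defect group D. Let z be an element of D commuting with every element of D, and let b be a block of the centralizer of z with defect group D that induces B (a major subsection (z, b)). If the number of irreducible characters in B exceeds the 2-regular rank of b by at most three, then B contains at most 2 ^ d irreducible characters. -/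
theorem result {G : Type*} [Group G] [Finite G] (M : Ideal Cfsg.AlgInt) (hM : Cfsg.IsPModular 2 M) (B : Set (Cfsg.IrrCharacter G)) (hB : Cfsg.IsPBlock M B) (D : Subgroup G) (hD : Cfsg.IsDefectGroup 2 M B D) (z : G) (hzD : z ∈ D) (hzc : ∀ d ∈ D, d * z = z * d) (b : Set (Cfsg.IrrCharacter ↥(Subgroup.centralizer ({z} : Set G)))) (hb : Cfsg.IsInducedBlock M (Subgroup.centralizer ({z} : Set G)) b B) (hbD : Cfsg.IsDefectGroup 2 M b (D.subgroupOf (Subgroup.centralizer ({z} : Set G)))) (h : Nat.card B ≤ Cfsg.blockRank 2 b + 3) : Nat.card B ≤ 2 ^ Cfsg.blockDefect 2 B := by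
  classical
  have := Fact.mk Nat.prime_two
  obtain ⟨hz, hd⟩ := hD.major_subsection hM hzD hzc hb hbD
  obtain ⟨A, hA0, hsum, hA, hA'⟩ := hb.exists_avg_two hM hz rfl
  replace hA' := hA' hd
  rw [hd] at hsum hA'
  by_cases hd0 : blockDefect 2 B = 0
  · rw [hB.card_eq_one_of_blockDefect_eq_zero hM hd0, hd0]; rfl
  have hk0 : (0 : ℤ) < Nat.card B := by
    obtain ⟨χ, hχ⟩ := hB.nonempty hM
    exact_mod_cast (Finite.card_pos_iff (α := B)).2 ⟨⟨χ, hχ⟩⟩
  have hq : (0 : ℤ) < 2 ^ blockDefect 2 B := by positivity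
  have : (Nat.card B : ℤ) ≤ 2 ^ blockDefect 2 B := by
    by_cases h1 : ∃ χ ∈ B, blockHeight 2 B χ.1 = 0 ∧ 2 ^ blockDefect 2 B - A χ = 1
    · obtain ⟨χ, hχ, h0, h1⟩ := h1
      have h2 := ((hA' χ hχ).1 h0).2 hd0
      rwa [h1, mul_one] at h2
    · push Not at h1
      have h2 : ∑ _χ ∈ irrFinset B, (3 : ℤ) ≤ ∑ χ ∈ irrFinset B, (2 ^ blockDefect 2 B - A χ) := by
        refine Finset.sum_le_sum fun χ hχ => ?_
        have hχ' := mem_irrFinset.1 hχ
        by_cases h : blockHeight 2 B χ.1 = 0
        · obtain ⟨x, hx⟩ := (hA χ hχ' h).1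
          have h3 := ((hA' χ hχ').1 h).2 hd0
          have h4 : 0 < 2 ^ blockDefect 2 B - A χ :=
            (mul_pos_iff_of_pos_left hq).1 (hk0.trans_le h3)
          have := h1 χ hχ' h
          obtain ⟨y, hy⟩ : (2 : ℤ) ∣ 2 ^ blockDefect 2 B := dvd_pow_self 2 hd0
          omega
        · obtain ⟨-, h2, h3⟩ := (hA' χ hχ').2 h
          have h4 := hB.blockHeight_add_two_le hM hχ' h
          have h5 : (2 : ℤ) ^ 2 ∣ 2 ^ blockDefect 2 B - A χ :=
            dvd_sub (pow_dvd_pow 2 (by omega)) ((pow_dvd_pow 2 (by omega)).trans h3)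
          have := Int.le_of_dvd (sub_pos.2 h2) h5
          omega
      rw [Finset.sum_sub_distrib, hsum, Finset.sum_const, Finset.sum_const, card_irrFinset,
        nsmul_eq_mul, nsmul_eq_mul] at h2
      have h' : (Nat.card B : ℤ) ≤ blockRank 2 b + 3 := by exact_mod_cast h
      nlinarith
  exact_mod_cast this

end Cfsg.Agent.S4575
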