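import Cfsg.Statements.S4578
import Cfsg.Agent.Spin.Small
import Cfsg.Agent.Spin.TwoSpin
import Cfsg.Agent.Spin.TwoAlt

set_option autoImplicit false
open Cfsg

namespace Cfsg.Agent.S4578

/-- Let H be a finite quasisimple group whose central quotient H/Z(H) is isomorphic to the alternating group on n ≥ 5 letters, p any prime, M a maximal ideal of the algebraic integers containing p, and B a p-block of H with defect group D. For every irreducible character χ in B, p raised to the height of χ is at most the index of Z(D) in D, with equality exactly when D is abelian. -/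
theorem result {H : Type*} [Group H] [Finite H] (hq : Cfsg.IsQuasisimple H) (n : ℕ) (hn : 5 ≤ n) (e : H ⧸ Subgroup.center H ≃* alternatingGroup (Fin n)) (p : ℕ) [Fact p.Prime] (M : Ideal Cfsg.AlgInt) (hM : Cfsg.IsPModular p M) (B : Set (Cfsg.IrrCharacter H)) (hB : Cfsg.IsPBlock M B) (D : Subgroup H) (hD : Cfsg.IsDefectGroup p M B D) (χ : Cfsg.IrrCharacter H) (hχ : χ ∈ B) :
    Cfsg.blockHeight p B (χ : H → ℂ) ≤ ((Subgroup.center D).index).factorization p ∧
      (Cfsg.blockHeight p B (χ : H → ℂ) = ((Subgroup.center D).index).factorization p ↔ IsMulCommutative D) := by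
  let π : H →* Equiv.Perm (Fin n) :=
    (Subgroup.subtype _).comp (e.toMonoidHom.comp (QuotientGroup.mk' _))
  have C : AltCov.IsCov π := by
    refine ⟨fun h => (e h).2, fun σ hσ => ?_, fun h hh => Subgroup.mem_center_iff.1 ?_⟩
    · obtain ⟨x, hx⟩ := e.surjective ⟨σ, hσ⟩
      obtain ⟨h, rfl⟩ := QuotientGroup.mk_surjective x
      exact ⟨h, congrArg Subtype.val hx⟩
    · exact (QuotientGroup.eq_one_iff h).1 (e.map_eq_one_iff.1 (Subtype.ext hh))
  have hp : commutator H = ⊤ := hq.1.commutator_eq_top
  have hpp := hM.prime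
  change RobGoal p B D χ
  by_cases h8 : 8 ≤ n
  · have h8' : 8 ≤ Fintype.card (Fin n) := by simpa
    by_cases h2 : p = 2
    · subst h2
      by_cases hi : Function.Injective π
      · exact C.robGoal_two_alt hi hM hB hD hχ
      · exact C.robGoal_two_spin h8' hp hi hM hB hD hχ
    · exact C.robGoal_odd h8' hp hM h2 hB hD hχ
  have : Nontrivial (Fin n) := Fin.nontrivial_iff_two_le.2 (by omega)
  have hc : Nat.card (alternatingGroup (Fin n)) = n.factorial / 2 := by
    rw [nat_card_alternatingGroup]; simp
  by_cases h : p ^ 3 ∣ Nat.card (alternatingGroup (Fin n))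
  swap
  · exact C.robGoal_of_not_dvd hp hM hB hD hχ h
  have h7 : n.factorial / 2 ∣ 2520 := by interval_cases n <;> decide
  have hp2 : p = 2 := by
    have h1 := (hc ▸ h).trans h7
    have h2 : p ≤ 13 := by
      by_contra h3
      have := (Nat.pow_le_pow_left (show 14 ≤ p by omega) 3).trans (Nat.le_of_dvd (by decide) h1)
      omega
    interval_cases p <;> first | rfl | omega | (exact absurd hpp (by decide))
  subst hp2
  have h16 : ¬ 2 ^ 4 ∣ Nat.card (alternatingGroup (Fin n)) := fun h =>
    absurd ((hc ▸ h).trans h7) (by decide)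
  open Equiv in
  interval_cases n
  · exact absurd (hc ▸ h) (by decide)
  · exact C.robGoal_of_dihedral hp hM hB hD hχ h16 (c := swap 0 1 * swap 1 2 * swap 2 3 * swap 4 5)
      (s := swap 0 2 * swap 4 5) (by simp) (by simp) (by decide) (by decide) (by decide) (by decide)
  · exact C.robGoal_of_dihedral hp hM hB hD hχ h16 (c := swap 0 1 * swap 1 2 * swap 2 3 * swap 4 5)
      (s := swap 0 2 * swap 4 5) (by simp) (by simp) (by decide) (by decide) (by decide) (by decide)

end Cfsg.Agent.S4578
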