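import Cfsg.Statements.S4580
import Cfsg.Agent.Blk.RealBlock
import Cfsg.Agent.Blk.Orth
import Cfsg.Agent.CT.Gallagher

set_option autoImplicit false
open Cfsg

namespace Cfsg.Agent.S4580

/-- Let N be a normal subgroup of the finite group G, M a maximal ideal of the algebraic integers containing 2, and θ a real-valued irreducible character of N of odd degree that extends to G (some irreducible character of G restricts to θ). Then θ has an extension to G lying in the principal 2-block of G. -/
theorem result {G : Type*} [Group G] [Finite G] (N : Subgroup G) [N.Normal] (M : Ideal Cfsg.AlgInt) (hM : Cfsg.IsPModular 2 M) (θ : Cfsg.IrrCharacter N) (hreal : ∀ n : N, ((θ : N → ℂ) n).im = 0) (hodd : Odd (Cfsg.charDegree (θ : N → ℂ))) (hext : ∃ η : Cfsg.IrrCharacter G, ∀ n : N, (η : G → ℂ) n = (θ : N → ℂ) n) :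
    ∃ η : Cfsg.IrrCharacter G, (∀ n : N, (η : G → ℂ) n = (θ : N → ℂ) n) ∧ η ∈ Cfsg.principalBlock M G := by
  obtain ⟨η, hη⟩ := hext
  have hη' : ∀ n : N, η.cconj.1 n = θ.1 n := fun n => by
    rw [IrrCharacter.cconj_apply, hη, Complex.conj_eq_iff_im.2 (hreal n)]
  obtain ⟨l, hl, h⟩ := exists_linear_of_extends' η.2.isCharacter η.cconj.2.isCharacter hη hη'
  set m := Nat.card G / 2 ^ (Nat.card G).factorization 2 with hm
  have hmo : ¬ 2 ∣ m := Nat.not_dvd_ordCompl Nat.prime_two Nat.card_pos.ne'
  obtain ⟨r, hr⟩ : ∃ r, m + 1 = 2 * r := ⟨(m + 1) / 2, by omega⟩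
  have hext' : ∀ n : N, (η.twist (l ^ r)).1 n = θ.1 n := fun n => by
    rw [IrrCharacter.twist_apply, MonoidHom.pow_apply, hl n n.2, one_pow, Units.val_one, one_mul, hη]
  refine ⟨η.twist (l ^ r), hext', hM.mem_principalBlock_of_real ?_ ?_⟩
  · rwa [charDegree_eq_of_extends hext', ← even_iff_two_dvd, Nat.not_even_iff_odd]
  · refine hM.sameBlock_of_eq_on_pRegular fun g hg => ?_
    have h1 : g ^ m = 1 := by
      rw [← orderOf_dvd_iff_pow_eq_one]
      refine (Nat.Coprime.dvd_of_dvd_mul_left (k := orderOf g)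
        (m := 2 ^ (Nat.card G).factorization 2) ?_ ?_)
      · exact ((Nat.prime_two.coprime_iff_not_dvd.2 hg).symm).pow_right _
      · rw [hm, Nat.ordProj_mul_ordCompl_eq_self]; exact orderOf_dvd_natCard g
    have h2 : l g ^ r * l g ^ r = l g := by
      rw [← pow_add, ← two_mul, ← hr, pow_succ, ← map_pow, h1, map_one, one_mul]
    rw [IrrCharacter.cconj_apply', IrrCharacter.twist_apply, IrrCharacter.twist_apply,
      ← IrrCharacter.cconj_apply', h, MonoidHom.pow_apply, map_inv, MonoidHom.pow_apply,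
      ← mul_assoc, ← Units.val_mul]
    congr 2
    rw [eq_inv_mul_iff_mul_eq, h2]

end Cfsg.Agent.S4580
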