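import Cfsg.Statements.S4581
import Cfsg.Agent.CT.RealOdd

set_option autoImplicit false
open Cfsg

namespace Cfsg.Agent.S4581

theorem card_and_eq_iff {α : Type*} [Finite α] {P Q : α → Prop} :
    Nat.card {a // P a ∧ Q a} = Nat.card {a // Q a} ↔ ∀ a, Q a → P a := by
  refine ⟨fun h a ha => ?_, fun h => Nat.card_congr
    (Equiv.subtypeEquivRight fun a => ⟨fun h1 => h1.2, fun h1 => ⟨h a h1, h1⟩⟩)⟩
  have h1 : {a | P a ∧ Q a} = {a | Q a} :=
    Set.eq_of_subset_of_ncard_le (fun _ h => h.2) h.ge
  exact (h1.ge ha).1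

theorem two_group {P : Type*} [Group P] [Finite P] (hP : IsPGroup 2 P) :
    (∀ χ : IrrCharacter P, ¬ 2 ∣ charDegree χ.1 → χ.cconj = χ) ↔ commutator P = frattini P := by
  constructor
  · intro h
    refine le_antisymm (commutator_le_frattini_of_isPGroup hP) (frattini_le_of_isPGroup hP le_rfl
      fun g => mem_commutator_iff_forall_unitsHom.2 fun f => ?_)
    have h1 := congrFun (congrArg Subtype.val (h (IrrCharacter.ofHom f) (by simp))) g
    rw [IrrCharacter.cconj_apply', IrrCharacter.ofHom_apply, IrrCharacter.ofHom_apply,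
      Units.val_inj, map_inv] at h1
    rw [map_pow, sq]
    exact (congrArg (· * f g) h1).symm.trans (inv_mul_cancel _)
  · intro h χ h1
    obtain ⟨f, rfl⟩ := χ.exists_eq_ofHom (χ.charDegree_eq_one_of_isPGroup hP h1)
    refine Subtype.ext (funext fun g => ?_)
    rw [IrrCharacter.cconj_apply', IrrCharacter.ofHom_apply, IrrCharacter.ofHom_apply, map_inv,
      inv_eq_of_mul_eq_one_right (by
        rw [← map_mul, ← sq]
        exact mem_commutator_iff_forall_unitsHom.1 (h ▸ pow_mem_frattini_of_isPGroup hP g) f)]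

/-- Let G be a finite solvable group, P a Sylow 2-subgroup and N its normalizer. Then G and N have the same number of real-valued irreducible characters of odd degree; and every odd-degree irreducible character of G is real-valued exactly when the derived subgroup of P equals the Frattini subgroup of P and P is its own normalizer in G. -/
theorem result {G : Type*} [Group G] [Finite G] [Group.IsSolvable G] (P : Sylow 2 G) :
    Nat.card {χ : Cfsg.IrrCharacter G // (∀ g : G, ((χ : G → ℂ) g).im = 0) ∧ Odd (Cfsg.charDegree (χ : G → ℂ))} =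
      Nat.card {ψ : Cfsg.IrrCharacter (Subgroup.normalizer ((P : Subgroup G) : Set G)) // (∀ g, ((ψ : Subgroup.normalizer ((P : Subgroup G) : Set G) → ℂ) g).im = 0) ∧ Odd (Cfsg.charDegree (ψ : Subgroup.normalizer ((P : Subgroup G) : Set G) → ℂ))} ∧
    ((∀ χ : Cfsg.IrrCharacter G, Odd (Cfsg.charDegree (χ : G → ℂ)) → ∀ g : G, ((χ : G → ℂ) g).im = 0) ↔
      (commutator (P : Subgroup G) = frattini (P : Subgroup G) ∧ Subgroup.normalizer ((P : Subgroup G) : Set G) = (P : Subgroup G))) := by
  have h1 := card_realOdd_eq_normalizer inferInstance P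
  have h2 := (IsPSolvable.of_isSolvable 2 (G := G) inferInstance).mckay P
  simp only [← IrrCharacter.cconj_eq_self_iff, ← Nat.not_even_iff_odd, even_iff_two_dvd]
  refine ⟨h1, ?_⟩
  rw [← card_and_eq_iff, h2, show Nat.card {χ : IrrCharacter G // χ.cconj = χ ∧
    ¬ 2 ∣ charDegree χ.1} = _ from h1]
  refine card_and_eq_iff.trans ⟨fun h => ?_, fun h => ?_⟩
  · have h3 : Subgroup.normalizer ((P : Subgroup G) : Set G) = (P : Subgroup G) := by
      refine le_antisymm (fun g hg => ?_) Subgroup.le_normalizer
      by_contra h4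
      obtain ⟨χ, h5, h6⟩ := exists_irr_le_charKer_notMem
        ((P : Subgroup G).subgroupOf (Subgroup.normalizer ((P : Subgroup G) : Set G)))
        (g := ⟨g, hg⟩) h4
      obtain ⟨ψ, rfl⟩ := χ.exists_inflate_eq _ h5
      have h7 := not_dvd_relIndex_of_le (Subgroup.le_normalizer (H := (P : Subgroup G))) le_top
        (by rw [Subgroup.relIndex_top_right]; exact P.not_dvd_index)
      have h8 : ψ.cconj.inflate _ = ψ.inflate _ := h (ψ.inflate _) fun h8 =>
        h7 ((ψ.charDegree_inflate _ ▸ h8).trans ψ.charDegree_dvd_card)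
      rw [ψ.eq_triv_of_odd_of_cconj_eq (Nat.odd_iff.2 (Nat.two_dvd_ne_zero.1 h7))
        (IrrCharacter.inflate_injective _ h8)] at h6
      exact h6 ((IrrCharacter.mem_charKer _).2 rfl)
    rw [h3] at h
    exact ⟨(two_group P.isPGroup').1 h, h3⟩
  · rw [h.2]
    exact (two_group P.isPGroup').2 h.1

end Cfsg.Agent.S4581
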