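import Cfsg.Statements.S4582
import Cfsg.Agent.Grp.TateHom
-- import your own Cfsg.Agent.* helpers here

set_option autoImplicit false
open Cfsg

namespace Cfsg.Agent.S4582

/-- Let N be a normal subgroup of the finite group G, P a Sylow 2-subgroup of G and Q = P ∩ N. Suppose that P/QP' and Q/Q' are elementary abelian (every square of an element of P lies in the subgroup generated by Q and the derived subgroup of P, and every square of an element of Q lies in the derived subgroup of Q), and that the commutator factor group N/N' has odd order. Then P/P' is elementary abelian. -/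
theorem result {G : Type*} [Group G] [Finite G] (N : Subgroup G) [N.Normal] (P : Sylow 2 G)
    (hP : ∀ x ∈ (P : Subgroup G), x ^ 2 ∈ ((P : Subgroup G) ⊓ N) ⊔ ⁅(P : Subgroup G), (P : Subgroup G)⁆)
    (hQ : ∀ x ∈ (P : Subgroup G) ⊓ N, x ^ 2 ∈ ⁅(P : Subgroup G) ⊓ N, (P : Subgroup G) ⊓ N⁆)
    (hodd : Odd (Nat.card (Abelianization N))) :
    ∀ x ∈ (P : Subgroup G), x ^ 2 ∈ ⁅(P : Subgroup G), (P : Subgroup G)⁆ := by
  have hR : pResidual 2 N = ⊤ := by
    rw [pResidual_eq_top_iff_commutator]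
    exact hodd.not_two_dvd_nat
  have hc : ∀ x : (P : Subgroup G), x ∈ commutator (P : Subgroup G) ↔
      (x : G) ∈ ⁅(P : Subgroup G), (P : Subgroup G)⁆ := by
    intro x
    rw [← Subgroup.map_subtype_commutator]
    exact ⟨fun h => ⟨x, h, rfl⟩, fun ⟨y, hy, e⟩ => (show y = x from Subtype.ext e) ▸ hy⟩
  obtain ⟨L, h1, h2, h3⟩ := exists_ker_inf_le_of_pResidual_eq_top P N hR
    (N.subgroupOf P ⊓ commutator (P : Subgroup G)) inf_le_left
    (le_inf (Subgroup.commutator_le_left _ _) (Subgroup.commutator_mono le_top le_top))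
  have h4 := h3 2 fun q hq => ⟨(N.subgroupOf P).pow_mem hq 2, (hc _).2
    (Subgroup.commutator_mono inf_le_left inf_le_left (hQ q ⟨q.2, hq⟩))⟩
  intro x hx
  have hn : (P : Subgroup G) ⊓ N ≤ Subgroup.normalizer
      ((⁅(P : Subgroup G), (P : Subgroup G)⁆ : Subgroup G) : Set G) :=
    inf_le_left.trans (Subgroup.le_normalizer_iff_commutator_le_left.2
      (Subgroup.commutator_mono (Subgroup.commutator_le_self _) le_rfl))
  have h5 := hP x hx
  rw [sup_comm] at h5
  obtain ⟨y, hy, q, hq, e⟩ := (mem_sup_of_le_normalizer hn).1 h5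
  have hyP : y ∈ (P : Subgroup G) := Subgroup.commutator_le_self _ hy
  have h6 : (⟨q, hq.1⟩ : (P : Subgroup G)) ∈ L := by
    have : (⟨q, hq.1⟩ : (P : Subgroup G)) = (⟨y, hyP⟩ : (P : Subgroup G))⁻¹ * ⟨x, hx⟩ ^ 2 := by
      apply Subtype.ext
      simp [← e]
    rw [this]
    exact L.mul_mem (L.inv_mem (h1 ((hc _).2 hy))) (h4 _)
  have h7 := (hc _).1 (h2 ⟨h6, hq.2⟩).2
  rw [← e]
  exact Subgroup.mul_mem _ hy h7

end Cfsg.Agent.S4582
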