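import Cfsg.Statements.S4584
import Cfsg.Agent.Grp.PFour
-- import your own Cfsg.Agent.* helpers here

set_option autoImplicit false
open Cfsg

namespace Cfsg.Agent.S4584

/-- Let p be a prime and P a group of order p^4. Then the derived subgroup P' has order p if and only if the centre Z(P) has index p^2 in P. -/
theorem result {P : Type*} [Group P] [Finite P] (p : ℕ) [Fact p.Prime] (hP : Nat.card P = p ^ 4) :
    Nat.card (commutator P) = p ↔ (Subgroup.center P).index = p ^ 2 := by
  have hp : p.Prime := Fact.out
  by_cases hc : IsMulCommutative P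
  · have h1 : commutator P = ⊥ := by
      rw [commutator, Subgroup.commutator_eq_bot_iff_le_centralizer]
      exact fun a _ b _ => hc.is_comm.comm b a
    have h2 : Subgroup.center P = ⊤ := by
      rw [eq_top_iff]
      exact fun a _ => Subgroup.mem_center_iff.2 fun b => hc.is_comm.comm b a
    rw [h1, h2, Subgroup.card_bot, Subgroup.index_top]
    exact iff_of_false hp.one_lt.ne (Nat.one_lt_pow (by norm_num) hp.one_lt).ne
  · have h1 := card_commutator_mul_card_center_of_card_eq_pow_four hP hc
    have h2 := (Subgroup.center P).card_mul_index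
    rw [hP] at h2
    have hpos : 0 < Nat.card (Subgroup.center P) := Nat.card_pos
    constructor
    · intro h
      rw [h] at h1
      have h3 : Nat.card (Subgroup.center P) = p ^ 2 :=
        Nat.eq_of_mul_eq_mul_left hp.pos (by rw [h1]; ring)
      rw [h3] at h2
      exact Nat.eq_of_mul_eq_mul_left (pow_pos hp.pos 2) (by rw [h2]; ring)
    · intro h
      rw [h] at h2
      have h3 : Nat.card (Subgroup.center P) = p ^ 2 :=
        Nat.eq_of_mul_eq_mul_right (pow_pos hp.pos 2) (by rw [h2]; ring)
      rw [h3] at h1
      exact Nat.eq_of_mul_eq_mul_right (pow_pos hp.pos 2) (by rw [h1]; ring)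

end Cfsg.Agent.S4584
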