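import Cfsg.Statements.S4585
import Cfsg.Agent.Grp.PFour
-- import your own Cfsg.Agent.* helpers here

set_option autoImplicit false
open Cfsg

namespace Cfsg.Agent.S4585

/-- Let p be a prime and P a group of order p^4. Then P' has index p^2 in P if and only if P has maximal nilpotency class, that is, nilpotency class exactly 3. -/
theorem result {P : Type*} [Group P] [Finite P] (p : ℕ) [Fact p.Prime] (hP : Nat.card P = p ^ 4) :
    (commutator P).index = p ^ 2 ↔ Group.nilpotencyClass P = 3 := by
  have hp : p.Prime := Fact.out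
  have hG : IsPGroup p P := IsPGroup.of_card hP
  have hnil : Group.IsNilpotent P := hG.isNilpotent
  have hl2 : Group.nilpotencyClass P ≤ 2 ↔ commutator P ≤ Subgroup.center P := by
    rw [← Subgroup.lowerCentralSeries_eq_bot_iff_nilpotencyClass_le,
      Subgroup.lowerCentralSeries_succ, Subgroup.top_lowerCentralSeries_one,
      Subgroup.commutator_eq_bot_iff_le_centralizer, Subgroup.coe_top, Subgroup.centralizer_univ]
  have hidx := (commutator P).card_mul_index
  rw [hP] at hidx
  have hiff : (commutator P).index = p ^ 2 ↔ Nat.card (commutator P) = p ^ 2 := by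
    constructor
    · intro h
      rw [h] at hidx
      exact Nat.eq_of_mul_eq_mul_right (pow_pos hp.pos 2) (by rw [hidx]; ring)
    · intro h
      rw [h] at hidx
      exact Nat.eq_of_mul_eq_mul_left (pow_pos hp.pos 2) (by rw [hidx]; ring)
  rw [hiff]
  by_cases hc : IsMulCommutative P
  · have h1 : commutator P = ⊥ := by
      rw [commutator, Subgroup.commutator_eq_bot_iff_le_centralizer]
      exact fun a _ b _ => hc.is_comm.comm b a
    refine iff_of_false ?_ fun h => ?_
    · rw [h1, Subgroup.card_bot]
      exact (Nat.one_lt_pow (by norm_num) hp.one_lt).ne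
    · have := hl2.2 (h1 ▸ bot_le)
      omega
  have h1 := card_commutator_mul_card_center_of_card_eq_pow_four hP hc
  have hntop : Group.IsNilpotent (⊤ : Subgroup P) := inferInstance
  have hlt : ∀ Q : Subgroup P, Q.Normal → Q ≠ ⊥ → ⁅Q, (⊤ : Subgroup P)⁆ < Q := by
    intro Q hQ hQ1
    refine lt_of_le_of_ne (Subgroup.commutator_le_left _ _) fun h => hQ1 ?_
    exact eq_bot_of_le_commutator_of_isNilpotent hntop le_top h.ge
  constructor
  · intro h
    rw [h] at h1
    have h3 : Nat.card (Subgroup.center P) = p :=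
      Nat.eq_of_mul_eq_mul_left (pow_pos hp.pos 2) (by rw [h1]; ring)
    have h4 : ¬ Group.nilpotencyClass P ≤ 2 := by
      intro h5
      have h6 := Nat.le_of_dvd (Nat.card_pos) (Subgroup.card_dvd_of_le (hl2.1 h5))
      rw [h, h3] at h6
      have := hp.one_lt
      nlinarith
    have h5 : Group.nilpotencyClass P ≤ 3 := by
      rw [← Subgroup.lowerCentralSeries_eq_bot_iff_nilpotencyClass_le]
      by_contra h6
      have h7 : (⊤ : Subgroup P).lowerCentralSeries 2 ≠ ⊥ := fun h7 =>
        h6 (le_bot_iff.1 (h7 ▸ (⊤ : Subgroup P).lowerCentralSeries_antitone (by norm_num)))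
      have h8 : (⊤ : Subgroup P).lowerCentralSeries 1 ≠ ⊥ := fun h8 =>
        h7 (le_bot_iff.1 (h8 ▸ (⊤ : Subgroup P).lowerCentralSeries_antitone (by norm_num)))
      have d1 := mul_card_dvd_of_lt_of_isPGroup (hG.to_subgroup _) (hlt _ inferInstance h8)
      have d2 := mul_card_dvd_of_lt_of_isPGroup (hG.to_subgroup _) (hlt _ inferInstance h7)
      have d3 := dvd_card_of_isPGroup_of_ne_bot (hG.to_subgroup _) h6
      rw [← Subgroup.lowerCentralSeries_succ] at d1 d2
      rw [Subgroup.top_lowerCentralSeries_one, h] at d1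
      have d4 : p * p * p ∣ p ^ 2 :=
        (Nat.mul_dvd_mul_right ((Nat.mul_dvd_mul_right d3 p).trans d2) p).trans d1
      rw [show p * p * p = p ^ 3 by ring, Nat.pow_dvd_pow_iff_le_right hp.one_lt] at d4
      omega
    omega
  · intro h
    have h4 : ¬ commutator P ≤ Subgroup.center P := fun h4 => by
      have := hl2.2 h4
      omega
    have h5 : p ^ 2 ∣ (commutator P).index :=
      sq_dvd_index_commutator_of_not_isCyclic hG fun hcyc => hc inferInstance
    have h6 : commutator P ≠ ⊥ := fun h6 => h4 (h6 ▸ bot_le)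
    have h7 := inf_center_ne_bot_of_isNilpotent hnil h6
    have d1 := dvd_card_of_isPGroup_of_ne_bot (hG.to_subgroup _) h7
    have d2 := mul_card_dvd_of_lt_of_isPGroup (hG.to_subgroup (commutator P))
      (lt_of_le_of_ne (inf_le_left (b := Subgroup.center P)) fun h8 => h4 (h8 ▸ inf_le_right))
    have d3 : p ^ 2 ∣ Nat.card (commutator P) := by
      rw [sq]; exact (Nat.mul_dvd_mul_right d1 p).trans d2
    refine Nat.dvd_antisymm ?_ d3
    refine Nat.dvd_of_mul_dvd_mul_right (pow_pos hp.pos 2) ?_
    rw [← pow_add, ← hidx]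
    exact Nat.mul_dvd_mul_left _ h5

end Cfsg.Agent.S4585
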