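import Cfsg.Statements.S4586
import Cfsg.Agent.Grp.Misc
-- import your own Cfsg.Agent.* helpers here

set_option autoImplicit false
open Cfsg

namespace Cfsg.Agent.S4586

open scoped commutatorElement in
theorem key {P : Type*} [Group P] [Finite P] {p : ℕ} (hp : p.Prime) (N : Subgroup P) [N.Normal]
    (hN : N.index = p) (x : P) (hx : x ∉ N) :
    (commutator P).index * Nat.card (commutator N) = p *
      Nat.card {n : N // x * n * x⁻¹ * (n : P)⁻¹ ∈ (commutator N).map N.subtype} := by
  set D : Subgroup P := (commutator N).map N.subtype with hD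
  have hDn : D.Normal := normal_map_subtype_of_characteristic N _
  have hDN : D ≤ N := Subgroup.map_subtype_le _
  have hDeq : D = ⁅N, N⁆ := by
    rw [hD, Subgroup.map_subtype_commutator]
  have hDP : D ≤ commutator P := by
    rw [hDeq]; exact Subgroup.commutator_mono le_top le_top
  let A : Subgroup (P ⧸ D) := N.map (QuotientGroup.mk' D)
  have hAn : A.Normal := Subgroup.Normal.map inferInstance _ (QuotientGroup.mk'_surjective D)
  have hAc : IsMulCommutative A := by
    refine ⟨⟨?_⟩⟩
    rintro ⟨_, a, ha, rfl⟩ ⟨_, b, hb, rfl⟩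
    apply Subtype.ext
    change QuotientGroup.mk' D a * QuotientGroup.mk' D b = QuotientGroup.mk' D b * QuotientGroup.mk' D a
    rw [← map_mul, ← map_mul, QuotientGroup.mk'_apply, QuotientGroup.mk'_apply, QuotientGroup.eq]
    have : (a * b)⁻¹ * (b * a) = ⁅b⁻¹, a⁻¹⁆ := by simp [commutatorElement_def, mul_assoc]
    rw [this, hDeq]
    exact Subgroup.commutator_mem_commutator (N.inv_mem hb) (N.inv_mem ha)
  have htop : A ⊔ Subgroup.zpowers (QuotientGroup.mk' D x) = ⊤ := by
    rw [← MonoidHom.map_zpowers, ← Subgroup.map_sup,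
      sup_zpowers_eq_top_of_index_prime (hN ▸ hp) hx]
    exact Subgroup.map_top_of_surjective _ (QuotientGroup.mk'_surjective D)
  have h1 := card_eq_card_commutator_mul hAc htop
  have h2 : commutator (P ⧸ D) = (commutator P).map (QuotientGroup.mk' D) := by
    rw [commutator, commutator, Subgroup.map_commutator,
      Subgroup.map_top_of_surjective _ (QuotientGroup.mk'_surjective D)]
  have h3 : Nat.card D * Nat.card (commutator (P ⧸ D)) = Nat.card (commutator P) := by
    rw [h2, card_map_mk, card_mul_relIndex hDP]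
  have h4 : Nat.card D * Nat.card A = Nat.card N := by
    rw [card_map_mk, card_mul_relIndex hDN]
  have h5 : Nat.card D * Nat.card (A ⊓ Subgroup.centralizer
      ({QuotientGroup.mk' D x} : Set (P ⧸ D)) : Subgroup (P ⧸ D)) =
      Nat.card {n : N // x * n * x⁻¹ * (n : P)⁻¹ ∈ D} := by
    rw [← card_comap_mk]
    have hmem : ∀ n : P, n ∈ (A ⊓ Subgroup.centralizer
      ({QuotientGroup.mk' D x} : Set (P ⧸ D))).comap (QuotientGroup.mk' D) ↔
        n ∈ N ∧ x * n * x⁻¹ * n⁻¹ ∈ D := by
      intro n
      rw [Subgroup.comap_inf, Subgroup.mem_inf, comap_map_mk, sup_eq_left.2 hDN,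
        Subgroup.mem_comap, Subgroup.mem_centralizer_singleton_iff]
      refine and_congr_right fun _ => ?_
      rw [← QuotientGroup.eq_one_iff, ← QuotientGroup.mk'_apply, map_mul, map_mul, map_mul,
        map_inv, map_inv, mul_inv_eq_one, mul_inv_eq_iff_eq_mul, eq_comm]
    refine Nat.card_congr ⟨fun n => ⟨⟨n.1, ((hmem _).1 n.2).1⟩, ((hmem _).1 n.2).2⟩,
      fun n => ⟨n.1.1, (hmem _).2 ⟨n.1.2, n.2⟩⟩, fun _ => rfl, fun _ => rfl⟩
  have h6 : Nat.card D = Nat.card (commutator N) := card_map_subtype _
  have h7 := (commutator P).index_mul_card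
  have h8 := N.index_mul_card
  have hDpos : 0 < Nat.card D := Nat.card_pos
  have hPpos : 0 < Nat.card (commutator P) := Nat.card_pos
  rw [← h6, ← h5]
  refine Nat.eq_of_mul_eq_mul_right hPpos ?_
  calc (commutator P).index * Nat.card D * Nat.card (commutator P)
      = Nat.card P * Nat.card D := by rw [← h7]; ring
    _ = p * (Nat.card D * Nat.card A) * Nat.card D := by rw [h4, ← h8, hN]
    _ = _ := by rw [h1, ← h3]; ring



/-- Let p be a prime, P a finite p-group and N a normal subgroup of P of index p. For x ∈ P write c(x) for the number of elements n of N whose commutator x n x⁻¹ n⁻¹ lies in the derived subgroup N' (so c(x)/#N' is the order of the centralizer of x acting on N/N'). Then [P : P'] = p² if and only if c(x) = p·#N' for every x ∈ P outside N, and also if and only if c(x) = p·#N' for some x ∈ P outside N. -/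
theorem result {P : Type*} [Group P] [Finite P] (p : ℕ) [Fact p.Prime] (hP : IsPGroup p P) (N : Subgroup P) [N.Normal] (hN : N.index = p) :
    ((commutator P).index = p ^ 2 ↔ ∀ x : P, x ∉ N →
        Nat.card {n : N // x * n * x⁻¹ * (n : P)⁻¹ ∈ (commutator N).map N.subtype} = p * Nat.card (commutator N)) ∧
    ((commutator P).index = p ^ 2 ↔ ∃ x : P, x ∉ N ∧
        Nat.card {n : N // x * n * x⁻¹ * (n : P)⁻¹ ∈ (commutator N).map N.subtype} = p * Nat.card (commutator N)) := by
  have hp : p.Prime := Fact.out
  have hpos : 0 < Nat.card (commutator N) := Nat.card_pos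
  have hex : ∃ x : P, x ∉ N := by
    by_contra h
    push Not at h
    have : N = ⊤ := (Subgroup.eq_top_iff' N).2 h
    rw [this, Subgroup.index_top] at hN
    exact hp.one_lt.ne hN
  have hiff : ∀ x : P, x ∉ N → ((commutator P).index = p ^ 2 ↔
      Nat.card {n : N // x * n * x⁻¹ * (n : P)⁻¹ ∈ (commutator N).map N.subtype} =
        p * Nat.card (commutator N)) := by
    intro x hx
    have h := key hp N hN x hx
    constructor
    · intro h1
      rw [h1] at h
      refine Nat.eq_of_mul_eq_mul_left hp.pos ?_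
      rw [← h]; ring
    · intro h1
      rw [h1] at h
      refine Nat.eq_of_mul_eq_mul_right hpos ?_
      rw [h]; ring
  refine ⟨⟨fun h x hx => (hiff x hx).1 h, fun h => ?_⟩, ⟨fun h => ?_, ?_⟩⟩
  · obtain ⟨x, hx⟩ := hex
    exact (hiff x hx).2 (h x hx)
  · obtain ⟨x, hx⟩ := hex
    exact ⟨x, hx, (hiff x hx).1 h⟩
  · rintro ⟨x, hx, h⟩
    exact (hiff x hx).2 h

end Cfsg.Agent.S4586
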