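import Cfsg.Statements.S4587
import Cfsg.Agent.Grp.TransferFormula
-- import your own Cfsg.Agent.* helpers here

set_option autoImplicit false
open Cfsg

namespace Cfsg.Agent.S4587

open scoped Pointwise commutatorElement

section PGroup

variable {P : Type*} [Group P] [Finite P] {p : ℕ} [Fact p.Prime]

theorem commutator_le_of_sup_zpowers {Q : Subgroup P} [Q.Normal] {x : P}
    (h : Q ⊔ Subgroup.zpowers x = ⊤) : commutator P ≤ ⁅Q, (⊤ : Subgroup P)⁆ := by
  set D : Subgroup P := ⁅Q, (⊤ : Subgroup P)⁆ with hD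
  rw [← Subgroup.Normal.quotient_commutative_iff_commutator_le]
  have hZ : Q.map (QuotientGroup.mk' D) ≤ Subgroup.center (P ⧸ D) := by
    rintro _ ⟨a, ha, rfl⟩
    rw [Subgroup.mem_center_iff]
    intro b
    obtain ⟨b, rfl⟩ := QuotientGroup.mk'_surjective D b
    rw [← map_mul, ← map_mul, QuotientGroup.mk'_apply, QuotientGroup.mk'_apply, QuotientGroup.eq]
    have : (b * a)⁻¹ * (a * b) = ⁅a⁻¹, b⁻¹⁆ := by simp [commutatorElement_def, mul_assoc]
    rw [this]
    exact Subgroup.commutator_mem_commutator (Q.inv_mem ha) trivial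
  have h1 : IsMulCommutative (Q.map (QuotientGroup.mk' D)) :=
    ⟨⟨fun a b => Subtype.ext (Subgroup.mem_center_iff.1 (hZ b.2) a)⟩⟩
  have h2 := isMulCommutative_sup_zpowers h1 (x := QuotientGroup.mk' D x)
    fun z hz => (Subgroup.mem_center_iff.1 (hZ hz) _).symm
  rw [← MonoidHom.map_zpowers, ← Subgroup.map_sup, h,
    Subgroup.map_top_of_surjective _ (QuotientGroup.mk'_surjective D)] at h2
  exact ⟨⟨fun a b => setLike_mul_comm (s := (⊤ : Subgroup (P ⧸ D))) trivial trivial⟩⟩

theorem isCyclic_of_relIndex_dvd {A : Subgroup P} (hA : IsPGroup p A)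
    (h : (⁅A, A⁆ : Subgroup P).relIndex A ∣ p) : IsCyclic A := by
  have hp : p.Prime := Fact.out
  by_contra hc
  have h1 := sq_dvd_index_commutator_of_not_isCyclic hA hc
  have h2 : (⁅A, A⁆ : Subgroup P).relIndex A = (commutator A).index := by
    rw [← Subgroup.map_subtype_commutator, Subgroup.relIndex, Subgroup.subgroupOf,
      Subgroup.comap_map_eq_self_of_injective A.subtype_injective]
  rw [h2] at h
  have h3 := Nat.le_of_dvd hp.pos (h1.trans h)
  have := hp.one_lt
  nlinarith

theorem dvd_relIndex_commutator_top (hP : IsPGroup p P) {A : Subgroup P} [A.Normal]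
    (hA : A ≠ ⊥) : p ∣ (⁅A, (⊤ : Subgroup P)⁆ : Subgroup P).relIndex A := by
  have hnil : Group.IsNilpotent P := hP.isNilpotent
  have hlt : ⁅A, (⊤ : Subgroup P)⁆ < A := by
    refine lt_of_le_of_ne (Subgroup.commutator_le_left _ _) fun h => hA ?_
    exact eq_bot_of_le_commutator_of_isNilpotent inferInstance le_top h.ge
  have h1 := mul_card_dvd_of_lt_of_isPGroup (hP.to_subgroup A) hlt
  rw [← card_mul_relIndex hlt.le] at h1
  exact Nat.dvd_of_mul_dvd_mul_left Nat.card_pos h1

theorem lemX (hP : IsPGroup p P) (hi : (commutator P).index = p ^ 2) {A B : Subgroup P}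
    [A.Normal] [B.Normal] (hAB : A ⊓ B = ⊥) (hA : A ≠ ⊥) (hB : B ≠ ⊥) {x : P}
    (hx : A ⊔ B ⊔ Subgroup.zpowers x = ⊤) : IsMulCommutative P := by
  have hp : p.Prime := Fact.out
  set A₀ : Subgroup P := ⁅A, (⊤ : Subgroup P)⁆ with hA₀
  set B₀ : Subgroup P := ⁅B, (⊤ : Subgroup P)⁆ with hB₀
  have hA₀A : A₀ ≤ A := Subgroup.commutator_le_left _ _
  have hB₀B : B₀ ≤ B := Subgroup.commutator_le_left _ _
  have h1 : commutator P ≤ A₀ ⊔ B₀ := by
    refine (commutator_le_of_sup_zpowers hx).trans ?_
    rw [Subgroup.commutator_le]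
    intro g hg h _
    obtain ⟨a, ha, b, hb, rfl⟩ := mem_sup_normal_left.1 hg
    have : ⁅a * b, h⁆ = (a * ⁅b, h⁆ * a⁻¹) * ⁅a, h⁆ := by
      simp [commutatorElement_def, mul_assoc]
    rw [this]
    refine Subgroup.mul_mem _ (Subgroup.mem_sup_right ?_) (Subgroup.mem_sup_left ?_)
    · exact Subgroup.Normal.conj_mem inferInstance _
        (Subgroup.commutator_mem_commutator hb (Subgroup.mem_top h)) _
    · exact Subgroup.commutator_mem_commutator ha trivial
  have c1 : Nat.card (A ⊔ B : Subgroup P) = Nat.card A * Nat.card B :=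
    card_sup_of_disjoint (Subgroup.le_normalizer_of_normal) hAB
  have c2 : Nat.card (A₀ ⊔ B₀ : Subgroup P) = Nat.card A₀ * Nat.card B₀ :=
    card_sup_of_disjoint (Subgroup.le_normalizer_of_normal)
      (le_bot_iff.1 (hAB ▸ inf_le_inf hA₀A hB₀B))
  have c3 : (A₀ ⊔ B₀).index = (A ⊔ B).index * (A₀.relIndex A * B₀.relIndex B) := by
    refine Nat.eq_of_mul_eq_mul_left (Nat.card_pos (α := (A₀ ⊔ B₀ : Subgroup P))) ?_
    rw [Subgroup.card_mul_index, ← (A ⊔ B).card_mul_index, c1, c2, ← card_mul_relIndex hA₀A,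
      ← card_mul_relIndex hB₀B]
    ring
  have c4 : (A ⊔ B).index * (A₀.relIndex A * B₀.relIndex B) ∣ p ^ 2 := by
    rw [← c3, ← hi]; exact Subgroup.index_dvd_of_le h1
  obtain ⟨a, ha⟩ := dvd_relIndex_commutator_top hP hA
  obtain ⟨b, hb⟩ := dvd_relIndex_commutator_top hP hB
  rw [← hA₀] at ha
  rw [← hB₀] at hb
  rw [ha, hb] at c4
  have c5 : (A ⊔ B).index * a * b ∣ 1 := by
    refine Nat.dvd_of_mul_dvd_mul_left (pow_pos hp.pos 2) ?_
    rw [mul_one]
    convert c4 using 1
    ring
  have c6 := Nat.eq_one_of_dvd_one c5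
  have hb1 : b = 1 := Nat.eq_one_of_mul_eq_one_left c6
  have ha1 : a = 1 := Nat.eq_one_of_mul_eq_one_left (Nat.eq_one_of_mul_eq_one_right c6)
  have htop : A ⊔ B = ⊤ := Subgroup.index_eq_one.1
    (Nat.eq_one_of_mul_eq_one_right (Nat.eq_one_of_mul_eq_one_right c6))
  have hcyc : ∀ A B : Subgroup P, A.Normal → B.Normal → A ⊓ B = ⊥ → A ⊔ B = ⊤ →
      (⁅A, (⊤ : Subgroup P)⁆ : Subgroup P).relIndex A = p → IsCyclic A := by
    intro A B _ _ hAB htop h
    refine isCyclic_of_relIndex_dvd (hP.to_subgroup A) ?_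
    have : ⁅A, (⊤ : Subgroup P)⁆ = ⁅A, A⁆ := by
      refine le_antisymm ?_ (Subgroup.commutator_mono le_rfl le_top)
      rw [Subgroup.commutator_le]
      intro a ha g _
      obtain ⟨a', ha', b, hb, rfl⟩ := mem_sup_normal_left.1 (htop.ge (Subgroup.mem_top g))
      have hab := commute_of_normal_of_inf_eq_bot hAB ha hb
      have : ⁅a, a' * b⁆ = ⁅a, a'⁆ := by
        simp only [commutatorElement_def, mul_inv_rev]
        have h3 : b * a⁻¹ = a⁻¹ * b := by
          rw [mul_inv_eq_iff_eq_mul, mul_assoc, ← hab, inv_mul_cancel_left]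
        calc a * (a' * b) * a⁻¹ * (b⁻¹ * a'⁻¹) = a * a' * (b * a⁻¹) * b⁻¹ * a'⁻¹ := by group
          _ = _ := by rw [h3]; group
      rw [this]
      exact Subgroup.commutator_mem_commutator ha ha'
    rw [← this, h]
  have hAc := hcyc A B inferInstance inferInstance hAB htop (by rw [ha, ha1, mul_one])
  have hBc := hcyc B A inferInstance inferInstance (by rw [inf_comm, hAB])
    (by rw [sup_comm, htop]) (by rw [hb, hb1, mul_one])
  refine ⟨⟨fun g h => ?_⟩⟩
  obtain ⟨a, ha, b, hb, rfl⟩ := mem_sup_normal_left.1 (htop.ge (Subgroup.mem_top g))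
  obtain ⟨a', ha', b', hb', rfl⟩ := mem_sup_normal_left.1 (htop.ge (Subgroup.mem_top h))
  have e1 := commute_of_normal_of_inf_eq_bot hAB ha hb'
  have e2 := commute_of_normal_of_inf_eq_bot hAB ha' hb
  have e3 : a * a' = a' * a := setLike_mul_comm ha ha'
  have e4 : b * b' = b' * b := setLike_mul_comm hb hb'
  calc a * b * (a' * b') = a * (b * a') * b' := by group
    _ = (a * a') * (b * b') := by rw [← e2]; group
    _ = a' * (a * b') * b := by rw [e3, e4]; group
    _ = _ := by rw [e1]; group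

theorem lemY (hP : IsPGroup p P) (hi : (commutator P).index = p ^ 2) {Q R W : Subgroup P}
    [hn : Q.Normal] (hQ : Q.index = p) (hRW : R ⊔ W = Q) (hd : R ⊓ W = ⊥)
    (hc : R ≤ Subgroup.centralizer (W : Set P)) (h : ∀ u : P, u ∉ Q → ∀ r ∈ R, u⁻¹ * r * u ∈ W) :
    ⁅Q, Q⁆ ≤ W := by
  have hp : p.Prime := Fact.out
  have hRQ : R ≤ Q := hRW ▸ le_sup_left
  have hWQ : W ≤ Q := hRW ▸ le_sup_right
  have hRW' : R ≤ Subgroup.normalizer (W : Set P) := hc.trans (Subgroup.centralizer_le_normalizer _)
  have hdec : ∀ q ∈ Q, ∃ w ∈ W, ∃ r ∈ R, w * r = q := fun q hq => by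
    rw [← hRW, sup_comm] at hq
    exact (mem_sup_of_le_normalizer hRW').1 hq
  set K : Subgroup P := W ⊔ ⁅R, R⁆ with hK
  have hRR : ⁅R, R⁆ ≤ R := Subgroup.commutator_le_self R
  have hQK : ⁅Q, Q⁆ ≤ K := by
    rw [Subgroup.commutator_le]
    intro a ha b hb
    obtain ⟨w, hw, r, hr, rfl⟩ := hdec a ha
    obtain ⟨w', hw', r', hr', rfl⟩ := hdec b hb
    have e1 : w * r' = r' * w := hc hr' w hw
    have e2 : w' * r = r * w' := hc hr w' hw'
    have e3 : w * r = r * w := hc hr w hw
    have e4 : w' * r' = r' * w' := hc hr' w' hw'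
    have c1 : Commute w r' := e1
    have c2 : Commute w' r := e2
    have c3 : Commute w r := e3
    have c4 : Commute w' r' := e4
    have : ⁅w * r, w' * r'⁆ = ⁅w, w'⁆ * ⁅r, r'⁆ := by
      simp only [commutatorElement_def, mul_inv_rev]
      have t1 : Commute (w⁻¹ * w'⁻¹) (r * r' * r⁻¹ * r'⁻¹) := by
        refine Commute.mul_left ?_ ?_ <;> refine Commute.inv_left ?_
        · exact ((c3.mul_right c1).mul_right c3.inv_right).mul_right c1.inv_right
        · exact ((c2.mul_right c4).mul_right c2.inv_right).mul_right c4.inv_right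
      calc w * r * (w' * r') * (r⁻¹ * w⁻¹) * (r'⁻¹ * w'⁻¹)
          = w * (r * w') * r' * r⁻¹ * (w⁻¹ * r'⁻¹) * w'⁻¹ := by group
        _ = w * w' * ((r * r' * r⁻¹ * r'⁻¹) * (w⁻¹ * w'⁻¹)) := by
            rw [← e2, c1.inv_inv.eq]; group
        _ = _ := by rw [← t1.eq]; group
    rw [this]
    exact K.mul_mem (Subgroup.mem_sup_left (Subgroup.commutator_le_self W
      (Subgroup.commutator_mem_commutator hw hw')))
      (Subgroup.mem_sup_right (Subgroup.commutator_mem_commutator hr hr'))
  have hle : commutator Q ≤ K.subgroupOf Q := by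
    rw [Subgroup.subgroupOf, ← Subgroup.map_le_iff_le_comap, Subgroup.map_subtype_commutator]
    exact hQK
  have hKn : (K.subgroupOf Q).Normal := Subgroup.Normal.of_commutator_le _ hle
  have hcomm : IsMulCommutative (Q ⧸ K.subgroupOf Q) :=
    Subgroup.Normal.quotient_commutative_iff_commutator_le.2 hle
  let _ : CommGroup (Q ⧸ K.subgroupOf Q) := ⟨hcomm.is_comm.comm⟩
  have key : R ⊓ commutator P ≤ ⁅R, R⁆ := by
    intro r hr
    have h1 := Abelianization.commutator_subset_ker
      (MonoidHom.transfer (QuotientGroup.mk' (K.subgroupOf Q))) hr.2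
    rw [MonoidHom.mem_ker, transfer_eq_of_normal_of_forall _ (hRQ hr.1) fun u hu => by
      rw [QuotientGroup.mk'_apply, QuotientGroup.eq_one_iff, Subgroup.mem_subgroupOf]
      exact Subgroup.mem_sup_left (h u hu r hr.1), QuotientGroup.mk'_apply,
      QuotientGroup.eq_one_iff, Subgroup.mem_subgroupOf] at h1
    obtain ⟨w, hw, c, hc', e⟩ := (mem_sup_of_le_normalizer (hRR.trans hRW')).1 h1
    have h2 : w ∈ R ⊓ W := ⟨by
      have : w = r * c⁻¹ := by rw [eq_mul_inv_iff_mul_eq]; exact e
      rw [this]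
      exact R.mul_mem hr.1 (R.inv_mem (hRR hc')), hw⟩
    rw [hd, Subgroup.mem_bot] at h2
    rw [h2, one_mul] at e
    have e' : c = r := e
    exact e' ▸ hc'
  suffices hcyc : IsCyclic R by
    have : ⁅R, R⁆ = ⊥ := by
      rw [Subgroup.commutator_eq_bot_iff_le_centralizer]
      exact fun a ha b hb => setLike_mul_comm hb ha
    rwa [hK, this, sup_bot_eq] at hQK
  refine isCyclic_of_relIndex_dvd (hP.to_subgroup R) ?_
  have hPQ : commutator P ≤ Q := by
    rw [← Subgroup.Normal.quotient_commutative_iff_commutator_le]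
    have : IsCyclic (P ⧸ Q) := isCyclic_of_prime_card (p := p) (by rw [← hQ]; rfl)
    infer_instance
  have d1 : (commutator P).relIndex Q = p := by
    have := Subgroup.relIndex_mul_index hPQ
    rw [hi, hQ, sq] at this
    exact Nat.eq_of_mul_eq_mul_right hp.pos this
  have d2 : (commutator P).relIndex R ∣ (commutator P).relIndex Q :=
    relIndex_dvd_relIndex_of_normal _ hRQ
  rw [d1] at d2
  refine dvd_trans ?_ d2
  rw [← Subgroup.inf_relIndex_right (commutator P) R]
  exact Subgroup.relIndex_dvd_of_le_left _ (by rw [inf_comm]; exact key)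

theorem lemZ (hP : IsPGroup p P) (hi : (commutator P).index = p ^ 2) {Q : Subgroup P}
    [hn : Q.Normal] (hQ : ¬ Q ≤ commutator P) :
    Q.index ∣ p ∧ ∃ x, Q ⊔ Subgroup.zpowers x = ⊤ := by
  have hp : p.Prime := Fact.out
  have h1 : (commutator P ⊔ Q).index ∣ p := by
    have hlt : commutator P < commutator P ⊔ Q :=
      lt_of_le_of_ne le_sup_left fun h => hQ (h ▸ le_sup_right)
    have h2 := mul_card_dvd_of_lt_of_isPGroup (hP.to_subgroup _) hlt
    have h3 := (commutator P).card_mul_index
    rw [hi, ← (commutator P ⊔ Q).card_mul_index] at h3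
    obtain ⟨c, hc⟩ := h2
    rw [hc] at h3
    refine ⟨c, Nat.eq_of_mul_eq_mul_left
      (Nat.mul_pos (Nat.card_pos (α := commutator P)) hp.pos) ?_⟩
    rw [mul_assoc, ← sq, h3]; ring
  have h2 : commutator (P ⧸ Q) = (commutator P).map (QuotientGroup.mk' Q) := by
    rw [commutator, commutator, Subgroup.map_commutator,
      Subgroup.map_top_of_surjective _ (QuotientGroup.mk'_surjective Q)]
  have h3 : IsCyclic (P ⧸ Q) := by
    by_contra hc
    have h4 := sq_dvd_index_commutator_of_not_isCyclic (hP.to_quotient Q) hc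
    rw [h2, index_map_mk] at h4
    have h5 := Nat.le_of_dvd hp.pos (h4.trans h1)
    have := hp.one_lt
    nlinarith
  have h4 : commutator P ≤ Q := by
    rw [← Subgroup.Normal.quotient_commutative_iff_commutator_le]
    infer_instance
  rw [sup_eq_right.2 h4] at h1
  refine ⟨h1, ?_⟩
  obtain ⟨y, hy⟩ := isCyclic_iff_exists_zpowers_eq_top.1 h3
  obtain ⟨x, rfl⟩ := QuotientGroup.mk'_surjective _ y
  refine ⟨x, ?_⟩
  rw [sup_comm, ← map_mk_eq_top_iff, MonoidHom.map_zpowers, hy]

theorem lemW (hi : (commutator P).index = p ^ 2) {Q : Subgroup P}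
    [hn : Q.Normal] (hQ : Q.index = p) (hc : IsMulCommutative Q) {x : P} (hx : x ∉ Q) :
    Nat.card (Subgroup.centralizer ({x} : Set P)) = p ^ 2 := by
  have hp : p.Prime := Fact.out
  have htop := sup_zpowers_eq_top_of_index_prime (hQ ▸ hp) hx
  have h1 := card_eq_card_commutator_mul hc htop
  have h2 := card_inf_mul_relIndex Q (Subgroup.centralizer ({x} : Set P))
  have h3 : Q ⊔ Subgroup.centralizer ({x} : Set P) = ⊤ := by
    rw [eq_top_iff, ← htop]
    refine sup_le_sup_left ?_ _
    rw [Subgroup.zpowers_le, Subgroup.mem_centralizer_singleton_iff]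
  rw [← Subgroup.relIndex_sup_left, h3, Subgroup.relIndex_top_right, hQ] at h2
  have h4 := (commutator P).card_mul_index
  rw [hi, ← Q.card_mul_index, hQ, h1, mul_assoc, h2] at h4
  exact (Nat.eq_of_mul_eq_mul_left Nat.card_pos h4).symm

end PGroup


section Main

variable {G : Type*} [Group G] [Finite G] {p : ℕ} [Fact p.Prime]

omit [Finite G] in
theorem relIndex_comm_eq (P : Subgroup G) :
    (⁅P, P⁆ : Subgroup G).relIndex P = (commutator P).index := by
  rw [← Subgroup.map_subtype_commutator, Subgroup.relIndex, Subgroup.subgroupOf,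
    Subgroup.comap_map_eq_self_of_injective P.subtype_injective]

theorem lemF (P : Sylow p G) (hi : (commutator (P : Subgroup G)).index = p ^ 2) {N : Subgroup G}
    [hn : N.Normal] (hQ : (N.subgroupOf P).index = p) (hc : IsMulCommutative (N.subgroupOf P)) :
    ∃ x : G, (∃ k : ℕ, orderOf x = p ^ k) ∧
      (Nat.card (Subgroup.centralizer ({x} : Set G))).factorization p = 2 := by
  have hp : p.Prime := Fact.out
  obtain ⟨x, hx⟩ : ∃ x : (P : Subgroup G), x ∉ N.subgroupOf P := by
    by_contra h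
    push Not at h
    rw [(Subgroup.eq_top_iff' _).2 h, Subgroup.index_top] at hQ
    exact hp.one_lt.ne hQ
  have hall : ∀ y ∈ (P : Subgroup G), y ∉ N →
      Nat.card (Subgroup.centralizer ({y} : Set G) ⊓ P : Subgroup G) = p ^ 2 := by
    intro y hy hyN
    have := lemW hi hQ hc (x := ⟨y, hy⟩) hyN
    rwa [centralizer_singleton_subgroupOf, card_subgroupOf] at this
  refine ⟨x, ?_, ?_⟩
  · obtain ⟨k, hk⟩ := IsPGroup.iff_orderOf.1 P.isPGroup' x
    exact ⟨k, by rw [← hk, Subgroup.orderOf_coe]⟩
  obtain ⟨S, hRS, hSC, hS, hSi⟩ := exists_le_sylowIn (H := Subgroup.centralizer ({(x : G)} : Set G))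
    (R := Subgroup.centralizer ({(x : G)} : Set G) ⊓ P) (P.isPGroup'.to_inf_right) inf_le_left
  have h1 := card_sylowIn hSC hS hSi
  obtain ⟨g, hg⟩ := exists_conj_smul_le_sylow P hS
  have hxS : (x : G) ∈ S := hRS ⟨Subgroup.mem_centralizer_singleton_iff.2 rfl, x.2⟩
  have h2 := hall (g * x * g⁻¹) (hg (conj_mem_conj_smul_iff.2 hxS)) fun h => hx (by
    have := hn.conj_mem' _ h g
    simpa [mul_assoc, Subgroup.mem_subgroupOf] using this)
  have h3 : Nat.card S ∣ p ^ 2 := by
    rw [← h2, ← card_conj_smul S g]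
    refine Subgroup.card_dvd_of_le (le_inf ?_ hg)
    rw [centralizer_conj_singleton]
    exact Subgroup.pointwise_smul_le_pointwise_smul_iff.2 hSC
  have h4 : p ^ 2 ∣ Nat.card S := by
    rw [← hall x x.2 hx]
    exact Subgroup.card_dvd_of_le hRS
  rw [Nat.dvd_antisymm h3 h4] at h1
  exact (Nat.pow_right_injective hp.two_le h1).symm

/-- minimal `N`-invariant subgroups of `N` -/
def MinN (N S : Subgroup G) : Prop :=
  S ≤ N ∧ N ≤ Subgroup.normalizer (S : Set G) ∧ S ≠ ⊥ ∧
    ∀ K : Subgroup G, K ≤ S → N ≤ Subgroup.normalizer (K : Set G) → K = ⊥ ∨ K = S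

theorem exists_minN {N : Subgroup G} (h : N ≠ ⊥) : ∃ S, MinN N S := by
  obtain ⟨S, ⟨h1, h2, h3⟩, hS⟩ := (wellFounded_lt (α := Subgroup G)).has_min
    {S : Subgroup G | S ≤ N ∧ N ≤ Subgroup.normalizer (S : Set G) ∧ S ≠ ⊥}
    ⟨N, le_rfl, Subgroup.le_normalizer, h⟩
  refine ⟨S, h1, h2, h3, fun K hK hN => ?_⟩
  by_contra hc
  push Not at hc
  exact hS K ⟨hK.trans h1, hN, hc.1⟩ (lt_of_le_of_ne hK hc.2)

omit [Finite G] in
theorem MinN.conj {N S : Subgroup G} [hn : N.Normal] (h : MinN N S) (g : G) :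
    MinN N (MulAut.conj g • S) := by
  have hN : ∀ g : G, MulAut.conj g • N = N := fun g =>
    conj_smul_eq_iff_mem_normalizer.2 (Subgroup.le_normalizer_of_normal (Subgroup.mem_top g))
  refine ⟨?_, ?_, ?_, fun K hK hNK => ?_⟩
  · rw [← hN g]; exact Subgroup.pointwise_smul_le_pointwise_smul_iff.2 h.1
  · rw [normalizer_conj_smul, ← hN g]
    exact Subgroup.pointwise_smul_le_pointwise_smul_iff.2 h.2.1
  · intro h1
    apply h.2.2.1
    have := congrArg (MulAut.conj g⁻¹ • ·) h1
    simpa [conj_smul_conj_smul] using this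
  · have h1 : MulAut.conj g⁻¹ • K ≤ S := by
      have := Subgroup.pointwise_smul_le_pointwise_smul_iff (a := MulAut.conj g⁻¹).2 hK
      simpa [conj_smul_conj_smul] using this
    have h2 : N ≤ Subgroup.normalizer ((MulAut.conj g⁻¹ • K : Subgroup G) : Set G) := by
      rw [normalizer_conj_smul, ← hN g⁻¹]
      exact Subgroup.pointwise_smul_le_pointwise_smul_iff.2 hNK
    rcases h.2.2.2 _ h1 h2 with h3 | h3
    · left
      have := congrArg (MulAut.conj g • ·) h3
      simpa [conj_smul_conj_smul] using this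
    · right
      rw [← h3]
      simp [conj_smul_conj_smul]

omit [Finite G] in
theorem MinN.le_centralizer {N S T : Subgroup G} (hS : MinN N S) (hT : MinN N T) (h : S ≠ T) :
    T ≤ Subgroup.centralizer (S : Set G) := by
  have h1 : S ⊓ T = ⊥ := by
    have hn : N ≤ Subgroup.normalizer ((S ⊓ T : Subgroup G) : Set G) :=
      (le_inf hS.2.1 hT.2.1).trans Subgroup.inf_normalizer_le_normalizer_inf
    rcases hS.2.2.2 _ inf_le_left hn with h2 | h2
    · exact h2
    · rcases hT.2.2.2 _ inf_le_right hn with h3 | h3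
      · exact h3
      · exact absurd (h2.symm.trans h3) h
  intro t ht s hs
  have h2 : s * t * s⁻¹ * t⁻¹ ∈ S ⊓ T := by
    constructor
    · have := (Subgroup.mem_normalizer_iff.1 (hS.2.1 (hT.1 ht)) s⁻¹).1 (S.inv_mem hs)
      have h3 := S.mul_mem hs this
      simpa [mul_assoc] using h3
    · have := (Subgroup.mem_normalizer_iff.1 (hT.2.1 (hS.1 hs)) t).1 ht
      exact T.mul_mem this (T.inv_mem ht)
  rw [h1, Subgroup.mem_bot, mul_inv_eq_one, mul_inv_eq_iff_eq_mul] at h2
  exact h2

omit [Finite G] in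
theorem MinN.le_of_forall {N S : Subgroup G} (hN : IsMinNormal N) (hS : MinN N S)
    {L : Subgroup G} (h : ∀ g : G, MulAut.conj g • S ≤ L) : N ≤ L := by
  have hn := hN.1
  have h1 : Subgroup.normalClosure (S : Set G) ≤ N := Subgroup.normalClosure_le_normal hS.1
  rcases hN.2.2 _ inferInstance h1 with h2 | h2
  · exact absurd (le_bot_iff.1 (h2 ▸ Subgroup.le_normalClosure)) hS.2.2.1
  · rw [← h2, Subgroup.normalClosure, Subgroup.closure_le]
    intro x hx
    obtain ⟨s, hs, hx⟩ := Group.mem_conjugatesOfSet_iff.1 hx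
    obtain ⟨g, rfl⟩ := isConj_iff.1 hx
    exact h g (conj_mem_conj_smul_iff.2 hs)

theorem MinN.inf_centralizer {N S : Subgroup G} (hN : IsMinNormal N) (hc : ¬ IsMulCommutative N)
    (hS : MinN N S) : S ⊓ Subgroup.centralizer (S : Set G) = ⊥ := by
  have hn := hN.1
  have h1 : N ≤ Subgroup.normalizer ((S ⊓ Subgroup.centralizer (S : Set G) : Subgroup G) : Set G) :=
    (le_inf hS.2.1 (hS.2.1.trans (normalizer_le_normalizer_centralizer' S))).trans
      Subgroup.inf_normalizer_le_normalizer_inf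
  refine (hS.2.2.2 _ inf_le_left h1).resolve_right fun h2 => hc ?_
  have h3 : S ≤ Subgroup.centralizer (S : Set G) := h2.ge.trans inf_le_right
  have hSc : IsMulCommutative S := ⟨⟨fun a b => Subtype.ext (h3 b.2 a a.2)⟩⟩
  have hnil : Group.IsNilpotent S := by
    let _ : CommGroup S := ⟨hSc.is_comm.comm⟩
    infer_instance
  have h4 : S.subgroupOf N ≤ fittingSubgroup N :=
    le_fittingSubgroup ((Subgroup.normal_subgroupOf_iff_le_normalizer hS.1).2 hS.2.1)
      (isNilpotent_subgroupOf N hnil)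
  have h5 : S ≤ fittingSubgroup G ⊓ N := by
    rw [← map_subtype_fittingSubgroup_of_normal, ← Subgroup.map_subgroupOf_eq_of_le hS.1]
    exact Subgroup.map_mono h4
  have h6 : N ≤ fittingSubgroup G := by
    refine (hN.inf_eq_bot_or_le (fittingSubgroup G)).resolve_left fun h6 => hS.2.2.1 ?_
    rw [inf_comm, h6] at h5
    exact le_bot_iff.1 h5
  have h7 : Group.IsNilpotent N := isNilpotent_of_le h6 (isNilpotent_fittingSubgroup G)
  obtain ⟨q, -, hq⟩ := hN.exists_isElementaryAbelian inferInstance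
  exact hq.1

theorem not_dvd_relIndex_of_le (P : Sylow p G) {N K : Subgroup G} [N.Normal] (hK : K ≤ N)
    (hn : N ≤ Subgroup.normalizer (K : Set G)) : ¬ p ∣ (P : Subgroup G).relIndex K := by
  obtain ⟨Q, hQ⟩ := exists_sylow_eq_subgroupOf_of_normal P N
  have := (Subgroup.normal_subgroupOf_iff_le_normalizer hK).2 hn
  have h1 := not_dvd_relIndex_sylow_of_normal Q (K.subgroupOf N)
  rwa [hQ, Subgroup.relIndex_subgroupOf hK] at h1

theorem card_inf_eq (P : Sylow p G) {N K : Subgroup G} [N.Normal] (hK : K ≤ N)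
    (hn : N ≤ Subgroup.normalizer (K : Set G)) :
    Nat.card ((P : Subgroup G) ⊓ K : Subgroup G) = p ^ (Nat.card K).factorization p :=
  card_sylowIn inf_le_right P.isPGroup'.to_inf_left
    (by rw [Subgroup.inf_relIndex_right]; exact not_dvd_relIndex_of_le P hK hn)

theorem subgroupOf_ne_bot (hcore : pPrimeCore p G = ⊥) (P : Sylow p G) {N K : Subgroup G}
    [N.Normal] (hK : K ≤ N) (hn : N ≤ Subgroup.normalizer (K : Set G)) (h : K ≠ ⊥) :
    K.subgroupOf P ≠ ⊥ := by
  have hp : p.Prime := Fact.out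
  intro h1
  rw [Subgroup.subgroupOf_eq_bot, disjoint_iff, inf_comm] at h1
  have h2 := card_inf_mul_relIndex (P : Subgroup G) K
  rw [h1, Subgroup.card_bot, one_mul] at h2
  have h3 := not_dvd_relIndex_of_le P hK hn
  rw [h2] at h3
  have h4 := le_map_pPrimeCore hK hn ((Nat.coprime_comm.1 (hp.coprime_iff_not_dvd.2 h3)))
  rw [map_subtype_pPrimeCore_of_normal, hcore, bot_inf_eq] at h4
  exact h (le_bot_iff.1 h4)

theorem comm_of_minNormal (P : Sylow p G) (hcore : pPrimeCore p G = ⊥)
    (hnas : ¬ ∃ S : Subgroup G, S.Normal ∧ IsSimpleGroup S ∧ ¬ IsMulCommutative S ∧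
      Subgroup.centralizer (S : Set G) = ⊥)
    (hi : (commutator (P : Subgroup G)).index = p ^ 2) (hP : ¬ IsMulCommutative (P : Subgroup G))
    {N : Subgroup G} (hN : IsMinNormal N) (hQ : (N.subgroupOf P).index ∣ p)
    {x : (P : Subgroup G)} (hx : N.subgroupOf P ⊔ Subgroup.zpowers x = ⊤) :
    IsMulCommutative (N.subgroupOf P) := by
  have hp : p.Prime := Fact.out
  have hn := hN.1
  by_cases hc : IsMulCommutative N
  · exact ⟨⟨fun a b => Subtype.ext (Subtype.ext (setLike_mul_comm (s := N) a.2 b.2))⟩⟩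
  have hVn : ∀ S, MinN N S → N ≤ Subgroup.normalizer
      ((N ⊓ Subgroup.centralizer (S : Set G) : Subgroup G) : Set G) := fun S hS =>
    (le_inf Subgroup.le_normalizer (hS.2.1.trans (normalizer_le_normalizer_centralizer' S))).trans
      Subgroup.inf_normalizer_le_normalizer_inf
  have hsup : ∀ S, MinN N S → S ⊔ (N ⊓ Subgroup.centralizer (S : Set G)) = N := by
    intro S hS
    have h1 : N ≤ S ⊔ Subgroup.centralizer (S : Set G) := by
      refine hS.le_of_forall hN fun g => ?_
      by_cases h : S = MulAut.conj g • S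
      · rw [← h]; exact le_sup_left
      · exact (hS.le_centralizer (hS.conj g) h).trans le_sup_right
    rw [inf_comm, ← sup_inf_of_le_normalizer (Subgroup.centralizer_le_normalizer _) hS.1]
    exact inf_eq_right.2 h1
  have hinf : ∀ S, MinN N S → S ⊓ (N ⊓ Subgroup.centralizer (S : Set G)) = ⊥ := fun S hS =>
    le_bot_iff.1 ((inf_le_inf_left _ inf_le_right).trans (hS.inf_centralizer hN hc).le)
  have hsupP : ∀ S, MinN N S → S.subgroupOf P ⊔
      (N ⊓ Subgroup.centralizer (S : Set G)).subgroupOf P = N.subgroupOf P := by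
    intro S hS
    set V := N ⊓ Subgroup.centralizer (S : Set G) with hV
    have hVS : V ≤ Subgroup.normalizer (S : Set G) := inf_le_left.trans hS.2.1
    have c1 : Nat.card N = Nat.card S * Nat.card V := by
      rw [← card_sup_of_disjoint hVS (hinf S hS), hsup S hS]
    have h1 : V.subgroupOf P ≤ Subgroup.normalizer
        ((S.subgroupOf P : Subgroup (P : Subgroup G)) : Set (P : Subgroup G)) := by
      intro v hv
      rw [Subgroup.mem_normalizer_iff]
      intro s
      exact Subgroup.mem_normalizer_iff.1 (hVS hv) s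
    have h2 : S.subgroupOf P ⊓ V.subgroupOf P = ⊥ := by
      rw [Subgroup.subgroupOf, Subgroup.subgroupOf, ← Subgroup.comap_inf, hinf S hS]
      exact Subgroup.bot_subgroupOf _
    refine Subgroup.eq_of_le_of_card_ge (sup_le (Subgroup.comap_mono hS.1)
      (Subgroup.comap_mono inf_le_left)) (le_of_eq ?_)
    rw [card_sup_of_disjoint h1 h2, card_subgroupOf, card_subgroupOf, card_subgroupOf,
      inf_comm N, inf_comm S, inf_comm V, card_inf_eq P le_rfl Subgroup.le_normalizer,
      card_inf_eq P hS.1 hS.2.1, card_inf_eq P inf_le_left (hVn S hS), c1,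
      Nat.factorization_mul Nat.card_pos.ne' Nat.card_pos.ne', Finsupp.add_apply, pow_add]
  have hnot : ∀ S, MinN N S → ¬ (P : Subgroup G) ≤ Subgroup.normalizer (S : Set G) := by
    intro S hS hPS
    have hA : (S.subgroupOf P).Normal := Subgroup.normal_subgroupOf_of_le_normalizer hPS
    have hB : ((Subgroup.centralizer (S : Set G)).subgroupOf P).Normal :=
      Subgroup.normal_subgroupOf_of_le_normalizer
        (hPS.trans (normalizer_le_normalizer_centralizer' S))
    refine hP (lemX P.isPGroup' hi (A := S.subgroupOf P)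
      (B := (Subgroup.centralizer (S : Set G)).subgroupOf P) ?_
      (subgroupOf_ne_bot hcore P hS.1 hS.2.1 hS.2.2.1) ?_ (x := x) ?_)
    · rw [Subgroup.subgroupOf, Subgroup.subgroupOf, ← Subgroup.comap_inf, hS.inf_centralizer hN hc]
      exact Subgroup.bot_subgroupOf _
    · by_cases hV : N ⊓ Subgroup.centralizer (S : Set G) = ⊥
      · have h1 := hsup S hS
        rw [hV, sup_bot_eq] at h1
        subst h1
        refine subgroupOf_ne_bot (N := ⊤) hcore P le_top Subgroup.le_normalizer_of_normal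
          fun h2 => hnas ⟨S, hn, ?_, hc, h2⟩
        have : Nontrivial S := (Subgroup.nontrivial_iff_ne_bot S).2 hN.2.1
        refine ⟨fun K hK => ?_⟩
        have h3 : S ≤ Subgroup.normalizer ((K.map S.subtype : Subgroup G) : Set G) := by
          rw [← Subgroup.normal_subgroupOf_iff_le_normalizer (Subgroup.map_subtype_le K),
            Subgroup.subgroupOf, Subgroup.comap_map_eq_self_of_injective S.subtype_injective]
          exact hK
        rcases hS.2.2.2 _ (Subgroup.map_subtype_le K) h3 with h4 | h4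
        · left; exact (Subgroup.map_eq_bot_iff_of_injective _ S.subtype_injective).1 h4
        · right
          apply Subgroup.map_injective S.subtype_injective
          rw [h4, ← MonoidHom.range_eq_map, Subgroup.range_subtype]
      · intro h1
        refine subgroupOf_ne_bot hcore P inf_le_left (hVn S hS) hV (le_bot_iff.1 ?_)
        rw [← h1]
        exact Subgroup.comap_mono inf_le_right
    · rw [eq_top_iff, ← hx, ← hsupP S hS]
      exact sup_le_sup_right (sup_le_sup_left (Subgroup.comap_mono inf_le_right) _) _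
  obtain ⟨S₀, hS₀⟩ := exists_minN hN.2.1
  have hQ' : (N.subgroupOf P).index = p := by
    refine ((Nat.dvd_prime hp).1 hQ).resolve_left fun h => hnot S₀ hS₀ ?_
    rw [Subgroup.index_eq_one, Subgroup.subgroupOf_eq_top] at h
    exact h.trans hS₀.2.1
  have hkey : ∀ S, MinN N S → ⁅N.subgroupOf P, N.subgroupOf P⁆ ≤
      (N ⊓ Subgroup.centralizer (S : Set G)).subgroupOf P := by
    intro S hS
    refine lemY P.isPGroup' hi hQ' (hsupP S hS) ?_ ?_ ?_
    · rw [Subgroup.subgroupOf, Subgroup.subgroupOf, ← Subgroup.comap_inf, hinf S hS]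
      exact Subgroup.bot_subgroupOf _
    · intro r hr w hw
      exact Subtype.ext (hw.2 r hr).symm
    · intro u hu r hr
      have h1 : S ≠ MulAut.conj (u : G)⁻¹ • S := by
        intro h1
        have h2 : (u : G) ∈ Subgroup.normalizer (S : Set G) :=
          (Subgroup.inv_mem_iff _).1 (conj_smul_eq_iff_mem_normalizer.1 h1.symm)
        refine hnot S hS fun y hy => ?_
        have h3 : N.subgroupOf P ⊔ Subgroup.zpowers u ≤
            (Subgroup.normalizer (S : Set G)).subgroupOf P :=
          sup_le (Subgroup.comap_mono hS.2.1) (Subgroup.zpowers_le.2 h2)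
        rw [sup_zpowers_eq_top_of_index_prime (by rw [hQ']; exact hp) hu] at h3
        exact h3 (Subgroup.mem_top (⟨y, hy⟩ : (P : Subgroup G)))
      have h2 : (u : G)⁻¹ * r * u ∈ MulAut.conj (u : G)⁻¹ • S := by
        rw [mem_conj_smul_iff]
        simpa [mul_assoc, Subgroup.mem_subgroupOf] using hr
      exact ⟨(hS.conj _).1 h2, hS.le_centralizer (hS.conj _) h1 h2⟩
  have hZ : N ⊓ Subgroup.centralizer (N : Set G) = ⊥ :=
    (hN.inf_eq_bot_or_le _).resolve_right fun h => hc ⟨⟨fun a b => Subtype.ext (h b.2 a a.2)⟩⟩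
  refine ⟨⟨fun a b => ?_⟩⟩
  have hmem := Subgroup.commutator_mem_commutator a.2 b.2
  have h1 : ((⁅a.1, b.1⁆ : (P : Subgroup G)) : G) ∈ N ⊓ Subgroup.centralizer (N : Set G) := by
    refine ⟨(hkey S₀ hS₀ hmem).1, ?_⟩
    have h2 : N ≤ Subgroup.centralizer ({((⁅a.1, b.1⁆ : (P : Subgroup G)) : G)} : Set G) := by
      refine hS₀.le_of_forall hN fun g s hs => ?_
      rw [Subgroup.mem_centralizer_singleton_iff]
      exact (hkey _ (hS₀.conj g) hmem).2 s hs
    intro n hn
    exact Subgroup.mem_centralizer_singleton_iff.1 (h2 hn)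
  rw [hZ, Subgroup.mem_bot, OneMemClass.coe_eq_one, commutatorElement_eq_one_iff_mul_comm] at h1
  exact Subtype.ext h1

end Main



/-- Let G be a finite group, p a prime and P a Sylow p-subgroup of order at least p². Assume that G has no nontrivial normal subgroup of order prime to p, that the derived subgroup P' of P contains no nontrivial normal subgroup of G, and that G is not almost simple (there is no non-abelian simple normal subgroup of G with trivial centralizer). Then [P : P'] = p² if and only if some p-element x of G has centralizer whose order has p-part exactly p². -/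
theorem result {G : Type*} [Group G] [Finite G] (p : ℕ) [Fact p.Prime] (P : Sylow p G) (hbig : p ^ 2 ∣ Nat.card G) (hcore : Cfsg.pPrimeCore p G = ⊥)
    (hcore' : (⁅(P : Subgroup G), (P : Subgroup G)⁆).normalCore = ⊥) (hnas : ¬ ∃ S : Subgroup G, S.Normal ∧ IsSimpleGroup S ∧ ¬ IsMulCommutative S ∧ Subgroup.centralizer (S : Set G) = ⊥) :
    (⁅(P : Subgroup G), (P : Subgroup G)⁆).relIndex (P : Subgroup G) = p ^ 2 ↔
      ∃ x : G, (∃ k : ℕ, orderOf x = p ^ k) ∧ (Nat.card (Subgroup.centralizer ({x} : Set G))).factorization p = 2 := by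
  have hp : p.Prime := Fact.out
  rw [relIndex_comm_eq]
  have hPbig : p ^ 2 ∣ Nat.card (P : Subgroup G) := by
    rw [P.card_eq_multiplicity]
    exact pow_dvd_pow p ((hp.pow_dvd_iff_le_factorization Nat.card_pos.ne').1 hbig)
  have hcomm : IsMulCommutative (P : Subgroup G) → (commutator (P : Subgroup G)).index =
      Nat.card (P : Subgroup G) := fun hc => by
    have h1 : commutator (P : Subgroup G) = ⊥ := by
      rw [commutator, Subgroup.commutator_eq_bot_iff_le_centralizer]
      exact fun a _ b _ => hc.is_comm.comm b a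
    rw [h1, Subgroup.index_bot]
  constructor
  · intro hi
    by_cases hP : IsMulCommutative (P : Subgroup G)
    · refine ⟨1, ⟨0, by simp⟩, ?_⟩
      have h1 : Subgroup.centralizer ({1} : Set G) = ⊤ := by
        rw [eq_top_iff]; intro g _; simp [Subgroup.mem_centralizer_singleton_iff]
      rw [hcomm hP, P.card_eq_multiplicity] at hi
      rw [h1, Subgroup.card_top]
      exact Nat.pow_right_injective hp.two_le hi
    have : Nontrivial G := by
      rw [← Finite.one_lt_card_iff_nontrivial]
      exact lt_of_lt_of_le (Nat.one_lt_pow (by norm_num) hp.one_lt) (Nat.le_of_dvd Nat.card_pos hbig)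
    obtain ⟨N, hN⟩ := exists_isMinNormal (G := G)
    have hn := hN.1
    have hNP : ¬ N.subgroupOf P ≤ commutator (P : Subgroup G) := by
      intro h
      have hpN : IsPGroup p N := by
        have h1 := hasNormalPComplement_of_inf_le_frattini P N (by
          rw [← Subgroup.subgroupOf_map_subtype]
          exact Subgroup.map_mono (h.trans
            (commutator_le_frattini_of_isNilpotent P.isPGroup'.isNilpotent)))
        have h2 : pPrimeCore p N = ⊥ := by
          rw [← Subgroup.map_eq_bot_iff_of_injective _ N.subtype_injective,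
            map_subtype_pPrimeCore_of_normal, hcore, bot_inf_eq]
        refine isPGroup_of_quotient (N := pPrimeCore p N) ?_
          (hasNormalPComplement_iff_isPGroup_quotient.1 h1)
        rw [h2]; exact IsPGroup.of_bot
      have h1 : N ≤ P := (le_pCore hn hpN).trans (pCore_le_sylow P)
      have h2 : N ≤ ⁅(P : Subgroup G), (P : Subgroup G)⁆ := by
        rw [← Subgroup.map_subgroupOf_eq_of_le h1, ← Subgroup.map_subtype_commutator]
        exact Subgroup.map_mono h
      have h3 := Subgroup.normal_le_normalCore.2 h2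
      rw [hcore'] at h3
      exact hN.2.1 (le_bot_iff.1 h3)
    obtain ⟨h1, x, hx⟩ := lemZ P.isPGroup' hi hNP
    have h2 := comm_of_minNormal P hcore hnas hi hP hN h1 hx
    refine lemF P hi (((Nat.dvd_prime hp).1 h1).resolve_left fun h => hP ?_) h2
    rw [Subgroup.index_eq_one] at h
    rw [h] at h2
    exact ⟨⟨fun a b => setLike_mul_comm (s := (⊤ : Subgroup (P : Subgroup G))) trivial trivial⟩⟩
  · rintro ⟨x, ⟨k, hk⟩, hx⟩
    have hz : IsPGroup p (Subgroup.zpowers x) := IsPGroup.of_card (by rw [Nat.card_zpowers, hk])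
    obtain ⟨g, hg⟩ := exists_conj_smul_le_sylow P hz
    have hy : g * x * g⁻¹ ∈ (P : Subgroup G) := hg (conj_mem_conj_smul_iff.2 (Subgroup.mem_zpowers x))
    have h1 := index_commutator_le_card_centralizer_elem (⟨_, hy⟩ : (P : Subgroup G))
    rw [centralizer_singleton_subgroupOf, card_subgroupOf] at h1
    have h2 : Nat.card (Subgroup.centralizer ({g * x * g⁻¹} : Set G) ⊓ P : Subgroup G) ∣ p ^ 2 := by
      obtain ⟨j, hj⟩ := IsPGroup.iff_card.1 (P.isPGroup'.to_inf_right
        (H := Subgroup.centralizer ({g * x * g⁻¹} : Set G)))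
      have h3 := Subgroup.card_dvd_of_le (inf_le_left :
        Subgroup.centralizer ({g * x * g⁻¹} : Set G) ⊓ P ≤ _)
      rw [hj, centralizer_conj_singleton, card_conj_smul,
        hp.pow_dvd_iff_le_factorization Nat.card_pos.ne', hx] at h3
      rw [hj]
      exact pow_dvd_pow p h3
    have h3 : p ^ 2 ∣ (commutator (P : Subgroup G)).index := by
      by_cases hc : IsCyclic (P : Subgroup G)
      · rw [hcomm inferInstance]; exact hPbig
      · exact sq_dvd_index_commutator_of_not_isCyclic P.isPGroup' hc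
    exact le_antisymm (h1.trans (Nat.le_of_dvd (pow_pos hp.pos 2) h2))
      (Nat.le_of_dvd (Nat.pos_of_ne_zero Subgroup.index_ne_zero_of_finite) h3)

end Cfsg.Agent.S4587
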