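import Cfsg.Statements.S4588
import Cfsg.Agent.Blk.CycMin
import Cfsg.Agent.Blk.SecTwo
import Cfsg.Agent.Blk.Principal
import Cfsg.Agent.Mod.Lift

set_option autoImplicit false
open Cfsg

namespace Cfsg.Agent.S4588

/-- Let G be a finite group, p a prime and M a maximal ideal of the algebraic integers containing p. If some p-element x of G (possibly x = 1) has centralizer whose order has p-part at most p², then the principal p-block of G contains at most p² irreducible characters of degree prime to p. -/
theorem result {G : Type*} [Group G] [Finite G] (p : ℕ) [Fact p.Prime] (M : Ideal Cfsg.AlgInt) (hM : Cfsg.IsPModular p M)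
    (hx : ∃ x : G, (∃ k : ℕ, orderOf x = p ^ k) ∧ (Nat.card (Subgroup.centralizer ({x} : Set G))).factorization p ≤ 2) :
    Nat.card {χ : Cfsg.IrrCharacter G // χ ∈ Cfsg.principalBlock M G ∧ ¬ p ∣ Cfsg.charDegree (χ : G → ℂ)} ≤ p ^ 2 := by
  classical
  have hp : p.Prime := Fact.out
  obtain ⟨x, hx, hc⟩ := hx
  rw [natCard_subtype_mem_and]
  by_cases hx1 : x = 1
  · subst hx1
    have h1 : (Nat.card G).factorization p ≤ 2 := by
      rwa [show Subgroup.centralizer ({1} : Set G) = ⊤ by
        rw [eq_top_iff]; intro g _; simp [Subgroup.mem_centralizer_iff], Subgroup.card_top] at hc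
    have h2 := (isPBlock_principalBlock (M := M) (G := G)).card_le_of_blockDefect_le_two hM
      (by rwa [hM.blockDefect_principalBlock])
    rw [hM.blockDefect_principalBlock, ← card_irrFinset] at h2
    exact (Finset.card_filter_le _ _).trans (h2.trans (Nat.pow_le_pow_right hp.pos h1))
  set C := Subgroup.centralizer ({x} : Set G) with hC
  have hb : IsInducedBlock M C (principalBlock M C) (principalBlock M G) := by
    obtain ⟨k, hk⟩ := hx
    exact (hM.isInducedBlock_centralizer_principalBlock_iff (Q := Subgroup.zpowers x)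
      (IsPGroup.of_card (n := k) (by rw [Nat.card_zpowers, hk])) (centralizer_zpowers_eq' x).symm
      isPBlock_principalBlock).2 rfl
  obtain ⟨E, hE⟩ := (isPBlock_principalBlock (M := M) (G := C)).exists_isDefectGroup hM
  have hEc : Nat.card E ≤ p ^ 2 := by
    rw [hE.card_eq hM isPBlock_principalBlock, hM.blockDefect_principalBlock]
    exact Nat.pow_le_pow_right hp.pos hc
  have hxC : x ∈ C := Subgroup.mem_centralizer_singleton_iff.2 rfl
  have hxE : (⟨x, hxC⟩ : C) ∈ E := by
    have hc : Subgroup.zpowers (⟨x, hxC⟩ : C) ≤ Subgroup.center C := by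
      rw [Subgroup.zpowers_le, Subgroup.mem_center_iff]
      intro g
      exact Subtype.ext (Subgroup.mem_centralizer_singleton_iff.1 g.2)
    haveI hn : (Subgroup.zpowers (⟨x, hxC⟩ : C)).Normal := ⟨fun z hz g => by
      rw [Subgroup.mem_center_iff.1 (hc hz) g]; simpa using hz⟩
    obtain ⟨k, hk⟩ := hx
    exact hE.le_of_normal hM isPBlock_principalBlock (IsPGroup.of_card (n := k)
      (by rw [Nat.card_zpowers, Subgroup.orderOf_mk, hk])) (Subgroup.mem_zpowers _)
  obtain ⟨y, hy, h⟩ := exists_le_zpowers_sup_of_card_le hE.isPGroup hEc hxE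
    fun h => hx1 (congrArg Subtype.val h)
  refine (hb.card_le_of_cyclic_quotient hM hx hC hE (x := y) ?_ y.2 _ (Finset.filter_subset _ _)
    fun χ hχ => ?_).trans hEc
  · refine (Subgroup.map_mono h).trans ?_
    rw [Subgroup.map_sup, MonoidHom.map_zpowers, MonoidHom.map_zpowers]
    rfl
  · rw [Finset.mem_filter, mem_irrFinset] at hχ
    refine hb.secProj_ne_zero_of_height_zero hM hx hC hχ.1 ?_
    have h1 := factorization_charDegree_eq (p := p) hχ.1
    rw [hM.blockDefect_principalBlock, Nat.factorization_eq_zero_of_not_dvd hχ.2] at h1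
    omega

end Cfsg.Agent.S4588
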