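import Cfsg.Statements.S4591
import Cfsg.Agent.Blk.PrincThompson
import Cfsg.Agent.CT.Degrees2
import Cfsg.Agent.CT.Glauberman
import Cfsg.Agent.CT.RelCount
import Cfsg.Agent.CT.ItoPSolv
import Cfsg.Agent.Blk.Over

set_option autoImplicit false
open Cfsg

namespace Cfsg.Agent.S4591

/-- Let G be a finite group, p a prime and P a Sylow p-subgroup, and let N be the largest normal subgroup of G in which P has trivial centralizer (N is normal with C_N(P) = 1 and contains every normal subgroup with that property). Then the intersection of the kernels of the irreducible characters of G of degree prime to p is the normal core in G of the subgroup N·P' (P' the derived subgroup of P). In particular, when G has no nontrivial normal subgroup of order prime to p, that intersection is the normal core of P'. -/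
theorem result {G : Type*} [Group G] [Finite G] (p : ℕ) [Fact p.Prime] (P : Sylow p G) (N : Subgroup G) [N.Normal]
    (hN : N ⊓ Subgroup.centralizer ((P : Subgroup G) : Set G) = ⊥)
    (hmax : ∀ L : Subgroup G, L.Normal → L ⊓ Subgroup.centralizer ((P : Subgroup G) : Set G) = ⊥ → L ≤ N) :
    {g : G | ∀ χ : Cfsg.IrrCharacter G, ¬ p ∣ Cfsg.charDegree (χ : G → ℂ) → (χ : G → ℂ) g = (χ : G → ℂ) 1} =
      ((N ⊔ ⁅(P : Subgroup G), (P : Subgroup G)⁆).normalCore : Set G) := by
  classical
  have hp : p.Prime := Fact.out
  have hle : ∀ L : Subgroup G, L.Normal → (P : Subgroup G) ≤ Subgroup.normalizer (L : Set G) :=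
    fun L hL => by rw [Subgroup.normalizer_eq_top]; exact le_top
  have hidx : ∀ L : Subgroup G, ¬ p ∣ (L ⊔ (P : Subgroup G)).index := fun L h =>
    P.not_dvd_index (h.trans (Subgroup.index_dvd_of_le le_sup_right))
  let K : Subgroup G := ⨅ χ : {χ : IrrCharacter G // ¬ p ∣ charDegree χ.1}, charKer χ.1.1
  have hKmem : ∀ g, g ∈ K ↔ ∀ χ : IrrCharacter G, ¬ p ∣ charDegree χ.1 → g ∈ charKer χ.1 :=
    fun g => by simp [K, Subgroup.mem_iInf]
  have hKle : ∀ χ : IrrCharacter G, ¬ p ∣ charDegree χ.1 → K ≤ charKer χ.1 :=
    fun χ h g hg => (hKmem g).1 hg χ h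
  haveI hKn : K.Normal := ⟨fun g hg x => (hKmem _).2 fun χ h =>
    χ.isCharacter.charKer_normal.conj_mem _ ((hKmem g).1 hg χ h) x⟩
  have key : K = (N ⊔ ⁅(P : Subgroup G), (P : Subgroup G)⁆).normalCore := by
    apply le_antisymm
    · rw [Subgroup.normal_le_normalCore]
      have hK : HasNormalPComplement p K := hasNormalPComplement_of_relative fun χ h => by
        by_contra h1
        exact h ((Subgroup.commutator_le_left K K).trans (hKle χ h1))
      let N₀ : Subgroup G := (pPrimeCore p K).map K.subtype
      haveI : N₀.Normal := normal_map_subtype_of_characteristic K _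
      have hN₀K : N₀ ≤ K := Subgroup.map_subtype_le _
      have hc : ¬ p ∣ Nat.card N₀ := by
        rw [card_map_subtype]; exact not_dvd_card_pPrimeCore p
      have h1 : N₀ ⊓ Subgroup.centralizer ((P : Subgroup G) : Set G) = ⊥ := by
        by_contra h1
        set C := N₀ ⊓ Subgroup.centralizer ((P : Subgroup G) : Set G) with hC
        have := Fintype.ofFinite C
        have := Fintype.ofFinite N₀
        have := Fintype.ofFinite ↥(N₀ ⊔ (P : Subgroup G))
        have hCN : C ≤ N₀ := inf_le_left
        have hb := (glBij_of_isPGroup hp P.isPGroup' (hle N₀ inferInstance)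
          (coprime_card_of_isPGroup P.isPGroup' hc).symm hC hCN).constBij hp
        obtain ⟨β, hβ⟩ := exists_irr_not_le_charKer (G := C) (N := ⊤) (by
          have := (Subgroup.nontrivial_iff_ne_bot C).2 h1
          exact top_ne_bot)
        obtain ⟨θ, hθ, hθβ⟩ := hb.exists_over (β := β) trivial
        have hd : ¬ p ∣ charDegree θ.1 := fun h => hc (h.trans θ.charDegree_dvd_card)
        obtain ⟨η, hη⟩ := exists_extension_sup_of_not_dvd P.isPGroup' hd
          (fun h => hc (h.trans (detOrder_dvd_card _)))
          (fun s hs => mem_charInertia_iff_charInv.2 (hθ s hs))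
        have hηd : ¬ p ∣ charDegree η.1 := by
          have : charDegree η.1 = charDegree θ.1 := by
            have h2 := hη 1
            rw [map_one, η.one_eq_charDegree, θ.one_eq_charDegree] at h2
            exact_mod_cast h2
          rwa [this]
        obtain ⟨χ, hχ, hχd⟩ := η.exists_over_not_dvd hp (hidx N₀) hηd
        have h3 := (χ.isCharacter.res _).charKer_le_of_constituent η hχ
        have h4 := (θ.isCharacter.comp (Subgroup.inclusion hCN)).charKer_le_of_constituent β hθβ
        refine hβ fun c _ => h4 ?_
        rw [θ.isCharacter.charKer_comp, Subgroup.mem_comap, θ.mem_charKer, ← hη, ← hη, map_one,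
          ← η.mem_charKer]
        apply h3
        rw [χ.isCharacter.charKer_res, Subgroup.mem_subgroupOf]
        exact hKle χ hχd (hN₀K (hCN c.2))
      have h2 : K ⊓ (P : Subgroup G) ≤ ⁅(P : Subgroup G), (P : Subgroup G)⁆ := by
        rintro x ⟨hxK, hxP⟩
        have := Fintype.ofFinite (P : Subgroup G)
        have h3 : (⟨x, hxP⟩ : (P : Subgroup G)) ∈ commutator (P : Subgroup G) := by
          rw [mem_iff_forall_charKer]
          intro l hl
          have hl1 := (l.charDegree_eq_one_iff_commutator_le).2 hl
          obtain ⟨χ, hχ, hχd⟩ := l.exists_over_not_dvd hp P.not_dvd_index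
            (by rw [hl1]; exact hp.one_lt.ne' ∘ Nat.dvd_one.1)
          apply (χ.isCharacter.res _).charKer_le_of_constituent l hχ
          rw [χ.isCharacter.charKer_res, Subgroup.mem_subgroupOf]
          exact hKle χ hχd hxK
        have h4 := Subgroup.mem_map_of_mem (P : Subgroup G).subtype h3
        rw [commutator_def, Subgroup.map_commutator] at h4
        simpa [← MonoidHom.range_eq_map] using h4
      obtain ⟨Q, hQ⟩ := exists_sylow_eq_subgroupOf_of_normal P K
      have h3 := (hasNormalPComplement_iff_sup_sylow Q).1 hK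
      intro x hx
      have h4 : (⟨x, hx⟩ : K) ∈ pPrimeCore p K ⊔ (Q : Subgroup K) := h3 ▸ Subgroup.mem_top _
      obtain ⟨n, hn, a, ha, h5⟩ := mem_sup_normal_left.1 h4
      rw [hQ, Subgroup.mem_subgroupOf] at ha
      have h6 : x = (n : G) * a := (congrArg Subtype.val h5).symm
      rw [h6]
      exact Subgroup.mul_mem _ (Subgroup.mem_sup_left (hmax N₀ inferInstance h1
        (Subgroup.mem_map_of_mem _ hn))) (Subgroup.mem_sup_right (h2 ⟨a.2, ha⟩))
    · intro g hg
      rw [hKmem]
      intro χ hχ
      revert g
      set M := (N ⊔ ⁅(P : Subgroup G), (P : Subgroup G)⁆).normalCore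
      change M ≤ _
      have hc : ¬ p ∣ Nat.card N := by
        have h1 : (P : Subgroup G) ⊓ N = ⊥ := by
          by_contra h1
          refine inf_centralizer_ne_bot_of_isPGroup P.isPGroup' P.isPGroup'.to_inf_left
            (le_trans (le_inf Subgroup.le_normalizer (hle N inferInstance))
              Subgroup.inf_normalizer_le_normalizer_inf) h1 ?_
          rw [inf_assoc, hN, inf_bot_eq]
        have h2 := card_inf_mul_relIndex (P : Subgroup G) N
        rw [h1, Subgroup.card_bot, one_mul] at h2
        rw [← h2]
        exact not_dvd_relIndex_sylow_of_normal P N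
      set H := N ⊔ (P : Subgroup G) with hH
      have := Fintype.ofFinite H
      have := Fintype.ofFinite M
      have := Fintype.ofFinite N
      have hNH : N ≤ H := le_sup_left
      have := Fintype.ofFinite (N.subgroupOf H)
      obtain ⟨ψ, hψ, hψd⟩ := (χ.isCharacter.res H).exists_constituent_not_dvd (p := p)
        (by rwa [charDegree_res])
      obtain ⟨θ, hθ, hinv⟩ := exists_rmult_under_le_ezStab hNH
        (by rw [Subgroup.normalizer_eq_top]; exact le_top) (le_sup_right : _ ≤ H) P.isPGroup' hψd
      have hb := glBij_of_isPGroup hp P.isPGroup' (hle N inferInstance)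
          (coprime_card_of_isPGroup P.isPGroup' hc).symm hN.symm bot_le
      have hθ1 : θ = IrrCharacter.triv N := by
        rw [ezStab_eq_charInertia] at hinv
        have h1 : ∀ s ∈ (P : Subgroup G), CharInv s θ.1 := fun s hs =>
          mem_charInertia_iff_charInv.1 (hinv hs)
        have h2 : ∀ s ∈ (P : Subgroup G), CharInv s (IrrCharacter.triv N).1 := fun s _ _ _ _ => rfl
        obtain ⟨β, -, hβ⟩ := hb.ex θ h1
        obtain ⟨β', -, hβ'⟩ := hb.ex _ h2
        have h3 : ∀ γ : IrrCharacter (⊥ : Subgroup G), γ = IrrCharacter.triv _ := fun γ =>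
          γ.charKer_eq_top_iff.1 (Subsingleton.elim _ _)
        rw [h3 β] at hβ
        rw [h3 β'] at hβ'
        exact hb.inj _ _ _ h1 h2 hβ hβ'
      rw [hθ1, rmult_ne_zero_iff_subgroupOf hNH] at hθ
      have h1 : N.subgroupOf H ≤ charKer ψ.1 :=
        (ψ.le_charKer_iff_classInner_ne_zero _).2 hθ
      have h2 : charDegree ψ.1 = 1 := by
        have h3 := ψ.charDegree_dvd_index_of_le (h1.trans (charKer_le_charCenter _))
        change _ ∣ N.relIndex H at h3
        rw [show N.relIndex H = N.relIndex P from Subgroup.relIndex_sup_left _ _] at h3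
        obtain ⟨n, hn⟩ := IsPGroup.iff_card.1 P.isPGroup'
        have h4 := h3.trans (Subgroup.relIndex_dvd_card _ _)
        rw [hn] at h4
        exact (Nat.Coprime.pow_right n ((Nat.Prime.coprime_iff_not_dvd hp).2 hψd).symm).eq_one_of_dvd h4
      have h3 : N ⊔ ⁅(P : Subgroup G), (P : Subgroup G)⁆ ≤ (charKer ψ.1).map H.subtype := by
        refine sup_le (fun n hn => ⟨⟨n, hNH hn⟩, h1 hn, rfl⟩) ?_
        refine le_trans ?_ (Subgroup.map_mono (ψ.charDegree_eq_one_iff_commutator_le.1 h2))
        rw [commutator_def, Subgroup.map_commutator]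
        simp only [← MonoidHom.range_eq_map, Subgroup.range_subtype]
        exact Subgroup.commutator_mono le_sup_right le_sup_right
      have h4 : M ≤ (charKer ψ.1).map H.subtype := (Subgroup.normalCore_le _).trans h3
      have hMH : M ≤ H := h4.trans (Subgroup.map_subtype_le _)
      rw [χ.le_charKer_iff_classInner_ne_zero]
      refine classInner_res_ne_zero_trans hMH χ.isCharacter ψ
        (IrrCharacter.triv M).isCharacter hψ ?_
      have h5 : (fun k : M => ψ.1 ⟨k, hMH k.2⟩) = (IrrCharacter.triv M).1 := by
        funext k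
        obtain ⟨y, hy, hk⟩ := h4 k.2
        have : (⟨k, hMH k.2⟩ : H) = y := Subtype.ext hk.symm
        rw [this, ψ.mem_charKer.1 hy, ψ.one_eq_charDegree, h2]
        simp
      rw [h5]
      change classInner _ (IrrCharacter.triv M).1 ≠ 0
      rw [IrrCharacter.classInner_self]
      exact one_ne_zero
  rw [← key]
  ext g
  simp only [Set.mem_ofPred_eq, SetLike.mem_coe, hKmem, IrrCharacter.mem_charKer]

end Cfsg.Agent.S4591
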