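import Cfsg.Statements.S4601
import Cfsg.Agent.Grp.PSolvable
-- import your own Cfsg.Agent.* helpers here

set_option autoImplicit false
open Cfsg

namespace Cfsg.Agent.S4601

universe u

theorem aux (p q : ℕ) [Fact p.Prime] [Fact q.Prime] (hpq : p ≠ q) (G : Type u) [Group G]
    [Finite G] : (IsPSolvable p G ∨ IsPSolvable q G) →
    (∀ y : G, (∃ k : ℕ, orderOf y = q ^ k) → ¬ p ∣ (Subgroup.centralizer ({y} : Set G)).index) →
    ∀ Q : Sylow q G, ¬ p ∣ (Subgroup.normalizer ((Q : Subgroup G) : Set G)).index := by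
  refine induction_on_card (P := fun G _ _ => (IsPSolvable p G ∨ IsPSolvable q G) →
    (∀ y : G, (∃ k : ℕ, orderOf y = q ^ k) → ¬ p ∣ (Subgroup.centralizer ({y} : Set G)).index) →
    ∀ Q : Sylow q G, ¬ p ∣ (Subgroup.normalizer ((Q : Subgroup G) : Set G)).index) ?_ G
  intro G _ _ ih hs h Q
  rcases subsingleton_or_nontrivial G with hG | hG
  · rw [Subsingleton.elim (Subgroup.normalizer _) ⊤, Subgroup.index_top, Nat.dvd_one]
    exact (Fact.out : p.Prime).ne_one
  have key : ∀ M : Subgroup G, M.Normal → M ≠ ⊥ →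
      ¬ p ∣ (Subgroup.normalizer ((Q : Subgroup G) : Set G)).relIndex M →
      ¬ p ∣ (Subgroup.normalizer ((Q : Subgroup G) : Set G)).index := by
    intro M hM hM1 h1
    have hsurj := QuotientGroup.mk'_surjective M
    have h2 := ih _ (card_quotient_lt hM1) (hs.imp (·.quotient M) (·.quotient M)) (fun y hy hd => by
      obtain ⟨x, hx, rfl⟩ := exists_pElement_lift _ hsurj hy
      refine h x hx (hd.trans ((Subgroup.index_dvd_of_le ?_).trans
        ((Subgroup.centralizer ({x} : Set G)).index_map_dvd hsurj)))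
      rintro _ ⟨c, hc, rfl⟩
      rw [Subgroup.mem_centralizer_singleton_iff, ← map_mul, ← map_mul,
        Subgroup.mem_centralizer_singleton_iff.1 hc]) (Q.mapSurjective hsurj)
    rw [Sylow.coe_mapSurjective, normalizer_map_mk_sylow, index_map_mk, sup_comm] at h2
    rw [← Subgroup.relIndex_mul_index (le_sup_right : _ ≤ M ⊔ _),
      relIndex_sup_left_of_le_normalizer Subgroup.le_normalizer_of_normal]
    exact fun hd => ((Nat.Prime.dvd_mul Fact.out).1 hd).elim h1 h2
  have k2 : ∀ M : Subgroup G, M.Normal → M ≠ ⊥ → ¬ q ∣ Nat.card M →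
      ¬ p ∣ (Subgroup.normalizer ((Q : Subgroup G) : Set G)).index := by
    intro M hM hM1 hq
    have hc := (coprime_card_of_isPGroup Q.2 hq).symm
    obtain ⟨P, h1, h2, h3, h4⟩ := exists_invariant_sylow p (N := M) (A := Q)
      Subgroup.le_normalizer_of_normal hc (Or.inr (isSolvable_of_isPGroup Q.2))
    refine key M hM hM1 fun hd => h3 (hd.trans (Subgroup.relIndex_dvd_of_le_left _
      (le_trans ?_ (Subgroup.centralizer_le_normalizer _))))
    rw [Subgroup.le_centralizer_iff]
    intro y hy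
    have hy' : Subgroup.zpowers y ≤ Q := Subgroup.zpowers_le.2 hy
    have h5 := not_dvd_relIndex_centralizer_of_invariant_sylow (A := Subgroup.zpowers y)
      Subgroup.le_normalizer_of_normal (hc.coprime_dvd_right (Subgroup.card_dvd_of_le hy'))
      (Or.inr (isSolvable_zpowers y)) h1 h2 h3 (hy'.trans h4)
    have h6 : ¬ p ∣ (Subgroup.centralizer (Subgroup.zpowers y : Set G)).relIndex M := fun hd =>
      h y (exists_orderOf_eq_pow_of_mem Q.2 hy)
        (centralizer_zpowers y ▸ hd.trans (relIndex_dvd_index_of_normal_right _ M))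
    have h7 : ¬ p ∣ (P ⊓ Subgroup.centralizer (Subgroup.zpowers y : Set G)).relIndex M := by
      rw [← Subgroup.relIndex_inf_mul_relIndex, inf_comm]
      exact fun hd => ((Nat.Prime.dvd_mul Fact.out).1 hd).elim h5 h6
    have h8 := eq_of_le_of_sylowIn h7 inf_le_left h1 h2
    exact Subgroup.le_centralizer_iff.1 (h8.le.trans inf_le_right) (Subgroup.mem_zpowers y)
  rcases hs with hs | hs
  · rcases hs.pCore_ne_bot_or with h1 | h1
    · refine k2 _ inferInstance h1 fun hd => ?_
      obtain ⟨k, hk⟩ := IsPGroup.iff_card.1 (isPGroup_pCore p G)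
      rw [hk] at hd
      exact hpq ((Nat.prime_dvd_prime_iff_eq Fact.out Fact.out).1
        ((Fact.out : q.Prime).dvd_of_dvd_pow hd)).symm
    · exact key _ inferInstance h1 fun hd =>
        not_dvd_card_pPrimeCore p (hd.trans (Subgroup.relIndex_dvd_card _ _))
  · rcases hs.pCore_ne_bot_or with h1 | h1
    · refine key _ inferInstance h1 ?_
      rw [Subgroup.relIndex_eq_one.2 ((pCore_le_sylow Q).trans Subgroup.le_normalizer), Nat.dvd_one]
      exact (Fact.out : p.Prime).ne_one
    · exact k2 _ inferInstance h1 (not_dvd_card_pPrimeCore q)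


/-- Let p and q be primes and G a finite group that is p-solvable or q-solvable, in which no q-element has conjugacy class size divisible by p. Then some Sylow p-subgroup of G normalizes some Sylow q-subgroup of G. -/
theorem result {G : Type*} [Group G] [Finite G] (p q : ℕ) [Fact p.Prime] [Fact q.Prime] (hsolv : Cfsg.IsPSolvable p G ∨ Cfsg.IsPSolvable q G)
    (h : ∀ y : G, (∃ k : ℕ, orderOf y = q ^ k) → ¬ p ∣ (Subgroup.centralizer ({y} : Set G)).index) :
    ∃ (P : Sylow p G) (Q : Sylow q G), (P : Subgroup G) ≤ Subgroup.normalizer ((Q : Subgroup G) : Set G) := by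
  obtain ⟨Q⟩ : Nonempty (Sylow q G) := inferInstance
  rcases eq_or_ne p q with rfl | hpq
  · exact ⟨Q, Q, Subgroup.le_normalizer⟩
  obtain ⟨P, -, h1, h2, h3⟩ := exists_le_sylowIn
    (H := Subgroup.normalizer ((Q : Subgroup G) : Set G)) (R := ⊥) (p := p) IsPGroup.of_bot bot_le
  refine ⟨h2.toSylow fun hd => ?_, Q, h1⟩
  rw [← Subgroup.relIndex_mul_index h1] at hd
  exact ((Nat.Prime.dvd_mul Fact.out).1 hd).elim h3 (aux p q hpq G hsolv h Q)

end Cfsg.Agent.S4601
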