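import Cfsg.Statements.S4604
import Cfsg.Agent.CT.PRegular
import Cfsg.Agent.Blk.Val

set_option autoImplicit false
open Cfsg

namespace Cfsg.Agent.S4604


/-- Let G be a finite group, p a prime and p^a the p-part of the order of G. Let x, y ∈ G and let x′, y′ be their p-regular parts: x′ has order prime to p, commutes with x·x′⁻¹, and x·x′⁻¹ has p-power order (likewise for y). Then x′ and y′ are conjugate in G if and only if for every irreducible character χ of G the algebraic integer χ(x)^(p^a) − χ(y)^(p^a) is p times an algebraic integer. -/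
theorem result {G : Type*} [Group G] [Finite G] (p : ℕ) [Fact p.Prime] (x y x' y' : G)
    (hx : (∃ k : ℕ, orderOf (x * x'⁻¹) = p ^ k) ∧ Commute (x * x'⁻¹) x' ∧ ¬ p ∣ orderOf x')
    (hy : (∃ k : ℕ, orderOf (y * y'⁻¹) = p ^ k) ∧ Commute (y * y'⁻¹) y' ∧ ¬ p ∣ orderOf y') :
    IsConj x' y' ↔ ∀ χ : Cfsg.IrrCharacter G, ∃ γ : Cfsg.AlgInt,
      (χ : G → ℂ) x ^ (p ^ (Nat.card G).factorization p) - (χ : G → ℂ) y ^ (p ^ (Nat.card G).factorization p) = (p : ℂ) * (γ : ℂ) := by
  classical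
  have hp : p.Prime := Fact.out
  set a := (Nat.card G).factorization p with ha
  have key : ∀ x x' : G, ((∃ k : ℕ, orderOf (x * x'⁻¹) = p ^ k) ∧ Commute (x * x'⁻¹) x' ∧
      ¬ p ∣ orderOf x') → x ^ p ^ a = x' ^ p ^ a := by
    rintro x x' ⟨⟨k, hk⟩, h1, -⟩
    have h2 : (x * x'⁻¹) ^ p ^ a = 1 := by
      rw [← orderOf_dvd_iff_pow_eq_one, hk]
      refine pow_dvd_pow p ((hp.pow_dvd_iff_le_factorization Nat.card_pos.ne').1 ?_)
      rw [← hk]
      exact orderOf_dvd_natCard _
    calc x ^ p ^ a = (x * x'⁻¹ * x') ^ p ^ a := by rw [inv_mul_cancel_right]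
      _ = x' ^ p ^ a := by rw [h1.mul_pow, h2, one_mul]
  have hx1 := key x x' hx
  have hy1 := key y y' hy
  constructor
  · intro h χ
    obtain ⟨b, hb, e1⟩ := χ.isCharacter.isGeneralizedCharacter.exists_pow_prime_pow_eq hp a x
    obtain ⟨c, hc, e2⟩ := χ.isCharacter.isGeneralizedCharacter.exists_pow_prime_pow_eq hp a y
    refine ⟨⟨b - c, hb.sub hc⟩, ?_⟩
    rw [e1, e2, hx1, hy1, χ.isClassFunction.eq_of_isConj (h.pow _)]
    simp only
    ring
  · intro h
    obtain ⟨M, hM⟩ := exists_isPModular hp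
    have h1 : IsConj (x' ^ p ^ a) (y' ^ p ^ a) := by
      by_contra hc
      have hu : ¬ p ∣ orderOf (x' ^ p ^ a) := fun h2 => hx.2.2 (h2.trans (orderOf_pow_dvd _))
      have hv : ¬ p ∣ orderOf (y' ^ p ^ a) := fun h2 => hy.2.2 (h2.trans (orderOf_pow_dvd _))
      obtain ⟨c, hc1, hc2⟩ : InIrrSpan (valO M)
          (fun g : G => if IsConj (x' ^ p ^ a) (pRegPart p g) then (1 : ℂ) else 0) := by
        refine inIrrSpan_of_eq_pRegPart (p := p)
          (fun a ha z hz => mul_mem (mem_valO_of_isIntegral ha) hz)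
          (fun n hn z hz => by
            rw [div_eq_mul_inv]; exact mul_mem hz (hM.inv_natCast_mem hn)) (fun g z => ?_)
          (fun g => ?_) (fun g => ?_)
        · rw [pRegPart_conj]
          refine if_congr ⟨fun h2 => h2.trans (isConj_iff.2 ⟨z, rfl⟩).symm,
            fun h2 => h2.trans (isConj_iff.2 ⟨z, rfl⟩)⟩ rfl rfl
        · split_ifs
          · exact one_mem _
          · exact zero_mem _
        · rw [pRegPart_eq_self_iff.2 (not_dvd_orderOf_pRegPart g)]
      have e1 := congrFun hc2 (x' ^ p ^ a)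
      have e2 := congrFun hc2 (y' ^ p ^ a)
      simp only [pRegPart_eq_self_iff.2 hu, pRegPart_eq_self_iff.2 hv, if_neg hc,
        if_pos (IsConj.refl _)] at e1 e2
      have h3 : ∀ χ : IrrCharacter G, ∃ w ∈ valO M,
          χ.1 (x' ^ p ^ a) - χ.1 (y' ^ p ^ a) = p * w := by
        intro χ
        obtain ⟨b, hb, e3⟩ := χ.isCharacter.isGeneralizedCharacter.exists_pow_prime_pow_eq hp a x
        obtain ⟨c, hc, e4⟩ := χ.isCharacter.isGeneralizedCharacter.exists_pow_prime_pow_eq hp a y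
        obtain ⟨γ, hγ⟩ := h χ
        refine ⟨γ - b + c, mem_valO_of_isIntegral ((IsIntegral.sub γ.2 hb).add hc), ?_⟩
        rw [← hx1, ← hy1]
        linear_combination hγ - e3 + e4
      choose w hw1 hw2 using h3
      have h4 : (1 : ℂ) = p * ∑ χ : IrrCharacter G, c χ * w χ := by
        rw [← sub_zero (1 : ℂ), e1, e2, ← Finset.sum_sub_distrib, Finset.mul_sum]
        refine Finset.sum_congr rfl fun χ _ => ?_
        rw [← mul_sub, hw2]
        ring
      have h5 : valM M (∑ χ : IrrCharacter G, c χ * w χ) ≤ 1 :=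
        mem_valO_iff.1 (sum_mem fun χ _ => mul_mem (hc1 χ) (hw1 χ))
      have h6 := congrArg (valM M) h4
      rw [map_one, map_mul] at h6
      exact absurd h6 (mul_lt_one_of_nonneg_of_lt_one_left zero_le hM.valM_p_lt_one h5).ne'
    have h2 : (p ^ a).Coprime (orderOf x' * orderOf y') :=
      Nat.Coprime.pow_left _ (Nat.Coprime.mul_right ((hp.coprime_iff_not_dvd).2 hx.2.2)
        ((hp.coprime_iff_not_dvd).2 hy.2.2))
    obtain ⟨m, -, hm⟩ := Nat.exists_mul_mod_eq_of_coprime 1 h2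
      (Nat.mul_pos (orderOf_pos x') (orderOf_pos y')).ne'
    have hm' : p ^ a * m ≡ 1 [MOD orderOf x' * orderOf y'] := hm
    have h3 := h1.pow m
    rwa [← pow_mul, ← pow_mul, (pow_eq_pow_iff_modEq.2 (hm'.of_mul_right _)),
      (pow_eq_pow_iff_modEq.2 (hm'.of_mul_left _)), pow_one, pow_one] at h3

end Cfsg.Agent.S4604
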