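import Cfsg.Statements.S4606
import Cfsg.Agent.Blk.KnRob
import Cfsg.Agent.Blk.Fong
import Cfsg.Agent.Blk.Principal
import Cfsg.Agent.Grp.Frobenius

set_option autoImplicit false
open Cfsg

namespace Cfsg.Agent.S4606

universe u

theorem lemA {G : Type u} [Group G] [Finite G] {p : ℕ} [Fact p.Prime] {M : Ideal AlgInt}
    (hM : IsPModular p M) {B : Set (IrrCharacter G)} (hB : IsPBlock M B)
    (hf : blockDefect p B = (Nat.card G).factorization p)
    (hk : Nat.card B = blockRank p B + 1) :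
    ∃ x : G, (∃ k : ℕ, orderOf x = p ^ k) ∧
      blockRank p (inducingChars M (Subgroup.centralizer {x}) B) = 1 ∧
      ∀ u : G, u ≠ 1 → (∃ k : ℕ, orderOf u = p ^ k) → IsConj u x := by
  classical
  obtain ⟨X, hX, hrep⟩ := exists_pElement_reps p G
  have h1 : (1 : G) ∈ X := by
    obtain ⟨x, ⟨h1, h2⟩, -⟩ := hrep 1 ⟨0, by simp⟩
    rwa [isConj_one_right.1 h2] at h1
  have h2 := hB.card_eq_sum_blockRank hM X hX hrep
  rw [← Finset.add_sum_erase _ _ h1, (hB.card_rank_inducingChars_top hM (by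
    rw [eq_top_iff]; intro g _; simp [Subgroup.mem_centralizer_singleton_iff])).2, hk,
    add_right_inj] at h2
  obtain ⟨P⟩ : Nonempty (Sylow p G) := inferInstance
  have hP := (hB.isDefectGroup_iff_of_full hM hf P).2 ⟨P, rfl⟩
  have hpos : ∀ x ∈ X.erase 1,
      1 ≤ blockRank p (inducingChars M (Subgroup.centralizer {x}) B) := fun x hx => by
    have h3 := hX x (Finset.mem_of_mem_erase hx)
    refine blockRank_pos hM.prime ((hP.inducingChars_nonempty_iff hM hB
      (isPGroup_zpowers_iff.2 h3) (centralizer_zpowers x).symm).2 ?_)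
    obtain ⟨g, hg⟩ := exists_conj_smul_le_sylow P (isPGroup_zpowers_iff.2 h3)
    exact ⟨g, hg⟩
  have h3 : (X.erase 1).card ≤ 1 := by
    rw [h2, Finset.card_eq_sum_ones]
    exact Finset.sum_le_sum hpos
  obtain ⟨x, hx⟩ : (X.erase 1).Nonempty := by
    rw [Finset.nonempty_iff_ne_empty]
    intro h
    rw [h] at h2
    simp at h2
  have h4 : X.erase 1 = {x} :=
    Finset.eq_singleton_iff_unique_mem.2 ⟨hx, fun y hy => Finset.card_le_one.1 h3 y hy x hx⟩
  rw [h4, Finset.sum_singleton] at h2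
  refine ⟨x, hX x (Finset.mem_of_mem_erase hx), h2.symm, fun u hu1 hu => ?_⟩
  obtain ⟨y, ⟨h5, h6⟩, -⟩ := hrep u hu
  have h7 : y ∈ X.erase 1 := Finset.mem_erase.2 ⟨fun h => hu1 (by
    rwa [h, isConj_one_left] at h6), h5⟩
  rw [h4, Finset.mem_singleton] at h7
  exact h7 ▸ h6

theorem lemB {G : Type u} [Group G] [Finite G] {p : ℕ} [Fact p.Prime] (P : Sylow p G) {x : G}
    (h : ∀ u : G, u ≠ 1 → (∃ k : ℕ, orderOf u = p ^ k) → IsConj u x) {u : G}
    (hu : u ∈ (P : Subgroup G)) : u ^ p = 1 := by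
  by_cases hu1 : u = 1
  · rw [hu1, one_pow]
  obtain ⟨v, hv, hvo⟩ := exists_orderOf_eq_prime_of_dvd_card
    (dvd_card_of_isPGroup_of_ne_bot P.isPGroup' fun h0 => hu1 (by rwa [h0] at hu))
  have h1 := (h v (by
    rintro rfl
    exact (Fact.out : p.Prime).one_lt.ne (by simpa using hvo)) ⟨1, by rw [hvo, pow_one]⟩).trans
    (h u hu1 (exists_orderOf_eq_pow_of_mem P.isPGroup' hu)).symm
  have h2 := h1.pow p
  rwa [← hvo, pow_orderOf_eq_one, isConj_one_right, hvo] at h2

theorem lemC {G : Type u} [Group G] [Finite G] {p : ℕ} [Fact p.Prime] (P : Sylow p G) {x : G}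
    (h : ∀ u : G, u ≠ 1 → (∃ k : ℕ, orderOf u = p ^ k) → IsConj u x)
    (hx : HasNormalPComplement p (Subgroup.centralizer ({x} : Set G))) :
    IsMulCommutative (P : Subgroup G) := by
  classical
  have hp : p.Prime := Fact.out
  by_cases h2 : p = 2
  · subst h2
    refine ⟨⟨fun a b => ?_⟩⟩
    have h1 : ∀ c : (P : Subgroup G), c⁻¹ = c := fun c =>
      inv_eq_of_mul_eq_one_left (Subtype.ext (by simpa [sq] using lemB P h c.2))
    rw [← h1 (a * b), mul_inv_rev, h1, h1]
  by_cases hP : (P : Subgroup G) = ⊥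
  · rw [hP]
    infer_instance
  obtain ⟨z, ⟨hzP, hzC⟩, hz1⟩ := (Subgroup.bot_or_exists_ne_one _).resolve_left
    (inf_centralizer_ne_bot_of_isPGroup P.isPGroup' P.isPGroup' Subgroup.le_normalizer hP)
  have hzo := exists_orderOf_eq_pow_of_mem P.isPGroup' hzP
  obtain ⟨g, hg⟩ := isConj_iff.1 ((h z⁻¹ (inv_ne_one.2 hz1) (by simpa using hzo)).trans
    (h z hz1 hzo).symm)
  have hg' : g⁻¹ * z * g = z⁻¹ := by
    rw [mul_assoc, inv_mul_eq_iff_eq_mul, ← mul_inv_eq_iff_eq_mul.1 hg]
  obtain ⟨n, hn, hnz⟩ := P.conj_eq_normalizer_conj_of_mem_centralizer z g hzC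
    (by rw [hg']; exact Subgroup.inv_mem _ hzC)
  rw [hg'] at hnz
  obtain ⟨a, m, hm, ha⟩ := Nat.exists_eq_two_pow_mul_odd (orderOf_pos n).ne'
  have hzz : z⁻¹ ≠ z := fun h3 => by
    have h4 : orderOf z ∣ 2 := orderOf_dvd_of_pow_eq_one (by rw [sq]; nth_rw 1 [← h3]; simp)
    have h5 : orderOf z ∣ p := orderOf_dvd_of_pow_eq_one (lemB P h hzP)
    exact hz1 (orderOf_eq_one_iff.1 (Nat.eq_one_of_dvd_coprimes
      ((Nat.coprime_primes Nat.prime_two hp).2 (Ne.symm h2)) h4 h5))
  have ht : n ^ m ∉ Subgroup.centralizer ((P : Subgroup G) : Set G) := fun ht => by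
    obtain ⟨j, rfl⟩ := hm
    have h3 : Commute z (n ^ 2) := by
      have h4 : z * n = n * z⁻¹ := by rw [hnz]; group
      have h5 : z⁻¹ * n = n * z := by
        rw [inv_mul_eq_iff_eq_mul, ← mul_assoc, h4, inv_mul_cancel_right]
      rw [Commute, SemiconjBy, sq, ← mul_assoc, h4, mul_assoc, h5, mul_assoc]
    have h4 : Commute z (n ^ (2 * j + 1)) := ht z hzP
    have h5 : Commute z n := by
      have := h4.mul_right (h3.pow_right j).inv_right
      rwa [← pow_mul, pow_succ', mul_inv_cancel_right] at this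
    exact hzz (by rw [hnz, mul_assoc, h5.eq, inv_mul_cancel_left])
  have hex : ∃ i, (n ^ m) ^ 2 ^ i ∈ Subgroup.centralizer ((P : Subgroup G) : Set G) :=
    ⟨a, by rw [← pow_mul, mul_comm, ← ha, pow_orderOf_eq_one]; exact one_mem _⟩
  obtain ⟨i, hi⟩ : ∃ i, Nat.find hex = i + 1 :=
    Nat.exists_eq_succ_of_ne_zero fun h0 => ht (by simpa [h0] using Nat.find_spec hex)
  set s := (n ^ m) ^ 2 ^ i with hs
  have hsN : s ∈ Subgroup.normalizer ((P : Subgroup G) : Set G) := pow_mem (pow_mem hn _) _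
  have hsC : s ∉ Subgroup.centralizer ((P : Subgroup G) : Set G) := Nat.find_min hex (by omega)
  have hso : ¬ p ∣ orderOf s := fun h3 => by
    have h4 : orderOf s ∣ 2 ^ a := orderOf_dvd_of_pow_eq_one (by
      rw [hs, ← pow_mul, mul_comm, pow_mul, ← pow_mul n, mul_comm m, ← ha, pow_orderOf_eq_one,
        one_pow])
    exact h2 ((Nat.prime_dvd_prime_iff_eq hp Nat.prime_two).1 (hp.dvd_of_dvd_pow (h3.trans h4)))
  refine isMulCommutative_of_fixedPointFree_involution hsN (by
    have := Nat.find_spec hex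
    rwa [hi, pow_succ, pow_mul, sq] at this) fun u hu hsu => ?_
  by_contra hu1
  obtain ⟨c, hc⟩ := isConj_iff.1 (h u hu1 (exists_orderOf_eq_pow_of_mem P.isPGroup' hu))
  have hCu : HasNormalPComplement p (Subgroup.centralizer ({u} : Set G)) :=
    hx.of_injective (((MulAut.conj c).toMonoidHom.comp
      (Subgroup.centralizer ({u} : Set G)).subtype).codRestrict
        (Subgroup.centralizer ({x} : Set G)) fun y => by
      rw [← hc, centralizer_conj_singleton]
      exact conj_mem_conj_smul_iff.2 y.2)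
      fun a b hab => Subtype.ext ((MulAut.conj c).injective (congrArg Subtype.val hab))
  have hsu' : s ∈ Subgroup.centralizer ({u} : Set G) :=
    Subgroup.mem_centralizer_singleton_iff.2 hsu
  have h3 := hCu.mem_centralizer (isPGroup_subgroupOf P.isPGroup' _) (x := ⟨s, hsu'⟩)
    (Subgroup.mem_normalizer_iff.2 fun y => Subgroup.mem_normalizer_iff.1 hsN y)
    (by rwa [← Subgroup.orderOf_coe])
  refine hsC (le_centralizer_of_isNilpotent_of_centralizer_centralizer_le
    (A := Subgroup.zpowers s) (Subgroup.zpowers_le.2 hsN)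
    (coprime_card_of_isPGroup P.isPGroup' (by rwa [Nat.card_zpowers]))
    P.isPGroup'.isNilpotent (fun y hy => ?_) (Subgroup.mem_zpowers s))
  rw [centralizer_zpowers] at hy ⊢
  have h4 : y ∈ Subgroup.centralizer ({u} : Set G) :=
    Subgroup.mem_centralizer_singleton_iff.2
      (hy.2 u ⟨hu, Subgroup.mem_centralizer_singleton_iff.2 hsu.symm⟩).symm
  exact Subgroup.mem_centralizer_singleton_iff.2 (congrArg Subtype.val (h3 ⟨y, h4⟩ hy.1))

theorem lemD {G : Type u} [Group G] [Finite G] {p : ℕ} [Fact p.Prime] (P : Sylow p G) {x : G}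
    (h : ∀ u : G, u ≠ 1 → (∃ k : ℕ, orderOf u = p ^ k) → IsConj u x)
    (hs : IsPSolvable p G) (hZ : pPrimeCore p G ≤ Subgroup.center G) :
    IsMulCommutative (P : Subgroup G) := by
  by_cases hO : pCore p G = ⊥
  · have h1 := pCore_le_map_pCore_of_ker_le_center (p := p) (QuotientGroup.mk' (pPrimeCore p G))
      (QuotientGroup.mk'_surjective _) (by rwa [QuotientGroup.ker_mk'])
    have h2 := hs.centralizer_pCore_quotient_le
    rw [hO, Subgroup.map_bot, le_bot_iff] at h1
    rw [h1] at h2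
    refine ⟨⟨fun a b => Subtype.ext (Subgroup.mem_center_iff.1 (hZ ?_) (a : G))⟩⟩
    rw [← QuotientGroup.eq_one_iff, ← Subgroup.mem_bot]
    exact h2 fun y hy => by rw [Subgroup.mem_bot.1 hy, one_mul, mul_one]
  obtain ⟨z, hz, hz1⟩ := (Subgroup.bot_or_exists_ne_one _).resolve_left
    (inf_centralizer_ne_bot_of_isPGroup (isPGroup_pCore p G) (isPGroup_pCore p G)
      Subgroup.le_normalizer hO)
  have h1 : ∀ u ∈ (P : Subgroup G),
      u ∈ pCore p G ⊓ Subgroup.centralizer (pCore p G : Set G) := fun u hu => by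
    by_cases hu1 : u = 1
    · rw [hu1]
      exact one_mem _
    obtain ⟨c, rfl⟩ := isConj_iff.1 ((h z hz1 (exists_orderOf_eq_pow_of_mem (isPGroup_pCore p G)
      hz.1)).trans (h u hu1 (exists_orderOf_eq_pow_of_mem P.isPGroup' hu)).symm)
    exact Subgroup.Normal.conj_mem inferInstance z hz c
  exact ⟨⟨fun a b => Subtype.ext ((h1 b b.2).2 a (h1 a a.2).1)⟩⟩


/-- Let G be a finite group, p a prime, M a maximal ideal of the algebraic integers containing p, and B a p-block of G with defect group D. Suppose the number of irreducible characters in B exceeds the p-regular rank of B (the number of irreducible Brauer characters in B) by exactly one. If B is the principal block, or if G is p-solvable, then D is elementary abelian. -/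
theorem result {G : Type*} [Group G] [Finite G] (p : ℕ) [Fact p.Prime] (M : Ideal Cfsg.AlgInt) (hM : Cfsg.IsPModular p M) (B : Set (Cfsg.IrrCharacter G)) (hB : Cfsg.IsPBlock M B) (D : Subgroup G) (hD : Cfsg.IsDefectGroup p M B D)
    (hk : Nat.card B = Cfsg.blockRank p B + 1) (hB0 : B = Cfsg.principalBlock M G ∨ Cfsg.IsPSolvable p G) :
    Cfsg.IsElementaryAbelian p D := by
  rcases hB0 with rfl | hs
  · obtain ⟨P, rfl⟩ := (hM.isDefectGroup_principalBlock_iff D).1 hD
    have h1 := hD.card_eq hM hB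
    rw [show Nat.card (P : Subgroup G) = _ from P.card_eq_multiplicity] at h1
    obtain ⟨x, hx, h2, h3⟩ := lemA hM hB
      (Nat.pow_right_injective hM.prime.two_le h1).symm hk
    rw [hM.inducingChars_principalBlock_of_pElement hx rfl,
      hM.blockRank_principalBlock_eq_one_iff'] at h2
    exact ⟨lemC P h3 h2, fun u hu => lemB P h3 hu⟩
  · obtain ⟨R⟩ := hs.nonempty_fongReduction hM hB
    obtain ⟨S⟩ : Nonempty (Sylow p R.E) := inferInstance
    obtain ⟨e⟩ := R.defect D hD S
    obtain ⟨x, -, -, h3⟩ := lemA hM R.isPBlock R.full (by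
      rw [← R.Φ.card_eq, ← R.Φ.blockRank_eq hM (R.isPBlock.isBlockUnion hM), hk])
    have h4 := lemD S h3 R.isPSolvable R.central
    refine ⟨⟨⟨fun a b => e.injective (by rw [map_mul, map_mul, mul_comm'])⟩⟩, fun a ha => ?_⟩
    have h5 : (⟨a, ha⟩ : D) ^ p = 1 := e.injective (by
      rw [map_pow, map_one]
      exact Subtype.ext (lemB S h3 (e ⟨a, ha⟩).2))
    exact congrArg Subtype.val h5

end Cfsg.Agent.S4606
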