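import Cfsg.Statements.S4607
import Cfsg.Agent.S4648
import Cfsg.Agent.Blk.Contrib

set_option autoImplicit false
open Cfsg

namespace Cfsg.Agent.S4607

/-- Let G be a finite group, p a prime, M a maximal ideal of the algebraic integers containing p, and B a p-block of G with defect group D. Then B contains exactly two irreducible characters if and only if D has order 2. -/
theorem result {G : Type*} [Group G] [Finite G] (p : ℕ) [Fact p.Prime] (M : Ideal Cfsg.AlgInt) (hM : Cfsg.IsPModular p M) (B : Set (Cfsg.IrrCharacter G)) (hB : Cfsg.IsPBlock M B) (D : Subgroup G) (hD : Cfsg.IsDefectGroup p M B D) : Nat.card B = 2 ↔ Nat.card D = 2 := by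
  have hp : p.Prime := Fact.out
  have h1 := hD.card_eq hM hB
  have h2 := hB.blockRank_eq_card_iff_defect hM
  have h3 := hB.blockRank_pos hM
  have h4 := blockRank_le_card (p := p) B
  constructor
  · intro hk
    have hd : blockDefect p B ≠ 0 := fun h => by
      have := hB.card_eq_one_of_blockDefect_eq_zero hM h
      omega
    have hD1 : D ≠ ⊥ := by
      rintro rfl
      rw [Subgroup.card_bot] at h1
      exact hd ((Nat.pow_eq_one.1 h1.symm).resolve_left hp.ne_one)
    have hl : blockRank p B = 1 := by
      have := h2.not.2 hd
      omega
    rw [(S4648.result p M hM B hB D hD hD1 hl (by omega)).2.1, hk]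
  · intro hk
    have h5 := hB.four_mul_card_le hM
    rw [mul_comm 2, pow_mul, ← h1, hk] at h5
    have hd : blockDefect p B ≠ 0 := fun h => by
      rw [h, hk, pow_zero] at h1
      omega
    have := h2.not.2 hd
    omega

end Cfsg.Agent.S4607
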