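import Cfsg.Statements.S4609
import Cfsg.Agent.Blk.ThreeChar

set_option autoImplicit false
open Cfsg

namespace Cfsg.Agent.S4609

theorem card_le_three {G : Type*} [Group G] [Finite G] {p : ℕ} {M : Ideal AlgInt}
    (hM : IsPModular p M) {B : Set (IrrCharacter G)} (hB : IsPBlock M B) {D : Subgroup G}
    (hD : IsDefectGroup p M B D) [D.Normal]
    (hk : Nat.card {χ : IrrCharacter G // χ ∈ B ∧ blockHeight p B χ.1 = 0} ≤ 3) :
    Nat.card D ≤ 3 := by
  have := hM.fact_prime
  have hle : ⁅D, D⁆ ≤ D := Subgroup.commutator_le_left D D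
  have hπ := QuotientGroup.mk'_surjective ⁅D, D⁆
  have hker := QuotientGroup.ker_mk' ⁅D, D⁆
  obtain ⟨b, hb, hbB, -⟩ := hB.exists_dominated_of_isPGroup hM _ hπ
    (hD.isPGroup.to_le (hker.trans_le hle))
  have hD' := hD.map_of_normal hM hB hπ hb hbB
  have := Subgroup.Normal.map ‹D.Normal› _ hπ
  have hab : D.map (QuotientGroup.mk' ⁅D, D⁆) ≤ Subgroup.centralizer
      (D.map (QuotientGroup.mk' ⁅D, D⁆) : Set (G ⧸ ⁅D, D⁆)) := by
    rw [← Subgroup.commutator_eq_bot_iff_le_centralizer, ← Subgroup.map_commutator,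
      Subgroup.map_eq_bot_iff, hker]
  have h1 : Nat.card b ≤ 3 := (Nat.card_le_card_of_injective (fun χ => ⟨χ.1.comap _ hπ, hbB χ.2,
    (hD.blockHeight_comap_of_normal hM hB hπ (hker.trans_le hle) hb hbB χ.2).trans
      (hD'.blockHeight_eq_zero_of_normal hM hb (isMulCommutative_of_le_centralizer hab) χ.2)⟩)
    fun χ χ' h => Subtype.ext (IrrCharacter.comap_injective _ hπ (congrArg Subtype.val h))).trans hk
  have h2 : Nat.card (D.map (QuotientGroup.mk' ⁅D, D⁆)) ≤ 3 := by
    by_cases h : Nat.card b ≤ 2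
    · exact (hD'.card_eq_of_card_le_two hM hb h).trans (by norm_num)
    · exact (hD'.card_eq_three_of_normal hM hb hab (by omega)).le
  rw [← Subgroup.relIndex_ker, hker, Subgroup.relIndex, ← Subgroup.map_subtype_commutator,
    Subgroup.subgroupOf, Subgroup.comap_map_eq_self_of_injective D.subtype_injective] at h2
  by_cases h : IsCyclic D
  · rwa [commutator_eq_bot, Subgroup.index_bot] at h2
  have := Nat.le_of_dvd (Nat.pos_of_ne_zero Subgroup.index_ne_zero_of_finite)
    (sq_dvd_index_commutator_of_not_isCyclic hD.isPGroup h)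
  have := hM.prime.two_le
  nlinarith

/-- Let G be a finite group, p a prime, M a maximal ideal of the algebraic integers containing p, and B a p-block of G with defect group D containing exactly three irreducible characters. Suppose the number of height-zero characters of B equals the number of height-zero characters of its Brauer correspondent b, the block of N_G(D) with defect group D inducing B (as the Alperin–McKay conjecture predicts). Then D has order 3. -/
theorem result {G : Type*} [Group G] [Finite G] (p : ℕ) [Fact p.Prime] (M : Ideal Cfsg.AlgInt) (hM : Cfsg.IsPModular p M) (B : Set (Cfsg.IrrCharacter G)) (hB : Cfsg.IsPBlock M B) (D : Subgroup G) (hD : Cfsg.IsDefectGroup p M B D) (hk : Nat.card B = 3)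
    (b : Set (Cfsg.IrrCharacter (Subgroup.normalizer (D : Set G)))) (hbB : Cfsg.IsInducedBlock M (Subgroup.normalizer (D : Set G)) b B)
    (hbD : Cfsg.IsDefectGroup p M b (D.subgroupOf (Subgroup.normalizer (D : Set G))))
    (hAM : Nat.card {χ : Cfsg.IrrCharacter G // χ ∈ B ∧ Cfsg.blockHeight p B (χ : G → ℂ) = 0} =
           Nat.card {ψ : Cfsg.IrrCharacter (Subgroup.normalizer (D : Set G)) // ψ ∈ b ∧ Cfsg.blockHeight p b (ψ : Subgroup.normalizer (D : Set G) → ℂ) = 0}) :
    Nat.card D = 3 := by
  have h1 := card_le_three hM hbB.1 hbD (hAM ▸ hk ▸ Nat.card_le_card_of_injective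
    (fun χ => (⟨χ.1, χ.2.1⟩ : B)) fun χ χ' h => Subtype.ext (congrArg (fun χ : B => χ.1) h))
  rw [Nat.card_congr (Subgroup.subgroupOfEquivOfLe Subgroup.le_normalizer).toEquiv] at h1
  have h2 := hB.four_mul_card_le hM
  rw [pow_mul', ← hD.card_eq hM hB, hk] at h2
  nlinarith

end Cfsg.Agent.S4609
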