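import Cfsg.Statements.S4610
import Cfsg.Agent.Blk.TwoPrime

set_option autoImplicit false
open Cfsg

namespace Cfsg.Agent.S4610

/-- Let G be a finite group and p a prime dividing its order; fix for every prime r a maximal ideal M r of the algebraic integers containing r. Then, for every prime q ≠ p dividing the order of G, the principal p-block and the principal q-block of G have only the principal character in common, if and only if a Sylow p-subgroup P of G is normal and G is generated by P and its largest normal subgroup of order prime to p (that is, G is the direct product of P and that subgroup). -/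
theorem result {G : Type*} [Group G] [Finite G] (p : ℕ) [Fact p.Prime] (hp : p ∣ Nat.card G) (M : ℕ → Ideal Cfsg.AlgInt) (hM : ∀ r : ℕ, r.Prime → Cfsg.IsPModular r (M r)) (P : Sylow p G) :
    (∀ q : ℕ, q.Prime → q ≠ p → q ∣ Nat.card G →
        ∀ χ : Cfsg.IrrCharacter G, χ ∈ Cfsg.principalBlock (M p) G → χ ∈ Cfsg.principalBlock (M q) G → (χ : G → ℂ) = fun _ => 1) ↔
      ((P : Subgroup G).Normal ∧ (P : Subgroup G) ⊔ Cfsg.pPrimeCore p G = ⊤) := by
  have hpp : p.Prime := Fact.out
  constructor
  · intro h
    refine normal_and_sup_of_class_sizes P fun u hu q hq hne => ?_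
    by_cases hd : q ∣ Nat.card G
    · refine (hM p hpp).not_dvd_index_centralizer_of_inter (hM q hq) hne
        (fun χ h1 h2 => Subtype.ext (h q hq hne hd χ h1 h2)) ?_
      obtain ⟨k, hk⟩ := IsPGroup.iff_orderOf.1 P.isPGroup' ⟨u, hu⟩
      exact ⟨k, by rw [← hk, ← Subgroup.orderOf_coe]⟩
    · exact fun h' => hd (h'.trans (Subgroup.index_dvd_card _))
  · rintro ⟨hn, hs⟩ q hq hne - χ h1 h2
    have a1 := (hM p hpp).le_charKer_of_mem_principalBlock (not_dvd_card_pPrimeCore p) h1
    have a2 : (P : Subgroup G) ≤ charKer χ.1 := by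
      refine (hM q hq).le_charKer_of_mem_principalBlock ?_ h2
      obtain ⟨k, hk⟩ := IsPGroup.iff_card.1 P.isPGroup'
      rw [hk]
      intro h'
      exact hne ((Nat.prime_dvd_prime_iff_eq hq hpp).1 (hq.dvd_of_dvd_pow h'))
    have : charKer χ.1 = ⊤ := top_le_iff.1 (hs ▸ sup_le a2 a1)
    rw [(IrrCharacter.charKer_eq_top_iff χ).1 this]
    rfl

end Cfsg.Agent.S4610
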