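import Cfsg.Statements.S4611
import Cfsg.Agent.Blk.Fong

set_option autoImplicit false
open Cfsg

namespace Cfsg.Agent.S4611

/-- Let G be a finite solvable group and π a nonempty set of primes, each dividing the order of G; fix for each p in π a maximal ideal M p of the algebraic integers containing p. Then the only irreducible character lying in the principal p-block for every p in π is the principal character if and only if G is generated by the subgroups O_{p'}(G), p in π (the largest normal subgroups of order prime to p). -/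
theorem result {G : Type*} [Group G] [Finite G] [Group.IsSolvable G] (π : Set ℕ) (hπ : ∀ p ∈ π, p.Prime ∧ p ∣ Nat.card G) (hne : π.Nonempty) (M : ℕ → Ideal Cfsg.AlgInt) (hM : ∀ p ∈ π, Cfsg.IsPModular p (M p)) :
    (∀ χ : Cfsg.IrrCharacter G, (∀ p ∈ π, χ ∈ Cfsg.principalBlock (M p) G) → (χ : G → ℂ) = fun _ => 1) ↔
      ⨆ p ∈ π, Cfsg.pPrimeCore p G = ⊤ := by
  have key : ∀ χ : IrrCharacter G, (∀ p ∈ π, χ ∈ principalBlock (M p) G) ↔
      ⨆ p ∈ π, pPrimeCore p G ≤ charKer χ.1 := fun χ => by
    rw [iSup₂_le_iff]
    refine forall₂_congr fun p hp => ?_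
    have := Fact.mk (hπ p hp).1
    exact (IsPSolvable.of_isSolvable p inferInstance).mem_principalBlock_iff (hM p hp) χ
  simp only [key]
  have hN : (⨆ p ∈ π, pPrimeCore p G).Normal := inferInstance
  constructor
  · intro h
    refine top_unique fun g _ => (mem_iff_forall_charKer _).2 fun χ hχ => ?_
    rw [χ.mem_charKer, h χ hχ]
  · intro h χ hχ
    rw [h, top_le_iff, χ.charKer_eq_top_iff] at hχ
    subst hχ
    rfl

end Cfsg.Agent.S4611
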