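import Cfsg.Statements.S4620
import Cfsg.Agent.Grp.Misc
-- import your own Cfsg.Agent.* helpers here

set_option autoImplicit false
open scoped Pointwise
open Cfsg

namespace Cfsg.Agent.S4620

open scoped Pointwise

theorem cent_bot {H : Type*} [Group H] [Finite H] {p : ℕ} [Fact p.Prime] (hOp : pCore p H = ⊥)
    (hOp' : pPrimeCore p H = ⊥) (P : Sylow p H)
    (hTI : ∀ g : H, g ∉ Subgroup.normalizer ((P : Subgroup H) : Set H) →
      (P : Subgroup H) ⊓ (MulAut.conj g • (P : Subgroup H)) = ⊥)
    (N : Subgroup H) [N.Normal] (hN : N ≠ ⊥) : Subgroup.centralizer (N : Set H) = ⊥ := by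
  have h1 : (P : Subgroup H) ⊓ N ≠ ⊥ := fun e => hN (eq_bot_iff.2 (hOp' ▸
    le_pPrimeCore_of_not_dvd inferInstance (by
      have := not_dvd_relIndex_sylow_of_normal P N
      rwa [← Subgroup.inf_relIndex_right, e, Subgroup.relIndex_bot_left] at this)))
  have h2 : Subgroup.centralizer (N : Set H) ≤ Subgroup.normalizer ((P : Subgroup H) : Set H) :=
    ((Subgroup.centralizer_le (SetLike.coe_subset_coe.2 inf_le_right)).trans
      (Subgroup.centralizer_le_normalizer _)).trans (normalizer_le_of_TI hTI inf_le_left h1)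
  have h3 := le_map_pCore (p := p) (H := Subgroup.centralizer (N : Set H))
    (N := (P : Subgroup H) ⊓ Subgroup.centralizer (N : Set H)) inf_le_right
    ((le_inf h2 Subgroup.le_normalizer).trans Subgroup.inf_normalizer_le_normalizer_inf)
    P.2.to_inf_left
  rw [map_subtype_pCore_of_normal, hOp, bot_inf_eq, le_bot_iff] at h3
  have h4 := not_dvd_relIndex_sylow_of_normal P (Subgroup.centralizer (N : Set H))
  rw [← Subgroup.inf_relIndex_right, h3, Subgroup.relIndex_bot_left] at h4
  exact eq_bot_iff.2 (hOp' ▸ le_pPrimeCore_of_not_dvd inferInstance h4)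

theorem le_of_min {H : Type*} [Group H] {N : Subgroup H} (hN : IsMinNormal N)
    (hc : Subgroup.centralizer (N : Set H) = ⊥) (K : Subgroup H) (hK : K.Normal) (hK1 : K ≠ ⊥) :
    N ≤ K := by
  have := hN.1
  refine (hN.inf_eq_bot_or_le K).resolve_left fun e => hK1 (eq_bot_iff.2 (hc ▸ fun x hx y hy => ?_))
  exact commute_of_normal_of_inf_eq_bot e hy hx


/-- Let H be a finite group with no nontrivial normal p-subgroup and no nontrivial normal subgroup of order prime to p, whose Sylow p-subgroup P is nontrivial and a trivial-intersection set (P meets its conjugates by elements outside N_H(P) trivially). Then H has a unique minimal normal subgroup N; N is non-abelian simple with trivial centralizer in H (so H embeds in Aut(N)), and a Sylow p-subgroup of N is again a nontrivial trivial-intersection set in N. -/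
theorem result {H : Type*} [Group H] [Finite H] (p : ℕ) [Fact p.Prime] (hOp : Cfsg.pCore p H = ⊥) (hOp' : Cfsg.pPrimeCore p H = ⊥) (P : Sylow p H) (hP1 : (P : Subgroup H) ≠ ⊥)
    (hTI : ∀ g : H, g ∉ Subgroup.normalizer ((P : Subgroup H) : Set H) → (P : Subgroup H) ⊓ (MulAut.conj g • (P : Subgroup H)) = ⊥) :
    ∃ N : Subgroup H, N.Normal ∧ N ≠ ⊥ ∧ (∀ K : Subgroup H, K.Normal → K ≠ ⊥ → N ≤ K) ∧
      IsSimpleGroup N ∧ ¬ IsMulCommutative N ∧ Subgroup.centralizer (N : Set H) = ⊥ ∧
      ∀ Q : Sylow p N, (Q : Subgroup N) ≠ ⊥ ∧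
        ∀ n : N, n ∉ Subgroup.normalizer ((Q : Subgroup N) : Set N) → (Q : Subgroup N) ⊓ (MulAut.conj n • (Q : Subgroup N)) = ⊥ := by
  have : Nontrivial H := by
    by_contra h
    rw [not_nontrivial_iff_subsingleton] at h
    exact hP1 (Subsingleton.elim _ _)
  obtain ⟨N, hN⟩ := exists_isMinNormal (G := H)
  have := hN.1
  have hc := cent_bot hOp hOp' P hTI N hN.2.1
  have hNp : pCore p N = ⊥ := by
    rw [← Subgroup.map_eq_bot_iff_of_injective _ N.subtype_injective, map_subtype_pCore_of_normal,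
      hOp, bot_inf_eq]
  have hNp' : pPrimeCore p N = ⊥ := by
    rw [← Subgroup.map_eq_bot_iff_of_injective _ N.subtype_injective,
      map_subtype_pPrimeCore_of_normal, hOp', bot_inf_eq]
  have : Nontrivial N := (Subgroup.nontrivial_iff_ne_bot N).2 hN.2.1
  refine ⟨N, hN.1, hN.2.1, le_of_min hN hc, ⟨fun L hL => or_iff_not_imp_left.2 fun hL1 => ?_⟩,
    fun hcomm => hN.2.1 (eq_bot_iff.2 (hc ▸ N.le_centralizer)),
    hc, fun Q => ⟨fun e => ?_, TI_sylow_subgroup P hTI N Q⟩⟩
  · obtain ⟨S, hS⟩ := exists_isMinNormal (G := N)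
    have := hS.1
    obtain ⟨Q⟩ : Nonempty (Sylow p N) := inferInstance
    have h1 := le_of_min hS (cent_bot hNp hNp' Q (TI_sylow_subgroup P hTI N Q) S hS.2.1)
    have h2 : S.Characteristic := Subgroup.characteristic_iff_le_map.2 fun φ =>
      h1 _ (hS.1.map _ φ.surjective) (by
        rw [Ne, Subgroup.map_eq_bot_iff_of_injective _ φ.injective]; exact hS.2.1)
    have h3 := (hN.2.2 _ (normal_map_subtype_of_characteristic N S)
      (Subgroup.map_subtype_le _)).resolve_left (by
        rw [Subgroup.map_eq_bot_iff_of_injective _ N.subtype_injective]; exact hS.2.1)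
    rw [eq_top_iff]
    intro x _
    obtain ⟨y, hy, e⟩ := h3.ge x.2
    exact (show y = x from Subtype.ext e) ▸ h1 L hL hL1 hy
  · have h1 := Q.not_dvd_index
    rw [e, Subgroup.index_bot] at h1
    exact hN.2.1 (eq_bot_iff.2 (hOp' ▸ le_pPrimeCore_of_not_dvd hN.1 h1))

end Cfsg.Agent.S4620
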