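import Cfsg.Statements.S4623
import Cfsg.Agent.Grp.SymSylow
-- import your own Cfsg.Agent.* helpers here

set_option autoImplicit false
open Cfsg

namespace Cfsg.Agent.S4623

/-- For every prime p and every n, a Sylow p-subgroup P of the symmetric group on n letters has P/P' elementary abelian (the p-th power of every element of P lies in the derived subgroup of P), and the same holds for a Sylow p-subgroup of the alternating group on n letters. -/
theorem result (p : ℕ) [Fact p.Prime] (n : ℕ) (P : Sylow p (Equiv.Perm (Fin n))) (Q : Sylow p (alternatingGroup (Fin n))) :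
    (∀ x : (P : Subgroup (Equiv.Perm (Fin n))), x ^ p ∈ commutator (P : Subgroup (Equiv.Perm (Fin n)))) ∧
    (∀ x : (Q : Subgroup (alternatingGroup (Fin n))), x ^ p ∈ commutator (Q : Subgroup (alternatingGroup (Fin n)))) := by
  have hp : p.Prime := Fact.out
  refine ⟨abExp_iff.1 (sylow_perm_genByOrd p P).abExp, abExp_iff.1 ?_⟩
  by_cases h2 : p = 2
  · subst h2
    let T : Sylow 2 (Equiv.Perm (Fin (n / 2))) := default
    obtain ⟨S, B, h1, h2, h3⟩ := exists_sylow_perm_eq 2 (n / 2) (n % 2) (Nat.mod_lt _ hp.pos) T
    have e : Fin n ≃ (Fin 2 × Fin (n / 2)) ⊕ Fin (n % 2) := Fintype.equivOfCardEq (by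
      simp [Nat.div_add_mod])
    let f := e.permCongrHom.toMonoidHom.comp (alternatingGroup (Fin n)).subtype
    have hf : f.range = alternatingGroup _ := by
      ext x
      constructor
      · rintro ⟨y, rfl⟩
        rw [Equiv.Perm.mem_alternatingGroup]
        exact (Equiv.Perm.sign_permCongr e y).trans y.2
      · intro hx
        refine ⟨⟨e.symm.permCongr x, ?_⟩, ?_⟩
        · rw [Equiv.Perm.mem_alternatingGroup, Equiv.Perm.sign_permCongr]
          exact hx
        · ext a
          simp [f]
    have : f.range.Normal := by rw [hf]; infer_instance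
    refine sylow_abExp_of_injective f (e.permCongrHom.injective.comp Subtype.val_injective) S ?_ Q
    rw [hf, h3, sup_inf_of_le_normalizer' h2]
    · exact (genByOrd_of_forall fun x hx => h1 x (Subgroup.mem_inf.1 hx).1).abExp.sup
        ((sylow_perm_genByOrd 2 T).abExp.map _)
    · rintro _ ⟨σ, -, rfl⟩
      rw [Equiv.Perm.mem_alternatingGroup, sign_blockPerm, Fintype.card_fin, Int.units_sq]
  · have : (alternatingGroup (Fin n)).subtype.range.Normal := by
      rw [Subgroup.range_subtype]; infer_instance
    refine sylow_abExp_of_injective _ (alternatingGroup (Fin n)).subtype_injective P ?_ Q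
    rw [Subgroup.range_subtype, inf_eq_left.2]
    · exact (sylow_perm_genByOrd p P).abExp
    · intro x hx
      obtain ⟨k, hk⟩ := P.isPGroup' ⟨x, hx⟩
      have h3 : x ^ p ^ k = 1 := congrArg Subtype.val hk
      have h4 := congrArg Equiv.Perm.sign h3
      rw [map_pow, map_one] at h4
      rw [Equiv.Perm.mem_alternatingGroup]
      rcases Int.units_eq_one_or (Equiv.Perm.sign x) with h | h
      · exact h
      · rw [h, ((hp.odd_of_ne_two h2).pow).neg_one_pow] at h4
        exact absurd h4 (by decide)

end Cfsg.Agent.S4623
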