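import Cfsg.Statements.S4624
import Cfsg.Agent.Grp.QuadBound
import Cfsg.Prelude.Def_Classical
-- import your own Cfsg.Agent.* helpers here

set_option autoImplicit false
open Cfsg

namespace Cfsg.Agent.S4624

open Matrix

variable {F : Type*} [Field F] {n : ℕ}

/-- the index bijection -/
def idx (n : ℕ) : Fin n ⊕ Fin n ≃ (Fin 2 × Fin n) ⊕ Empty where
  toFun := Sum.elim (fun b => Sum.inl (0, b)) fun b => Sum.inl (1, b)
  invFun := Sum.elim (fun x => if x.1 = 0 then Sum.inl x.2 else Sum.inr x.2) Empty.elim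
  left_inv := by rintro (b | b) <;> simp
  right_inv := by
    rintro (⟨a, b⟩ | c)
    · fin_cases a <;> simp
    · exact c.elim

theorem toBilin_J (u v : Fin n ⊕ Fin n → F) : Matrix.toBilin' (Matrix.J (Fin n) F) u v =
    ∑ b, (u (Sum.inr b) * v (Sum.inl b) - u (Sum.inl b) * v (Sum.inr b)) := by
  rw [Matrix.toBilin'_apply', Matrix.J, Finset.sum_sub_distrib]
  simp [Matrix.fromBlocks_mulVec, dotProduct, Fintype.sum_sum_type, Matrix.neg_mulVec]
  ring

theorem mem_iff (A : Matrix (Fin n ⊕ Fin n) (Fin n ⊕ Fin n) F) :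
    A ∈ Matrix.symplecticGroup (Fin n) F ↔ ∀ u v, Matrix.toBilin' (Matrix.J (Fin n) F) (A *ᵥ u)
      (A *ᵥ v) = Matrix.toBilin' (Matrix.J (Fin n) F) u v := by
  have key : ∀ u v, Matrix.toBilin' (Matrix.J (Fin n) F) (A *ᵥ u) (A *ᵥ v) =
      Matrix.toBilin' (Aᵀ * Matrix.J (Fin n) F * A) u v := by
    intro u v
    rw [Matrix.toBilin'_apply', Matrix.toBilin'_apply', ← Matrix.mulVec_mulVec,
      ← Matrix.mulVec_mulVec, Matrix.dotProduct_mulVec u, Matrix.vecMul_transpose]
  rw [SymplecticGroup.mem_iff']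
  constructor
  · intro h u v
    rw [key, h]
  · intro h
    apply Matrix.toBilin'.injective
    ext u v
    exact (key _ _).symm.trans (h _ _)

/-- the symplectic form on the block index set -/
def om (u v : (Fin 2 × Fin n) ⊕ Empty → F) : F :=
  ∑ b, (u (Sum.inl (1, b)) * v (Sum.inl (0, b)) - u (Sum.inl (0, b)) * v (Sum.inl (1, b)))

/-- the embedding in `GL` -/
noncomputable def emb : Matrix.symplecticGroup (Fin n) F →* GL ((Fin 2 × Fin n) ⊕ Empty) F :=
  (reindexGL F (idx n)).toMonoidHom.comp (Matrix.symplecticGroup (Fin n) F).subtype.toHomUnits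

theorem emb_injective : Function.Injective (emb (F := F) (n := n)) :=
  (reindexGL F (idx n)).injective.comp fun _ _ h => Subtype.ext (congrArg Units.val h)

theorem le_range : preserving (Units.coeHom _) om ≤ (emb (F := F) (n := n)).range := by
  intro g hg
  obtain ⟨A, rfl⟩ := (reindexGL F (idx n)).surjective g
  refine ⟨⟨A, (mem_iff _).2 fun u v => ?_⟩, congrArg (reindexGL F (idx n)) (Units.ext rfl)⟩
  have h := hg (u ∘ (idx n).symm) (v ∘ (idx n).symm)
  have h1 : ∀ u : Fin n ⊕ Fin n → F, (Units.coeHom _ (reindexGL F (idx n) A)) *ᵥ (u ∘ (idx n).symm) =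
      ((A : Matrix _ _ F) *ᵥ u) ∘ (idx n).symm := fun u => by
    have := reindexGL_smul (idx n) A (u ∘ (idx n).symm)
    rwa [Function.comp_assoc, Equiv.symm_comp_self, Function.comp_id] at this
  rw [h1, h1] at h
  rw [toBilin_J, toBilin_J]
  exact h

theorem baseGL_mem (x : (Fin n → GL (Fin 2) F) × (Empty → Fˣ))
    (h : ∀ b, GeneralLinearGroup.det (x.1 b) = 1) :
    baseGL x ∈ preserving (Units.coeHom _) om := by
  intro u v
  change om (baseGL x • u) (baseGL x • v) = _
  refine Finset.sum_congr rfl fun b _ => ?_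
  have h1 : (x.1 b : Matrix (Fin 2) (Fin 2) F).det = 1 := congrArg Units.val (h b)
  rw [Matrix.det_fin_two] at h1
  simp only [baseGL_smul_inl]
  linear_combination (u (Sum.inl (1, b)) * v (Sum.inl (0, b)) -
    u (Sum.inl (0, b)) * v (Sum.inl (1, b))) * h1

theorem blockGL_mem (σ : Equiv.Perm (Fin n)) :
    blockGL F Empty σ ∈ preserving (Units.coeHom _) om := by
  intro u v
  change om (blockGL F Empty σ • u) (blockGL F Empty σ • v) = _
  simp only [om, blockGL_smul_inl]
  exact Equiv.sum_comp σ⁻¹ fun b =>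
    u (Sum.inl (1, b)) * v (Sum.inl (0, b)) - u (Sum.inl (0, b)) * v (Sum.inl (1, b))



/-- Let F be a finite field of odd order and n ≥ 1. A Sylow 2-subgroup P of the symplectic group Sp_{2n}(F) has P/P' elementary abelian: the square of every element of P lies in the derived subgroup of P. -/
theorem result {F : Type*} [Field F] [Fintype F] (hF : Odd (Fintype.card F)) (n : ℕ) (hn : 1 ≤ n) (P : Sylow 2 (Matrix.symplecticGroup (Fin n) F)) :
    ∀ x : (P : Subgroup (Matrix.symplecticGroup (Fin n) F)), x ^ 2 ∈ commutator (P : Subgroup (Matrix.symplecticGroup (Fin n) F)) := by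
  classical
  have : Finite (Matrix.symplecticGroup (Fin n) F) := Finite.of_injective _ emb_injective
  let R : Sylow 2 (GL (Fin 2) F) := default
  let T : Sylow 2 (Equiv.Perm (Fin n)) := default
  let Q := (R : Subgroup (GL (Fin 2) F)) ⊓ GeneralLinearGroup.det.ker
  let W := wrBase (β := Fin n) (γ := Empty) Q ⊥ ⊔ (T : Subgroup (Equiv.Perm (Fin n))).map (blockGL F Empty)
  have hW : W ≤ (emb (F := F) (n := n)).range := by
    refine le_trans (sup_le ?_ ?_) le_range
    · intro g hg
      obtain ⟨f, e, hf, -, rfl⟩ := mem_wrBase.1 hg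
      exact baseGL_mem _ fun b => (hf b).2
    · rintro _ ⟨σ, -, rfl⟩
      exact blockGL_mem σ
  have hmap := Subgroup.map_comap_eq_self hW
  have hcard : Nat.card (W.comap emb) = 2 ^ ((Fintype.card F ^ 2 - 1).factorization 2 * n +
      n.factorial.factorization 2) := by
    rw [← Subgroup.card_map_of_injective emb_injective, hmap, (wrBase_sup _ _ _).2,
      card_sylow_inf_ker_det hF, T.card_eq_multiplicity, Nat.card_perm, pow_add, pow_mul]
    simp
  have hB : ∀ (g : Matrix.symplecticGroup (Fin n) F) (u v : Fin n ⊕ Fin n → F),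
      Matrix.toBilin' (Matrix.J (Fin n) F) (g • u) (g • v) =
        Matrix.toBilin' (Matrix.J (Fin n) F) u v := fun g u v => (mem_iff g.1).1 g.2 u v
  obtain ⟨S, hS⟩ := exists_sylow_eq_of_card_le (IsPGroup.of_card hcard) fun S hS => by
    rw [hcard]
    refine Nat.le_of_dvd (by positivity) (card_dvd_of_alt (V := Fin n ⊕ Fin n → F)
      (B := Matrix.toBilin' (Matrix.J (Fin n) F)) hF (fun v => ?_)
      hB n ⊤ S ?_ (fun u _ hu => ?_) hS
      ⟨fun _ _ _ _ => trivial, fun g _ hg => ?_⟩)
    · rw [toBilin_J]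
      exact Finset.sum_eq_zero fun b _ => by ring
    · rw [Nat.card_congr (Submodule.topEquiv).toEquiv]
      simp [two_mul]
    · funext i
      rcases i with b | b
      · have := hu (Pi.single (Sum.inr b) 1) trivial
        rw [toBilin_J] at this
        simpa [Pi.single_apply] using this
      · have := hu (Pi.single (Sum.inl b) 1) trivial
        rw [toBilin_J] at this
        simpa [Pi.single_apply] using this
    · exact Subtype.ext (Matrix.ext_iff_mulVec.2 fun v => (hg v trivial).trans
        (Matrix.one_mulVec v).symm)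
  refine abExp_iff.1 (sylow_abExp S ?_ P)
  rw [hS]
  refine AbExp.of_map emb_injective ?_
  rw [hmap]
  refine abExp_iff_le.2 (sup_le (wrBase_le (fun b r hr => ?_) fun c => c.elim) ?_)
  · refine ((abExp_sylow_inf_ker_det hF R).map (atBlock Empty b)).le_abExpSub ?_
      (Subgroup.mem_map_of_mem _ hr)
    rintro _ ⟨x, hx, rfl⟩
    exact Subgroup.mem_sup_left (atBlock_mem_wrBase b hx)
  · exact ((sylow_perm_genByOrd 2 T).abExp.map _).le_abExpSub le_sup_right

end Cfsg.Agent.S4624
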