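import Cfsg.Statements.S4629
import Cfsg.Agent.Grp.OrthSylow
-- import your own Cfsg.Agent.* helpers here

set_option autoImplicit false
open Cfsg

namespace Cfsg.Agent.S4629

/-- Let F be a finite field of odd order and m ≥ 3. For the commutator subgroup Ω of the isometry group of the non-singular quadratic form x₀² + Σ x_i y_i in dimension 2m + 1 over F, a Sylow 2-subgroup P of Ω has P/P' elementary abelian: the square of every element of P lies in the derived subgroup of P. -/
theorem result {F : Type*} [Field F] [Fintype F] (hF : Odd (Fintype.card F)) (m : ℕ) (hm : 3 ≤ m) (P : Sylow 2 (Cfsg.Omega F (Cfsg.quadFormOdd m F))) : ∀ x : (P : Subgroup (Cfsg.Omega F (Cfsg.quadFormOdd m F))), x ^ 2 ∈ commutator (P : Subgroup (Cfsg.Omega F (Cfsg.quadFormOdd m F))) := by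
  let Q : QuadraticForm F (Unit ⊕ (Fin m ⊕ Fin m) → F) :=
    QuadraticMap.proj (Sum.inl ()) (Sum.inl ()) +
      ∑ i : Fin m, QuadraticMap.proj (Sum.inr (Sum.inl i)) (Sum.inr (Sum.inr i))
  have hQ : quadFormOdd m F = Q := by
    funext v
    simp [Q, quadFormOdd, QuadraticMap.sum_apply, sq]
  revert P
  rw [hQ]
  intro P
  refine abExp_iff.1 (sylow_omega_abExp hF ?_ Q (fun u hu => ?_) P)
  · simp only [Fintype.card_sum, Fintype.card_fin]
    omega
  · rw [← hQ] at hu
    funext i
    rcases i with i | i | i
    · have := hu (Pi.single (Sum.inl ()) 1)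
      simp [quadFormOdd, Pi.single_apply] at this
      have h2 : 2 * u (Sum.inl ()) = 0 := by linear_combination this
      exact (mul_eq_zero.1 h2).resolve_left (two_ne_zero_of_odd_card hF)
    · have := hu (Pi.single (Sum.inr (Sum.inr i)) 1)
      simp [quadFormOdd, Pi.single_apply, mul_add, Finset.sum_add_distrib] at this
      exact this
    · have := hu (Pi.single (Sum.inr (Sum.inl i)) 1)
      simp [quadFormOdd, Pi.single_apply, add_mul, Finset.sum_add_distrib] at this
      exact this

end Cfsg.Agent.S4629
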