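import Cfsg.Statements.S4630
import Cfsg.Agent.Grp.OrthSylow
-- import your own Cfsg.Agent.* helpers here

set_option autoImplicit false
open Cfsg

namespace Cfsg.Agent.S4630

/-- Let F be a finite field of odd order and m ≥ 1 with m even or m ≥ 4. For the commutator subgroup Ω of the isometry group of the plus-type quadratic form Σ_{i<m} x_i y_i in dimension 2m over F, a Sylow 2-subgroup P of Ω has P/P' elementary abelian: the square of every element of P lies in the derived subgroup of P. -/
theorem result {F : Type*} [Field F] [Fintype F] (hF : Odd (Fintype.card F)) (m : ℕ) (hm : 1 ≤ m) (hm' : Even m ∨ 4 ≤ m) (P : Sylow 2 (Cfsg.Omega F (Cfsg.quadFormPlus m F))) : ∀ x : (P : Subgroup (Cfsg.Omega F (Cfsg.quadFormPlus m F))), x ^ 2 ∈ commutator (P : Subgroup (Cfsg.Omega F (Cfsg.quadFormPlus m F))) := by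
  let Q : QuadraticForm F (Fin m ⊕ Fin m → F) :=
    ∑ i : Fin m, QuadraticMap.proj (Sum.inl i) (Sum.inr i)
  have hQ : quadFormPlus m F = Q := by
    funext v
    simp [Q, quadFormPlus, QuadraticMap.sum_apply]
  revert P
  rw [hQ]
  intro P
  refine abExp_iff.1 (sylow_omega_abExp hF ?_ Q (fun u hu => ?_) P)
  · simp only [Fintype.card_sum, Fintype.card_fin]
    rcases hm' with ⟨k, hk⟩ | h <;> omega
  · rw [← hQ] at hu
    funext i
    rcases i with i | i
    · have := hu (Pi.single (Sum.inr i) 1)
      simpa [quadFormPlus, Pi.single_apply, mul_add, Finset.sum_add_distrib] using this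
    · have := hu (Pi.single (Sum.inl i) 1)
      simpa [quadFormPlus, Pi.single_apply, add_mul, Finset.sum_add_distrib] using this

end Cfsg.Agent.S4630
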