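import Cfsg.Statements.S4631
import Cfsg.Agent.Grp.OrthSylow
-- import your own Cfsg.Agent.* helpers here

set_option autoImplicit false
open Cfsg

namespace Cfsg.Agent.S4631

/-- Let F be a finite field of odd order, m ≥ 4, and a, b ∈ F with z₁² + a z₁ z₂ + b z₂² anisotropic. For the commutator subgroup Ω of the isometry group of the minus-type quadratic form Σ_{i<m−1} x_i y_i + (z₁² + a z₁ z₂ + b z₂²) in dimension 2m over F, a Sylow 2-subgroup P of Ω has P/P' elementary abelian: the square of every element of P lies in the derived subgroup of P. -/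
theorem result {F : Type*} [Field F] [Fintype F] (hF : Odd (Fintype.card F)) (m : ℕ) (hm : 4 ≤ m) (a b : F) (hab : ∀ z₁ z₂ : F, z₁ ^ 2 + a * z₁ * z₂ + b * z₂ ^ 2 = 0 → z₁ = 0 ∧ z₂ = 0) (P : Sylow 2 (Cfsg.Omega F (Cfsg.quadFormMinus (m - 1) F a b))) : ∀ x : (P : Subgroup (Cfsg.Omega F (Cfsg.quadFormMinus (m - 1) F a b))), x ^ 2 ∈ commutator (P : Subgroup (Cfsg.Omega F (Cfsg.quadFormMinus (m - 1) F a b))) := by
  let Q : QuadraticForm F ((Fin (m - 1) ⊕ Fin (m - 1)) ⊕ Fin 2 → F) :=
    (∑ i : Fin (m - 1), QuadraticMap.proj (Sum.inl (Sum.inl i)) (Sum.inl (Sum.inr i))) +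
      (QuadraticMap.proj (Sum.inr 0) (Sum.inr 0) + a • QuadraticMap.proj (Sum.inr 0) (Sum.inr 1) +
        b • QuadraticMap.proj (Sum.inr 1) (Sum.inr 1))
  have hQ : quadFormMinus (m - 1) F a b = Q := by
    funext v
    simp [Q, quadFormMinus, QuadraticMap.sum_apply, sq, mul_assoc]
  revert P
  rw [hQ]
  intro P
  refine abExp_iff.1 (sylow_omega_abExp hF ?_ Q (fun u hu => ?_) P)
  · simp only [Fintype.card_sum, Fintype.card_fin]
    omega
  · rw [← hQ] at hu
    have h0 := hu (Pi.single (Sum.inr 0) 1)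
    have h1 := hu (Pi.single (Sum.inr 1) 1)
    simp [quadFormMinus, Pi.single_apply] at h0 h1
    have h2 := hab (u (Sum.inr 0)) (u (Sum.inr 1)) (by
      refine (mul_eq_zero.1 ?_).resolve_left (two_ne_zero_of_odd_card hF)
      linear_combination u (Sum.inr 0) * h0 + u (Sum.inr 1) * h1)
    funext i
    rcases i with (i | i) | i
    · have := hu (Pi.single (Sum.inl (Sum.inr i)) 1)
      simp [quadFormMinus, Pi.single_apply, mul_add, Finset.sum_add_distrib] at this
      exact this
    · have := hu (Pi.single (Sum.inl (Sum.inl i)) 1)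
      simp [quadFormMinus, Pi.single_apply, add_mul, Finset.sum_add_distrib] at this
      exact this
    · fin_cases i
      · exact h2.1
      · exact h2.2

end Cfsg.Agent.S4631
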