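import Cfsg.Statements.S4632
import Cfsg.Agent.Grp.OrthSylow
-- import your own Cfsg.Agent.* helpers here

set_option autoImplicit false
open Cfsg

namespace Cfsg.Agent.S4632

open Cfsg.Lie Matrix
open scoped Classical

variable {F : Type*} [Field F]

local infixl:70 " ⋆ " => zornMul

/-- the identity element -/
def oOne : Fin 8 → F := ![1, 0, 0, 0, 0, 0, 0, 1]

/-- the norm -/
def oN (x : Fin 8 → F) : F := x 0 * x 7 - (x 1 * x 4 + x 2 * x 5 + x 3 * x 6)

/-- the polar form of the norm -/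
def oB : LinearMap.BilinForm F (Fin 8 → F) :=
  LinearMap.mk₂ F (fun x y => x 0 * y 7 + x 7 * y 0 -
      (x 1 * y 4 + x 4 * y 1 + x 2 * y 5 + x 5 * y 2 + x 3 * y 6 + x 6 * y 3))
    (fun _ _ _ => by simp only [Pi.add_apply]; ring)
    (fun _ _ _ => by simp only [Pi.smul_apply, smul_eq_mul]; ring)
    (fun _ _ _ => by simp only [Pi.add_apply]; ring)
    (fun _ _ _ => by simp only [Pi.smul_apply, smul_eq_mul]; ring)

theorem oB_apply (x y : Fin 8 → F) : oB x y = x 0 * y 7 + x 7 * y 0 -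
    (x 1 * y 4 + x 4 * y 1 + x 2 * y 5 + x 5 * y 2 + x 3 * y 6 + x 6 * y 3) := rfl

theorem z0 (x y : Fin 8 → F) : (x ⋆ y) 0 = x 0 * y 0 + (x 1 * y 4 + x 2 * y 5 + x 3 * y 6) := rfl
theorem z1 (x y : Fin 8 → F) : (x ⋆ y) 1 = x 0 * y 1 + y 7 * x 1 - (x 5 * y 6 - x 6 * y 5) := rfl
theorem z2 (x y : Fin 8 → F) : (x ⋆ y) 2 = x 0 * y 2 + y 7 * x 2 - (x 6 * y 4 - x 4 * y 6) := rfl
theorem z3 (x y : Fin 8 → F) : (x ⋆ y) 3 = x 0 * y 3 + y 7 * x 3 - (x 4 * y 5 - x 5 * y 4) := rfl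
theorem z4 (x y : Fin 8 → F) : (x ⋆ y) 4 = y 0 * x 4 + x 7 * y 4 + (x 2 * y 3 - x 3 * y 2) := rfl
theorem z5 (x y : Fin 8 → F) : (x ⋆ y) 5 = y 0 * x 5 + x 7 * y 5 + (x 3 * y 1 - x 1 * y 3) := rfl
theorem z6 (x y : Fin 8 → F) : (x ⋆ y) 6 = y 0 * x 6 + x 7 * y 6 + (x 1 * y 2 - x 2 * y 1) := rfl
theorem z7 (x y : Fin 8 → F) : (x ⋆ y) 7 = (x 4 * y 1 + x 5 * y 2 + x 6 * y 3) + x 7 * y 7 := rfl

theorem ext8 {x y : Fin 8 → F} (h0 : x 0 = y 0) (h1 : x 1 = y 1) (h2 : x 2 = y 2) (h3 : x 3 = y 3)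
    (h4 : x 4 = y 4) (h5 : x 5 = y 5) (h6 : x 6 = y 6) (h7 : x 7 = y 7) : x = y := by
  funext i
  fin_cases i <;> assumption

theorem oB_one (x : Fin 8 → F) : oB oOne x = x 0 + x 7 := by
  simp [oB_apply, oOne, add_comm]

theorem oB_symm (x y : Fin 8 → F) : oB x y = oB y x := by simp only [oB_apply]; ring

theorem oB_self (x : Fin 8 → F) : oB x x = 2 * oN x := by simp only [oB_apply, oN]; ring

theorem oB_eq (x y : Fin 8 → F) : oB x y = oN (x + y) - oN x - oN y := by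
  simp only [oB_apply, oN, Pi.add_apply]; ring

theorem one_mul' (x : Fin 8 → F) : oOne ⋆ x = x := by
  apply ext8 <;> simp [z0, z1, z2, z3, z4, z5, z6, z7, oOne]

theorem mul_one' (x : Fin 8 → F) : x ⋆ oOne = x := by
  apply ext8 <;> simp [z0, z1, z2, z3, z4, z5, z6, z7, oOne]

theorem mul_self' (x : Fin 8 → F) : x ⋆ x = (x 0 + x 7) • x - oN x • oOne := by
  apply ext8 <;> simp [z0, z1, z2, z3, z4, z5, z6, z7, oOne, oN] <;> ring

theorem oN_mul (x y : Fin 8 → F) : oN (x ⋆ y) = oN x * oN y := by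
  simp only [oN, z0, z1, z2, z3, z4, z5, z6, z7]; ring

theorem idL (x y z : Fin 8 → F) : oB (x ⋆ y) z = oB oOne x * oB y z - oB y (x ⋆ z) := by
  simp only [oB_one]
  simp only [oB_apply, z0, z1, z2, z3, z4, z5, z6, z7]; ring

theorem idR (x y z : Fin 8 → F) : oB (x ⋆ y) z = oB oOne y * oB x z - oB x (z ⋆ y) := by
  simp only [oB_one]
  simp only [oB_apply, z0, z1, z2, z3, z4, z5, z6, z7]; ring

theorem idC1 (x y z : Fin 8 → F) : oB (x ⋆ y) (x ⋆ z) = oN x * oB y z := by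
  simp only [oB_apply, oN, z0, z1, z2, z3, z4, z5, z6, z7]; ring

theorem idC2 (x y z : Fin 8 → F) : oB (x ⋆ z) (y ⋆ z) = oB x y * oN z := by
  simp only [oB_apply, oN, z0, z1, z2, z3, z4, z5, z6, z7]; ring

theorem idS (x y z : Fin 8 → F) : oB z (x ⋆ y) + oB z (y ⋆ x) =
    oB oOne x * oB z y + oB oOne y * oB z x - oB x y * oB z oOne := by
  simp only [oB_symm z oOne, oB_one]
  simp only [oB_apply, z0, z1, z2, z3, z4, z5, z6, z7]; ring

theorem idA1 (x y z : Fin 8 → F) : oB z (x ⋆ (x ⋆ y)) =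
    oB oOne x * oB z (x ⋆ y) - oN x * oB z y := by
  simp only [oB_one]
  simp only [oB_apply, oN, z0, z1, z2, z3, z4, z5, z6, z7]; ring

theorem idA2 (x y z : Fin 8 → F) : oB z ((y ⋆ x) ⋆ x) =
    oB oOne x * oB z (y ⋆ x) - oN x * oB z y := by
  simp only [oB_one]
  simp only [oB_apply, oN, z0, z1, z2, z3, z4, z5, z6, z7]; ring

theorem smul_mul (g : G2 F) (x y : Fin 8 → F) : g • (x ⋆ y) = (g • x) ⋆ (g • y) := g.2 x y

theorem smul_one' (g : G2 F) : g • (oOne : Fin 8 → F) = oOne := by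
  have h := smul_mul g oOne (g⁻¹ • oOne)
  rw [one_mul', smul_inv_smul, mul_one'] at h
  exact h.symm

theorem oN_smul (g : G2 F) (x : Fin 8 → F) : oN (g • x) = oN x := by
  have h := smul_mul g x x
  rw [mul_self', mul_self', smul_sub, smul_comm g, smul_comm g, smul_one'] at h
  by_cases h1 : x 0 + x 7 = (g • x) 0 + (g • x) 7
  · rw [h1, sub_right_inj] at h
    have := congrFun h 0
    simpa [oOne] using this.symm
  · have h2 : g • x = ((oN x - oN (g • x)) / (x 0 + x 7 - ((g • x) 0 + (g • x) 7))) • oOne := by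
      rw [div_eq_inv_mul, mul_smul, eq_inv_smul_iff₀ (sub_ne_zero.2 h1), sub_smul, sub_smul,
        sub_eq_sub_iff_sub_eq_sub, ← h]
    have h3 : x = g • x := by
      apply MulAction.injective g
      change g • x = g • g • x
      conv_rhs => rw [h2, smul_comm g, smul_one', ← h2]
    rw [← h3]

theorem oB_smul (g : G2 F) (x y : Fin 8 → F) : oB (g • x) (g • y) = oB x y := by
  rw [oB_eq, oB_eq, ← smul_add, oN_smul, oN_smul, oN_smul]

theorem oB_nondeg : NondegOn (oB (F := F)) ⊤ := by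
  intro u _ hu
  have h0 := hu (Pi.single 0 1) trivial
  have h1 := hu (Pi.single 1 1) trivial
  have h2 := hu (Pi.single 2 1) trivial
  have h3 := hu (Pi.single 3 1) trivial
  have h4 := hu (Pi.single 4 1) trivial
  have h5 := hu (Pi.single 5 1) trivial
  have h6 := hu (Pi.single 6 1) trivial
  have h7 := hu (Pi.single 7 1) trivial
  simp [oB_apply] at h0 h1 h2 h3 h4 h5 h6 h7
  apply ext8 <;> assumption

theorem hasType_top [Fintype F] (hF : Odd (Fintype.card F)) : HasType (oB (F := F)) ⊤ 8 1 := by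
  have h2 := two_ne_zero_of_odd_card hF
  let L : (Fin 8 → F) →ₗ[F] (Fin 8 → F) :=
    { toFun := fun x => ![x 0 + x 7, x 1 + x 4, x 2 + x 5, x 3 + x 6, x 1 - x 4, x 2 - x 5,
        x 3 - x 6, x 0 - x 7]
      map_add' := fun x y => by apply ext8 <;> simp <;> ring
      map_smul' := fun c x => by apply ext8 <;> simp <;> ring }
  have hL : Function.Injective L := by
    rw [injective_iff_map_eq_zero]
    intro x hx
    have h0 : x 0 + x 7 = 0 := congrFun hx 0
    have h1 : x 1 + x 4 = 0 := congrFun hx 1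
    have h2' : x 2 + x 5 = 0 := congrFun hx 2
    have h3 : x 3 + x 6 = 0 := congrFun hx 3
    have h4 : x 1 - x 4 = 0 := congrFun hx 4
    have h5 : x 2 - x 5 = 0 := congrFun hx 5
    have h6 : x 3 - x 6 = 0 := congrFun hx 6
    have h7 : x 0 - x 7 = 0 := congrFun hx 7
    apply ext8 <;> refine (mul_eq_zero.1 ?_).resolve_left h2
    · linear_combination h0 + h7
    · linear_combination h1 + h4
    · linear_combination h2' + h5
    · linear_combination h3 + h6
    · linear_combination h1 - h4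
    · linear_combination h2' - h5
    · linear_combination h3 - h6
    · linear_combination h0 - h7
  let t : Fˣ := Units.mk0 2 h2
  have h := hasType_of_linearEquiv hF oB_nondeg ![t, -t, -t, -t, t, t, t, -t]
    (LinearEquiv.ofInjectiveEndo L hL) fun x => by
      change oB (L x) (L x) = _
      simp [oB_apply, L, Fin.sum_univ_eight, t]
      ring
  have h1 : ∏ i : Fin 8, qChi F ((![t, -t, -t, -t, t, t, t, -t] i : Fˣ) : F) = 1 := by
    have h3 := qChi_sq (F := F) t.ne_zero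
    have h4 := qChi_sq (F := F) (-t).ne_zero
    simp only [Fin.prod_univ_eight]
    change qChi F t * qChi F (-t : Fˣ) * qChi F (-t : Fˣ) * qChi F (-t : Fˣ) * qChi F t *
      qChi F t * qChi F t * qChi F (-t : Fˣ) = 1
    linear_combination (qChi F t ^ 2 + 1) * qChi F (-t : Fˣ) ^ 4 * h3 +
      (qChi F (-t : Fˣ) ^ 2 + 1) * h4
  rwa [h1, Fintype.card_fin] at h

theorem card_dvd [Fintype F] (hF : Odd (Fintype.card F)) (P : Subgroup (G2 F))
    (hP : IsPGroup 2 P) : Nat.card P ∣ 2 ^ (2 * (qVal F + 1)) := by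
  have h2 := two_ne_zero_of_odd_card hF
  have h4 := four_dvd_qChi_mul_sub_one hF
  have hs := oB_symm (F := F)
  have hB := oB_smul (F := F)
  have hN : ∀ x : Fin 8 → F, oB x x = 2 → oN x = 1 := fun x hx =>
    mul_left_cancel₀ h2 (by rw [← oB_self, hx, mul_one])
  have hN' : ∀ x : Fin 8 → F, oN x = 1 → oB x x = 2 := fun x hx => by rw [oB_self, hx, mul_one]
  have hχ : qChi F 2 * qChi F 2 = 1 := by rw [← sq, qChi_sq h2]
  have step : ∀ {W : Submodule F (Fin 8 → F)} {n : ℕ} {δ : ℤ} {P : Subgroup (G2 F)}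
      {v : Fin 8 → F}, HasType oB W (n + 1) δ → FaithfulOn P W → v ∈ W → oN v = 1 →
      (∀ g ∈ P, g • v = v) → HasType oB (W ⊓ LinearMap.ker (oB v)) n (δ * qChi F 2) ∧
        FaithfulOn P (W ⊓ LinearMap.ker (oB v)) := by
    intro W n δ P v h1 h3 hv hvN hf
    have h5 : oB v v ≠ 0 := by rw [hN' v hvN]; exact h2
    exact ⟨hN' v hvN ▸ h1.inf_ker hF hs hv h5, h3.inf_ker hB le_rfl hv h5 hf hf⟩
  have orb : ∀ {W : Submodule F (Fin 8 → F)} {n : ℕ} {δ : ℤ} {P : Subgroup (G2 F)},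
      HasType oB W (n + 2) δ → FaithfulOn P W → IsPGroup 2 P →
      ∃ v ∈ W, oN v = 1 ∧ FaithfulOn (P ⊓ MulAction.stabilizer (G2 F) v) W ∧
        Nat.card P ∣ 2 ^ ({w | w ∈ W ∧ oB w w = 2}.ncard).factorization 2 *
          Nat.card (P ⊓ MulAction.stabilizer (G2 F) v : Subgroup (G2 F)) := by
    intro W n δ P h1 h3 hP
    obtain ⟨v, ⟨hv, hvv⟩, h5⟩ := exists_card_dvd_of_invariant hP {w | w ∈ W ∧ oB w w = 2}
      (Set.toFinite _) (Set.nonempty_of_ncard_ne_zero (h1.ncard_ne_zero hF h2 (by omega)))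
      fun g hg w hw => ⟨h3.1 g hg w hw.1, (hB g w w).trans hw.2⟩
    exact ⟨v, hv, hN v hvv, ⟨fun g hg => h3.1 g hg.1, fun g hg => h3.2 g hg.1⟩, h5⟩
  have f0 : FaithfulOn P (⊤ : Submodule F (Fin 8 → F)) :=
    ⟨fun _ _ _ _ => trivial, fun g _ hg => Subtype.ext (GL_ext_smul fun v =>
      (hg v trivial).trans (one_smul _ v).symm)⟩
  obtain ⟨t1, f1⟩ := step (hasType_top hF) f0 (v := oOne) trivial (by simp [oN, oOne])
    fun g _ => smul_one' g
  obtain ⟨i, hi, hiN, f1', d1⟩ := orb t1 f1 hP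
  obtain ⟨t2, f2⟩ := step t1 f1' hi hiN fun g hg => hg.2
  obtain ⟨j, hj, hjN, f2', d2⟩ := orb t2 f2 hP.to_inf_left
  obtain ⟨t3, f3⟩ := step t2 f2' hj hjN fun g hg => hg.2
  have i1 : oB oOne i = 0 := hi.2
  have j1 : oB oOne j = 0 := hj.1.2
  have ji : oB i j = 0 := hj.2
  have k1 : oB oOne (i ⋆ j) = 0 := by
    rw [hs, idL, i1, mul_one', hs j i, ji]; ring
  have ki : oB i (i ⋆ j) = 0 := by
    have := idC1 i oOne j
    rwa [mul_one', j1, mul_zero] at this
  have kj : oB j (i ⋆ j) = 0 := by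
    have := idC2 oOne i j
    rwa [one_mul', i1, zero_mul] at this
  have kN : oN (i ⋆ j) = 1 := by rw [oN_mul, hiN, hjN, mul_one]
  obtain ⟨t4, f4⟩ := step t3 f3 (v := i ⋆ j) ⟨⟨⟨trivial, k1⟩, ki⟩, kj⟩ kN fun g hg => by
    rw [smul_mul, show g • i = i from hg.1.2, show g • j = j from hg.2]
  obtain ⟨l, hl, hlN, f4', d3⟩ := orb t4 f4 hP.to_inf_left.to_inf_left
  obtain ⟨t5, f5⟩ := step t4 f4' hl hlN fun g hg => hg.2
  have l1 : oB oOne l = 0 := hl.1.1.1.2
  have li : oB i l = 0 := hl.1.1.2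
  have lj : oB j l = 0 := hl.1.2
  have lk : oB (i ⋆ j) l = 0 := hl.2
  have g1 : ∀ x, oB oOne x = 0 → oB x l = 0 → oB oOne (x ⋆ l) = 0 := fun x h1 h3 => by
    rw [hs, idL, h1, mul_one', hs l x, h3]; ring
  have g2 : ∀ x, oB x (x ⋆ l) = 0 := fun x => by
    have := idC1 x oOne l
    rwa [mul_one', l1, mul_zero] at this
  have g3 : ∀ x, oB oOne x = 0 → oB l (x ⋆ l) = 0 := fun x h1 => by
    have := idC2 oOne x l
    rwa [one_mul', h1, zero_mul] at this
  have g4 : ∀ x y, oB x y = 0 → oB (x ⋆ l) (y ⋆ l) = 0 := fun x y h1 => by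
    rw [idC2, h1, zero_mul]
  have g5 : ∀ x y, oB oOne x = 0 → oB l (x ⋆ y) = 0 → oB y (x ⋆ l) = 0 := fun x y h1 h3 => by
    rw [hs, idL, h1, h3]; ring
  have lk' : oB l (j ⋆ i) = 0 := by
    have := idS i j l
    rw [i1, j1, ji, hs l (i ⋆ j), lk] at this
    linear_combination this
  have hfix : ∀ g ∈ P ⊓ MulAction.stabilizer (G2 F) i ⊓ MulAction.stabilizer (G2 F) j ⊓
      MulAction.stabilizer (G2 F) l, g • i = i ∧ g • j = j ∧ g • l = l :=
    fun g hg => ⟨hg.1.1.2, hg.1.2, hg.2⟩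
  obtain ⟨t6, f6⟩ := step t5 f5 (v := i ⋆ l)
    ⟨⟨⟨⟨⟨trivial, g1 i i1 li⟩, g2 i⟩, g5 i j i1 ((hs _ _).trans lk)⟩,
      by change oB (i ⋆ j) (i ⋆ l) = 0; rw [idC1, lj, mul_zero]⟩, g3 i i1⟩
    (by rw [oN_mul, hiN, hlN, mul_one]) fun g hg => by
      rw [smul_mul, (hfix g hg).1, (hfix g hg).2.2]
  obtain ⟨t7, f7⟩ := step t6 f6 (v := j ⋆ l)
    ⟨⟨⟨⟨⟨⟨trivial, g1 j j1 lj⟩, g5 j i j1 lk'⟩, g2 j⟩, by
      change oB (i ⋆ j) (j ⋆ l) = 0
      have e1 := idS i j (j ⋆ l)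
      have e2 := idC1 j l i
      rw [i1, j1, ji, e2, hs l i, li] at e1
      rw [hs]
      linear_combination e1⟩, g3 j j1⟩, g4 i j ji⟩
    (by rw [oN_mul, hjN, hlN, mul_one]) fun g hg => by
      rw [smul_mul, (hfix g hg).2.1, (hfix g hg).2.2]
  obtain ⟨t8, f8⟩ := step t7 f7 (v := (i ⋆ j) ⋆ l)
    ⟨⟨⟨⟨⟨⟨⟨trivial, g1 _ k1 lk⟩, g5 _ i k1 (by
      have e1 := idS (i ⋆ j) i l
      have e2 := idA1 i j l
      rw [k1, i1, hs (i ⋆ j) i, ki, e2, i1, hs l j, lj] at e1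
      linear_combination e1)⟩, g5 _ j k1 (by
      rw [idA2, j1, hs l i, li]; ring)⟩, g2 _⟩, g3 _ k1⟩, g4 _ _ ki⟩, g4 _ _ kj⟩
    (by rw [oN_mul, kN, hlN, mul_one]) fun g hg => by
      rw [smul_mul, smul_mul, (hfix g hg).1, (hfix g hg).2.1, (hfix g hg).2.2]
  rw [f8.eq_bot t8.1, Subgroup.card_bot, mul_one] at d3
  have c1 := HasType.ncard_odd (m := 3) hF t1 h2
  have c2 := HasType.ncard_even (m := 2) hF t2 h2
  have c3 := HasType.ncard_even (m := 1) hF t4 h2
  rw [one_mul, hχ] at c1 c2 c3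
  rw [one_mul, hχ] at c3
  have v1 := padicValInt_two_pow_add_one h4 3
  have v2 := padicValInt_two_pow_sub_one h4 qChi_mul_card_ne_one (n := 2 + 1) (by norm_num)
  have v3 := padicValInt_two_pow_sub_one h4 qChi_mul_card_ne_one (n := 1 + 1) (by norm_num)
  rw [(factorization_of_cast_eq hF v1.1 c1).2, v1.2] at d1
  rw [(factorization_of_cast_eq hF v2.1 c2).2, v2.2,
    Nat.factorization_eq_zero_of_not_dvd (by norm_num), ← qVal] at d2
  rw [(factorization_of_cast_eq hF v3.1 c3).2, v3.2, Nat.prime_two.factorization_self,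
    ← qVal] at d3
  refine d1.trans ((Nat.mul_dvd_mul_left _ (d2.trans (Nat.mul_dvd_mul_left _ d3))).trans ?_)
  rw [← pow_add, ← pow_add]
  exact pow_dvd_pow 2 (le_of_eq (by ring))

/-- Cayley–Dickson coordinates -/
def cd : (Fin 8 → F) ≃ₗ[F] Matrix (Fin 2) (Fin 2) F × Matrix (Fin 2) (Fin 2) F where
  toFun x := (!![x 0, x 1; x 4, x 7], !![x 2, x 6; x 3, -x 5])
  invFun y := ![y.1 0 0, y.1 0 1, y.2 0 0, y.2 1 0, y.1 1 0, -y.2 1 1, y.2 0 1, y.1 1 1]
  map_add' x y := by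
    refine Prod.ext ?_ ?_ <;> ext a b <;> fin_cases a <;> fin_cases b <;> simp [add_comm]
  map_smul' c x := by
    refine Prod.ext ?_ ?_ <;> ext a b <;> fin_cases a <;> fin_cases b <;> simp
  left_inv x := by apply ext8 <;> simp
  right_inv y := by
    refine Prod.ext ?_ ?_ <;> ext a b <;> fin_cases a <;> fin_cases b <;> simp

theorem cd_mul (x y : Fin 8 → F) : cd (x ⋆ y) =
    ((cd x).1 * (cd y).1 - adjugate (cd y).2 * (cd x).2,
      (cd y).2 * (cd x).1 + (cd x).2 * adjugate (cd y).1) := by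
  refine Prod.ext ?_ ?_ <;> ext a b <;> fin_cases a <;> fin_cases b <;>
    simp [cd, z0, z1, z2, z3, z4, z5, z6, z7, Matrix.adjugate_fin_two] <;> ring

/-- the action of `GL₂ × GL₂` on pairs of matrices -/
def act : GL (Fin 2) F × GL (Fin 2) F →*
    Module.End F (Matrix (Fin 2) (Fin 2) F × Matrix (Fin 2) (Fin 2) F) where
  toFun g :=
    { toFun := fun y => (g.1.1 * y.1 * (g.1⁻¹).1, g.2.1 * y.2 * (g.1⁻¹).1)
      map_add' := fun x y => by simp [mul_add, add_mul]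
      map_smul' := fun c x => by simp }
  map_one' := by ext <;> simp
  map_mul' g h := LinearMap.ext fun y => by
    simp only [Prod.fst_mul, Prod.snd_mul, _root_.mul_inv_rev, Units.val_mul, LinearMap.coe_mk,
      AddHom.coe_mk, Module.End.mul_apply, mul_assoc]

/-- the corresponding matrices -/
noncomputable def th : GL (Fin 2) F × GL (Fin 2) F →* GL (Fin 8) F :=
  (((cd.symm.conjAlgEquiv F).trans LinearMap.toMatrixAlgEquiv').toMulEquiv.toMonoidHom.comp
    act).toHomUnits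

theorem cd_th_smul (g : GL (Fin 2) F × GL (Fin 2) F) (v : Fin 8 → F) :
    cd (th g • v) = (g.1.1 * (cd v).1 * (g.1⁻¹).1, g.2.1 * (cd v).2 * (g.1⁻¹).1) := by
  have : th g • v = cd.symm (act g (cd v)) :=
    LinearMap.toMatrix'_mulVec (cd.symm.conjAlgEquiv F (act g)) v
  rw [this, cd.apply_symm_apply]
  rfl

theorem adj_unit (p : GL (Fin 2) F) : adjugate p.1 = p.1.det • (p⁻¹).1 := by
  have h := Matrix.mul_adjugate p.1
  calc adjugate p.1 = (p⁻¹).1 * (p.1 * adjugate p.1) := by rw [← mul_assoc, Units.inv_mul, one_mul]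
    _ = _ := by rw [h]; simp

theorem th_mem {g : GL (Fin 2) F × GL (Fin 2) F}
    (h : GeneralLinearGroup.det g.1 = GeneralLinearGroup.det g.2) : th g ∈ G2 F := by
  intro x y
  change th g • (x ⋆ y) = (th g • x) ⋆ (th g • y)
  apply cd.injective
  obtain ⟨p, r⟩ := g
  have h1 : r.1.det = p.1.det := (congrArg Units.val h).symm
  have h2 : (p⁻¹).1.det * p.1.det = 1 := by rw [← Matrix.det_mul, Units.inv_mul, Matrix.det_one]
  have h3 : ∀ M : Matrix (Fin 2) (Fin 2) F, (p⁻¹).1 * (p.1 * M) = M := fun M => by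
    rw [← mul_assoc, Units.inv_mul, one_mul]
  have h4 : ∀ M : Matrix (Fin 2) (Fin 2) F, (r⁻¹).1 * (r.1 * M) = M := fun M => by
    rw [← mul_assoc, Units.inv_mul, one_mul]
  rw [cd_mul, cd_th_smul, cd_th_smul, cd_th_smul, cd_mul]
  simp only [Matrix.adjugate_mul_distrib, adj_unit, inv_inv, h1, mul_sub, sub_mul, mul_add,
    add_mul, mul_assoc, smul_mul_assoc, mul_smul_comm, smul_smul, h3, h4, h2,
    mul_comm p.1.det, one_smul]

theorem th_scalar (c : Fˣ) :
    th (GeneralLinearGroup.scalar (Fin 2) c, GeneralLinearGroup.scalar (Fin 2) c) = 1 := by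
  refine GL_ext_smul fun v => cd.injective ?_
  have h : ∀ M : Matrix (Fin 2) (Fin 2) F, (GeneralLinearGroup.scalar (Fin 2) c).1 * M *
      ((GeneralLinearGroup.scalar (Fin 2) c)⁻¹).1 = M := fun M => by
    have : (GeneralLinearGroup.scalar (Fin 2) c).1 * M =
        M * (GeneralLinearGroup.scalar (Fin 2) c).1 :=
      (Matrix.scalar_commute (c : F) (fun _ => Commute.all _ _) M).eq
    rw [this, mul_assoc, Units.mul_inv, mul_one]
  rw [cd_th_smul, h, h, one_smul]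

theorem ker_th_le : (th (F := F)).ker ≤ ((GeneralLinearGroup.scalar (Fin 2)).prod
    (GeneralLinearGroup.scalar (Fin 2))).range := by
  rintro ⟨p, r⟩ h
  have h1 : ∀ X Y : Matrix (Fin 2) (Fin 2) F, p.1 * X * (p⁻¹).1 = X ∧ r.1 * Y * (p⁻¹).1 = Y := by
    intro X Y
    have := cd_th_smul (p, r) (cd.symm (X, Y))
    rw [show th (p, r) = 1 from h, one_smul, cd.apply_symm_apply] at this
    exact ⟨(congrArg Prod.fst this).symm, (congrArg Prod.snd this).symm⟩
  have h2 : r = p := by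
    have := (h1 1 1).2
    rw [mul_one] at this
    exact mul_inv_eq_one.1 (Units.ext this)
  have h3 : ∀ X : Matrix (Fin 2) (Fin 2) F, p.1 * X = X * p.1 := fun X => by
    conv_rhs => rw [← (h1 X X).1, mul_assoc, Units.inv_mul, mul_one]
  obtain ⟨c, hc⟩ : p.1 ∈ Set.range (Matrix.scalar (Fin 2)) :=
    Matrix.mem_range_scalar_of_commute_single fun i j _ => (h3 _).symm
  have hc0 : c ≠ 0 := by
    rintro rfl
    rw [map_zero] at hc
    exact p.ne_zero hc.symm
  rw [h2]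
  exact ⟨Units.mk0 c hc0, Prod.ext (Units.ext hc) (Units.ext hc)⟩



/-- Let F be a finite field of odd order and G₂(F) the automorphism group of the split octonion algebra over F (realized on F⁸ with the Zorn vector-matrix multiplication). A Sylow 2-subgroup P of G₂(F) has P/P' elementary abelian: the square of every element of P lies in the derived subgroup of P. -/
theorem result {F : Type*} [Field F] [Fintype F] (hF : Odd (Fintype.card F)) (P : Sylow 2 (Cfsg.Lie.G2 F)) : ∀ x : (P : Subgroup (Cfsg.Lie.G2 F)), x ^ 2 ∈ commutator (P : Subgroup (Cfsg.Lie.G2 F)) := by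
  let R : Sylow 2 (GL (Fin 2) F) := default
  let Q := (R : Subgroup (GL (Fin 2) F)) ⊓ GeneralLinearGroup.det.ker
  let A : Subgroup (GL (Fin 2) F × GL (Fin 2) F) :=
    (R : Subgroup (GL (Fin 2) F)).prod R ⊓ (GeneralLinearGroup.det.comp (MonoidHom.fst _ _)).eqLocus
      (GeneralLinearGroup.det.comp (MonoidHom.snd _ _))
  have hA : Nat.card A = Nat.card (R : Subgroup (GL (Fin 2) F)) * Nat.card Q := by
    rw [← Nat.card_prod]
    refine Nat.card_congr ⟨fun a => (⟨a.1.1, a.2.1.1⟩, ⟨a.1.1⁻¹ * a.1.2,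
      Subgroup.mul_mem _ (Subgroup.inv_mem _ a.2.1.1) a.2.1.2, ?_⟩),
      fun x => ⟨(x.1, x.1 * x.2), ⟨x.1.2, Subgroup.mul_mem _ x.1.2 x.2.2.1⟩, ?_⟩,
      fun a => by simp, fun x => by simp⟩
    · change GeneralLinearGroup.det _ = 1
      rw [map_mul, map_inv, inv_mul_eq_one]
      exact a.2.2
    · change GeneralLinearGroup.det x.1.1 = GeneralLinearGroup.det (x.1.1 * x.2.1)
      rw [map_mul, show GeneralLinearGroup.det x.2.1 = 1 from x.2.2.2, mul_one]
  rw [card_sylow_GL_two hF, card_sylow_inf_ker_det hF, factorization_sq_sub_one hF, ← pow_add] at hA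
  have hAp : IsPGroup 2 A := IsPGroup.of_card hA
  have hWK : A.map th ≤ G2 F := by
    rintro _ ⟨g, hg, rfl⟩
    exact th_mem hg.2
  have hker : Nat.card (th.ker ⊓ A : Subgroup (GL (Fin 2) F × GL (Fin 2) F)) ≤
      2 ^ (Fintype.card F - 1).factorization 2 := by
    obtain ⟨j, hj⟩ := IsPGroup.iff_card.1 (hAp.to_inf_right (H := th.ker))
    have h1 := (Subgroup.card_dvd_of_le ((inf_le_left (b := A)).trans ker_th_le)).trans
      (Subgroup.card_range_dvd _)
    rw [hj, Nat.card_units, Nat.card_eq_fintype_card, Nat.prime_two.pow_dvd_iff_le_factorization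
      (Nat.sub_ne_zero_of_lt Fintype.one_lt_card)] at h1
    rw [hj]
    exact Nat.pow_le_pow_right two_pos h1
  have hcard : 2 ^ (2 * (qVal F + 1)) ≤ Nat.card ((A.map th).subgroupOf (G2 F)) := by
    have h1 := card_inf_mul_relIndex th.ker A
    rw [Subgroup.relIndex_ker, hA] at h1
    rw [card_subgroupOf_of_le hWK]
    refine Nat.le_of_mul_le_mul_left ?_
      (show 0 < 2 ^ (Fintype.card F - 1).factorization 2 by positivity)
    refine le_trans (le_of_eq ?_) (Nat.mul_le_mul_right _ hker)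
    rw [h1]; ring
  obtain ⟨S, hS⟩ := exists_sylow_eq_of_card_le (isPGroup_subgroupOf (hAp.map th) (G2 F))
    fun S hS => (Nat.le_of_dvd (by positivity) (card_dvd hF S hS)).trans hcard
  refine abExp_iff.1 (sylow_abExp S ?_ P)
  rw [hS]
  refine AbExp.of_map (G2 F).subtype_injective ?_
  rw [Subgroup.map_subgroupOf_eq_of_le hWK, abExp_iff_le]
  obtain ⟨C, i, w, -, -, -, -, hw, hwC, -, h1, -⟩ := exists_gl2_sylow_data hF R
  have hdiag : ∀ p ∈ (R : Subgroup (GL (Fin 2) F)), p ∉ C → th (p, p) ∈ abExpSub 2 (A.map th) := by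
    intro p hp hpC
    refine mem_abExpSub_of_pow_eq_one (Subgroup.mem_map_of_mem _ ⟨⟨hp, hp⟩, rfl⟩) ?_
    rw [← map_pow, Prod.pow_mk, h1 p hp hpC, th_scalar]
  rintro _ ⟨⟨p, r⟩, ⟨⟨hp, hr⟩, hd⟩, rfl⟩
  have e : (p, r) = (p, p) * (1, p⁻¹ * r) := by simp
  rw [e, map_mul]
  refine Subgroup.mul_mem _ ?_ ?_
  · by_cases hpC : p ∈ C
    · have e2 : (p, p) = (p * w⁻¹, p * w⁻¹) * (w, w) := by simp
      rw [e2, map_mul]
      refine Subgroup.mul_mem _ (hdiag _ (Subgroup.mul_mem _ hp (Subgroup.inv_mem _ hw)) fun h =>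
        hwC ?_) (hdiag w hw hwC)
      exact (Subgroup.inv_mem_iff _).1 ((Subgroup.mul_mem_cancel_left _ hpC).1 h)
    · exact hdiag p hp hpC
  · refine ((abExp_sylow_inf_ker_det hF R).map (th.comp (MonoidHom.inr _ _))).le_abExpSub ?_
      ⟨p⁻¹ * r, ⟨Subgroup.mul_mem _ (Subgroup.inv_mem _ hp) hr, ?_⟩, rfl⟩
    · rintro _ ⟨x, hx, rfl⟩
      refine Subgroup.mem_map_of_mem _ ⟨⟨Subgroup.one_mem _, hx.1⟩, ?_⟩
      change GeneralLinearGroup.det 1 = GeneralLinearGroup.det x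
      rw [map_one]; exact hx.2.symm
    · change GeneralLinearGroup.det _ = 1
      rw [map_mul, map_inv, inv_mul_eq_one]
      exact hd

end Cfsg.Agent.S4632
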