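import Cfsg.Statements.S4742
import Cfsg.Agent.Blk.DefectZero


set_option autoImplicit false
open Cfsg

namespace Cfsg.Agent.S4742


/-- Let p ≠ q be primes dividing the order of the finite group G, and suppose the centralizer of every non-identity p-element of G has order prime to q. Then either G has an irreducible character of p-defect zero, or for every non-identity q-element z of G there are conjugates g, h of z such that g h⁻¹ is a non-identity p-element. -/
theorem result {G : Type*} [Group G] [Finite G] (p q : ℕ) [Fact p.Prime] [Fact q.Prime] (hppq : p ≠ q) (hpG : p ∣ Nat.card G) (hqG : q ∣ Nat.card G) (hC : ∀ g : G, g ≠ 1 → (∃ k : ℕ, orderOf g = p ^ k) → ¬ q ∣ Nat.card ↥(Subgroup.centralizer ({g} : Set G))) : (∃ χ : Cfsg.IrrCharacter G, (Cfsg.charDegree (χ : G → ℂ)).factorization p = (Nat.card G).factorization p) ∨ ∀ z : G, z ≠ 1 → (∃ k : ℕ, orderOf z = q ^ k) → ∃ g h : G, IsConj z g ∧ IsConj z h ∧ g * h⁻¹ ≠ 1 ∧ ∃ k : ℕ, orderOf (g * h⁻¹) = p ^ k := by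
  rw [or_iff_not_imp_left]
  intro hno z hz1 ⟨k, hk⟩
  have hp : p.Prime := Fact.out
  have hq : q.Prime := Fact.out
  have hqz : q ∣ orderOf z := by
    rcases k with _ | k
    · exact absurd (orderOf_eq_one_iff.1 hk) hz1
    · rw [hk]; exact dvd_pow_self _ k.succ_ne_zero
  have h1 := Cfsg.not_dvd_card_centralizer_of_orderOf_ne hp hq hppq
    (Cfsg.orderOf_ne_of_centralizer hp hq hC) hqz
  by_contra hcon
  refine hno (Cfsg.exists_defectZero_of_class hp h1 fun g h hg hh hgh => hcon ⟨g, h, hg, hh, ?_, 1,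
    by rw [hgh, pow_one]⟩)
  intro h2
  rw [h2, orderOf_one] at hgh
  exact hp.one_lt.ne hgh

end Cfsg.Agent.S4742
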