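import Cfsg.Statements.S4744
import Cfsg.Agent.Blk.DefectZero


set_option autoImplicit false
open Cfsg

namespace Cfsg.Agent.S4744


/-- Let p be an odd prime and G a finite group of even order divisible by p in which the centralizer of every non-identity p-element has odd order. Then either G has an irreducible character of p-defect zero, or the normalizer of every Sylow p-subgroup P of G has even order and P is abelian. -/
theorem result {G : Type*} [Group G] [Finite G] (p : ℕ) [Fact p.Prime] (hp2 : p ≠ 2) (hpG : p ∣ Nat.card G) (h2G : 2 ∣ Nat.card G) (hC : ∀ g : G, g ≠ 1 → (∃ k : ℕ, orderOf g = p ^ k) → Odd (Nat.card ↥(Subgroup.centralizer ({g} : Set G)))) : (∃ χ : Cfsg.IrrCharacter G, (Cfsg.charDegree (χ : G → ℂ)).factorization p = (Nat.card G).factorization p) ∨ ∀ P : Sylow p G, Even (Nat.card ↥(Subgroup.normalizer ((P : Subgroup G) : Set G))) ∧ IsMulCommutative ↥(P : Subgroup G) := by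
  rw [or_iff_not_imp_left]
  intro hno P
  have hp : p.Prime := Fact.out
  haveI := Fact.mk Nat.prime_two
  obtain ⟨s, hs⟩ := exists_prime_orderOf_dvd_card' 2 h2G
  have h2p := Cfsg.orderOf_ne_of_centralizer hp Nat.prime_two (fun g h1 h2 =>
    fun h3 => (Nat.not_even_iff_odd.2 (hC g h1 h2)) (even_iff_two_dvd.2 h3))
  obtain ⟨a, hsa, ha⟩ := Cfsg.exists_conj_inverting_sylow hp2 h2p hno hs P
  refine ⟨?_, Cfsg.isMulCommutative_of_forall_conj_eq_inv ha⟩
  have ho : orderOf a = 2 := by
    obtain ⟨c, rfl⟩ := isConj_iff.1 hsa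
    rw [← hs]; exact (MulAut.conj c).orderOf_eq s
  rw [even_iff_two_dvd, ← ho]
  refine Subgroup.orderOf_dvd_natCard _ ?_
  refine Subgroup.mem_normalizer_iff.2 fun x => ⟨fun hx => ?_, fun hx => ?_⟩
  · rw [ha x hx]; exact Subgroup.inv_mem _ hx
  · have ha2 : a * a = 1 := by rw [← sq, ← ho, pow_orderOf_eq_one]
    have h1 := ha _ hx
    rw [show a * (a * x * a⁻¹) * a⁻¹ = (a * a) * x * (a * a)⁻¹ by group, ha2, one_mul, inv_one,
      mul_one] at h1
    rw [h1]
    exact Subgroup.inv_mem _ hx

end Cfsg.Agent.S4744
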