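import Cfsg.Statements.S4746
import Cfsg.Agent.Blk.DefectZero


set_option autoImplicit false
open Cfsg

namespace Cfsg.Agent.S4746


/-- Let p be an odd prime and G a finite group of even order divisible by p in which the centralizer of every non-identity p-element has odd order. Then G has an irreducible character of p-defect zero or an irreducible character of even degree. -/
theorem result {G : Type*} [Group G] [Finite G] (p : ℕ) [Fact p.Prime] (hp2 : p ≠ 2) (hpG : p ∣ Nat.card G) (h2G : 2 ∣ Nat.card G) (hC : ∀ g : G, g ≠ 1 → (∃ k : ℕ, orderOf g = p ^ k) → Odd (Nat.card ↥(Subgroup.centralizer ({g} : Set G)))) : (∃ χ : Cfsg.IrrCharacter G, (Cfsg.charDegree (χ : G → ℂ)).factorization p = (Nat.card G).factorization p) ∨ ∃ χ : Cfsg.IrrCharacter G, Even (Cfsg.charDegree (χ : G → ℂ)) := by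
  rw [or_iff_not_imp_left]
  intro hno
  have hp : p.Prime := Fact.out
  haveI := Fact.mk Nat.prime_two
  obtain ⟨s, hs⟩ := exists_prime_orderOf_dvd_card' 2 h2G
  have h2p := Cfsg.orderOf_ne_of_centralizer hp Nat.prime_two (fun g h1 h2 =>
    fun h3 => (Nat.not_even_iff_odd.2 (hC g h1 h2)) (even_iff_two_dvd.2 h3))
  obtain ⟨z, hz⟩ := exists_prime_orderOf_dvd_card' p hpG
  have hzp : IsPGroup p (Subgroup.zpowers z) := Cfsg.isPGroup_zpowers_iff.2 ⟨1, by rw [hz, pow_one]⟩
  obtain ⟨P, hP⟩ := hzp.exists_le_sylow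
  obtain ⟨a, hsa, ha⟩ := Cfsg.exists_conj_inverting_sylow hp2 h2p hno hs P
  have hz1 : z ≠ 1 := fun h => by rw [h, orderOf_one] at hz; exact hp.one_lt.ne hz
  exact Cfsg.exists_even_charDegree_of_real hz1
    (isConj_iff.2 ⟨a, ha z (hP (Subgroup.mem_zpowers z))⟩) (hC z hz1 ⟨1, by rw [hz, pow_one]⟩)

end Cfsg.Agent.S4746
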