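import Cfsg.Statements.S4748
import Cfsg.Agent.CT.McKayLocal

set_option autoImplicit false
open scoped Pointwise
open Cfsg

namespace Cfsg.Agent.S4748

open scoped ComplexConjugate Pointwise commutatorElement

theorem le_charCenter_or_lt {H : Type*} [Group H] [Finite H] {N A C : Subgroup H} [N.Normal]
    (hc : (Nat.card N).Coprime (Nat.card A)) (hCA : ∀ c ∈ C, ∀ a ∈ A, Commute c a)
    (hC : ∀ s ∈ A, s ≠ 1 → C = N ⊓ Subgroup.centralizer ({s} : Set H)) {χ : H → ℂ}
    (hχ : IsCharacter H χ) (hirr : IsIrrCharacter N (fun n : N => χ n)) :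
    A ≤ charCenter χ ∨ Nat.card A < charDegree χ ^ 2 := by
  classical
  have := Fintype.ofFinite A
  have := Fintype.ofFinite C
  obtain ⟨n, hn⟩ := (hχ.comp (MonoidHom.noncommCoprod C.subtype A.subtype
    (fun c a => hCA c c.2 a a.2))).exists_classInner_eq_nat
    (hχ.comp (MonoidHom.noncommCoprod C.subtype A.subtype (fun c a => hCA c c.2 a a.2)))
  obtain ⟨a, ha⟩ := (hχ.comp C.subtype).exists_classInner_eq_nat (hχ.comp C.subtype)
  have h1 : (Nat.card A : ℂ) * n = ∑ s : A, classInner (fun c : C => χ (c * s))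
      (fun c : C => χ (c * s)) := by
    rw [← hn]
    simp only [classInner, Nat.card_prod, Nat.cast_mul, mul_inv, Fintype.sum_prod_type_right,
      ← Finset.mul_sum]
    rw [mul_comm (Nat.card C : ℂ)⁻¹, ← mul_assoc, ← mul_assoc,
      mul_inv_cancel₀ (Nat.cast_ne_zero.2 Nat.card_pos.ne'), one_mul]
    rfl
  rw [← Finset.add_sum_erase _ _ (Finset.mem_univ 1), Finset.sum_congr rfl (g := fun _ => 1)
    (fun (s : A) hs => gl_classInner_self (hc.coprime_dvd_right (Subgroup.orderOf_dvd_natCard A s.2))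
      (hC s s.2 fun h => (Finset.mem_erase.1 hs).1 (Subtype.ext h)) hχ hirr),
    Finset.sum_const, Finset.card_erase_of_mem (Finset.mem_univ _), Finset.card_univ,
    ← Nat.card_eq_fintype_card] at h1
  simp only [OneMemClass.coe_one, mul_one, nsmul_eq_mul] at h1
  rw [show classInner (fun c : C => χ c) (fun c : C => χ c) = a from ha] at h1
  have h2 : Nat.card A * n = a + (Nat.card A - 1) := by exact_mod_cast h1
  have h3 : a ≤ charDegree χ ^ 2 := by
    have h4 := congrArg Complex.re ((classInner_self_eq_ofReal _).symm.trans ha)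
    rw [Complex.ofReal_re, Complex.natCast_re] at h4
    have h5 : (0 : ℝ) < Nat.card C := Nat.cast_pos.2 Nat.card_pos
    refine Nat.cast_le (α := ℝ).1 ?_
    rw [← h4, inv_mul_le_iff₀ h5, Nat.card_eq_fintype_card, ← nsmul_eq_mul, ← Finset.card_univ,
      ← Finset.sum_const, Nat.cast_pow]
    exact Finset.sum_le_sum fun c _ => pow_le_pow_left₀ (norm_nonneg _) (hχ.norm_le _) 2
  have h4 : a ≠ 0 := fun h => by
    rw [h, Nat.cast_zero, classInner_self_eq_zero] at ha
    exact IrrCharacter.one_ne_zero ⟨_, hirr⟩ (congrFun ha 1)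
  have h5 := Nat.card_pos (α := A)
  by_cases h6 : a = 1
  · refine Or.inl fun s hs => ?_
    have h7 : IsIrrCharacter ↥(C ⊔ Subgroup.zpowers s)
        (fun x => χ ((C ⊔ Subgroup.zpowers s).subtype x)) :=
      (hχ.comp _).isIrr_of_comp (Subgroup.inclusion le_sup_left)
        ((hχ.comp C.subtype).isIrr_iff.2 (by rw [ha, h6, Nat.cast_one]))
    have h8 : C ⊔ Subgroup.zpowers s ≤ Subgroup.centralizer {s} :=
      sup_le (fun c hc => Subgroup.mem_centralizer_singleton_iff.2 (hCA c hc s hs))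
        (Subgroup.zpowers_le.2 (Subgroup.mem_centralizer_singleton_iff.2 rfl))
    have h9 := IrrCharacter.center_le_charCenter ⟨_, h7⟩ (Subgroup.mem_center_iff.2
      fun g : ↥(C ⊔ Subgroup.zpowers s) => Subtype.ext
        (Subgroup.mem_centralizer_singleton_iff.1 (h8 g.2)) :
      (⟨s, Subgroup.mem_sup_right (Subgroup.mem_zpowers s)⟩ : ↥(C ⊔ Subgroup.zpowers s)) ∈ _)
    rwa [hχ.charCenter_comp] at h9
  · refine Or.inr (lt_of_lt_of_le ?_ h3)
    rcases n with _ | _ | n
    · omega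
    · omega
    · have : Nat.card A * (n + 1 + 1) = Nat.card A * n + 2 * Nat.card A := by ring
      omega

/-- Let G be a finite p-solvable group whose Sylow p-subgroup P meets each conjugate g P g⁻¹ with g outside N_G(P) trivially, and let χ be a faithful character of G (χ g = χ 1 only for g = 1) whose degree d satisfies d² ≤ |P|. Then P is normal in G. -/
theorem result {G : Type*} [Group G] [Finite G] (p : ℕ) [Fact p.Prime] (hsolv : Cfsg.IsPSolvable p G) (P : Sylow p G) (hTI : ∀ g : G, g ∉ Subgroup.normalizer ((P : Subgroup G) : Set G) → (P : Subgroup G) ⊓ (MulAut.conj g • (P : Subgroup G)) = ⊥) (χ : G → ℂ) (hχ : Cfsg.IsCharacter G χ) (hfaith : ∀ g : G, χ g = χ 1 → g = 1) (hdeg : Cfsg.charDegree χ ^ 2 ≤ Nat.card ↥(P : Subgroup G)) : (P : Subgroup G).Normal := by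
  by_contra hn
  have hP : (P : Subgroup G) ≠ ⊥ := fun h => hn (h ▸ inferInstance)
  obtain ⟨g, hg⟩ : ∃ g, g ∉ Subgroup.normalizer ((P : Subgroup G) : Set G) := by
    by_contra h
    push Not at h
    exact hn (Subgroup.normalizer_eq_top_iff.1 (top_le_iff.1 fun g _ => h g))
  have h1 : pCore p G = ⊥ := by
    rw [← le_bot_iff, ← hTI g hg]
    exact le_inf (pCore_le_sylow P) (pCore_le_sylow (g • P))
  obtain ⟨K, hK⟩ : ∃ K, K = pPrimeCore p G := ⟨_, rfl⟩
  have hKn : K.Normal := hK ▸ inferInstance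
  have hKp : ¬ p ∣ Nat.card K := hK ▸ not_dvd_card_pPrimeCore p
  have hc := (coprime_card_of_isPGroup P.isPGroup' hKp).symm
  have h2 : K ⊓ (P : Subgroup G) = ⊥ := inf_eq_bot_of_coprime_card hc
  have h3 : ¬ (P : Subgroup G) ≤ Subgroup.centralizer (K : Set G) := fun h => hP (by
    rw [← h2, eq_comm, inf_eq_right]
    exact h.trans (hK ▸ hsolv.centralizer_pPrimeCore_le h1))
  have h4 : ∀ s ∈ (P : Subgroup G), s ≠ 1 → K ⊓ Subgroup.centralizer ({s} : Set G) ≤
      Subgroup.centralizer ((P : Subgroup G) : Set G) := fun s hs hs1 k hk t ht => by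
    have h5 : k ∈ Subgroup.normalizer ((P : Subgroup G) : Set G) := by
      by_contra h
      refine hs1 (Subgroup.mem_bot.1 (hTI k h ▸ ⟨hs, s, hs, ?_⟩))
      change k * s * k⁻¹ = s
      rw [Subgroup.mem_centralizer_singleton_iff.1 hk.2, mul_inv_cancel_right]
    have h6 : k * t * k⁻¹ * t⁻¹ ∈ K ⊓ (P : Subgroup G) := ⟨by
      rw [mul_assoc k, mul_assoc k]
      exact mul_mem hk.1 (hKn.conj_mem _ (K.inv_mem hk.1) t),
      mul_mem ((Subgroup.mem_normalizer_iff.1 h5 _).1 ht) ((P : Subgroup G).inv_mem ht)⟩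
    rw [h2, Subgroup.mem_bot, mul_inv_eq_one, mul_inv_eq_iff_eq_mul] at h6
    exact h6.symm
  obtain ⟨x, hx, h5⟩ := SetLike.not_le_iff_exists.1 h3
  rw [Subgroup.mem_centralizer_iff] at h5
  push Not at h5
  obtain ⟨k, hk, h5⟩ := h5
  have hKH : K ≤ K ⊔ (P : Subgroup G) := le_sup_left
  have hN : K ⊔ (P : Subgroup G) ≤ Subgroup.normalizer (K : Set G) :=
    Subgroup.le_normalizer_of_normal
  have h6 : ⁅x, k⁆ ∈ K := by
    rw [commutatorElement_def]
    exact mul_mem (hKn.conj_mem k hk x) (K.inv_mem hk)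
  have := Fintype.ofFinite ↥(K ⊔ (P : Subgroup G))
  obtain ⟨ψ, h7, h8⟩ : ∃ ψ : IrrCharacter ↥(K ⊔ (P : Subgroup G)),
      charDegree ψ.1 ≤ charDegree χ ∧ ψ.ez ⁅x, k⁆ ≠ ψ.ez 1 := by
    by_contra h
    push Not at h
    have h9 := (hχ.comp (K ⊔ (P : Subgroup G)).subtype)
    have h10 := (h9.mem_charKer_iff_constituents (g := ⟨_, hKH h6⟩)).2 fun ψ hψ =>
      ψ.mem_charKer.2 (by
        have h11 := h ψ ((h9.charDegree_le_of_constituent ψ hψ).trans_eq (charDegree_congr rfl))
        rwa [ψ.ez_of_mem (hKH h6), ψ.ez_of_mem (one_mem _)] at h11)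
    exact h5 (commutatorElement_eq_one_iff_mul_comm.1 (hfaith _ (h9.mem_charKer.1 h10))).symm
  obtain ⟨θ, h9, h10⟩ : ∃ θ : IrrCharacter K, rmult ψ θ ≠ 0 ∧ θ.ez ⁅x, k⁆ ≠ θ.ez 1 := by
    by_contra h
    push Not at h
    refine h8 ?_
    rw [ez_eq_sum_rmult hKH ψ h6, ez_eq_sum_rmult hKH ψ (one_mem K)]
    refine Finset.sum_congr rfl fun θ _ => ?_
    by_cases h11 : rmult ψ θ = 0
    · rw [h11, Nat.cast_zero, zero_mul, zero_mul]
    · rw [h θ h11]
  have hP1 : 1 < Nat.card (P : Subgroup G) := (Subgroup.one_lt_card_iff_ne_bot _).2 hP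
  have hidx : K.relIndex (K ⊔ (P : Subgroup G)) = Nat.card (P : Subgroup G) := by
    rw [relIndex_sup_of_le_normalizer Subgroup.le_normalizer_of_normal,
      ← Subgroup.inf_relIndex_right, h2, Subgroup.relIndex_bot_left]
  by_cases h11 : (P : Subgroup G) ⊓ ezStab θ = ⊥
  · have h12 := clifford_charDegree_rmult hKH hN h9
    rw [← Subgroup.inf_relIndex_left, sup_inf_of_le_normalizer Subgroup.le_normalizer_of_normal
      (le_ezStab θ), h11, sup_bot_eq, hidx] at h12
    have h13 : Nat.card (P : Subgroup G) ≤ charDegree χ := le_trans (Nat.le_of_dvd ψ.charDegree_pos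
      (h12 ▸ (dvd_mul_left _ _).mul_right _)) h7
    nlinarith
  obtain ⟨⟨s, hs⟩, hs1⟩ := (Subgroup.ne_bot_iff_exists_ne_one).1 h11
  have hg1 : GlSetup p K P (K ⊓ Subgroup.centralizer ((P : Subgroup G) : Set G)) :=
    ⟨Subgroup.le_normalizer_of_normal, hKp, P.isPGroup', rfl⟩
  have hC : ∀ s ∈ (P : Subgroup G), s ≠ 1 → K ⊓ Subgroup.centralizer ((P : Subgroup G) : Set G) =
      K ⊓ Subgroup.centralizer ({s} : Set G) := fun s hs hs1 => le_antisymm (inf_le_inf_left _
    (Subgroup.centralizer_le (Set.singleton_subset_iff.2 hs))) (le_inf inf_le_left (h4 s hs hs1))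
  have hg2 : GlSetup p K (Subgroup.zpowers s)
      (K ⊓ Subgroup.centralizer ((P : Subgroup G) : Set G)) :=
    ⟨Subgroup.le_normalizer_of_normal, hKp, P.isPGroup'.to_le (Subgroup.zpowers_le.2 hs.1), by
      rw [centralizer_zpowers, hC s hs.1 fun h => hs1 (Subtype.ext h)]⟩
  have h12 : (P : Subgroup G) ≤ ezStab θ := by
    obtain ⟨β, hβ⟩ := hg2.exists_corr (Subgroup.zpowers_le.2 hs.2)
    obtain ⟨θ', h12, h13⟩ := hg1.surj β
    rwa [hg2.inj (Subgroup.zpowers_le.2 hs.2) ((Subgroup.zpowers_le.2 hs.1).trans h12) hβ h13]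
  obtain ⟨φ, hφ⟩ := extTo_of_coprime hKH hN (sup_le (le_ezStab θ) h12) (hidx ▸ hc)
  rcases le_charCenter_or_lt (N := K.subgroupOf (K ⊔ (P : Subgroup G)))
    (A := (P : Subgroup G).subgroupOf (K ⊔ (P : Subgroup G)))
    (C := (K ⊓ Subgroup.centralizer ((P : Subgroup G) : Set G)).subgroupOf (K ⊔ (P : Subgroup G)))
    (by rwa [card_subgroupOf_of_le hKH, card_subgroupOf_of_le le_sup_right])
    (fun c hc a ha => Subtype.ext (hc.2 a ha).symm) (fun s hs hs1 => by
      rw [hC s hs fun h => hs1 (Subtype.ext h)]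
      ext y
      simp only [Subgroup.mem_subgroupOf, Subgroup.mem_inf, Subgroup.mem_centralizer_singleton_iff,
        Subtype.ext_iff, Subgroup.coe_mul]) φ.isCharacter (by
      rw [show (fun n : K.subgroupOf (K ⊔ (P : Subgroup G)) => φ.1 n) = (θ.subgroupOf hKH).1 from
        funext ((IrrCharacter.extends_iff_subgroupOf hKH).1 hφ)]
      exact (θ.subgroupOf hKH).2) with h13 | h13
  · have h14 := φ.mem_charKer.1 (φ.isCharacter.commutator_mem_charKer
      (h13 (x := ⟨x, Subgroup.mem_sup_right hx⟩) hx) ⟨k, hKH hk⟩)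
    refine h10 ?_
    rw [← hφ _ h6, ← hφ _ (one_mem K), φ.ez_of_mem (hKH h6), φ.ez_of_mem (one_mem _)]
    exact h14
  · rw [card_subgroupOf_of_le le_sup_right, hφ.charDegree_eq] at h13
    exact (h13.trans_le (Nat.pow_le_pow_left ((charDegree_le_of_rmult hKH h9).trans h7) 2)).not_ge
      hdeg

end Cfsg.Agent.S4748
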