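import Cfsg.Statements.S4750
import Cfsg.Agent.CT.Feit
import Cfsg.Agent.Grp.PPart

set_option autoImplicit false
open scoped Pointwise
open Cfsg

namespace Cfsg.Agent.S4750

open scoped ComplexConjugate

/-- Let P be a Sylow p-subgroup of the finite group G that meets each conjugate g P g⁻¹ with g outside N_G(P) trivially, χ a character of G with χ(1)² ≤ |P|, and H a subgroup of G containing N_G(P). Then the inner product of χ with itself over G equals the inner product over H of the restriction of χ to H. -/
theorem result {G : Type*} [Group G] [Fintype G] [DecidableEq G] (p : ℕ) [Fact p.Prime] (P : Sylow p G) (hTI : ∀ g : G, g ∉ Subgroup.normalizer ((P : Subgroup G) : Set G) → (P : Subgroup G) ⊓ (MulAut.conj g • (P : Subgroup G)) = ⊥) (χ : G → ℂ) (hχ : Cfsg.IsCharacter G χ) (hdeg : Cfsg.charDegree χ ^ 2 ≤ Nat.card ↥(P : Subgroup G)) (H : Subgroup G) [Fintype ↥H] (hH : Subgroup.normalizer ((P : Subgroup G) : Set G) ≤ H) : Cfsg.classInner χ χ = Cfsg.classInner (fun h : ↥H => χ h) (fun h : ↥H => χ h) := by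
  classical
  by_cases h0 : χ = 0
  · subst h0
    simp [classInner_def]
  have hψ : IsCharacter G (χ * fun g => conj (χ g)) := hχ.mul hχ.conj
  have e1 : classInner (χ * fun g => conj (χ g)) (IrrCharacter.triv G).1 = classInner χ χ := by
    simp [classInner_def]
  have hψ' := hψ.sub_irr (IrrCharacter.triv G) (by rw [e1]; exact mt classInner_self_eq_zero.1 h0)
  have hd : charDegree ((χ * fun g => conj (χ g)) - (IrrCharacter.triv G).1) + 1 =
      charDegree χ ^ 2 := by
    have h1 := hψ'.one_eq_charDegree
    rw [Pi.sub_apply, Pi.mul_apply, hχ.one_eq_charDegree, IrrCharacter.triv_apply,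
      map_natCast] at h1
    have h2 : ((charDegree ((χ * fun g => conj (χ g)) - (IrrCharacter.triv G).1) + 1 : ℕ) : ℂ) =
        ((charDegree χ ^ 2 : ℕ) : ℂ) := by
      push_cast
      rw [← h1]; ring
    exact_mod_cast h2
  have hPH : (P : Subgroup G) ≤ H := Subgroup.le_normalizer.trans hH
  have key := hψ'.classInner_res_one_eq_of_lt P.isPGroup' hPH (fun g hg => by
    have h1 : MulAut.conj g • H ⊓ (P : Subgroup G) = ⊥ := by
      rw [eq_bot_iff]
      rintro x ⟨hx1, hx2⟩
      by_contra hx
      have hx1' : g⁻¹ * x * g ∈ H := mem_conj_smul_iff.1 hx1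
      have hp1 : IsPGroup p (Subgroup.zpowers (g⁻¹ * x * g)) := by
        rw [isPGroup_zpowers_iff]
        have : orderOf (g⁻¹ * x * g) = orderOf x := by
          simpa using orderOf_injective (MulAut.conj g⁻¹).toMonoidHom (MulAut.conj g⁻¹).injective x
        rw [this]
        exact exists_orderOf_eq_pow_of_mem P.isPGroup' hx2
      obtain ⟨h, hh, hle⟩ := exists_conj_le_sylowIn hPH P.isPGroup'
        (fun hd => P.not_dvd_index (hd.trans (Subgroup.relIndex_dvd_index_of_le hPH)))
        ((Subgroup.zpowers_le).2 hx1') hp1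
      have h2 := mem_conj_smul_iff.1 (hle (Subgroup.mem_zpowers _))
      have h3 : g * h ∈ Subgroup.normalizer ((P : Subgroup G) : Set G) := by
        by_contra h3
        have h4 : x ∈ (P : Subgroup G) ⊓ MulAut.conj (g * h) • (P : Subgroup G) :=
          ⟨hx2, mem_conj_smul_iff.2 (by simpa [mul_assoc] using h2)⟩
        rw [hTI _ h3] at h4
        exact hx h4
      exact hg (by simpa using H.mul_mem (hH h3) (H.inv_mem hh))
    have h2 := card_inf_mul_relIndex (MulAut.conj g • H) (P : Subgroup G)
    rw [h1, Subgroup.card_bot, one_mul] at h2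
    omega)
  have e2 : (fun x : H => ((χ * fun g => conj (χ g)) - (IrrCharacter.triv G).1) x) =
      ((fun x : H => χ x) * fun x : H => conj (χ x)) - (IrrCharacter.triv H).1 := by
    funext x; simp
  have e3 : classInner ((fun x : H => χ x) * fun x : H => conj (χ x)) (IrrCharacter.triv H).1 =
      classInner (fun x : H => χ x) (fun x : H => χ x) := by
    simp [classInner_def]
  rw [e2] at key
  change classInner _ (IrrCharacter.triv H).1 = classInner _ (IrrCharacter.triv G).1 at key
  rw [classInner_sub_left, classInner_sub_left, e1, e3, IrrCharacter.classInner_self,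
    IrrCharacter.classInner_self, sub_left_inj] at key
  exact key.symm

end Cfsg.Agent.S4750
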