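import Cfsg.Statements.S4752
import Cfsg.Agent.Blk.ExtraZ
-- import your own Cfsg.Agent.* helpers here

set_option autoImplicit false
open Cfsg

namespace Cfsg.Agent.S4752

theorem exists_xData {G : Type*} [Group G] [Finite G] (P : Sylow 3 G)
    (hE : IsExtraspecial 3 (P : Subgroup G)) (h27 : Nat.card (P : Subgroup G) = 27)
    (hexp : ∀ x ∈ (P : Subgroup G), x ^ 3 = 1)
    (hNC : ∀ g ∈ Subgroup.normalizer ((P : Subgroup G) : Set G), ∀ z ∈ (P : Subgroup G),
      (∀ y ∈ (P : Subgroup G), z * y = y * z) → g * z = z * g) : ∃ z, XData P z := by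
  have := Fact.mk Nat.prime_three
  obtain ⟨z, hz⟩ := exists_prime_orderOf_dvd_card' (G := Subgroup.center (P : Subgroup G)) 3
    hE.2.symm.dvd
  have h1 : Subgroup.zpowers (z : (P : Subgroup G)) = Subgroup.center (P : Subgroup G) :=
    Subgroup.eq_of_le_of_card_ge (Subgroup.zpowers_le.2 z.2) (by
      rw [Nat.card_zpowers, Subgroup.orderOf_coe, hz, hE.2])
  have h2 : ∀ y : (P : Subgroup G), y ∈ Subgroup.center (P : Subgroup G) ↔
      (y : G) ∈ Subgroup.zpowers ((z : (P : Subgroup G)) : G) := fun y => by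
    rw [← SetLike.ext_iff.1 h1 y]
    exact ⟨fun ⟨k, hk⟩ => ⟨k, by simpa using congrArg Subtype.val hk⟩,
      fun ⟨k, hk⟩ => ⟨k, Subtype.ext (by simpa using hk)⟩⟩
  refine ⟨z, h27, hexp, z.1.2, fun e => ?_, fun y hy => ?_, fun x hx y hy => ?_, fun g hg =>
    hNC g hg _ z.1.2 fun y hy =>
      (congrArg Subtype.val (Subgroup.mem_center_iff.1 z.2 ⟨y, hy⟩)).symm⟩
  · rw [show z = 1 from Subtype.ext (Subtype.ext e), orderOf_one] at hz
    omega
  · rw [← h2 ⟨y, hy⟩, Subgroup.mem_center_iff]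
    exact ⟨fun h x => Subtype.ext (h x x.2), fun h x hx => congrArg Subtype.val (h ⟨x, hx⟩)⟩
  · refine (h2 (⟨x, hx⟩ * ⟨y, hy⟩ * (⟨x, hx⟩)⁻¹ * (⟨y, hy⟩)⁻¹)).1 ?_
    rw [← hE.1.2.2]
    exact Subgroup.commutator_mem_commutator (Subgroup.mem_top _) (Subgroup.mem_top _)


/-- Let G be a finite group whose Sylow 3-subgroup P is extraspecial of order 27 and exponent 3, with N_G(P) ≤ C_G(Z(P)), and let M be a maximal ideal of the algebraic integers containing 3, B the principal 3-block of G, k its number of irreducible characters, k₀ the number of those of height zero, l its 3-regular rank (number of irreducible Brauer characters), and e the index of P·C_G(P) in N_G(P) (the order of the inertial quotient). Then e = 1 gives (k, k₀, l) = (11, 9, 1); e = 2 gives (10, 6, 2); e = 4 gives (14, 6, 4); e = 8 gives (16, 6, 5). -/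
theorem result {G : Type*} [Group G] [Finite G] (P : Sylow 3 G) (hE : Cfsg.IsExtraspecial 3 ↥(P : Subgroup G)) (h27 : Nat.card ↥(P : Subgroup G) = 27) (hexp : ∀ x ∈ (P : Subgroup G), x ^ 3 = 1) (hNC : ∀ g ∈ Subgroup.normalizer ((P : Subgroup G) : Set G), ∀ z ∈ (P : Subgroup G), (∀ y ∈ (P : Subgroup G), z * y = y * z) → g * z = z * g) (M : Ideal Cfsg.AlgInt) (hM : Cfsg.IsPModular 3 M) (k k₀ l e : ℕ) (hk : Nat.card ↥(Cfsg.principalBlock M G) = k) (hk₀ : Nat.card {χ : Cfsg.IrrCharacter G // χ ∈ Cfsg.principalBlock M G ∧ Cfsg.blockHeight 3 (Cfsg.principalBlock M G) (χ : G → ℂ) = 0} = k₀) (hl : Cfsg.blockRank 3 (Cfsg.principalBlock M G) = l) (he : ((P : Subgroup G) ⊔ Subgroup.centralizer ((P : Subgroup G) : Set G)).relIndex (Subgroup.normalizer ((P : Subgroup G) : Set G)) = e) : (e = 1 → k = 11 ∧ k₀ = 9 ∧ l = 1) ∧ (e = 2 → k = 10 ∧ k₀ = 6 ∧ l = 2) ∧ (e = 4 → k = 14 ∧ k₀ = 6 ∧ l = 4) ∧ (e = 8 → k = 16 ∧ k₀ = 6 ∧ l = 5) := by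
  classical
  have := Fact.mk Nat.prime_three
  have := Fintype.ofFinite G
  obtain ⟨z, X⟩ := exists_xData P hE h27 hexp hNC
  obtain ⟨J, h1, h2, h3, h4⟩ := X.exists_reps
  obtain ⟨F, hF, hr⟩ := X.xFus h1 h2 h3 (MonoidHom.id G) Function.injective_id
    (fun x _ => ⟨x, rfl⟩) (z' := z) rfl
  obtain ⟨F', hF', hr'⟩ := X.xFus h1 h2 h3 (Subgroup.centralizer {z}).subtype
    Subtype.val_injective (by rw [Subgroup.range_subtype]; exact X.normalizer_le)
    (z' := ⟨z, self_mem_centralizer_eq rfl⟩) rfl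
  have h5 : k₀ = (Finset.filter (fun χ : IrrCharacter G => ¬ 3 ∣ charDegree χ.1)
      (irrFinset (principalBlock M G))).card := by
    rw [← hk₀, Nat.subtype_card]
    intro χ
    rw [Finset.mem_filter, mem_irrFinset]
    exact and_congr_right fun h => (hM.blockHeight_principalBlock_eq_zero_iff h).symm
  rw [he] at h4 hr hr'
  have h6 : 2 ∣ e → k₀ = 6 ∧ k + 2 * J.card = 18 ∧ l + J.card = 6 := fun h => by
    have := F.principal_count hM rfl (hr h) F' (hr' h)
      (Finset.card_pos.1 (Nat.pos_of_ne_zero fun e => by rw [← hF, e] at h4; omega)) (hF'.trans hF.symm)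
    rwa [← h5, hk, hl, hF] at this
  refine ⟨?_, ?_, ?_, ?_⟩ <;> rintro rfl
  · have h7 : HasNormalPComplement 3 G := by
      refine hasNormalPComplement_of_controls_fusion P fun x hx g hg => ?_
      by_cases hv : g * x * g⁻¹ ∈ Subgroup.zpowers z
      · refine ⟨1, one_mem _, ?_⟩
        have h8 : ∀ y, IsConj y z → y ∈ (P : Subgroup G) → y = z := fun y hy hy' => by
          obtain ⟨c, rfl⟩ := isConj_iff.1 hy.symm
          exact X.conj_eq hy'
        rw [one_mul, inv_one, mul_one]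
        rcases (X.mem_zpowers X.mem).1 hv with e | e | e
        · rw [e, conj_eq_one_iff.1 e]
        · rw [e, h8 x (isConj_iff.2 ⟨g, e⟩) hx]
        · rw [e, ← h8 x⁻¹ (isConj_iff.2 ⟨g, by rw [← conj_inv, e, inv_inv]⟩) (inv_mem hx), inv_inv]
      · obtain ⟨n, hn, e⟩ := X.exists_normalizer_conj hx hg hv (isConj_iff.2 ⟨g, rfl⟩)
        obtain ⟨y, hy, e'⟩ := XData.exists_conj_of_mem_sup (Subgroup.relIndex_eq_one.1 he hn)
        exact ⟨y, hy, e.trans (e' x hx)⟩
    have := F.principal_count_nilp hM (by omega) h7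
    rw [← h5, hk, hl] at this
    omega
  all_goals
    have := h6 (by norm_num)
    omega

end Cfsg.Agent.S4752
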