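import Cfsg.Statements.S4753
import Cfsg.Agent.Acd.Main
import Cfsg.Agent.Acd.Simple
import Cfsg.Agent.Acd.T5
import Cfsg.Agent.Acd.O
import Cfsg.Agent.Acd.E
import Cfsg.Agent.Acd.D
import Cfsg.Agent.Acd.Rec
import Cfsg.Agent.Acd.Count
import Cfsg.Agent.Acd.BS
import Cfsg.Agent.Acd.Loc1

set_option autoImplicit false
open Cfsg

namespace Cfsg.Agent.S4753

/-- Suppose every proper subgroup H of the finite group G has average irreducible character degree at most 2: the sum of the degrees of the irreducible characters of H is at most twice their number. Then G is solvable, or G is isomorphic to PSL₂(7), to PSL₂(2^q) for a prime q, or to SL₂(5). -/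
theorem result {G : Type*} [Group G] [Finite G] (hSAD : ∀ H : Subgroup G, H ≠ ⊤ → (∑ᶠ χ : Cfsg.IrrCharacter ↥H, Cfsg.charDegree (χ : ↥H → ℂ)) ≤ 2 * Nat.card (Cfsg.IrrCharacter ↥H)) : Group.IsSolvable G ∨ Nonempty (G ≃* Matrix.ProjectiveSpecialLinearGroup (Fin 2) (ZMod 7)) ∨ (∃ (F : Type) (_ : Field F) (_ : Fintype F) (q : ℕ), q.Prime ∧ Fintype.card F = 2 ^ q ∧ Nonempty (G ≃* Matrix.ProjectiveSpecialLinearGroup (Fin 2) F)) ∨ Nonempty (G ≃* Matrix.SpecialLinearGroup (Fin 2) (ZMod 5)) := by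
  have h1 := Acd.stLoc1 Acd.stLoc0
  refine Acd.stMain h1 (Acd.stO h1) (Acd.stSimple (Acd.stT Acd.stLoc0 h1 Acd.stLoc2 Acd.stBS) (Acd.stO h1)
    (Acd.stE Acd.stLoc0 h1 Acd.stLoc2) (Acd.stD Acd.stLoc0 h1 Acd.stLoc2) Acd.stRec Acd.stCount) G
    fun H hH K hK => Acd.acd_iff.2 ?_
  have h := hSAD K fun e => hH (eq_top_iff.2 (e ▸ hK))
  rw [finsum_eq_sum_of_fintype] at h
  rw [FT.sum_irr_eq, FT.card_irr_eq]
  convert h using 2 with θ
  rw [← (FT.isIrr_extendByZero θ).charDegree_toIrr, FT.toIrr_extendByZero]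

end Cfsg.Agent.S4753
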