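import Cfsg.Statements.S4755
import Cfsg.Agent.CT.Vanish

set_option autoImplicit false
open Cfsg

namespace Cfsg.Agent.S4755


/-- Let x, y be non-identity elements of the finite group G such that χ(x' y') = χ(x') χ(y') for all conjugates x' of x, y' of y and every irreducible character χ. Then the conjugacy class of x y is the set of all products of a conjugate of x with a conjugate of y; every irreducible character of degree greater than 1 vanishes at x y; and the conjugacy class of x y is the coset of the commutator subgroup containing x y. -/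
theorem result {G : Type*} [Group G] [Finite G] (x y : G) (hx : x ≠ 1) (hy : y ≠ 1) (h : ∀ (a b : G) (χ : Cfsg.IrrCharacter G), (χ : G → ℂ) (a * x * a⁻¹ * (b * y * b⁻¹)) = (χ : G → ℂ) (a * x * a⁻¹) * (χ : G → ℂ) (b * y * b⁻¹)) : (∀ z : G, IsConj (x * y) z ↔ ∃ a b : G, z = a * x * a⁻¹ * (b * y * b⁻¹)) ∧ (∀ χ : Cfsg.IrrCharacter G, (χ : G → ℂ) 1 ≠ 1 → (χ : G → ℂ) (x * y) = 0) ∧ (∀ z : G, IsConj (x * y) z ↔ (x * y)⁻¹ * z ∈ commutator G) := by
  have _ := hx
  have _ := hy
  have h1 : ∀ (a b : G) (χ : IrrCharacter G),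
      χ.1 (a * x * a⁻¹ * (b * y * b⁻¹)) = χ.1 x * χ.1 y := fun a b χ => by
    rw [h, χ.isClassFunction, χ.isClassFunction]
  have h2 : ∀ χ : IrrCharacter G, χ.1 (x * y) = χ.1 x * χ.1 y := fun χ => by
    simpa using h1 1 1 χ
  have h3 : ∀ z : G, IsConj (x * y) z ↔ ∃ a b : G, z = a * x * a⁻¹ * (b * y * b⁻¹) := by
    intro z
    constructor
    · intro hz
      obtain ⟨c, rfl⟩ := isConj_iff.1 hz
      exact ⟨c, c, by group⟩
    · rintro ⟨a, b, rfl⟩
      rw [isConj_iff_forall_irr]
      intro χ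
      rw [h1, h2]
  have h4 : ∀ χ : IrrCharacter G, χ.1 1 ≠ 1 → χ.1 (x * y) = 0 := by
    intro χ hχ
    have h5 := (class_mul_eq_iff_forall_irr x y).1 h3 1 1 χ
    rw [h1, ← h2] at h5
    have h6 : (χ.1 1 - 1) * χ.1 (x * y) = 0 := by linear_combination h5
    exact (mul_eq_zero.1 h6).resolve_left (sub_ne_zero.2 hχ)
  exact ⟨h3, h4, isConj_iff_of_forall_nonlinear_eq_zero fun χ hχ =>
    h4 χ fun h5 => hχ (χ.isCharacter.charDegree_eq_one_iff.2 h5)⟩

end Cfsg.Agent.S4755
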