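import Cfsg.Statements.S4756
import Cfsg.Agent.CT.Vanish
import Cfsg.Agent.CT.PRegular
import Cfsg.Agent.Grp.Cores
import Cfsg.Agent.Grp.Frobenius

set_option autoImplicit false
open Cfsg

namespace Cfsg.Agent.S4756


/-- For a finite group G the following are equivalent. (1) χ(x y) = χ(x) χ(y) for every irreducible character χ and all non-identity elements x, y of prime power orders for two different primes. (2) G is a p-group for some prime p, or G is abelian, or for some prime p: G = A P with P a normal Sylow p-subgroup and A a nontrivial cyclic subgroup of order prime to p such that, with C = C_P(A) and D = [A, P], one has P = C D, C abelian, D normal in G, C ∩ D = 1, and A acts fixed-point-freely on D (no non-identity element of A centralizes a non-identity element of D). -/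
theorem result {G : Type*} [Group G] [Finite G] : (∀ (x y : G) (χ : Cfsg.IrrCharacter G), x ≠ 1 → y ≠ 1 → (∃ p q a b : ℕ, p.Prime ∧ q.Prime ∧ p ≠ q ∧ orderOf x = p ^ a ∧ orderOf y = q ^ b) → (χ : G → ℂ) (x * y) = (χ : G → ℂ) x * (χ : G → ℂ) y) ↔ ((∃ p : ℕ, p.Prime ∧ IsPGroup p G) ∨ IsMulCommutative G ∨ ∃ (p : ℕ) (_ : Fact p.Prime) (P : Sylow p G) (A : Subgroup G), (P : Subgroup G).Normal ∧ IsCyclic ↥A ∧ A ≠ ⊥ ∧ (Nat.card ↥A).Coprime p ∧ A ⊔ (P : Subgroup G) = ⊤ ∧ IsMulCommutative ↥((P : Subgroup G) ⊓ Subgroup.centralizer (A : Set G)) ∧ (⁅A, (P : Subgroup G)⁆).Normal ∧ ((P : Subgroup G) ⊓ Subgroup.centralizer (A : Set G)) ⊔ ⁅A, (P : Subgroup G)⁆ = (P : Subgroup G) ∧ ((P : Subgroup G) ⊓ Subgroup.centralizer (A : Set G)) ⊓ ⁅A, (P : Subgroup G)⁆ = ⊥ ∧ ∀ a ∈ A, a ≠ 1 → ∀ d ∈ ⁅A, (P : Subgroup G)⁆, a * d = d * a → d = 1) := by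
  classical
  constructor
  · intro h
    by_cases hp : ∃ p : ℕ, p.Prime ∧ IsPGroup p G
    · exact Or.inl hp
    by_cases hc : IsMulCommutative G
    · exact Or.inr (Or.inl hc)
    refine Or.inr (Or.inr ?_)
    -- nonlinear characters vanish at `x` or `y`
    have h1 : ∀ (x y : G) (χ : IrrCharacter G), x ≠ 1 → y ≠ 1 → ∀ p q a b : ℕ, p.Prime → q.Prime →
        p ≠ q → orderOf x = p ^ a → orderOf y = q ^ b → charDegree χ.1 ≠ 1 →
        χ.1 x = 0 ∨ χ.1 y = 0 := by
      intro x y χ hx hy p q a b hp hq hpq hxa hyb hχ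
      have := Fintype.ofFinite G
      have h2 : ∀ c : G, χ.1 (c * x * c⁻¹ * y) = χ.1 x * χ.1 y := by
        intro c
        rw [h (c * x * c⁻¹) y χ (fun h3 => hx (by simpa using h3)) hy ⟨p, q, a, b, hp, hq, hpq,
          (MulEquiv.orderOf_eq (MulAut.conj c) x).trans hxa, hyb⟩, χ.isClassFunction]
      have h3 := χ.one_mul_sum_conj_mul' x y
      simp only [h2, Finset.sum_const, Finset.card_univ, nsmul_eq_mul,
        ← Nat.card_eq_fintype_card] at h3
      have h4 : (Nat.card G : ℂ) * ((χ.1 1 - 1) * (χ.1 x * χ.1 y)) = 0 := by linear_combination h3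
      rw [mul_eq_zero, mul_eq_zero, mul_eq_zero, sub_eq_zero] at h4
      rcases h4 with h4 | h4 | h4
      · exact absurd h4 (Nat.cast_ne_zero.2 Nat.card_pos.ne')
      · exact absurd (χ.isCharacter.charDegree_eq_one_iff.2 h4) hχ
      · exact h4
    -- a nonlinear character vanishes on the nontrivial `q`-elements for all primes but one
    let V : IrrCharacter G → ℕ → Prop := fun χ q =>
      ∀ y : G, y ≠ 1 → (∃ k : ℕ, orderOf y = q ^ k) → χ.1 y = 0
    have h2 : ∀ χ : IrrCharacter G, charDegree χ.1 ≠ 1 → ∀ p q : ℕ, p.Prime → q.Prime → p ≠ q →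
        V χ p ∨ V χ q := by
      intro χ hχ p q hp hq hpq
      by_contra h3
      rw [not_or] at h3
      obtain ⟨h4, h5⟩ := h3
      simp only [V] at h4 h5
      push Not at h4 h5
      obtain ⟨x, hx, ⟨a, ha⟩, hx0⟩ := h4
      obtain ⟨y, hy, ⟨b, hb⟩, hy0⟩ := h5
      rcases h1 x y χ hx hy p q a b hp hq hpq ha hb hχ with h6 | h6
      · exact hx0 h6
      · exact hy0 h6
    have hcard : Nat.card G ≠ 0 := Nat.card_pos.ne'
    have h3 : ∀ χ : IrrCharacter G, ∀ q : ℕ, q.Prime → V χ q →
        q ^ (Nat.card G).factorization q ∣ charDegree χ.1 := by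
      intro χ q hq hV
      have := Fact.mk hq
      exact χ.isCharacter.ordProj_dvd_charDegree_of_vanish hV
    have hlt : ∀ χ : IrrCharacter G, charDegree χ.1 ≠ 1 → charDegree χ.1 ^ 2 < Nat.card G := by
      intro χ hχ
      rw [← sum_charDegree_sq (G := G)]
      refine Finset.single_lt_sum (f := fun χ : IrrCharacter G => charDegree χ.1 ^ 2)
        (i := χ) (j := IrrCharacter.triv G) ?_ (Finset.mem_univ _) (Finset.mem_univ _)
        (pow_pos (IrrCharacter.charDegree_pos _) _) (fun _ _ _ => Nat.zero_le _)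
      rintro rfl
      exact hχ (charDegree_eq_of_one_eq (n := 1) (by simp))
    -- if `χ` does not vanish on the `p`-elements then `|G|_{p'}² < |G|`
    have h4 : ∀ χ : IrrCharacter G, charDegree χ.1 ≠ 1 → ∀ p : ℕ, p.Prime →
        (∀ q : ℕ, q.Prime → q ≠ p → V χ q) →
        (Nat.card G / p ^ (Nat.card G).factorization p) < p ^ (Nat.card G).factorization p := by
      intro χ hχ p hp hV
      have h5 : Nat.card G / p ^ (Nat.card G).factorization p ∣ charDegree χ.1 := by
        rw [Nat.dvd_iff_prime_pow_dvd_dvd]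
        intro q k hq hk
        by_cases hqp : q = p
        · subst hqp
          rcases Nat.eq_zero_or_pos k with rfl | hk0
          · simp
          · exact absurd ((dvd_pow_self q hk0.ne').trans hk) (Nat.not_dvd_ordCompl hq hcard)
        · refine (pow_dvd_pow q ?_).trans (h3 χ q hq (hV q hq hqp))
          exact (hq.pow_dvd_iff_le_factorization hcard).1 (hk.trans (Nat.ordCompl_dvd _ _))
      have h6 := Nat.le_of_dvd χ.charDegree_pos h5
      have h7 := hlt χ hχ
      have h8 := Nat.ordProj_mul_ordCompl_eq_self (Nat.card G) p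
      by_contra h9
      push Not at h9
      have h10 := Nat.mul_le_mul (h9.trans h6) h6
      rw [h8, ← sq] at h10
      omega
    obtain ⟨χ₀, hχ₀⟩ : ∃ χ : IrrCharacter G, charDegree χ.1 ≠ 1 := by
      by_contra h5
      push Not at h5
      exact hc (isMulCommutative_iff_forall_charDegree_eq_one.2 h5)
    have h5 : ∀ χ : IrrCharacter G, charDegree χ.1 ≠ 1 →
        ∃ p : ℕ, p.Prime ∧ ∀ q : ℕ, q.Prime → q ≠ p → V χ q := by
      intro χ hχ
      by_cases h6 : ∀ q : ℕ, q.Prime → V χ q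
      · exact ⟨2, Nat.prime_two, fun q hq _ => h6 q hq⟩
      · push Not at h6
        obtain ⟨p, hp, h7⟩ := h6
        exact ⟨p, hp, fun q hq hqp => (h2 χ hχ q p hq hp hqp).resolve_right h7⟩
    obtain ⟨p, hp', hV₀⟩ := h5 χ₀ hχ₀
    have h6 : ∀ χ : IrrCharacter G, charDegree χ.1 ≠ 1 → ∀ q : ℕ, q.Prime → q ≠ p → V χ q := by
      intro χ hχ
      obtain ⟨p', hp'', hV⟩ := h5 χ hχ
      by_cases hpp : p' = p
      · exact hpp ▸ hV
      exfalso
      have h7 := h4 χ hχ p' hp'' hV
      have h8 := h4 χ₀ hχ₀ p hp' hV₀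
      have h9 : ∀ r s : ℕ, r.Prime → s.Prime → r ≠ s → r ^ (Nat.card G).factorization r ≤
          Nat.card G / s ^ (Nat.card G).factorization s := by
        intro r s hr hs hrs
        refine Nat.le_of_dvd (Nat.ordCompl_pos s hcard) ?_
        refine Nat.Coprime.dvd_of_dvd_mul_left
          (Nat.coprime_pow_primes _ ((Nat.card G).factorization s) hr hs hrs) ?_
        rw [Nat.ordProj_mul_ordCompl_eq_self]
        exact Nat.ordProj_dvd _ _
      have := h9 p p' hp' hp'' (Ne.symm hpp)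
      have := h9 p' p hp'' hp' hpp
      omega
    have := Fact.mk hp'
    -- nontrivial `q`-elements
    have h7 : ∀ (y : G) (q : ℕ), q.Prime → q ≠ p → orderOf y = q → ∀ z : G,
        IsConj y z ↔ y⁻¹ * z ∈ commutator G := by
      intro y q hq hqp hy
      refine isConj_iff_of_forall_nonlinear_eq_zero fun χ hχ => h6 χ hχ q hq hqp y ?_
        ⟨1, by rw [hy, pow_one]⟩
      rintro rfl
      exact hq.one_lt.ne (by rw [← hy, orderOf_one])
    have hD : IsPGroup p (commutator G) := by
      rw [IsPGroup.iff_card]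
      refine ⟨_, Nat.eq_prime_pow_of_unique_prime_dvd Nat.card_pos.ne' fun {q} hq hqd => ?_⟩
      by_contra hqp
      have := Fact.mk hq
      obtain ⟨y, hy⟩ := exists_prime_orderOf_dvd_card' q hqd
      have hy' : orderOf (y : G) = q := by rw [Subgroup.orderOf_coe, hy]
      have h8 := (h7 y q hq hqp hy' 1).2 (by simp)
      rw [isConj_one_left.1 h8, orderOf_one] at hy'
      exact hq.one_lt.ne hy'
    have h8 : ∀ (y : G) (q : ℕ), q.Prime → q ≠ p → orderOf y = q → ∀ d ∈ commutator G,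
        y * d = d * y → d = 1 := by
      intro y q hq hqp hy d hd hyd
      obtain ⟨c, hc⟩ := isConj_iff.1 ((h7 y q hq hqp hy (y * d)).2 (by simpa using hd))
      have h9 : (y * d) ^ q = 1 := by
        rw [← hc, conj_pow, ← hy, pow_orderOf_eq_one, mul_one, mul_inv_cancel]
      rw [Commute.mul_pow hyd, ← hy, pow_orderOf_eq_one, one_mul, hy] at h9
      obtain ⟨k, hk⟩ := hD ⟨d, hd⟩
      exact (pow_eq_one_iff_of_coprime ((Nat.coprime_primes hq hp').2 hqp |>.pow_right k)).1
        ⟨h9, congrArg Subtype.val hk⟩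
    obtain ⟨P, hDP⟩ := hD.exists_le_sylow
    have hP : (P : Subgroup G).Normal := Subgroup.Normal.of_commutator_le G hDP
    obtain ⟨A, hA⟩ := Subgroup.exists_right_complement'_of_coprime P.card_coprime_index
    have hAc : Nat.card A = (P : Subgroup G).index := hA.symm.index_eq_card.symm
    have hAp : (Nat.card A).Coprime p := by
      rw [hAc]
      exact ((Nat.Prime.coprime_iff_not_dvd hp').2 P.not_dvd_index).symm
    have hA1 : A ≠ ⊥ := by
      rintro rfl
      refine hp ⟨p, hp', ?_⟩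
      have h9 : (P : Subgroup G) = ⊤ := by simpa using hA.sup_eq_top
      exact P.isPGroup'.of_equiv ((MulEquiv.subgroupCongr h9).trans Subgroup.topEquiv)
    have h9 : ∀ a ∈ A, a ≠ 1 → ∃ (k q : ℕ), q.Prime ∧ q ≠ p ∧ orderOf (a ^ k) = q := by
      intro a ha ha1
      obtain ⟨q, hq, hqa⟩ := Nat.exists_prime_and_dvd (orderOf_eq_one_iff.not.2 ha1)
      refine ⟨orderOf a / q, q, hq, ?_, orderOf_pow_orderOf_div (orderOf_pos a).ne' hqa⟩
      rintro rfl
      exact (Nat.Prime.coprime_iff_not_dvd hq).1 hAp.symm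
        (hqa.trans (A.orderOf_dvd_natCard ha))
    have hfpf : ∀ a ∈ A, a ≠ 1 → ∀ d ∈ commutator G, a * d = d * a → d = 1 := by
      intro a ha ha1 d hd had
      obtain ⟨k, q, hq, hqp, hk⟩ := h9 a ha ha1
      exact h8 _ q hq hqp hk d hd (Commute.pow_left had k)
    have hAcomm : IsMulCommutative A := by
      refine ⟨⟨fun a b => Subtype.ext ?_⟩⟩
      have h10 : (a : G) * b * (a : G)⁻¹ * (b : G)⁻¹ ∈ (P : Subgroup G) ⊓ A :=
        ⟨hDP (Subgroup.commutator_mem_commutator (Subgroup.mem_top _) (Subgroup.mem_top _)),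
          A.mul_mem (A.mul_mem (A.mul_mem a.2 b.2) (A.inv_mem a.2)) (A.inv_mem b.2)⟩
      rw [hA.disjoint.eq_bot, Subgroup.mem_bot, mul_inv_eq_one, mul_inv_eq_iff_eq_mul] at h10
      exact h10
    have hD1 : commutator G ≠ ⊥ := by
      intro h10
      refine hc ⟨⟨fun a b => ?_⟩⟩
      have h11 : a * b * a⁻¹ * b⁻¹ ∈ commutator G :=
        Subgroup.commutator_mem_commutator (Subgroup.mem_top _) (Subgroup.mem_top _)
      rwa [h10, Subgroup.mem_bot, mul_inv_eq_one, mul_inv_eq_iff_eq_mul] at h11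
    obtain ⟨a, ha, ha1⟩ := (Subgroup.ne_bot_iff_exists_ne_one.1 hA1) |> fun ⟨a, ha⟩ =>
      (⟨a, a.2, fun h => ha (Subtype.ext h)⟩ : ∃ a ∈ A, a ≠ 1)
    have hAP : ⁅A, (P : Subgroup G)⁆ = commutator G := by
      refine le_antisymm (Subgroup.commutator_mono le_top le_top) fun d hd => ?_
      obtain ⟨n, hn, hnd⟩ := exists_conj_eq_mul_of_fixedPointFree
        (Subgroup.le_normalizer_of_normal (Subgroup.mem_top a |> fun _ => Subgroup.mem_top a))
        (hfpf a ha ha1) hd
      rw [Subgroup.commutator_comm, show d = n * a * n⁻¹ * a⁻¹ by rw [hnd, mul_inv_cancel_right]]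
      exact Subgroup.commutator_mem_commutator (hDP hn) ha
    have hCD : Subgroup.centralizer (A : Set G) ⊓ commutator G = ⊥ := by
      rw [Subgroup.eq_bot_iff_forall]
      intro d hd
      exact hfpf a ha ha1 d hd.2 (Subgroup.mem_centralizer_iff.1 hd.1 a ha)
    refine ⟨p, this, P, A, hP,
      isCyclic_of_fixedPointFree_of_comm Subgroup.le_normalizer_of_normal hD1 hfpf hAcomm, hA1,
      hAp, hA.symm.sup_eq_top, ⟨⟨fun c c' => Subtype.ext ?_⟩⟩, hAP ▸ inferInstance, ?_, ?_,
      hAP ▸ hfpf⟩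
    · have h10 : (c : G) * c' * (c : G)⁻¹ * (c' : G)⁻¹ ∈
          Subgroup.centralizer (A : Set G) ⊓ commutator G :=
        ⟨Subgroup.mul_mem _ (Subgroup.mul_mem _ (Subgroup.mul_mem _ c.2.2 c'.2.2)
          (Subgroup.inv_mem _ c.2.2)) (Subgroup.inv_mem _ c'.2.2),
          Subgroup.commutator_mem_commutator (Subgroup.mem_top _) (Subgroup.mem_top _)⟩
      rw [hCD, Subgroup.mem_bot, mul_inv_eq_one, mul_inv_eq_iff_eq_mul] at h10
      exact h10
    · rw [hAP]
      refine le_antisymm (sup_le inf_le_left hDP) fun x hx => ?_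
      -- `x a x⁻¹ = n a n⁻¹` with `n ∈ G'`
      obtain ⟨n, hn, hnd⟩ := exists_conj_eq_mul_of_fixedPointFree
        (Subgroup.le_normalizer_of_normal (Subgroup.mem_top a)) (hfpf a ha ha1)
        (Subgroup.commutator_mem_commutator (Subgroup.mem_top x) (Subgroup.mem_top a))
      have h10 : (n⁻¹ * x) * a = a * (n⁻¹ * x) := by
        rw [commutatorElement_def, inv_mul_cancel_right] at hnd
        calc n⁻¹ * x * a = n⁻¹ * (x * a * x⁻¹) * x := by group
          _ = a * (n⁻¹ * x) := by rw [← hnd]; group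
      have h11 : n⁻¹ * x ∈ Subgroup.centralizer (A : Set G) := by
        rw [Subgroup.mem_centralizer_iff]
        intro b hb
        have hab : a * b = b * a := congrArg Subtype.val (hAcomm.is_comm.comm ⟨a, ha⟩ ⟨b, hb⟩)
        have h12 := hfpf a ha ha1 (b * (n⁻¹ * x) * b⁻¹ * (n⁻¹ * x)⁻¹)
          (Subgroup.commutator_mem_commutator (Subgroup.mem_top _) (Subgroup.mem_top _))
          ((((Commute.mul_right hab h10.symm).mul_right (Commute.inv_right hab)).mul_right
            (Commute.inv_right h10.symm)))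
        rwa [mul_inv_eq_one, mul_inv_eq_iff_eq_mul] at h12
      rw [← mul_inv_cancel_left n x]
      exact Subgroup.mul_mem _ (Subgroup.mem_sup_right hn) (Subgroup.mem_sup_left
        ⟨Subgroup.mul_mem _ (Subgroup.inv_mem _ (hDP hn)) hx, h11⟩)
    · rw [hAP, inf_assoc, hCD, inf_bot_eq]
  · rintro (⟨r, hr, hG⟩ | hG | ⟨r, hr, P, A, hP, hAc, -, hAr, hAP, hC, hDn, hCD, -, hfpf⟩)
      x y χ hx hy ⟨p, q, a, b, hp, hq, hpq, hxa, hyb⟩
    · exfalso
      have := Fact.mk hr
      have h1 : ∀ (z : G) (s c : ℕ), z ≠ 1 → s.Prime → orderOf z = s ^ c → s = r := by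
        intro z s c hz hs hzc
        obtain ⟨k, hk⟩ := IsPGroup.iff_orderOf.1 hG z
        have hc : c ≠ 0 := by
          rintro rfl
          exact hz (orderOf_eq_one_iff.1 (by simpa using hzc))
        exact (Nat.prime_dvd_prime_iff_eq hs hr).1
          (hs.dvd_of_dvd_pow (hk ▸ hzc ▸ dvd_pow_self s hc))
      exact hpq ((h1 x p a hx hp hxa).trans (h1 y q b hy hq hyb).symm)
    · exact χ.isCharacter.map_mul_of_charDegree_eq_one χ.charDegree_eq_one_of_comm x y
    by_cases hχ : charDegree χ.1 = 1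
    · exact χ.isCharacter.map_mul_of_charDegree_eq_one hχ x y
    set D := ⁅A, (P : Subgroup G)⁆ with hD
    set C := (P : Subgroup G) ⊓ Subgroup.centralizer (A : Set G) with hCdef
    have hDP : D ≤ P := by rw [← hCD]; exact le_sup_right
    have hdec : ∀ g : G, ∃ d ∈ D, ∃ c ∈ C, ∃ a ∈ A, g = d * (c * a) := by
      intro g
      have hg : g ∈ (P : Subgroup G) ⊔ A := by rw [sup_comm, hAP]; exact Subgroup.mem_top g
      obtain ⟨u, hu, a, ha, rfl⟩ := Subgroup.mem_sup_of_normal_left.1 hg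
      rw [← hCD, sup_comm] at hu
      obtain ⟨d, hd, c, hc, rfl⟩ := Subgroup.mem_sup_of_normal_left.1 hu
      exact ⟨d, hd, c, hc, a, ha, mul_assoc _ _ _⟩
    have hG' : commutator G ≤ D := by
      rw [← Subgroup.Normal.quotient_commutative_iff_commutator_le]
      refine ⟨⟨fun u v => ?_⟩⟩
      obtain ⟨u, rfl⟩ := QuotientGroup.mk_surjective u
      obtain ⟨v, rfl⟩ := QuotientGroup.mk_surjective v
      obtain ⟨d, hd, c, hc, a, ha, rfl⟩ := hdec u
      obtain ⟨d', hd', c', hc', a', ha', rfl⟩ := hdec v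
      rw [QuotientGroup.mk_mul _ d, QuotientGroup.mk_mul _ d',
        (QuotientGroup.eq_one_iff _).2 hd, (QuotientGroup.eq_one_iff _).2 hd', one_mul, one_mul,
        ← QuotientGroup.mk_mul, ← QuotientGroup.mk_mul]
      congr 1
      have e1 : Commute c c' := congrArg Subtype.val (hC.is_comm.comm ⟨c, hc⟩ ⟨c', hc'⟩)
      have e2 : Commute a a' :=
        congrArg Subtype.val (hAc.isMulCommutative.is_comm.comm ⟨a, ha⟩ ⟨a', ha'⟩)
      have e3 : Commute a c' := Subgroup.mem_centralizer_iff.1 hc'.2 a ha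
      have e4 : Commute a' c := Subgroup.mem_centralizer_iff.1 hc.2 a' ha'
      exact (e1.mul_right e4.symm).mul_left (e3.mul_right e2)
    have hvan : ∀ g : G, g ∉ (P : Subgroup G) → χ.1 g = 0 := by
      intro g hg
      obtain ⟨d, hd, c, hc, a, ha, rfl⟩ := hdec g
      have ha1 : a ≠ 1 := by
        rintro rfl
        exact hg (Subgroup.mul_mem _ (hDP hd) (by rw [mul_one]; exact hc.1))
      have e3 : Commute a c := Subgroup.mem_centralizer_iff.1 hc.2 a ha
      have h1 : ∀ n ∈ D, c * a * n = n * (c * a) → n = 1 := by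
        intro n hn h2
        obtain ⟨k, hk⟩ := P.isPGroup' ⟨c, hc.1⟩
        have hk' : c ^ r ^ k = 1 := congrArg Subtype.val hk
        have h3 : Commute ((c * a) ^ r ^ k) n := Commute.pow_left h2 _
        rw [e3.symm.mul_pow, hk', one_mul] at h3
        refine hfpf _ (A.pow_mem ha _) (fun h4 => ha1 ?_) n hn h3
        exact (pow_eq_one_iff_of_coprime (hAr.pow_right k)).1
          ⟨orderOf_dvd_iff_pow_eq_one.1 (A.orderOf_dvd_natCard ha), h4⟩
      have h2 : ∀ m ∈ D, IsConj (c * a) (m * (c * a)) := fun m hm => by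
        obtain ⟨n, -, hn⟩ := exists_conj_eq_mul_of_fixedPointFree
          (Subgroup.le_normalizer_of_normal (Subgroup.mem_top (c * a))) h1 hm
        exact isConj_iff.2 ⟨n, hn⟩
      rw [← χ.isClassFunction.eq_of_isConj (h2 d hd)]
      refine forall_nonlinear_eq_zero_of_forall_isConj (fun m hm => ?_) χ hχ
      have h3 := h2 _ (hDn.conj_mem m (hG' hm) (c * a))
      rwa [inv_mul_cancel_right] at h3
    have h1 : ∀ (z : G) (s c : ℕ), z ≠ 1 → s.Prime → orderOf z = s ^ c →
        z ∈ (P : Subgroup G) → s = r := by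
      intro z s c hz hs hzc hzP
      obtain ⟨k, hk⟩ := exists_orderOf_eq_pow_of_mem P.isPGroup' hzP
      have hc : c ≠ 0 := by
        rintro rfl
        exact hz (orderOf_eq_one_iff.1 (by simpa using hzc))
      exact (Nat.prime_dvd_prime_iff_eq hs hr.out).1
        (hs.dvd_of_dvd_pow (hk ▸ hzc ▸ dvd_pow_self s hc))
    have h2 : x * y ∉ (P : Subgroup G) := by
      intro h3
      have h4 : (x : G ⧸ (P : Subgroup G)) = (y : G ⧸ (P : Subgroup G))⁻¹ := by
        rw [← mul_eq_one_iff_eq_inv, ← QuotientGroup.mk_mul, QuotientGroup.eq_one_iff]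
        exact h3
      have h5 : (x : G ⧸ (P : Subgroup G)) = 1 := by
        refine (pow_eq_one_iff_of_coprime (Nat.coprime_pow_primes a b hp hq hpq)).1 ⟨?_, ?_⟩
        · rw [← QuotientGroup.mk_pow, ← hxa, pow_orderOf_eq_one, QuotientGroup.mk_one]
        · rw [h4, inv_pow, ← QuotientGroup.mk_pow, ← hyb, pow_orderOf_eq_one, QuotientGroup.mk_one,
            inv_one]
      have h6 := (QuotientGroup.eq_one_iff _).1 h5
      exact hpq ((h1 x p a hx hp hxa h6).trans
        (h1 y q b hy hq hyb ((Subgroup.mul_mem_cancel_left _ h6).1 h3)).symm)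
    rw [hvan _ h2]
    by_cases h3 : x ∈ (P : Subgroup G)
    · rw [hvan y fun h4 => h2 (Subgroup.mul_mem _ h3 h4), mul_zero]
    · rw [hvan x h3, zero_mul]

end Cfsg.Agent.S4756
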