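import Cfsg.Statements.S4757
import Cfsg.Agent.CT.Vanish
import Cfsg.Agent.Grp.Cores
import Cfsg.Agent.Grp.Frobenius

set_option autoImplicit false
open Cfsg

namespace Cfsg.Agent.S4757

open Classical in
theorem sum_eq {G : Type*} [Group G] [Finite G] {u : G} (hu : u ≠ 1) {c : ℂ}
    (hyp : ∀ χ : IrrCharacter G, χ.1 ≠ (fun _ => (1 : ℂ)) → (χ.1 1 - χ.1 u = c ∨ χ.1 u = 0)) :
    1 + ∑ χ ∈ (Finset.univ.erase (IrrCharacter.triv G)).filter (fun χ => χ.1 u ≠ 0),
      (charDegree χ.1 : ℂ) * (charDegree χ.1 - c) = 0 := by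
  have h := sum_irr_one_mul u
  rw [if_neg hu, ← Finset.add_sum_erase _ _ (Finset.mem_univ (IrrCharacter.triv G)),
    ← Finset.sum_filter_add_sum_filter_not _ (fun χ : IrrCharacter G => χ.1 u ≠ 0),
    Finset.sum_eq_zero (s := Finset.filter (fun χ : IrrCharacter G => ¬ χ.1 u ≠ 0) _)
      (fun χ hχ => by rw [not_not.1 (Finset.mem_filter.1 hχ).2, mul_zero]), add_zero] at h
  refine Eq.trans ?_ h
  simp only [IrrCharacter.triv_apply, mul_one]
  congr 1
  refine Finset.sum_congr rfl fun χ hχ => ?_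
  obtain ⟨h1, h2⟩ := Finset.mem_filter.1 hχ
  have h3 := (hyp χ fun h4 => (Finset.mem_erase.1 h1).1 (Subtype.ext h4)).resolve_right h2
  rw [← χ.one_eq_charDegree, ← h3]
  ring


/-- Let u ≠ 1 be an element of the finite group G and c a complex number such that every non-principal irreducible character χ satisfies χ(1) − χ(u) = c or χ(u) = 0. Then the following are equivalent: (a) u has order 2, G is generated by u together with O(G), the largest normal subgroup of G of odd order, and the centralizer of u is {1, u}; (b) G is not perfect; (c) c = 2. -/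
theorem result {G : Type*} [Group G] [Finite G] (u : G) (hu : u ≠ 1) (c : ℂ) (hyp : ∀ χ : Cfsg.IrrCharacter G, (χ : G → ℂ) ≠ (fun _ => (1 : ℂ)) → ((χ : G → ℂ) 1 - (χ : G → ℂ) u = c ∨ (χ : G → ℂ) u = 0)) : ((orderOf u = 2 ∧ Subgroup.zpowers u ⊔ Cfsg.oddCore G = ⊤ ∧ Subgroup.centralizer ({u} : Set G) = Subgroup.zpowers u) ↔ commutator G ≠ ⊤) ∧ (commutator G ≠ ⊤ ↔ c = 2) := by
  classical
  have hs := sum_eq hu hyp
  set A := (Finset.univ.erase (IrrCharacter.triv G)).filter (fun χ => χ.1 u ≠ 0) with hA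
  have hval : ∀ χ ∈ A, χ.1 u = charDegree χ.1 - c := by
    intro χ hχ
    obtain ⟨h1, h2⟩ := Finset.mem_filter.1 hχ
    have h3 := (hyp χ fun h4 => (Finset.mem_erase.1 h1).1 (Subtype.ext h4)).resolve_right h2
    rw [← χ.one_eq_charDegree, ← h3]
    ring
  have hlin : ∀ f : G →* ℂˣ, f ≠ 1 → IrrCharacter.ofHom f ∈ A := by
    intro f hf
    refine Finset.mem_filter.2 ⟨Finset.mem_erase.2 ⟨fun h => hf ?_, Finset.mem_univ _⟩,
      (f u).ne_zero⟩
    ext g
    exact congrArg (fun χ : IrrCharacter G => χ.1 g) h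
  have hlin' : ∀ f : G →* ℂˣ, f ≠ 1 → (f u : ℂ) = 1 - c := by
    intro f hf
    have := hval _ (hlin f hf)
    rwa [IrrCharacter.charDegree_ofHom, Nat.cast_one] at this
  have ab : (orderOf u = 2 ∧ Subgroup.zpowers u ⊔ oddCore G = ⊤ ∧
      Subgroup.centralizer ({u} : Set G) = Subgroup.zpowers u) → commutator G ≠ ⊤ := by
    rintro ⟨h1, h2, -⟩ h3
    have hc : IsCyclic (G ⧸ oddCore G) := by
      refine ⟨⟨(u : G ⧸ oddCore G), fun x => ?_⟩⟩
      obtain ⟨g, rfl⟩ := QuotientGroup.mk_surjective x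
      have hg : g ∈ Subgroup.zpowers u ⊔ oddCore G := h2 ▸ Subgroup.mem_top g
      obtain ⟨y, ⟨k, rfl⟩, n, hn, rfl⟩ := Subgroup.mem_sup_of_normal_right.1 hg
      exact ⟨k, by simp [(QuotientGroup.eq_one_iff n).2 hn]⟩
    have h4 := Subgroup.Normal.quotient_commutative_iff_commutator_le.1 hc.isMulCommutative
    rw [h3] at h4
    have : Fact (Nat.Prime 2) := ⟨Nat.prime_two⟩
    exact not_dvd_orderOf_of_mem_pPrimeCore (p := 2) (h4 (Subgroup.mem_top u)) (h1 ▸ dvd_rfl)
  have bc : commutator G ≠ ⊤ → c = 2 := by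
    intro h
    obtain ⟨g, hg⟩ : ∃ g, g ∉ commutator G := by
      by_contra h1
      push Not at h1
      exact h ((Subgroup.eq_top_iff' _).2 h1)
    obtain ⟨f, -, hf⟩ := exists_unitsHom_le_ker_ne_one le_rfl hg
    have hf1 : f ≠ 1 := fun h1 => hf (by rw [h1]; rfl)
    have h1 := hlin' f hf1
    have h2 : (∑ χ ∈ A, (charDegree χ.1 : ℂ)) * c = 1 + ∑ χ ∈ A, (charDegree χ.1 : ℂ) ^ 2 := by
      simp only [mul_sub, Finset.sum_sub_distrib, ← Finset.sum_mul, ← sq] at hs
      linear_combination -hs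
    have h3 : ((∑ χ ∈ A, charDegree χ.1 : ℕ) : ℂ) * c =
        ((1 + ∑ χ ∈ A, charDegree χ.1 ^ 2 : ℕ) : ℂ) := by
      push_cast
      exact h2
    have h4 : ((1 + ∑ χ ∈ A, charDegree χ.1 ^ 2 : ℕ) : ℂ) ≠ 0 := Nat.cast_ne_zero.2 (by omega)
    have h5 : ((∑ χ ∈ A, charDegree χ.1 : ℕ) : ℂ) ≠ 0 := fun h6 => h4 (by rw [← h3, h6, zero_mul])
    have h6 : c = (((1 + ∑ χ ∈ A, charDegree χ.1 ^ 2 : ℕ) : ℝ) /
        ((∑ χ ∈ A, charDegree χ.1 : ℕ) : ℝ) : ℝ) := by
      rw [Complex.ofReal_div, Complex.ofReal_natCast, Complex.ofReal_natCast, eq_div_iff h5,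
        mul_comm, h3]
    have h7 : c ≠ 0 := fun h8 => h4 (by rw [← h3, h8, mul_zero])
    have h8 := norm_unitsHom f u
    rw [h1] at h8
    generalize (((1 + ∑ χ ∈ A, charDegree χ.1 ^ 2 : ℕ) : ℝ) /
        ((∑ χ ∈ A, charDegree χ.1 : ℕ) : ℝ) : ℝ) = r at h6
    subst h6
    rw [← Complex.ofReal_one, ← Complex.ofReal_sub, Complex.norm_real, Real.norm_eq_abs] at h8
    rcases abs_eq (zero_le_one) |>.1 h8 with h9 | h9
    · exact absurd (by rw [show r = 0 by linarith]; simp) h7
    · rw [show r = 2 by linarith]; simp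
  have ca : c = 2 → (orderOf u = 2 ∧ Subgroup.zpowers u ⊔ oddCore G = ⊤ ∧
      Subgroup.centralizer ({u} : Set G) = Subgroup.zpowers u) := by
    rintro rfl
    have h1 : ∀ f f' : G →* ℂˣ, f ≠ 1 → f' ≠ 1 → f = f' := by
      intro f f' hf hf'
      by_contra h
      have h2 := hlin' (f * f'⁻¹) (fun h3 => h (mul_inv_eq_one.1 h3))
      have h3 : f u = f' u := Units.ext ((hlin' f hf).trans (hlin' f' hf').symm)
      simp only [MonoidHom.mul_apply, MonoidHom.inv_apply, h3, mul_inv_cancel,
        Units.val_one] at h2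
      norm_num at h2
    have hs' : (1 : ℤ) + ∑ χ ∈ A, (charDegree χ.1 : ℤ) * (charDegree χ.1 - 2) = 0 := by
      exact_mod_cast hs
    set L := A.filter (fun χ => charDegree χ.1 = 1) with hL
    have hLc : L.card ≤ 1 := by
      rw [Finset.card_le_one]
      intro a ha b hb
      obtain ⟨f, rfl⟩ := a.exists_eq_ofHom (Finset.mem_filter.1 ha).2
      obtain ⟨f', rfl⟩ := b.exists_eq_ofHom (Finset.mem_filter.1 hb).2
      have h2 : ∀ f : G →* ℂˣ, IrrCharacter.ofHom f ∈ L → f ≠ 1 := by
        rintro f hf rfl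
        exact (Finset.mem_erase.1 (Finset.mem_filter.1 (Finset.mem_filter.1 hf).1).1).1 rfl
      rw [h1 f f' (h2 f ha) (h2 f' hb)]
    rw [← Finset.sum_filter_add_sum_filter_not A (fun χ => charDegree χ.1 = 1), ← hL,
      Finset.sum_congr rfl (fun χ hχ => by rw [(Finset.mem_filter.1 hχ).2]; norm_num :
        ∀ χ ∈ L, (charDegree χ.1 : ℤ) * (charDegree χ.1 - 2) = -1),
      Finset.sum_const] at hs'
    have hnl : ∀ χ ∈ A.filter (fun χ => ¬ charDegree χ.1 = 1),
        (3 : ℤ) ≤ (charDegree χ.1 : ℤ) * (charDegree χ.1 - 2) := by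
      intro χ hχ
      obtain ⟨h2, h3⟩ := Finset.mem_filter.1 hχ
      have h4 : charDegree χ.1 ≠ 2 := fun h5 => (Finset.mem_filter.1 h2).2 (by
        rw [hval χ h2, h5]; simp)
      have h5 : (3 : ℤ) ≤ charDegree χ.1 := by
        have := χ.charDegree_pos
        omega
      nlinarith
    have h2 := Finset.card_nsmul_le_sum _ _ _ hnl
    simp only [nsmul_eq_mul] at h2 hs'
    have h3 : (A.filter (fun χ => ¬ charDegree χ.1 = 1)).card = 0 := by omega
    have h4 : L.card = 1 := by
      rw [Finset.card_eq_zero.1 h3, Finset.sum_empty] at hs'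
      omega
    have h5 : ∀ χ : IrrCharacter G, charDegree χ.1 ≠ 1 → χ.1 u = 0 := by
      intro χ hχ
      by_contra h6
      have : χ ∈ A.filter (fun χ => ¬ charDegree χ.1 = 1) := by
        refine Finset.mem_filter.2 ⟨Finset.mem_filter.2 ⟨Finset.mem_erase.2 ⟨?_,
          Finset.mem_univ _⟩, h6⟩, hχ⟩
        rintro rfl
        exact hχ (charDegree_eq_of_one_eq (n := 1) (by simp))
      rw [Finset.card_eq_zero.1 h3] at this
      simp at this
    have h6 : (commutator G).index = 2 := by
      rw [← card_filter_linear_irr]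
      have : (Finset.univ.filter fun χ : IrrCharacter G => charDegree χ.1 = 1) =
          insert (IrrCharacter.triv G) L := by
        ext χ
        simp only [Finset.mem_filter, Finset.mem_univ, true_and, Finset.mem_insert, hL, hA,
          Finset.mem_erase, and_true]
        constructor
        · intro h
          by_cases h7 : χ = IrrCharacter.triv G
          · exact Or.inl h7
          · refine Or.inr ⟨⟨h7, fun h8 => ?_⟩, h⟩
            have := χ.norm_eq_one_of_charDegree_eq_one h u
            rw [h8] at this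
            simp at this
        · rintro (rfl | h)
          · exact charDegree_eq_of_one_eq (n := 1) (by simp)
          · exact h.2
      rw [this, Finset.card_insert_of_notMem, h4]
      simp [hL, hA]
    have h7 := forall_nonlinear_eq_zero_iff_card_centralizer.1 h5
    rw [h6] at h7
    have h8 : Subgroup.zpowers u ≤ Subgroup.centralizer ({u} : Set G) :=
      Subgroup.zpowers_le.2 (Subgroup.mem_centralizer_singleton_iff.2 rfl)
    have h9 : 2 ≤ Nat.card (Subgroup.zpowers u) := by
      rw [Nat.card_zpowers]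
      have := orderOf_pos u
      have := orderOf_eq_one_iff.not.2 hu
      omega
    have h10 : Subgroup.zpowers u = Subgroup.centralizer ({u} : Set G) :=
      Subgroup.eq_of_le_of_card_ge h8 (h7.trans h9)
    have h11 : orderOf u = 2 := by
      rw [← Nat.card_zpowers]
      rw [← h10] at h7
      omega
    have hu' : u ∉ commutator G := by
      intro h
      have := (isConj_iff_of_forall_nonlinear_eq_zero h5 1).2 (by simpa using h)
      exact hu (isConj_one_left.1 this)
    have hz : ∀ a ∈ Subgroup.zpowers u, a ≠ 1 → a = u := by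
      intro a ha ha1
      rw [mem_zpowers_iff_mem_range_orderOf, h11] at ha
      obtain ⟨k, hk, rfl⟩ := Finset.mem_image.1 ha
      have : k = 0 ∨ k = 1 := by
        have := Finset.mem_range.1 hk
        omega
      rcases this with rfl | rfl
      · simp at ha1
      · simp
    have h12 : (Nat.card (commutator G)).Coprime (Nat.card (Subgroup.zpowers u)) := by
      refine coprime_card_of_fixedPointFree Subgroup.le_normalizer_of_normal fun a ha ha1 n hn h => ?_
      rw [hz a ha ha1] at h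
      by_contra hn1
      have h13 : n ∈ Subgroup.zpowers u := by
        rw [h10, Subgroup.mem_centralizer_singleton_iff]
        exact h.symm
      exact hu' (hz n h13 hn1 ▸ hn)
    rw [Nat.card_zpowers, h11] at h12
    refine ⟨h11, ?_, h10.symm⟩
    have h13 : commutator G ≤ oddCore G := le_pPrimeCore inferInstance h12
    rw [Subgroup.eq_top_iff']
    intro g
    by_cases hg : g ∈ commutator G
    · exact Subgroup.mem_sup_right (h13 hg)
    · have h14 : u⁻¹ * g ∈ commutator G :=
        (Subgroup.mul_mem_iff_of_index_two h6).2 (by simp [hu', hg])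
      rw [← mul_inv_cancel_left u g]
      exact Subgroup.mul_mem _ (Subgroup.mem_sup_left (Subgroup.mem_zpowers u))
        (Subgroup.mem_sup_right (h13 h14))
  exact ⟨⟨ab, fun h => ca (bc h)⟩, ⟨bc, fun h => ab (ca h)⟩⟩

end Cfsg.Agent.S4757
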