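import Cfsg.Statements.S4759
import Cfsg.Agent.Dade.D
import Cfsg.Agent.CT.SubChar

set_option autoImplicit false
open Cfsg

namespace Cfsg.Agent.S4759

open scoped Pointwise commutatorElement
open Subgroup Cfsg.FT Cfsg.DadeX

theorem exists_hom {G : Type*} [Group G] [Finite G] {R : Type*} [Ring R] [Algebra ℂ R]
    (D : Dat G R) {S : Subgroup G} {τ : G → R} (h : D.IsLift D.E S τ) (hi : D.E ⊓ S = ⊥) :
    ∃ P : ↥(D.E ⊔ S) →* R, ∀ e : D.E, P (inclusion le_sup_left e) = D.r e := by
  have hn : S ≤ 𝐍[D.E] := normsP.2 fun a _ x hx => D.norm a x hx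
  have hrep : ∀ g : ↥(D.E ⊔ S), ∃ e ∈ D.E, ∃ s ∈ S, e * s = g := fun g =>
    (mem_join_norm hn).1 g.2
  choose e he s hs hes using hrep
  have huniq : ∀ g : ↥(D.E ⊔ S), ∀ a ∈ D.E, ∀ b ∈ S, a * b = g → e g = a ∧ s g = b :=
    fun g a ha b hb hab => by
      have h1 : a⁻¹ * e g = b * (s g)⁻¹ := by
        rw [inv_mul_eq_iff_eq_mul, ← mul_assoc, eq_mul_inv_iff_mul_eq, hes, hab]
      have h2 : a⁻¹ * e g ∈ D.E ⊓ S :=
        mem_inf.2 ⟨mul_mem (inv_mem ha) (he g), h1 ▸ mul_mem hb (inv_mem (hs g))⟩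
      rw [hi, mem_bot] at h2
      exact ⟨(inv_mul_eq_one.1 h2).symm, (mul_inv_eq_one.1 (h1 ▸ h2)).symm⟩
  refine ⟨⟨⟨fun g => D.r (e g) * τ (s g), ?_⟩, fun a b => ?_⟩, fun x => ?_⟩
  · obtain ⟨h1, h2⟩ := huniq 1 1 (one_mem _) 1 (one_mem _) (by simp)
    rw [h1, h2, D.one, h.one, one_mul]
  · obtain ⟨h1, h2⟩ := huniq (a * b) _ (mul_mem (he a) (D.norm (s a) _ (he b))) _
      (mul_mem (hs a) (hs b)) (by rw [coe_mul, ← hes a, ← hes b]; group)
    simp only
    rw [h1, h2, D.mul _ (he a) _ (D.norm (s a) _ (he b)), h.mul _ (hs a) _ (hs b),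
      mul_assoc (D.r (e a)), mul_assoc (D.r (e a)), ← mul_assoc (τ (s a)), h.int _ (hs a) _ (he b),
      mul_assoc _ (τ (s a))]
  · obtain ⟨h1, h2⟩ := huniq (inclusion le_sup_left x) x x.2 1 (one_mem _) (by simp)
    simp only [MonoidHom.coe_mk, OneHom.coe_mk]
    rw [h1, h2, h.one, mul_one]

theorem exists_dat {G : Type*} [Group G] [Finite G] (E : Subgroup G) [hN : E.Normal]
    (hE : Cfsg.IsExtraspecial 2 ↥E) {n : ℕ} (ρ : Representation ℂ E (Fin n → ℂ))
    (hρ : ρ.IsIrreducible) (hθ : ∀ e : ↥E, ρ.character e = ρ.character 1 → e = 1) :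
    ∃ D : Dat G (Module.End ℂ (Fin n → ℂ)), D.E = E ∧ D.ND E ∧ (∀ e : E, D.r e = ρ e) := by
  classical
  obtain ⟨⟨hp, -, hc⟩, hz⟩ := hE
  obtain ⟨z, hz1, hz2⟩ := (Nat.card_eq_two_iff' (1 : center E)).1 hz
  have hZ : ∀ x : E, x ∈ center E → x = 1 ∨ x = z := fun x hx => by
    by_cases h : x = 1
    · exact Or.inl h
    · exact Or.inr (congrArg Subtype.val (hz2 ⟨x, hx⟩ fun e => h (congrArg Subtype.val e)))
  have hz1' : (z : E) ≠ 1 := fun e => hz1 (Subtype.ext e)
  have hzz : (z : E) * z = 1 := by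
    rcases hZ _ (mul_mem z.2 z.2) with e | e
    · exact e
    · exact absurd (mul_eq_left.1 e) hz1'
  have hnt := rep_nontrivial_of_isIrreducible hρ
  have hn : (n : ℂ) ≠ 0 := by
    rintro h
    have : n = 0 := by exact_mod_cast h
    subst this
    exact not_subsingleton _ (inferInstance : Subsingleton (Fin 0 → ℂ))
  have h1 : ρ.character 1 = n := by simp [Representation.char_one]
  have hrz : ρ z = -1 := by
    obtain ⟨c, hc⟩ := rep_exists_scalar_of_comm hρ (ρ z) fun g v => by
      rw [← Module.End.mul_apply, ← Module.End.mul_apply, ← map_mul, ← map_mul,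
        mem_center_iff.1 z.2 g]
    have e1 : ρ.character z = c * n := by
      simp [Representation.character, hc]
    have e2 : c * c * n = n := by
      have := congrArg ρ.character hzz
      rw [h1, Representation.character, map_mul, hc, ← Module.End.one_eq_id, smul_mul_assoc,
        mul_smul_comm, mul_one, smul_smul] at this
      simpa using this
    have e3 : c * c = 1 := by simpa [hn] using e2
    rcases mul_self_eq_one_iff.1 e3 with rfl | rfl
    · exact absurd (hθ _ (by rw [e1, h1, one_mul])) hz1'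
    · rw [hc]; ext; simp
  have hcomm : ∀ x y : E, y * x * y⁻¹ = x ∨ y * x * y⁻¹ = z * x := fun x y => by
    have : ⁅y, x⁆ ∈ center E := hc ▸ commutator_mem_commutator (mem_top y) (mem_top x)
    rcases hZ _ this with e | e
    · left; rw [commutatorElement_def] at e; exact mul_inv_eq_one.1 e
    · right; rw [commutatorElement_def] at e; exact mul_inv_eq_iff_eq_mul.1 e
  have ht0 : ∀ x : E, x ≠ 1 → x ≠ z → ρ.character x = 0 := fun x a b => by
    obtain ⟨y, hy⟩ : ∃ y : E, y * x * y⁻¹ = z * x := by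
      by_contra! h
      have : x ∈ center E := mem_center_iff.2 fun y =>
        mul_inv_eq_iff_eq_mul.1 ((hcomm x y).resolve_right (h y))
      rcases hZ x this with e | e
      exacts [a e, b e]
    have e1 := ρ.char_conj x y
    rw [hy] at e1
    have e2 : ρ.character (z * x) = - ρ.character x := by
      rw [Representation.character, Representation.character, map_mul, hrz, ← map_neg]
      exact congrArg _ (neg_one_mul (ρ x : Module.End ℂ (Fin n → ℂ)))
    rw [e2] at e1
    linear_combination (-1 / 2 : ℂ) * e1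
  let r : G → Module.End ℂ (Fin n → ℂ) := fun g => if h : g ∈ E then ρ ⟨g, h⟩ else 0
  have hr : ∀ e : E, r e = ρ e := fun e => dif_pos e.2
  have hzc : ∀ g : G, g * z = z * g := fun g => by
    have h2 : MulAut.conjNormal g (z : E) ∈ center E := by
      refine mem_center_iff.2 fun y => ?_
      obtain ⟨y, rfl⟩ := (MulAut.conjNormal (H := E) g).surjective y
      rw [← map_mul, ← map_mul, mem_center_iff.1 z.2 y]
    rcases hZ _ h2 with e | e
    · exact absurd ((map_eq_one_iff _ (MulAut.conjNormal (H := E) g).injective).1 e) hz1'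
    · exact mul_inv_eq_iff_eq_mul.1 (congrArg Subtype.val e)
  let D : Dat G (Module.End ℂ (Fin n → ℂ)) :=
    { E := E
      z := z
      r := r
      t := (n : ℂ)⁻¹ • LinearMap.trace ℂ (Fin n → ℂ)
      norm := fun g x hx => hN.conj_mem x hx g
      zE := z.1.2
      zz := congrArg Subtype.val hzz
      zc := hzc
      comm := fun x hx y hy => (hcomm ⟨x, hx⟩ ⟨y, hy⟩).imp (congrArg Subtype.val)
        (congrArg Subtype.val)
      two := hp
      mul := fun x hx y hy => by
        rw [hr ⟨x, hx⟩, hr ⟨y, hy⟩, ← map_mul]; exact hr (⟨x, hx⟩ * ⟨y, hy⟩)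
      one := (hr 1).trans (map_one ρ)
      rz := (hr z).trans hrz
      t1 := by simp [hn]
      t0 := fun x hx a b => by
        rw [hr ⟨x, hx⟩, LinearMap.smul_apply]
        have := ht0 ⟨x, hx⟩ (fun e => a (congrArg Subtype.val e))
          (fun e => b (congrArg Subtype.val e))
        rw [Representation.character] at this
        rw [this, smul_zero] }
  refine ⟨D, rfl, ⟨z.1.2, le_rfl, fun x hx => D.mem_Z.2 ?_⟩, hr⟩
  exact (hZ ⟨x, hx.1⟩ (mem_center_iff.2 fun y => Subtype.ext (hx.2 y y.2))).imp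
    (congrArg Subtype.val) (congrArg Subtype.val)


/-- Let G be a finite group that is the semidirect product of a normal extraspecial 2-subgroup E and a complement H acting faithfully on E (no non-identity element of H centralizes E), and suppose H has a normal subgroup K of odd order with [E, K] = E. Then every faithful irreducible character θ of E (there is exactly one) extends to G: some irreducible character of G restricts to θ on E. -/
theorem result {G : Type*} [Group G] [Finite G] (E H : Subgroup G) [E.Normal] (hE : Cfsg.IsExtraspecial 2 ↥E) (hEH : E ⊓ H = ⊥) (hEHtop : E ⊔ H = ⊤) (hfaith : ∀ h ∈ H, (∀ e ∈ E, h * e = e * h) → h = 1) (K : Subgroup G) (hKH : K ≤ H) (hKn : ∀ h ∈ H, ∀ k ∈ K, h * k * h⁻¹ ∈ K) (hKodd : Odd (Nat.card ↥K)) (hEK : ⁅E, K⁆ = E) (θ : Cfsg.IrrCharacter ↥E) (hθ : ∀ e : ↥E, (θ : ↥E → ℂ) e = (θ : ↥E → ℂ) 1 → e = 1) : ∃ χ : Cfsg.IrrCharacter G, ∀ e : ↥E, (χ : G → ℂ) e = (θ : ↥E → ℂ) e := by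
  obtain ⟨n, ρ, hρ, hχ⟩ := θ.2
  obtain ⟨D, hDE, hD, hr⟩ := exists_dat E hE ρ hρ (hχ ▸ hθ)
  subst hDE
  have hN : ∀ L : Subgroup G, L ≤ 𝐍[D.E] := fun L => normsP.2 fun a _ x hx => D.norm a x hx
  have hinv : ⊤ ≤ ezStab θ := by
    refine (le_ezStab_iff (hN ⊤)).2 fun s _ g g' e => ?_
    obtain ⟨u, -, v, -, e1, e2, hi⟩ := Dat.exists_int hD (hN ⊤ (mem_top s))
    have h1 : ρ g' = u * ρ g * v := by
      rw [← hr, ← hr, hi g g.2, mul_assoc, e1, mul_one, e]
    rw [← hχ, Representation.character, Representation.character, h1, LinearMap.trace_mul_comm,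
      ← mul_assoc, e2, one_mul]
  obtain ⟨ψ, hψ⟩ := extTo_of_sylow le_top (hN ⊤) hinv fun q hq => by
    have := Fact.mk hq
    obtain ⟨T⟩ := (inferInstance : Nonempty (Sylow q G))
    by_cases hq2 : q = 2
    · subst hq2
      have hET : D.E ≤ T := D.two.le_sylow_of_normal T
      have e := group_modl (L := T) (hN H) hET
      rw [hEHtop, top_inf_eq] at e
      refine ⟨T, hET, le_top, by rw [relIndex_top_right]; exact T.not_dvd_index, ?_⟩
      obtain ⟨τ, hτ⟩ := Dat.main hD hKodd (T.isPGroup'.to_le (inf_le_right (a := H))) (hN K)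
        (hN _) (normsP.2 fun a ha => hKn a ha.1) fun x hx => hD.cen ⟨hx.1, by
          have := Dat.cent_commg le_rfl hx.1 hx.2
          rwa [hEK] at this⟩
      obtain ⟨P, hP⟩ := exists_hom D hτ (by rw [← inf_assoc, hEH, bot_inf_eq])
      have hPρ : MonoidHom.comp P (inclusion le_sup_left) = ρ := by
        ext1 x; exact (hP x).trans (hr x)
      rw [e]
      refine ⟨⟨_, n, P, rep_isIrreducible_of_comp P (inclusion le_sup_left) (hPρ ▸ hρ), rfl⟩,
        (IrrCharacter.extends_iff le_sup_left).2 fun k => ?_⟩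
      rw [← hχ]
      exact congrArg (LinearMap.trace ℂ _) ((hP k).trans (hr k))
    · refine ⟨D.E ⊔ T, le_sup_left, le_top, fun h => T.not_dvd_index ?_,
        extTo_of_coprime le_sup_left (hN _) (le_top.trans hinv) ?_⟩
      · rw [relIndex_top_right] at h
        exact h.trans (index_dvd_of_le le_sup_right)
      · obtain ⟨a, ha⟩ := exists_card_pgroup D.two
        obtain ⟨b, hb⟩ := exists_relIndex_pgroup T.isPGroup' D.E
        rw [relIndex_sup_left, ha, hb]
        exact Nat.Coprime.pow _ _ ((Nat.coprime_primes Nat.prime_two hq).2 (Ne.symm hq2))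
  refine ⟨⟨_, ψ.2.comp_surjective (topEquiv (G := G)).symm.toMonoidHom
    (topEquiv (G := G)).symm.surjective⟩, fun e => ?_⟩
  exact (IrrCharacter.extends_iff le_top).1 hψ e

end Cfsg.Agent.S4759
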