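import Cfsg.Statements.S4762
import Cfsg.Agent.CT.Degrees2

set_option autoImplicit false
open Cfsg

namespace Cfsg.Agent.S4762

open scoped commutatorElement

/-- Let p be a prime and G a finite nilpotent group. Then G has exactly one irreducible complex character of degree divisible by p if and only if p = 2 and G is an extraspecial 2-group. -/
theorem result {G : Type*} [Group G] [Finite G] [Group.IsNilpotent G] (p : ℕ) [Fact p.Prime] : Nat.card {χ : Cfsg.IrrCharacter G // p ∣ Cfsg.charDegree (χ : G → ℂ)} = 1 ↔ (p = 2 ∧ Cfsg.IsExtraspecial 2 G) := by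
  classical
  have hp : p.Prime := Fact.out
  have := Fintype.ofFinite G
  have hpg : ∀ {q : ℕ}, q.Prime → IsPGroup q G → ∀ χ : IrrCharacter G,
      q ∣ charDegree χ.1 ↔ charDegree χ.1 ≠ 1 := by
    intro q hq hG χ
    haveI := Fact.mk hq
    obtain ⟨k, hk⟩ := IsPGroup.iff_card.1 hG
    obtain ⟨j, -, hj⟩ := (Nat.dvd_prime_pow hq).1 (hk ▸ χ.charDegree_dvd_card)
    refine ⟨fun h h1 => hq.one_lt.ne' (Nat.dvd_one.1 (h1 ▸ h)), fun h => ?_⟩
    rw [hj] at h ⊢
    exact dvd_pow_self q fun h1 => h (by rw [h1, pow_zero])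
  have hsum : Nat.card G = (commutator G).index +
      ∑ χ : IrrCharacter G with charDegree χ.1 ≠ 1, charDegree χ.1 ^ 2 := by
    rw [← sum_charDegree_sq, ← Finset.sum_filter_add_sum_filter_not Finset.univ
      (fun χ : IrrCharacter G => charDegree χ.1 = 1), ← card_linear_irr,
      Finset.sum_congr rfl (g := fun _ => 1) (fun χ hχ => by rw [(Finset.mem_filter.1 hχ).2]; rfl)]
    simp [Fintype.card_subtype]
  constructor
  · intro h
    obtain ⟨⟨χ, hχ⟩, hu⟩ := Nat.card_eq_one_iff_exists.1 h
    have huniq : ∀ ψ : IrrCharacter G, p ∣ charDegree ψ.1 → ψ = χ := fun ψ hψ =>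
      congrArg Subtype.val (hu ⟨ψ, hψ⟩)
    have hG : IsPGroup p G := by
      have hc := HasNormalPComplement.of_isNilpotent p (G := G) inferInstance
      have hQ := hasNormalPComplement_iff_isPGroup_quotient.1 hc
      have hsup := pCore_sup_pPrimeCore_of_isNilpotent (G := G) inferInstance p
      have hker : pPrimeCore p G ≤ charKer χ.1 := by
        by_contra h1
        have h2 : commutator G ≤ pPrimeCore p G := by
          refine commutator_le_of_forall_charDegree_eq_one fun ψ hψ => ?_
          by_contra h3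
          refine h1 (huniq ψ ?_ ▸ hψ)
          obtain ⟨k, hk⟩ := isPGroup_quotient_iff_index.1 hQ
          obtain ⟨j, -, hj⟩ := (Nat.dvd_prime_pow hp).1 (hk ▸ ψ.charDegree_dvd_index_of_le
            (hψ.trans (charKer_le_charCenter _)))
          rw [hj] at h3 ⊢
          exact dvd_pow_self p fun h1 => h3 (by rw [h1, pow_zero])
        have h3 : IsMulCommutative (pCore p G) := by
          rw [← Subgroup.commutator_self_eq_bot_iff, eq_bot_iff, ← pCore_inf_pPrimeCore p]
          exact le_inf (Subgroup.commutator_le_left _ _)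
            ((Subgroup.commutator_mono le_top le_top).trans h2)
        have h4 := hχ.trans (ito_charDegree_dvd_index h3 χ)
        obtain ⟨P⟩ : Nonempty (Sylow p G) := inferInstance
        exact (sylow_normal_iff_not_dvd_index_pCore P).1
          (isNilpotent_iff_forall_sylow_normal.1 inferInstance p P) h4
      by_contra hG
      have h1 : pCore p G ≠ ⊤ := fun h1 => hG (pCore_eq_top_iff.1 h1)
      obtain ⟨M, hM, h2, h3⟩ := exists_normal_prime_index_ge h1 inferInstance
      have := isCyclic_quotient_of_prime_index h3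
      have h4 : commutator G ≤ M := by
        rw [← Subgroup.Normal.quotient_commutative_iff_commutator_le]
        exact IsCyclic.isMulCommutative
      obtain ⟨x, hx, hxM⟩ : ∃ x ∈ pPrimeCore p G, x ∉ M := by
        by_contra h5
        push Not at h5
        have h6 : M = ⊤ := eq_top_iff.2 (hsup ▸ sup_le h2 h5)
        rw [h6, Subgroup.index_top] at h3
        exact Nat.not_prime_one h3
      obtain ⟨f, -, hf⟩ := exists_unitsHom_le_ker_ne_one h4 hxM
      have h5 := congrFun (congrArg Subtype.val (huniq (χ.twist f) (by simpa using hχ))) x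
      rw [IrrCharacter.twist_apply, χ.mem_charKer.1 (hker hx)] at h5
      exact hf (Units.val_eq_one.1 (mul_right_cancel₀ χ.one_ne_zero (h5.trans (one_mul _).symm)))
    have h1 : (Finset.univ.filter fun ψ : IrrCharacter G => charDegree ψ.1 ≠ 1) = {χ} := by
      ext ψ
      simp only [Finset.mem_filter, Finset.mem_univ, true_and, Finset.mem_singleton,
        ← hpg hp hG]
      exact ⟨huniq ψ, fun h => h ▸ hχ⟩
    rw [h1, Finset.sum_singleton, ← (commutator G).index_mul_card] at hsum
    obtain ⟨k, hk⟩ := IsPGroup.iff_card.1 hG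
    obtain ⟨j, -, hj⟩ := (Nat.dvd_prime_pow hp).1 (hk ▸ χ.charDegree_dvd_card)
    obtain ⟨c, hc⟩ : ∃ c, Nat.card (commutator G) = c + 1 :=
      Nat.exists_eq_succ_of_ne_zero Nat.card_pos.ne'
    have h2 : (commutator G).index * c = p ^ (2 * j) := by
      rw [hc, mul_add, mul_one, add_comm, hj, ← pow_mul, mul_comm j] at hsum
      exact Nat.add_left_cancel hsum
    have hc0 : c ≠ 0 := by
      rintro rfl
      exact pow_ne_zero _ hp.ne_zero h2.symm
    have h3 : p ∣ c + 1 := by
      rw [← hc]
      refine dvd_card_of_isPGroup_of_ne_bot (hG.to_subgroup _) fun h3 => hc0 ?_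
      rw [h3, Subgroup.card_bot] at hc
      omega
    obtain ⟨i, -, hi⟩ := (Nat.dvd_prime_pow hp).1 (Dvd.intro_left _ h2)
    have hc1 : c = 1 := by
      rcases Nat.eq_zero_or_pos i with h4 | h4
      · rw [hi, h4, pow_zero]
      · exact absurd ((Nat.dvd_add_right (hi ▸ dvd_pow_self p h4.ne')).1 h3)
          (hp.one_lt.ne' ∘ Nat.dvd_one.1)
    subst hc1
    obtain rfl : p = 2 := (Nat.prime_dvd_prime_iff_eq hp Nat.prime_two).1 h3
    have h4 : commutator G ≤ Subgroup.center G := by
      intro x hx
      rw [Subgroup.mem_center_iff]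
      intro g
      by_cases hx1 : x = 1
      · simp [hx1]
      have h5 := (inferInstance : (commutator G).Normal).conj_mem x hx g
      obtain ⟨y, -, hy⟩ := (Nat.card_eq_two_iff' (1 : commutator G)).1 hc
      have h6 := (hy ⟨x, hx⟩ (fun h => hx1 (congrArg Subtype.val h))).trans
        (hy ⟨_, h5⟩ (fun h => hx1 (by simpa using congrArg Subtype.val h))).symm
      have h7 : x = g * x * g⁻¹ := congrArg Subtype.val h6
      rw [eq_mul_inv_iff_mul_eq] at h7
      exact h7.symm
    have h5 : commutator G = Subgroup.center G := by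
      refine Subgroup.eq_of_le_of_card_ge h4 ?_
      have h6 := χ.sq_charDegree_le_index_center
      rw [hj, ← pow_mul, mul_comm, ← h2, mul_one] at h6
      have h7 := (commutator G).index_mul_card.trans (Subgroup.center G).index_mul_card.symm
      by_contra h8
      push Not at h8
      have := Nat.mul_lt_mul_of_le_of_lt h6 h8 (Nat.pos_of_ne_zero Subgroup.index_ne_zero_of_finite)
      omega
    refine ⟨rfl, ⟨hG, le_antisymm ?_ (h5 ▸ commutator_le_frattini_of_isPGroup hG), h5⟩, h5 ▸ hc⟩
    refine frattini_le_of_isPGroup hG h4 fun g => ?_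
    rw [Subgroup.mem_center_iff]
    intro y
    have h6 : ⁅y, g⁆ ∈ commutator G := Subgroup.commutator_mem_commutator trivial trivial
    have h7 : ⁅y, g⁆ ^ 2 = 1 := by
      have := pow_card_eq_one' (x := (⟨_, h6⟩ : commutator G))
      rw [hc] at this
      exact congrArg Subtype.val this
    have h8 := Subgroup.mem_center_iff.1 (h4 h6)
    have h9 : y * g = ⁅y, g⁆ * (g * y) := by simp [commutatorElement_def]
    calc y * g ^ 2 = ⁅y, g⁆ * g * (y * g) := by simp [sq, commutatorElement_def, mul_assoc]
      _ = ⁅y, g⁆ * (g * ⁅y, g⁆) * (g * y) := by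
          rw [mul_assoc _ (g * ⁅y, g⁆), mul_assoc g, ← h9, mul_assoc]
      _ = ⁅y, g⁆ ^ 2 * (g ^ 2 * y) := by rw [h8 g]; simp only [sq, mul_assoc]
      _ = g ^ 2 * y := by rw [h7, one_mul]
  · rintro ⟨rfl, ⟨hG, -, h1⟩, h2⟩
    have h3 : ∀ χ : IrrCharacter G, charDegree χ.1 ≠ 1 →
        charDegree χ.1 ^ 2 = (commutator G).index := by
      intro χ hχ
      have h4 : charKer χ.1 = ⊥ := by
        by_contra h4
        have h5 := inf_center_ne_bot_of_isNilpotent (G := G) inferInstance h4
        refine hχ (χ.charDegree_eq_one_iff_commutator_le.2 ?_)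
        have h6 : Nat.card (charKer χ.1 ⊓ Subgroup.center G : Subgroup G) ∣ 2 :=
          h2 ▸ Subgroup.card_dvd_of_le inf_le_right
        have h7 := ((Nat.dvd_prime Nat.prime_two).1 h6).resolve_left
          fun h => h5 (Subgroup.card_eq_one.1 h)
        rw [h1, ← Subgroup.eq_of_le_of_card_ge (inf_le_right : charKer χ.1 ⊓ _ ≤ _)
          (h2.trans h7.symm).le]
        exact inf_le_left
      rw [χ.sq_charDegree_eq_index_of_commutator_le (h1 ▸ χ.center_le_charCenter),
        χ.charCenter_eq_center_of_faithful h4, h1]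
    rw [Finset.sum_congr rfl (fun χ hχ => h3 χ (Finset.mem_filter.1 hχ).2), Finset.sum_const,
      ← (commutator G).index_mul_card, smul_eq_mul] at hsum
    rw [h1, h2] at hsum
    have h4 : 0 < (Subgroup.center G).index := Nat.pos_of_ne_zero Subgroup.index_ne_zero_of_finite
    have h5 : (Finset.univ.filter fun ψ : IrrCharacter G => charDegree ψ.1 ≠ 1).card = 1 :=
      Nat.eq_of_mul_eq_mul_right h4 (by omega)
    rw [Nat.card_eq_fintype_card, Fintype.card_subtype, ← h5]
    congr 1
    ext ψ
    simp only [Finset.mem_filter, Finset.mem_univ, true_and, hpg Nat.prime_two hG]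

end Cfsg.Agent.S4762
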