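import Cfsg.Statements.S4763
import Cfsg.Agent.CT.Degrees2
import Cfsg.Agent.CT.Glauberman

set_option autoImplicit false
open Cfsg

namespace Cfsg.Agent.S4763


/-- Let p be a prime and G a finite group that is not nilpotent and has a normal p-complement (a normal subgroup of order prime to p and index a power of p). If G has exactly one irreducible complex character of degree divisible by p, then G has exactly one conjugacy class whose size is divisible by p. -/
theorem result {G : Type*} [Group G] [Finite G] (p : ℕ) [Fact p.Prime] (hnil : ¬ Group.IsNilpotent G) (N : Subgroup G) [N.Normal] (hN : (Nat.card N).Coprime p) (hidx : ∃ k : ℕ, N.index = p ^ k) (hone : Nat.card {χ : Cfsg.IrrCharacter G // p ∣ Cfsg.charDegree (χ : G → ℂ)} = 1) : Nat.card {C : ConjClasses G // p ∣ Nat.card C.carrier} = 1 := by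
  classical
  have hp : p.Prime := Fact.out
  have := Fintype.ofFinite G
  obtain ⟨k, hk⟩ := hidx
  have hN' : ¬ p ∣ Nat.card N := hp.coprime_iff_not_dvd.1 hN.symm
  have hcop : (Nat.card N).Coprime N.index := hk ▸ hN.pow_right k
  obtain ⟨⟨χ, hχ⟩, hu⟩ := Nat.card_eq_one_iff_exists.1 hone
  have huniq : ∀ ψ : IrrCharacter G, p ∣ charDegree ψ.1 → ψ = χ := fun ψ hψ =>
    congrArg Subtype.val (hu ⟨ψ, hψ⟩)
  have hA : ∀ θ : IrrCharacter N, charInertia θ.1 ≠ ⊤ →
      ∀ ψ : IrrCharacter G, classInner (fun n : N => ψ.1 n) θ.1 ≠ 0 → ψ = χ := by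
    intro θ hθ ψ hψ
    obtain ⟨e, -, -, -, h1, -⟩ := clifford ψ hψ
    obtain ⟨j, -, hj⟩ := (Nat.dvd_prime_pow hp).1
      (hk ▸ Subgroup.index_dvd_of_le θ.le_charInertia)
    refine huniq ψ (h1 ▸ ((hj ▸ dvd_pow_self p fun h => hθ ?_ : p ∣ (charInertia θ.1).index).mul_left
      e).mul_right _)
    rw [← Subgroup.index_eq_one, hj, h, pow_zero]
  have hB : commutator G ≤ N := by
    refine commutator_le_of_forall_charDegree_eq_one fun β hβ => ?_
    by_contra h1
    obtain ⟨j, -, hj⟩ := (Nat.dvd_prime_pow hp).1 (hk ▸ β.charDegree_dvd_index_of_le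
      (hβ.trans (charKer_le_charCenter _)))
    have h2 : p ∣ charDegree β.1 := by
      rw [hj] at h1 ⊢
      exact dvd_pow_self p fun h => h1 (by rw [h, pow_zero])
    obtain rfl := huniq β h2
    have hN1 : N ≠ ⊥ := by
      rintro rfl
      rw [Subgroup.index_bot] at hk
      exact hnil (IsPGroup.of_card hk).isNilpotent
    haveI := (Subgroup.nontrivial_iff_ne_bot N).2 hN1
    obtain ⟨θ, hθ⟩ := exists_irr_not_le_charKer (G := N) (N := ⊤) top_ne_bot
    have h3 : classInner (fun n : N => β.1 n) θ.1 ≠ 0 := by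
      by_cases h3 : charInertia θ.1 = ⊤
      · obtain ⟨ξ, hξ, -⟩ := exists_extension_of_coprime h3 hcop
        have h4 := huniq ⟨_, gallagher_isIrr ξ.isCharacter (isIrr_res_of_extends hξ)
          (β.deflate N hβ)⟩ (by
            simp only [IrrCharacter.deflate_apply]
            exact β.isCharacter.charDegree_mul ξ.isCharacter ▸ h2.mul_right _)
        rw [← h4]
        exact (gallagher_classInner_res hξ _).trans_ne (β.deflate N hβ).one_ne_zero
      · obtain ⟨ψ, hψ⟩ := θ.exists_over
        exact hA θ h3 ψ hψ ▸ hψ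
    obtain ⟨g, hg⟩ := clifford_exists_smul β (θ := IrrCharacter.triv N)
      ((β.le_charKer_iff_classInner_ne_zero N).1 hβ) h3
    rw [IrrCharacter.smul_triv] at hg
    exact hθ (by rw [← hg, (IrrCharacter.charKer_eq_top_iff _).2 rfl])
  obtain ⟨θ₀, hθ₀⟩ := χ.exists_under N
  have hC : charInertia θ₀.1 ≠ ⊤ := by
    intro h1
    obtain ⟨ξ, hξ, -⟩ := exists_extension_of_coprime h1 hcop
    obtain ⟨β, hβ⟩ := gallagher_surj ξ.isCharacter hξ χ hθ₀
    have h2 : charDegree χ.1 = charDegree (β.inflate N).1 * charDegree ξ.1 := by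
      rw [hβ]
      exact (β.inflate N).isCharacter.charDegree_mul ξ.isCharacter
    rw [(β.inflate N).charDegree_eq_one_of_le_charKer hB (β.le_charKer_inflate N), one_mul,
      charDegree_eq_of_extends hξ] at h2
    exact hN' ((h2 ▸ hχ).trans θ₀.charDegree_dvd_card)
  have hD : charInertia θ₀.1 = N := by
    obtain ⟨ψ, hψ⟩ := exists_extension_charInertia_of_coprime θ₀ hcop
    have h1 : classInner (fun n : N => ψ.1 ⟨n, θ₀.le_charInertia n.2⟩) θ₀.1 ≠ 0 := by
      rw [funext hψ, θ₀.classInner_self]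
      exact one_ne_zero
    have h2 := hA θ₀ hC ⟨_, clifford_corr_isIrr θ₀.le_charInertia le_rfl ψ h1⟩
      ((clifford_corr_classInner θ₀.le_charInertia le_rfl ψ h1).trans_ne h1)
    have h3 : charDegree χ.1 = (charInertia θ₀.1).index * charDegree θ₀.1 := by
      rw [← h2]
      refine (ψ.isCharacter.charDegree_indFun).trans ?_
      congr 1
      exact congrArg (fun z : ℂ => ⌊z.re⌋₊) (hψ 1)
    have h4 := sum_charDegree_sq_over θ₀
    rw [Finset.sum_eq_single_of_mem χ (by simpa using hθ₀)
      (fun ψ hψ h => absurd (hA θ₀ hC ψ (Finset.mem_filter.1 hψ).2) h), h3, mul_pow, sq,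
      mul_left_inj' (pow_pos θ₀.charDegree_pos 2).ne',
      mul_left_inj' Subgroup.index_ne_zero_of_finite] at h4
    refine (Subgroup.eq_of_le_of_card_ge θ₀.le_charInertia ?_).symm
    have h5 := (charInertia θ₀.1).index_mul_card.trans N.index_mul_card.symm
    rw [h4] at h5
    exact (Nat.eq_of_mul_eq_mul_left (Nat.pos_of_ne_zero Subgroup.index_ne_zero_of_finite) h5).le
  have hE : ∀ θ : IrrCharacter N, charInertia θ.1 ≠ ⊤ ↔ θ ∈ MulAction.orbit G θ₀ := by
    intro θ
    constructor
    · intro h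
      obtain ⟨ψ, hψ⟩ := θ.exists_over
      exact clifford_mem_orbit χ hθ₀ (hA θ h ψ hψ ▸ hψ)
    · rintro ⟨g, rfl⟩ h
      have h1 := IrrCharacter.charInertia_eq_top_iff.1 h g⁻¹
      simp only [inv_smul_smul] at h1
      exact hC (h1 ▸ h)
  obtain ⟨P⟩ : Nonempty (Sylow p G) := inferInstance
  have hNP : N ⊔ (P : Subgroup G) = ⊤ := sylow_sup_eq_top_of_index P ⟨k, hk⟩
  have hcP : ∀ S : Subgroup G, S ≤ P → (Nat.card N).Coprime (Nat.card S) := fun S hS =>
    (coprime_card_of_isPGroup (P.isPGroup'.to_le hS) hN').symm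
  have hd : N ⊓ (P : Subgroup G) = ⊥ := inf_eq_bot_of_coprime_card (hcP _ le_rfl)
  have hPcard : Nat.card (P : Subgroup G) = N.index := by
    have h1 := card_sup_of_disjoint (N := N) (H := P) (Subgroup.le_normalizer_of_normal) hd
    rw [hNP, Subgroup.card_top, ← N.card_mul_index] at h1
    exact (Nat.eq_of_mul_eq_mul_left Nat.card_pos h1).symm
  have hPab : ∀ a ∈ (P : Subgroup G), ∀ b ∈ (P : Subgroup G), a * b = b * a := by
    intro a ha b hb
    rw [← commutatorElement_eq_one_iff_mul_comm, ← Subgroup.mem_bot, ← hd]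
    exact ⟨hB (Subgroup.commutator_mem_commutator trivial trivial),
      (P : Subgroup G).mul_mem (mul_mem (mul_mem ha hb) (inv_mem ha)) (inv_mem hb)⟩
  letI act : MulAction G (ConjClasses N) :=
    { smul := fun g K => ConjClasses.map (MulAut.conjNormal g : MulAut N).toMonoidHom K
      one_smul := fun K => by
        obtain ⟨y, rfl⟩ := ConjClasses.mk_surjective K
        change ConjClasses.mk (MulAut.conjNormal 1 y) = _
        rw [map_one]
        rfl
      mul_smul := fun g h K => by
        obtain ⟨y, rfl⟩ := ConjClasses.mk_surjective K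
        change ConjClasses.mk (MulAut.conjNormal (g * h) y) = _
        rw [map_mul]
        rfl }
  have hact : ∀ (g : G) (y : N), g • ConjClasses.mk y = ConjClasses.mk (MulAut.conjNormal g y) :=
    fun _ _ => rfl
  have hfix : ∀ (g : G) (y : N), g • ConjClasses.mk y = ConjClasses.mk y ↔
      ∃ n ∈ N, n * (y : G) * n⁻¹ = g * y * g⁻¹ := by
    intro g y
    rw [hact, eq_comm, ConjClasses.mk_eq_mk_iff_isConj, isConj_iff]
    constructor
    · rintro ⟨n, hn⟩
      exact ⟨n, n.2, by simpa using congrArg Subtype.val hn⟩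
    · rintro ⟨n, hn, h⟩
      exact ⟨⟨n, hn⟩, Subtype.ext (by simpa using h)⟩
  have hcount : ∀ S : Subgroup G, S ≤ P →
      Nat.card {K : ConjClasses N // S ≤ MulAction.stabilizer G K} =
        Nat.card {θ : IrrCharacter N // S ≤ charInertia θ.1} := by
    intro S hS
    have h1 := card_invariant_conjClasses (S := S) (G := N)
      (Or.inr (isSolvable_of_isPGroup (P.isPGroup'.to_le hS))) Subgroup.le_normalizer_of_normal
      (hcP S hS) rfl
    have h2 := ((glBij_of_isPGroup hp (P.isPGroup'.to_le hS) Subgroup.le_normalizer_of_normal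
      (hcP S hS) rfl inf_le_left).constBij hp).card_eq
    rw [Nat.card_subtype_true, card_irrCharacter, ← h1] at h2
    refine Eq.trans ?_ (h2.symm.trans ?_)
    · refine Nat.card_congr (Equiv.subtypeEquivRight fun K => ?_)
      constructor
      · rintro h s hs g g' hg rfl
        rw [← MulAction.mem_stabilizer_iff.1 (h hs), hact]
        exact congrArg _ (Subtype.ext (by simpa using hg))
      · intro h s hs
        obtain ⟨y, rfl⟩ := ConjClasses.mk_surjective K
        exact h s hs y _ (by simp) rfl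
    · exact Nat.card_congr (Equiv.subtypeEquivRight fun θ =>
        forall₂_congr fun s _ => mem_charInertia_iff_charInv.symm)
  have hPinv : ∀ θ : IrrCharacter N, (P : Subgroup G) ≤ charInertia θ.1 ↔ charInertia θ.1 = ⊤ :=
    fun θ => ⟨fun h => eq_top_iff.2 (hNP ▸ sup_le θ.le_charInertia h), fun h => h ▸ le_top⟩
  have hF : ∀ x ∈ (P : Subgroup G), x ≠ 1 → ∀ K : ConjClasses N, x • K = K →
      (P : Subgroup G) ≤ MulAction.stabilizer G K := by
    intro x hx hx1 K hK
    have h1 : Subgroup.zpowers x ≤ P := (Subgroup.zpowers_le).2 hx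
    have h2 : Nat.card {K : ConjClasses N // Subgroup.zpowers x ≤ MulAction.stabilizer G K} =
        Nat.card {K : ConjClasses N // (P : Subgroup G) ≤ MulAction.stabilizer G K} := by
      rw [hcount _ h1, hcount _ le_rfl]
      refine Nat.card_congr (Equiv.subtypeEquivRight fun θ => ⟨fun h => ?_, h1.trans⟩)
      rw [hPinv]
      by_contra h3
      obtain ⟨g, rfl⟩ := (hE θ).1 h3
      have h4 := mem_charInertia_conjChar.1 (h (Subgroup.mem_zpowers x))
      rw [hD] at h4
      have h5 : x ∈ N ⊓ (P : Subgroup G) := ⟨by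
        simpa [mul_assoc] using (inferInstance : N.Normal).conj_mem _ h4 g, hx⟩
      exact hx1 (by rwa [hd] at h5)
    have h3 := Set.eq_of_subset_of_ncard_le
      (s := {K : ConjClasses N | (P : Subgroup G) ≤ MulAction.stabilizer G K})
      (t := {K : ConjClasses N | Subgroup.zpowers x ≤ MulAction.stabilizer G K})
      (fun K hK => h1.trans hK) h2.le
    exact (Set.ext_iff.1 h3 K).2 (Subgroup.zpowers_le.2 hK)
  have hG : Nat.card {K : ConjClasses N // ¬ (P : Subgroup G) ≤ MulAction.stabilizer G K} =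
      Nat.card (P : Subgroup G) := by
    have h1 := Nat.card_congr (Equiv.sumCompl
      fun K : ConjClasses N => (P : Subgroup G) ≤ MulAction.stabilizer G K)
    have h2 := Nat.card_congr (Equiv.sumCompl
      fun θ : IrrCharacter N => (P : Subgroup G) ≤ charInertia θ.1)
    rw [Nat.card_sum] at h1 h2
    rw [hcount _ le_rfl, ← card_irrCharacter, ← h2, add_right_inj] at h1
    rw [h1, hPcard, ← congrArg Subgroup.index hD, ← θ₀.card_orbit]
    exact Nat.card_congr (Equiv.subtypeEquivRight fun θ => by rw [hPinv]; exact hE θ)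
  obtain ⟨⟨K₀, hK₀⟩⟩ : Nonempty
      {K : ConjClasses N // ¬ (P : Subgroup G) ≤ MulAction.stabilizer G K} :=
    (Nat.card_pos_iff.1 (hG ▸ Nat.card_pos)).1
  obtain ⟨y₀, rfl⟩ := ConjClasses.mk_surjective K₀
  have hH : ∀ K : ConjClasses N, ¬ (P : Subgroup G) ≤ MulAction.stabilizer G K →
      ∃ u : G, u • ConjClasses.mk y₀ = K := by
    intro K hK
    let f : ↥(P : Subgroup G) →
        {K : ConjClasses N // ¬ (P : Subgroup G) ≤ MulAction.stabilizer G K} :=
      fun u => ⟨(u : G) • ConjClasses.mk y₀, fun h => hK₀ (by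
        have h1 := MulAction.mem_stabilizer_iff.1 (h (inv_mem u.2))
        rw [inv_smul_smul] at h1
        exact h1 ▸ h)⟩
    have hf : Function.Injective f := fun u v h => by
      by_contra h1
      refine hK₀ (hF ((v : G)⁻¹ * u) (mul_mem (inv_mem v.2) u.2)
        (fun h2 => h1 (Subtype.ext (inv_mul_eq_one.1 h2).symm)) _ ?_)
      rw [mul_smul, inv_smul_eq_iff]
      exact congrArg Subtype.val h
    obtain ⟨u, hu⟩ := (hf.bijective_of_nat_card_le hG.le).2 ⟨K, hK⟩
    exact ⟨u, congrArg Subtype.val hu⟩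
  have hcar : ∀ g : G, Nat.card (ConjClasses.mk g).carrier =
      (Subgroup.centralizer ({g} : Set G)).index := fun g => by
    rw [← card_isConj_eq_index_centralizer]
    exact Nat.card_congr (Equiv.subtypeEquivRight fun x => by
      rw [ConjClasses.mem_carrier_iff_mk_eq, eq_comm, ConjClasses.mk_eq_mk_iff_isConj])
  refine Nat.card_eq_one_iff_exists.2 ⟨⟨ConjClasses.mk (y₀ : G), ?_⟩, ?_⟩
  · rw [hcar]
    by_contra h1
    obtain ⟨Q, -, h2, h3, h4⟩ := exists_le_sylowIn (p := p)
      (H := Subgroup.centralizer ({(y₀ : G)} : Set G)) (R := ⊥) IsPGroup.of_bot bot_le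
    obtain ⟨Q, rfl⟩ := exists_sylow_eq_of_not_dvd_index h3 (by
      rw [← Subgroup.relIndex_mul_index h2]
      exact fun h => ((Nat.Prime.dvd_mul hp).1 h).elim h4 h1)
    obtain ⟨g, hg⟩ := exists_conj_le_sylow Q P.isPGroup'
    obtain ⟨u, hu, n, hn, rfl⟩ := mem_sup_normal_right.1
      ((sup_comm N _ ▸ hNP) ▸ Subgroup.mem_top g : g ∈ (P : Subgroup G) ⊔ N)
    refine hK₀ fun a ha => (hfix a y₀).2 ?_
    have h5 := Subgroup.mem_centralizer_singleton_iff.1
      (h2 (mem_conj_smul_iff.1 (hg (mul_mem (mul_mem hu ha) (inv_mem hu)))))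
    refine ⟨a * n⁻¹ * a⁻¹ * n, mul_mem ((inferInstance : N.Normal).conj_mem _ (inv_mem hn) a) hn, ?_⟩
    have h6 : n * (y₀ : G) * n⁻¹ = a * (n * y₀ * n⁻¹) * a⁻¹ := by
      calc n * (y₀ : G) * n⁻¹ = n * ((y₀ : G) * ((u * n)⁻¹ * (u * a * u⁻¹) * (u * n))) * n⁻¹ * a⁻¹ := by
            group
        _ = _ := by rw [← h5]; group
    calc a * n⁻¹ * a⁻¹ * n * y₀ * (a * n⁻¹ * a⁻¹ * n)⁻¹
        = a * n⁻¹ * a⁻¹ * (n * y₀ * n⁻¹) * a * n * a⁻¹ := by group
      _ = _ := by rw [h6]; group
  · rintro ⟨C, hC⟩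
    obtain ⟨g, rfl⟩ := ConjClasses.mk_surjective C
    refine Subtype.ext ?_
    obtain ⟨h, hh⟩ := exists_conj_mem_sylow P (exists_orderOf_pPart (p := p) g)
    rw [← pPart_conj] at hh
    have h0 : ConjClasses.mk g = ConjClasses.mk (h * g * h⁻¹) :=
      ConjClasses.mk_eq_mk_iff_isConj.2 (isConj_iff.2 ⟨h, rfl⟩)
    simp only [h0] at hC ⊢
    generalize h * g * h⁻¹ = g at hh hC ⊢
    rw [hcar] at hC
    have hy : pRegPart p g ∈ N := mem_of_coprime_orderOf_index
      (hk ▸ (hp.coprime_iff_not_dvd.2 (not_dvd_orderOf_pRegPart g)).symm.pow_right k)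
    have hxc : ∀ a ∈ (P : Subgroup G), a ∈ Subgroup.centralizer ({pPart p g} : Set G) :=
      fun a ha => Subgroup.mem_centralizer_singleton_iff.2 (hPab a ha _ hh)
    have h1 : ¬ (P : Subgroup G) ≤ MulAction.stabilizer G (ConjClasses.mk (⟨_, hy⟩ : N)) := by
      intro h1
      have hx1 : Subgroup.zpowers (pPart p g) ≤ P := Subgroup.zpowers_le.2 hh
      obtain ⟨c, hc, h2⟩ := exists_conj_mem_centralizer_of_coprime
        (N := N ⊓ Subgroup.centralizer ({pPart p g} : Set G)) (A := P) (x := pRegPart p g)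
        (fun a ha => Subgroup.inf_normalizer_le_normalizer_inf
          ⟨Subgroup.le_normalizer_of_normal (Subgroup.mem_top a) , Subgroup.le_normalizer (hxc a ha)⟩)
        ((hcP _ le_rfl).coprime_dvd_left (Subgroup.card_dvd_of_le inf_le_left))
        (Or.inr (isSolvable_of_isPGroup P.isPGroup')) (fun a ha => by
          obtain ⟨n, hn, h2⟩ := (hfix a _).1 (h1 ha)
          simp only at h2
          obtain ⟨c, hc, h3⟩ := exists_centralizer_conj_of_coprime (N := N)
            (A := Subgroup.zpowers (pPart p g)) (x := pRegPart p g)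
            Subgroup.le_normalizer_of_normal (hcP _ hx1) (Or.inr (isSolvable_zpowers _))
            (by rw [centralizer_zpowers]; exact pRegPart_mem_centralizer_pPart p g) hn (by
              rw [h2, centralizer_zpowers]
              exact mul_mem (mul_mem (hxc a ha) (pRegPart_mem_centralizer_pPart p g))
                (inv_mem (hxc a ha)))
          rw [centralizer_zpowers] at hc
          exact ⟨c, hc, h3.trans h2⟩)
      have h3 : (P : Subgroup G) ≤ Subgroup.centralizer ({c * g * c⁻¹} : Set G) := by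
        intro a ha
        have h4 := Subgroup.mem_centralizer_singleton_iff.1 hc.2
        have h5 : c * g * c⁻¹ = pPart p g * (c * pRegPart p g * c⁻¹) := by
          rw [← mul_assoc, ← mul_assoc, ← h4, mul_assoc c (pPart p g), pPart_mul_pRegPart]
        rw [Subgroup.mem_centralizer_singleton_iff, h5, ← mul_assoc, hPab a ha _ hh, mul_assoc,
          h2 a ha, ← mul_assoc]
      rw [index_centralizer_eq_of_isConj (isConj_iff.2 ⟨c, rfl⟩)] at hC
      exact P.not_dvd_index (hC.trans (Subgroup.index_dvd_of_le h3))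
    have h2 : pPart p g = 1 := by
      by_contra h2
      refine h1 (hF _ hh h2 _ ((hfix _ _).2 ⟨1, one_mem _, ?_⟩))
      simp [(commute_pPart_pRegPart p g).eq]
    obtain ⟨u, hu⟩ := hH _ h1
    rw [hact, ConjClasses.mk_eq_mk_iff_isConj] at hu
    have h3 := (N.subtype.map_isConj hu)
    rw [ConjClasses.mk_eq_mk_iff_isConj, ← pPart_mul_pRegPart p g, h2, one_mul]
    exact ((isConj_iff.2 ⟨u, by simp⟩).trans h3).symm

end Cfsg.Agent.S4763
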