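import Cfsg.Statements.S4765
import Cfsg.Agent.CT.SL2Deg
-- import your own Cfsg.Agent.* helpers here

set_option autoImplicit false
open Cfsg

namespace Cfsg.Agent.S4765

/-- Let F be a finite field of characteristic p with at least 4 elements. Then PSL(2,F) has exactly one irreducible complex character of degree divisible by p, and its degree is the order of F. -/
theorem result (p : ℕ) [Fact p.Prime] (F : Type*) [Field F] [Fintype F] [CharP F p] (hF : 4 ≤ Fintype.card F) : Nat.card {χ : Cfsg.IrrCharacter (Matrix.ProjectiveSpecialLinearGroup (Fin 2) F) // p ∣ Cfsg.charDegree (χ : Matrix.ProjectiveSpecialLinearGroup (Fin 2) F → ℂ)} = 1 ∧ ∀ χ : Cfsg.IrrCharacter (Matrix.ProjectiveSpecialLinearGroup (Fin 2) F), p ∣ Cfsg.charDegree (χ : Matrix.ProjectiveSpecialLinearGroup (Fin 2) F → ℂ) → Cfsg.charDegree (χ : Matrix.ProjectiveSpecialLinearGroup (Fin 2) F → ℂ) = Fintype.card F := by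
  obtain ⟨St, h1, h2, -⟩ := sl2_degrees (F := F) (QuotientGroup.mk' _)
    (QuotientGroup.mk'_surjective _) (QuotientGroup.ker_mk' (Subgroup.center _)).le
  obtain ⟨n, hp, hn⟩ := FiniteField.card F p
  have h3 : p ∣ Fintype.card F := by rw [hn]; exact dvd_pow_self p n.ne_zero
  have h4 : ∀ χ : IrrCharacter (Matrix.ProjectiveSpecialLinearGroup (Fin 2) F),
      p ∣ charDegree χ.1 → χ = St := fun χ h => by
    rcases h2 χ with h5 | h5 | h5
    · exact h5
    · exact absurd ((Nat.dvd_add_right h3).1 (h.trans h5)) hp.not_dvd_one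
    · have h6 := Nat.dvd_sub h3 (h.trans h5)
      rw [Nat.sub_sub_self (by omega)] at h6
      exact absurd h6 hp.not_dvd_one
  exact ⟨Nat.card_eq_one_iff_exists.2 ⟨⟨St, h1 ▸ h3⟩, fun χ => Subtype.ext (h4 _ χ.2)⟩,
    fun χ h => by rw [h4 χ h, h1]⟩

end Cfsg.Agent.S4765
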