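import Cfsg.Statements.S4768
import Cfsg.Agent.CT.ItoPSolv

set_option autoImplicit false
open Cfsg

namespace Cfsg.Agent.S4768

open scoped commutatorElement

theorem aux {G : Type*} [Group G] [Finite G] (p : ℕ) [hp : Fact p.Prime] (hG : IsPSolvable p G)
    (P : Sylow p G) : derivedSeries ↥(P : Subgroup G)
      (Nat.card {χ : IrrCharacter G // p ∣ charDegree χ.1} + 1) = ⊥ := by
  refine induction_on_card (P := fun G _ _ => IsPSolvable p G → ∀ P : Sylow p G,
    derivedSeries ↥(P : Subgroup G)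
      (Nat.card {χ : IrrCharacter G // p ∣ charDegree χ.1} + 1) = ⊥) ?_ G hG P
  clear hG P
  intro G _ _ ih hG P
  rcases subsingleton_or_nontrivial G with h0 | h0
  · exact Subsingleton.elim _ _
  obtain ⟨N, hN⟩ := exists_isMinNormal (G := G)
  have := hN.1
  let Q := P.mapSurjective (QuotientGroup.mk'_surjective N)
  have h1 := ih _ (card_quotient_lt hN.2.1) (hG.quotient N) Q
  let f : (P : Subgroup G) →* (Q : Subgroup (G ⧸ N)) := (QuotientGroup.mk' N).subgroupMap P
  have hf : ∀ x : (P : Subgroup G), x ∈ f.ker ↔ (x : G) ∈ N := fun x => by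
    rw [MonoidHom.mem_ker, Subtype.ext_iff]
    exact QuotientGroup.eq_one_iff _
  let ι : {β : IrrCharacter (G ⧸ N) // p ∣ charDegree β.1} →
      {χ : IrrCharacter G // p ∣ charDegree χ.1} := fun β => ⟨β.1.inflate N, β.2⟩
  have hι : Function.Injective ι := fun β β' h =>
    Subtype.ext (IrrCharacter.inflate_injective N (congrArg Subtype.val h))
  rcases hG.isPGroup_or_not_dvd_of_isMinNormal hN with h2 | h2
  swap
  · refine derivedSeries_eq_bot_of_le (derivedSeries_eq_bot_of_injective f ?_ h1)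
      (Nat.succ_le_succ (Nat.card_le_card_of_injective ι hι))
    rw [← MonoidHom.ker_eq_bot_iff, eq_bot_iff]
    intro x hx
    have h3 : (x : G) ∈ (P : Subgroup G) ⊓ N := ⟨x.2, (hf x).1 hx⟩
    rw [inf_eq_bot_of_coprime_card (coprime_card_of_isPGroup P.isPGroup' h2)] at h3
    exact Subtype.ext h3
  have hab := hN.isElementaryAbelian_of_isPGroup h2
  have hk : IsMulCommutative f.ker := ⟨⟨fun a b => Subtype.ext (Subtype.ext
    (congrArg (Subtype.val : N → G) (hab.1.is_comm.comm ⟨_, (hf _).1 a.2⟩ ⟨_, (hf _).1 b.2⟩)))⟩⟩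
  by_cases h3 : Function.Surjective ι
  swap
  · refine derivedSeries_eq_bot_of_le (derivedSeries_succ_eq_bot_of_ker f h1 hk)
      (Nat.succ_le_succ ?_)
    have := Fintype.ofFinite {β : IrrCharacter (G ⧸ N) // p ∣ charDegree β.1}
    have := Fintype.ofFinite {χ : IrrCharacter G // p ∣ charDegree χ.1}
    rw [Nat.card_eq_fintype_card, Nat.card_eq_fintype_card]
    exact Fintype.card_lt_of_injective_not_surjective ι hι h3
  by_cases h4 : ∀ χ : IrrCharacter G, ¬ p ∣ charDegree χ.1
  · have h5 := hG.sylow_comm_of_forall_not_dvd h4 P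
    refine derivedSeries_eq_bot_of_le (m := 1) ?_ (Nat.le_add_left _ _)
    rw [derivedSeries_one, commutator_eq_bot_iff]
    exact h5
  push Not at h4
  have h5 : 0 < Nat.card {χ : IrrCharacter G // p ∣ charDegree χ.1} :=
    Nat.card_pos_iff.2 ⟨⟨⟨h4.choose, h4.choose_spec⟩⟩, inferInstance⟩
  have := Fintype.ofFinite G
  have := Fintype.ofFinite N
  obtain ⟨χ, hχ⟩ := exists_irr_not_le_charKer hN.2.1
  obtain ⟨θ, hθ⟩ := χ.exists_under N
  have h6 := hG.commutator_sylow_le_of_forall_over h2 θ (fun ψ hψ h7 => by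
    obtain ⟨β, hβ⟩ := h3 ⟨ψ, h7⟩
    have h8 : N ≤ charKer ψ.1 := by
      have h9 : β.1.inflate N = ψ := congrArg Subtype.val hβ
      exact h9 ▸ β.1.le_charKer_inflate N
    obtain ⟨g, hg⟩ := clifford_exists_smul ψ (θ := IrrCharacter.triv N)
      ((ψ.le_charKer_iff_classInner_ne_zero N).1 h8) hψ
    rw [IrrCharacter.smul_triv] at hg
    subst hg
    exact hχ ((χ.le_charKer_iff_classInner_ne_zero N).2 hθ)) P
  refine derivedSeries_eq_bot_of_le (m := 2) (derivedSeries_succ_eq_bot_of_ker f ?_ hk)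
    (Nat.succ_le_succ h5)
  rw [derivedSeries_one, commutator_eq_bot_iff]
  refine ⟨⟨?_⟩⟩
  rintro ⟨_, x, hx, rfl⟩ ⟨_, y, hy, rfl⟩
  refine Subtype.ext ?_
  change QuotientGroup.mk' N x * QuotientGroup.mk' N y = QuotientGroup.mk' N y * QuotientGroup.mk' N x
  rw [← commutatorElement_eq_one_iff_mul_comm, ← map_commutatorElement]
  exact (QuotientGroup.eq_one_iff _).2 (h6 (Subgroup.commutator_mem_commutator hx hy))


/-- Let p be a prime, G a finite p-solvable group and P a Sylow p-subgroup of G. If n is the number of irreducible complex characters of G whose degree is divisible by p, then the (n+1)-st term of the derived series of P is trivial. (The p-solvable case has a direct inductive proof.) -/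
theorem result {G : Type*} [Group G] [Finite G] (p : ℕ) [Fact p.Prime] (hG : Cfsg.IsPSolvable p G) (P : Sylow p G) : derivedSeries ↥(P : Subgroup G) (Nat.card {χ : Cfsg.IrrCharacter G // p ∣ Cfsg.charDegree (χ : G → ℂ)} + 1) = ⊥ := by
  exact aux p hG P

end Cfsg.Agent.S4768
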