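import Cfsg.Statements.S4775
import Cfsg.Agent.CT.SzDeg
-- import your own Cfsg.Agent.* helpers here

set_option autoImplicit false
open Cfsg

namespace Cfsg.Agent.S4775

/-- Let F be a finite field with q = 2^(2m+1) ≥ 8 elements and let S be isomorphic to the Suzuki group over F. Then the vertices of the character degree graph of S are 2 and the primes dividing (q − 1)(q² + 1); the primes dividing (q − 1)(q² + 1) are pairwise adjacent, and 2 is adjacent exactly to the primes dividing q − 1. -/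
theorem result (F : Type*) [Field F] [Fintype F] (m : ℕ) (hm : 1 ≤ m) (q : ℕ) (hq : Fintype.card F = q) (hqm : q = 2 ^ (2 * m + 1)) {S : Type*} [Group S] [Finite S] (hS : Nonempty (S ≃* ↥(Cfsg.Lie.Sz F (2 ^ (m + 1))))) : Cfsg.degreePrimes S = {r : ℕ | r.Prime ∧ (r = 2 ∨ r ∣ (q - 1) * (q ^ 2 + 1))} ∧ ∀ r s : ℕ, (Cfsg.degreeGraph S).Adj r s ↔ (r ≠ s ∧ r.Prime ∧ s.Prime ∧ ((r ∣ (q - 1) * (q ^ 2 + 1) ∧ s ∣ (q - 1) * (q ^ 2 + 1)) ∨ (r = 2 ∧ s ∣ q - 1) ∨ (s = 2 ∧ r ∣ q - 1))) := by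
  obtain ⟨e⟩ := hS
  obtain ⟨p, hp⟩ := CharP.exists F
  obtain ⟨n, hp', hn⟩ := FiniteField.card F p
  obtain rfl : p = 2 := (Nat.prime_dvd_prime_iff_eq hp' Nat.prime_two).1 (hp'.dvd_of_dvd_pow
    (n := 2 * m + 1) (by rw [← hqm, ← hq, hn]; exact dvd_pow_self p n.ne_zero))
  have hθ : ∀ x : F, iterateFrobenius F 2 (m + 1) (iterateFrobenius F 2 (m + 1) x) = x ^ 2 :=
    fun x => by
      rw [iterateFrobenius_def, iterateFrobenius_def, ← pow_mul,
        show 2 ^ (m + 1) * 2 ^ (m + 1) = Fintype.card F * 2 by rw [hq, hqm]; ring, pow_mul,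
        FiniteField.pow_card]
  rw [Sz_eq_szGrp _ (iterateFrobenius_def 2 (m + 1))] at e
  obtain ⟨k, hk⟩ : ∃ k, k = 2 ^ m := ⟨_, rfl⟩
  have h2 : 2 ∣ k := hk ▸ dvd_pow_self 2 (by omega)
  have hqk : q = 2 * k ^ 2 := by rw [hqm, hk]; ring
  have hk0 : 0 < k := by rw [hk]; positivity
  obtain ⟨a, ha⟩ : ∃ a, q = a + 1 := ⟨q - 1, by rw [Nat.sub_add_cancel (by rw [hqm]; exact Nat.one_le_two_pow)]⟩
  obtain ⟨B, hB⟩ : ∃ B, q + 1 = B + 2 * k := Nat.exists_eq_add_of_le' (by nlinarith)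
  have hAB : q ^ 2 + 1 = (q + 1 + 2 * k) * B := by nlinarith
  have h : ∀ d, d ∈ charDegrees S ↔ d = 1 ∨ d = q ^ 2 ∨ d = (q + 1 + 2 * k) * B ∨ d = a * k ∨
      d = a * (q + 1 + 2 * k) ∨ d = a * B := fun d => by
    have h1 : d ∈ charDegrees S ↔ d ∈ charDegrees (szGrp (iterateFrobenius F 2 (m + 1))) :=
      ⟨fun ⟨χ, h⟩ => ⟨IrrCharacter.congr e χ, (charDegree_comp e.symm.toMonoidHom _).trans h⟩,
        fun ⟨χ, h⟩ => ⟨(IrrCharacter.congr e).symm χ, (charDegree_comp e.toMonoidHom _).trans h⟩⟩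
    rw [h1, sz_degrees hθ (hq.trans hqk) h2, ← hAB, show (2 * k ^ 2 : ℤ) = q by simp [hqk],
      show (q - 1 : ℤ) = a by omega, show (q + 1 - 2 * k : ℤ) = B by omega]
    norm_cast
  rw [show q - 1 = a by omega, hAB]
  have h3 : ∀ {r : ℕ}, r.Prime → r ∣ q ^ 2 ∨ r ∣ k → r = 2 := fun hr h =>
    (Nat.prime_dvd_prime_iff_eq hr Nat.prime_two).1 (h.elim
      (fun h => hr.dvd_of_dvd_pow (hqm ▸ hr.dvd_of_dvd_pow h)) fun h => hr.dvd_of_dvd_pow (hk ▸ h))
  refine ⟨Set.ext fun r => and_congr_right fun hr => ?_, fun r s => and_congr_right fun hrs =>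
    and_congr_right fun hr => and_congr_right fun hs => ?_⟩
  · have := hr.not_dvd_one
    have := h3 hr
    have : r = 2 → r ∣ k := fun h => h ▸ h2
    simp only [h, or_and_right, exists_or, exists_eq_left, hr.dvd_mul]
    tauto
  · have h4 : ∀ d, r * s ∣ d ↔ r ∣ d ∧ s ∣ d := fun d =>
      ⟨fun h => ⟨(dvd_mul_right r s).trans h, (dvd_mul_left s r).trans h⟩,
        fun h => ((Nat.coprime_primes hr hs).2 hrs).mul_dvd_of_dvd_of_dvd h.1 h.2⟩
    have := hr.not_dvd_one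
    have := h3 hr
    have := h3 hs
    have : r = 2 → r ∣ k := fun h => h ▸ h2
    have : s = 2 → s ∣ k := fun h => h ▸ h2
    have : ¬ (r = 2 ∧ s = 2) := fun h => hrs (h.1.trans h.2.symm)
    simp only [h, or_and_right, exists_or, exists_eq_left, h4, hr.dvd_mul, hs.dvd_mul]
    grind

end Cfsg.Agent.S4775
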