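import Cfsg.Statements.S4780
import Cfsg.Agent.NDAD.B3
import Cfsg.Agent.NDAD.C
import Cfsg.Agent.NDAD.D

set_option autoImplicit false
open Cfsg

namespace Cfsg.Agent.S4780

open FT FT.Gar FT.ND Subgroup in
/-- Let G be a finite solvable group in which no irreducible complex character degree a with 1 < a divides a larger irreducible character degree. Then G has at most four distinct irreducible character degrees and the third derived subgroup of G is trivial. -/
theorem result {G : Type*} [Group G] [Finite G] [Group.IsSolvable G] (hnd : ∀ a ∈ Cfsg.charDegrees G, ∀ b ∈ Cfsg.charDegrees G, 1 < a → a < b → ¬ a ∣ b) : Nat.card ↥(Cfsg.charDegrees G) ≤ 4 ∧ derivedSeries G 3 = ⊥ := by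
  have hn : NDAD (⊤ : Subgroup G) := fun a b ha hb h1 h2 => by_contra fun h3 =>
    hnd a (deg_top.1 ha) b (deg_top.1 hb) (by have := ha.pos; omega)
      (lt_of_le_of_ne (Nat.le_of_dvd hb.pos h2) h3) h2
  have h3 : ∀ a b, (∀ n, Deg (⊤ : Subgroup G) n → n = 1 ∨ n = a ∨ n = b) →
      D (D (D (⊤ : Subgroup G))) = ⊥ := fun a b h => eq_bot_iff.2 (der3_le (normal1 _)
    fun x y z hx hy hz _ _ _ => by
      have := h x hx.deg; have := h y hy.deg; have := h z hz.deg; omega)
  obtain ⟨⟨a, b, c, h1⟩, h2⟩ : (∃ a b c, ∀ n, Deg (⊤ : Subgroup G) n →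
      n = 1 ∨ n = a ∨ n = b ∨ n = c) ∧ D (D (D (⊤ : Subgroup G))) = ⊥ := by
    obtain ⟨m, h⟩ | ⟨p, K, N, hp, h⟩ := exists_SB inferInstance hn
    · exact ⟨⟨m, m, m, fun n e => (h n e).imp_right .inl⟩, h3 m m fun n e => (h n e).imp_right .inl⟩
    have := Fact.mk hp
    obtain ⟨P, hP⟩ := Sylow_exists p N
    by_cases ha : IsMulCommutative P
    · obtain ⟨m, h1⟩ := h.typeB hP ha
      exact ⟨⟨_, m, m, fun n e => (h1 n e).imp_right (.imp_right .inl)⟩, h3 _ _ h1⟩
    · exact (h.typeC hP ha (h.typeD hP ha)).imp_left fun h => ⟨_, h⟩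
  refine ⟨(Set.ncard_le_ncard (t := {1, a, b, c}) (fun n hn => h1 n (deg_top.2 hn))
    (Set.toFinite _)).trans ((Set.ncard_insert_le _ _).trans (Nat.succ_le_succ
      ((Set.ncard_insert_le _ _).trans (Nat.succ_le_succ ((Set.ncard_insert_le _ _).trans
        (by simp)))))), ?_⟩
  simpa only [derivedSeries_succ, derivedSeries_zero] using h2

end Cfsg.Agent.S4780
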