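import Cfsg.Statements.S4781
import Cfsg.Agent.NDAD.B3

set_option autoImplicit false
open Cfsg

namespace Cfsg.Agent.S4781

open FT FT.Gar FT.ND Subgroup in
/-- Let G be a finite solvable group in which no irreducible complex character degree a with 1 < a divides a larger irreducible character degree, and suppose the character degree graph of G (primes dividing some degree, distinct primes adjacent when their product divides a degree) has exactly two connected components. Then G has exactly three distinct irreducible character degrees. -/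
theorem result {G : Type*} [Group G] [Finite G] [Group.IsSolvable G] (hnd : ∀ a ∈ Cfsg.charDegrees G, ∀ b ∈ Cfsg.charDegrees G, 1 < a → a < b → ¬ a ∣ b) (htwo : Nat.card ((Cfsg.degreeGraph G).induce (Cfsg.degreePrimes G)).ConnectedComponent = 2) : Nat.card ↥(Cfsg.charDegrees G) = 3 := by
  have hn : NDAD (⊤ : Subgroup G) := fun a b ha hb h1 h2 => by_contra fun h3 =>
    hnd a (deg_top.1 ha) b (deg_top.1 hb) (by have := ha.pos; omega)
      (lt_of_le_of_ne (Nat.le_of_dvd hb.pos h2) h3) h2
  have hreach : ∀ (a b : degreePrimes G) (n : ℕ), Deg (⊤ : Subgroup G) n → a.1 ∣ n → b.1 ∣ n →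
      ((degreeGraph G).induce (degreePrimes G)).Reachable a b := by
    intro a b n hn ha hb
    by_cases hab : a = b
    · rw [hab]
    · have h1 : a.1 ≠ b.1 := fun h => hab (Subtype.ext h)
      exact SimpleGraph.Adj.reachable ⟨h1, a.2.1, b.2.1, _, deg_top.1 hn,
        ((Nat.coprime_primes a.2.1 b.2.1).2 h1).mul_dvd_of_dvd_of_dvd ha hb⟩
  have hone : ¬ ∀ a b, ((degreeGraph G).induce (degreePrimes G)).Reachable a b := fun h => by
    have : Subsingleton ((degreeGraph G).induce (degreePrimes G)).ConnectedComponent :=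
      ⟨fun c d => c.ind (fun a => d.ind fun b => SimpleGraph.ConnectedComponent.sound (h a b))⟩
    have := Finite.card_le_one_iff_subsingleton.2 this
    omega
  have h2 : ¬ ∃ m, ∀ n, Deg (⊤ : Subgroup G) n → n = 1 ∨ n = m := fun ⟨m, h⟩ => hone fun a b => by
    have key : ∀ a : degreePrimes G, a.1 ∣ m ∧ Deg (⊤ : Subgroup G) m := fun ⟨a, h1, d, h2, h3⟩ =>
      (h d (deg_top.2 h2)).elim (fun e => (h1.not_dvd_one (e ▸ h3)).elim)
        fun e => e ▸ ⟨h3, deg_top.2 h2⟩
    exact hreach a b m (key a).2 (key a).1 (key b).1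
  obtain ⟨a, b, h3⟩ : ∃ a b, ∀ n, Deg (⊤ : Subgroup G) n → n = 1 ∨ n = a ∨ n = b := by
    obtain ⟨p, K, N, hp, h⟩ := (exists_SB inferInstance hn).resolve_left h2
    have := Fact.mk hp
    obtain ⟨P, hP⟩ := Sylow_exists p N
    by_cases ha : IsMulCommutative P
    · exact ⟨_, h.typeB hP ha⟩
    have h3 : ∀ l, IsLin N l → (inertia N l).relIndex ⊤ * charDegree l = 1 ∨
        (inertia N l).relIndex ⊤ * charDegree l = N.relIndex ⊤ := fun l hl => by
      rw [hl.charDegree_eq, mul_one]
      exact (h.lin hl).imp (fun e => by rw [e, relIndex_self]) fun e => by rw [e]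
    by_cases h4 : ∀ ψ, IsIrr N ψ → charDegree ψ ≠ 1 → (inertia N ψ).relIndex ⊤ = 1
    · have h5 : ∀ n, Deg N n → n ≠ 1 → Deg (⊤ : Subgroup G) n := fun _ ⟨ψ, h5, e⟩ h6 => by
        simpa only [h4 ψ h5 (e ▸ h6), one_mul, e] using h.deg h5
      have hs := h.pnil.sdprod hP
      obtain ⟨m, h6⟩ := caseA (p := p) (fun a b ha hb h6 h7 => hn a b (h5 a ha h6) (h5 b hb
        fun e => h6 (Nat.dvd_one.1 (e ▸ h7))) h6 h7) hs.normal (index_sdprod hs ▸ hP.hall.pi)
        fun e => ha (derG1P.1 (eq_bot_iff.2 (hs.inf_eq.le.trans' (le_inf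
          ((dergS hs.right_le).trans e) (der_sub P)))))
      refine ⟨N.relIndex ⊤, m, fun n h7 => ?_⟩
      obtain ⟨ψ, h8, rfl⟩ := h.exists_under h7
      by_cases h9 : charDegree ψ = 1
      · exact (h3 ψ (h8.isLin_iff.2 h9)).imp_right .inl
      · exact .inr (.inr (by rw [h4 ψ h8 h9, one_mul, (h6 _ (deg_irr h8)).resolve_left h9]))
    push Not at h4
    obtain ⟨ψ, h4, h5, h6⟩ := h4
    obtain ⟨q, hq, h7⟩ := Nat.exists_prime_and_dvd h6
    have h8 := (h.dvd h4 h5).mul_left ((inertia N ψ).relIndex ⊤)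
    let p' : degreePrimes G := ⟨p, hp, _, deg_top.1 (h.deg h4), h8⟩
    let q' : degreePrimes G := ⟨q, hq, _, deg_top.1 (h.deg h4), h7.mul_right _⟩
    have key : ∀ a, ((degreeGraph G).induce (degreePrimes G)).Reachable a p' := fun a => by
      obtain ⟨h9, d, h10, h11⟩ := a.2
      obtain ⟨φ, h12, rfl⟩ := h.exists_under (deg_top.2 h10)
      by_cases h13 : charDegree φ = 1
      · exact (hreach a q' _ h.degf ((h3 φ (h12.isLin_iff.2 h13)).elim
          (fun e => (h9.not_dvd_one (e ▸ h11)).elim) (· ▸ h11))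
          (h7.trans (indexgS _ h4.isCF.sub_inertia))).trans
          (hreach q' p' _ (h.deg h4) (h7.mul_right _) h8)
      · exact hreach a p' _ (h.deg h12) h11 ((h.dvd h12 h13).mul_left _)
    exact (hone fun a b => (key a).trans (key b).symm).elim
  have h4 : Deg (⊤ : Subgroup G) a ∧ a ≠ 1 := by_contra fun e => h2 ⟨b, fun n hn => by
    rcases h3 n hn with rfl | rfl | rfl <;> tauto⟩
  have h5 : Deg (⊤ : Subgroup G) b ∧ b ≠ 1 := by_contra fun e => h2 ⟨a, fun n hn => by
    rcases h3 n hn with rfl | rfl | rfl <;> tauto⟩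
  have h6 : a ≠ b := fun e => h2 ⟨a, fun n hn => by have := h3 n hn; omega⟩
  rw [show charDegrees G = {1, a, b} from Set.ext fun n => ⟨fun hn => h3 n (deg_top.2 hn), by
    rintro (rfl | rfl | rfl)
    exacts [⟨.triv G, IrrCharacter.charDegree_triv⟩, deg_top.1 h4.1, deg_top.1 h5.1]⟩,
    Nat.card_coe_set_eq, Set.ncard_eq_three]
  exact ⟨1, a, b, h4.2.symm, h5.2.symm, h6, rfl⟩

end Cfsg.Agent.S4781
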