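import Cfsg.Statements.S4782
import Cfsg.Agent.CT.NonVan

set_option autoImplicit false
open Cfsg

namespace Cfsg.Agent.S4782

universe u

theorem simple_aux {G : Type u} [Group G] [Finite G] [IsSimpleGroup G] {p q : ℕ} (hp : p.Prime)
    (hq : q.Prime) (hpG : p ∣ Nat.card G)
    (h : ∀ (χ : IrrCharacter G) (r : ℕ), r.Prime → r ∣ charDegree χ.1 → r = p ∨ r = q) :
    IsMulCommutative G := by
  haveI := Fact.mk hp
  obtain ⟨P⟩ : Nonempty (Sylow p G) := inferInstance
  have : Nontrivial P := (Subgroup.nontrivial_iff_ne_bot _).2 (P.ne_bot_of_dvd_card hpG)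
  have := P.isPGroup'.center_nontrivial
  obtain ⟨⟨z, hz⟩, hz1⟩ := exists_ne (1 : Subgroup.center P)
  have hz2 : (z : G) ≠ 1 := fun e => hz1 (Subtype.ext (Subtype.ext e))
  have h1 : ¬ p ∣ (Subgroup.centralizer {(z : G)}).index := fun h1 =>
    P.not_dvd_index (h1.trans (Subgroup.index_dvd_of_le fun x hx => by
      rw [Subgroup.mem_centralizer_singleton_iff]
      exact congrArg Subtype.val (Subgroup.mem_center_iff.1 hz ⟨x, hx⟩)))
  obtain ⟨χ, hχ, h2, h3⟩ := exists_irr_ne_triv_not_dvd_ne_zero hq hz2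
  have h4 := (χ.eq_zero_or_mem_charCenter_of_coprime (g := z)
    (Nat.coprime_of_dvd fun r hr h5 h6 => by
      rcases h χ r hr h5 with rfl | rfl
      · exact h1 h6
      · exact h2 h5)).resolve_left h3
  rw [χ.charCenter_eq_center_of_faithful (χ.charKer_eq_bot_of_isSimpleGroup hχ)] at h4
  have h5 := (IsSimpleGroup.eq_bot_or_eq_top_of_normal (Subgroup.center G)
    inferInstance).resolve_left fun h5 => hz2 (by rwa [h5, Subgroup.mem_bot] at h4)
  exact ⟨⟨fun a b => Subgroup.mem_center_iff.1 (h5 ▸ Subgroup.mem_top b) a⟩⟩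

theorem aux {p q : ℕ} (hp : p.Prime) (hq : q.Prime) (n : ℕ) :
    ∀ (G : Type u) [Group G] [Finite G], Nat.card G = n →
      (∀ (χ : IrrCharacter G) (r : ℕ), r.Prime → r ∣ charDegree χ.1 → r = p ∨ r = q) →
      Group.IsSolvable G := by
  induction n using Nat.strong_induction_on with
  | _ n ih =>
  intro G _ _ hn h
  classical
  have := Fintype.ofFinite G
  rcases subsingleton_or_nontrivial G with hG | hG
  · infer_instance
  by_cases hs : IsSimpleGroup G
  · refine isSolvable_of_isMulCommutative ?_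
    by_cases h1 : p ∣ Nat.card G
    · exact simple_aux hp hq h1 h
    by_cases h2 : q ∣ Nat.card G
    · exact simple_aux hq hp h2 fun χ r hr hd => (h χ r hr hd).symm
    refine (commutator_eq_bot_iff G).1 (le_bot_iff.1
      (commutator_le_of_forall_charDegree_eq_one (N := ⊥) fun χ _ => ?_))
    refine Nat.eq_one_iff_not_exists_prime_dvd.2 fun r hr hd => ?_
    rcases h χ r hr hd with rfl | rfl
    · exact h1 (hd.trans χ.charDegree_dvd_card)
    · exact h2 (hd.trans χ.charDegree_dvd_card)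
  obtain ⟨N, hN, h1, h2⟩ : ∃ N : Subgroup G, N.Normal ∧ N ≠ ⊥ ∧ N ≠ ⊤ := by
    by_contra hcon
    push Not at hcon
    exact hs ⟨fun N hN => or_iff_not_imp_left.2 (hcon N hN)⟩
  have h3 := N.card_mul_index
  have h4 : 1 < Nat.card N := (Subgroup.one_lt_card_iff_ne_bot N).2 h1
  have h5 : 1 < N.index := Subgroup.one_lt_index_of_ne_top h2
  have hA := ih _ (by nlinarith) N rfl fun θ r hr hd => by
    obtain ⟨χ, hχ⟩ := θ.exists_over
    exact h χ r hr (hd.trans (clifford_charDegree_dvd χ hχ))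
  have hB := ih N.index (by nlinarith) (G ⧸ N) rfl fun ψ r hr hd =>
    h (ψ.inflate N) r hr (by rwa [IrrCharacter.charDegree_inflate])
  exact Group.isSolvable_of_ker_le_range N.subtype (QuotientGroup.mk' N) (by simp)


/-- If the finite group G is not solvable, then at least three distinct primes each divide some irreducible complex character degree of G. -/
theorem result {G : Type*} [Group G] [Finite G] (hG : ¬ Group.IsSolvable G) : ∃ p q r : ℕ, p ≠ q ∧ q ≠ r ∧ p ≠ r ∧ p ∈ Cfsg.degreePrimes G ∧ q ∈ Cfsg.degreePrimes G ∧ r ∈ Cfsg.degreePrimes G := by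
  by_contra hcon
  push Not at hcon
  obtain ⟨p, q, hp, hq, h⟩ : ∃ p q : ℕ, p.Prime ∧ q.Prime ∧
      ∀ r ∈ degreePrimes G, r = p ∨ r = q := by
    by_cases h1 : ∃ p, p ∈ degreePrimes G
    · obtain ⟨p, hp⟩ := h1
      by_cases h2 : ∃ q ∈ degreePrimes G, q ≠ p
      · obtain ⟨q, hq, hqp⟩ := h2
        refine ⟨p, q, hp.1, hq.1, fun r hr => ?_⟩
        by_contra h3
        push Not at h3
        exact hcon p q r hqp.symm h3.2.symm h3.1.symm hp hq hr
      · push Not at h2
        exact ⟨p, p, hp.1, hp.1, fun r hr => Or.inl (h2 r hr)⟩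
    · exact ⟨2, 2, Nat.prime_two, Nat.prime_two, fun r hr => absurd ⟨r, hr⟩ h1⟩
  exact hG (aux hp hq _ G rfl fun χ r hr hd => h r ⟨hr, _, ⟨χ, rfl⟩, hd⟩)

end Cfsg.Agent.S4782
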