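import Cfsg.Statements.S4784
import Cfsg.Agent.CT.Indicator
import Cfsg.Agent.CT.Induction
import Cfsg.Agent.CT.Kernel


set_option autoImplicit false
open Cfsg

namespace Cfsg.Agent.S4784


/-- Let H be a subgroup of the finite group G and consider the permutation character of G on the cosets of H (the function induced from the principal character of H). Then exactly one irreducible constituent of it is real-valued with Frobenius–Schur indicator +1 (namely the principal character) if and only if the normal core of H has odd index in G. -/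
theorem result {G : Type*} [Group G] [Fintype G] (H : Subgroup G) : Nat.card {χ : Cfsg.IrrCharacter G // Cfsg.classInner (Cfsg.indFun H (fun _ : H => (1 : ℂ))) (χ : G → ℂ) ≠ 0 ∧ (∀ g : G, (starRingEnd ℂ) ((χ : G → ℂ) g) = (χ : G → ℂ) g) ∧ (Nat.card G : ℂ)⁻¹ * ∑ g : G, (χ : G → ℂ) (g * g) = 1} = 1 ↔ Odd H.normalCore.index := by
  classical
  set π : G → ℂ := indFun H (fun _ : H => (1 : ℂ)) with hπ
  have hπc : IsCharacter G π := IsCharacter.one.indFun
  have hπ1 : classInner π (IrrCharacter.triv G).1 = 1 := by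
    rw [hπ, classInner_indFun_left _ _ (IrrCharacter.triv G).isClassFunction]
    exact (IrrCharacter.triv H).classInner_self
  have htriv : classInner π (IrrCharacter.triv G).1 ≠ 0 ∧
      (∀ g : G, (starRingEnd ℂ) ((IrrCharacter.triv G).1 g) = (IrrCharacter.triv G).1 g) ∧
      (Nat.card G : ℂ)⁻¹ * ∑ g : G, (IrrCharacter.triv G).1 (g * g) = 1 := by
    refine ⟨by rw [hπ1]; exact one_ne_zero, fun g => by simp [IrrCharacter.triv_apply], ?_⟩
    rw [← fsInd_eq_sum, fsInd_triv]
  constructor
  · intro h1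
    by_contra hodd
    rw [Nat.not_odd_iff_even, Subgroup.index_eq_card] at hodd
    obtain ⟨q, hq⟩ := exists_prime_orderOf_dvd_card' (G := G ⧸ H.normalCore) 2 hodd.two_dvd
    obtain ⟨s, rfl⟩ := QuotientGroup.mk_surjective q
    have hs1 : s ∉ H.normalCore := by
      intro h
      rw [(QuotientGroup.eq_one_iff s).2 h] at hq
      simp at hq
    have hs2 : s * s ∈ H.normalCore := by
      rw [← QuotientGroup.eq_one_iff, QuotientGroup.mk_mul, ← sq, ← hq, pow_orderOf_eq_one]
    have huniq : ∀ χ : IrrCharacter G, classInner π χ.1 ≠ 0 → fsInd χ.1 = 1 →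
        χ = IrrCharacter.triv G := by
      intro χ h0 hf
      obtain ⟨hsub, -⟩ := Nat.card_eq_one_iff_unique.1 h1
      have := hsub.elim ⟨χ, h0, fun g => Complex.conj_eq_iff_im.2 (χ.real_of_fsInd_eq_one hf g),
        by rw [← fsInd_eq_sum, hf]⟩ ⟨_, htriv⟩
      exact congrArg Subtype.val this
    have hle : (fsInd π).re ≤ 1 := by
      rw [hπc.isClassFunction.fsInd_eq_sum_irr, Complex.re_sum,
        ← Finset.add_sum_erase _ _ (Finset.mem_univ (IrrCharacter.triv G)), fsInd_triv, hπ1]
      simp only [mul_one, Complex.one_re, add_le_iff_nonpos_right]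
      refine Finset.sum_nonpos fun χ hχ => ?_
      obtain ⟨m, hm⟩ := hπc.exists_classInner_eq_nat χ.isCharacter
      rcases χ.fsInd_cases with h | h | h
      · simp [h]
      · by_cases h0 : classInner π χ.1 = 0
        · simp [h0]
        · exact absurd (huniq χ h0 h) (Finset.ne_of_mem_erase hχ)
      · simp [h, hm]
    have hfix : ∀ g, π g = (Nat.card (MulAction.fixedBy (G ⧸ H) g) : ℂ) :=
      indFun_one_eq_card_fixedBy H
    have hsub : ∀ g : G, MulAction.fixedBy (G ⧸ H) g ⊆ MulAction.fixedBy (G ⧸ H) (g * g) := by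
      intro g x hx
      rw [MulAction.mem_fixedBy] at hx ⊢
      rw [mul_smul, hx, hx]
    have hlt : ∑ g : G, Nat.card (MulAction.fixedBy (G ⧸ H) g) <
        ∑ g : G, Nat.card (MulAction.fixedBy (G ⧸ H) (g * g)) := by
      refine Finset.sum_lt_sum (fun g _ => ?_) ⟨s, Finset.mem_univ _, ?_⟩
      · exact Nat.card_mono (Set.toFinite _) (hsub g)
      · rw [Nat.card_coe_set_eq, Nat.card_coe_set_eq]
        refine Set.ncard_lt_ncard ⟨hsub s, fun h => hs1 ?_⟩ (Set.toFinite _)
        rw [Subgroup.normalCore_eq_ker] at hs2 ⊢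
        rw [MonoidHom.mem_ker] at hs2 ⊢
        ext x
        have : x ∈ MulAction.fixedBy (G ⧸ H) (s * s) := by
          rw [MulAction.mem_fixedBy]
          exact congrArg (fun e : Equiv.Perm (G ⧸ H) => e x) hs2
        exact h this
    have hpos : (0 : ℝ) < Nat.card G := by exact_mod_cast Nat.card_pos
    have e1 : (fsInd π).re = (Nat.card G : ℝ)⁻¹ *
        ((∑ g : G, Nat.card (MulAction.fixedBy (G ⧸ H) (g * g)) : ℕ) : ℝ) := by
      rw [fsInd_eq_sum]
      simp_rw [hfix]
      rw [← Nat.cast_sum, ← Complex.ofReal_natCast, ← Complex.ofReal_natCast, ← Complex.ofReal_inv,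
        ← Complex.ofReal_mul, Complex.ofReal_re]
    have e2 : (1 : ℝ) = (Nat.card G : ℝ)⁻¹ *
        ((∑ g : G, Nat.card (MulAction.fixedBy (G ⧸ H) g) : ℕ) : ℝ) := by
      have := hπ1
      rw [classInner_def] at this
      simp_rw [hfix, IrrCharacter.triv_apply, map_one, mul_one] at this
      rw [← Nat.cast_sum] at this
      apply Complex.ofReal_injective
      rw [Complex.ofReal_mul, Complex.ofReal_inv, Complex.ofReal_natCast, Complex.ofReal_natCast,
        this, Complex.ofReal_one]
    rw [e1, e2] at hle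
    have := le_of_mul_le_mul_left hle (inv_pos.2 hpos)
    exact absurd (Nat.cast_le.1 this) (not_le.2 hlt)
  · intro hodd
    rw [Nat.card_eq_one_iff_unique]
    refine ⟨⟨?_⟩, ⟨⟨_, htriv⟩⟩⟩
    have key : ∀ χ : IrrCharacter G, classInner π χ.1 ≠ 0 →
        (∀ g : G, (starRingEnd ℂ) (χ.1 g) = χ.1 g) → χ = IrrCharacter.triv G := by
      intro χ h0 hr
      have hk : H.normalCore ≤ charKer χ.1 := by
        refine le_trans ?_ (hπc.charKer_le_of_constituent χ h0)
        intro g hg
        rw [hπc.mem_charKer, hπ, IsCharacter.one.indFun_apply_eq_one_iff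
          (fun h => one_ne_zero (congrFun h 1))]
        exact fun x => ⟨hg x, rfl⟩
      obtain ⟨ψ, rfl⟩ := χ.exists_inflate_eq _ hk
      rw [Subgroup.index_eq_card] at hodd
      have := ψ.eq_triv_of_odd_of_real hodd (fun q => by
        obtain ⟨g, rfl⟩ := QuotientGroup.mk_surjective q
        exact Complex.conj_eq_iff_im.1 (hr g))
      subst this
      rfl
    rintro ⟨χ, h1, h2, -⟩ ⟨ψ, h3, h4, -⟩
    exact Subtype.ext ((key χ h1 h2).trans (key ψ h3 h4).symm)

end Cfsg.Agent.S4784
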