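import Cfsg.Statements.S4796
import Cfsg.Agent.CT.Codegree


set_option autoImplicit false
open Cfsg

namespace Cfsg.Agent.S4796


/-- Let G be a finite group with a faithful irreducible complex character χ whose codegree #G / χ(1) is a prime p (for a faithful character the kernel is trivial, so the codegree is #G / χ(1)). Then either G is cyclic of order p, or G is a Frobenius group whose Frobenius kernel has order p: some proper non-trivial subgroup H satisfies H ∩ gHg⁻¹ = 1 for every element g outside H, and the set of elements lying in no conjugate of H, together with the identity, has exactly p elements. -/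
theorem result {G : Type*} [Group G] [Finite G] (χ : Cfsg.IrrCharacter G) (hfaith : ∀ g : G, (χ : G → ℂ) g = (χ : G → ℂ) 1 → g = 1) (p : ℕ) (hp : p.Prime) (hcod : Nat.card G = p * Cfsg.charDegree (χ : G → ℂ)) : (IsCyclic G ∧ Nat.card G = p) ∨ ∃ H : Subgroup G, Cfsg.IsFrobeniusComplement H ∧ Nat.card ↥(Cfsg.frobeniusKernel H) = p := by
  haveI := Fact.mk hp
  obtain ⟨x, hx, hn⟩ := χ.exists_isSelfCentPrime_of_card_eq hp hcod
  by_cases ht : Subgroup.zpowers x = ⊤
  · left
    refine ⟨isCyclic_iff_exists_zpowers_eq_top.2 ⟨x, ht⟩, ?_⟩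
    rw [← hx.card_zpowers, ht, Subgroup.card_top]
  · right
    obtain ⟨H, h1, -, h3⟩ := exists_isFrobeniusComplement_of_centralizer_le
      (N := Subgroup.zpowers x) (by rw [Ne, Subgroup.zpowers_eq_bot]; exact hx.ne_one) ht
      (fun n hn hn1 => (hx.centralizer_eq_of_mem hn hn1).le)
    exact ⟨H, h1, by rw [h3]; exact hx.card_zpowers⟩

end Cfsg.Agent.S4796
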