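import Cfsg.Statements.S4797
import Cfsg.Agent.CT.Codegree


set_option autoImplicit false
open Cfsg

namespace Cfsg.Agent.S4797


/-- The codegree of an irreducible complex character χ of a finite group G is [G : ker χ] / χ(1), where ker χ is the set of elements at which χ takes the value χ(1). A non-trivial finite group is perfect if and only if no irreducible complex character of it has prime codegree. -/
theorem result {G : Type*} [Group G] [Finite G] [Nontrivial G] : commutator G = ⊤ ↔ ∀ χ : Cfsg.IrrCharacter G, ¬ ((Nat.card G / (Nat.card {g : G // (χ : G → ℂ) g = (χ : G → ℂ) 1} * Cfsg.charDegree (χ : G → ℂ)))).Prime := by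
  constructor
  · intro hc χ hp
    change (codegree χ.1).Prime at hp
    haveI := Fact.mk hp
    have h1 := χ.codegree_mul_charDegree
    rw [← χ.charDegree_deflate (charKer χ.1) le_rfl] at h1
    obtain ⟨x, hx, hn⟩ := (χ.deflate (charKer χ.1) le_rfl).exists_isSelfCentPrime_of_card_eq hp
      h1.symm
    have h2 : commutator (G ⧸ charKer χ.1) = ⊤ := by
      have := map_commutator_eq G (QuotientGroup.mk' (charKer χ.1))
      rw [hc, ← MonoidHom.range_eq_map,
        MonoidHom.range_eq_top.2 (QuotientGroup.mk'_surjective _)] at this
      exact this.symm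
    have h3 := hx.commutator_le (S := Subgroup.zpowers x) (by rw [hx.card_zpowers])
    rw [h2, top_le_iff] at h3
    haveI : IsCyclic (G ⧸ charKer χ.1) := isCyclic_iff_exists_zpowers_eq_top.2 ⟨x, h3⟩
    have h4 : commutator (G ⧸ charKer χ.1) = ⊥ := by
      rw [_root_.commutator, Subgroup.commutator_eq_bot_iff_le_centralizer]
      intro a _
      rw [Subgroup.mem_centralizer_iff]
      intro b _
      exact IsCyclic.isMulCommutative.is_comm.comm b a
    rw [h4] at h2
    exact hx.ne_one (Subgroup.mem_bot.1 (h2 ▸ Subgroup.mem_top x))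
  · intro h
    by_contra hc
    obtain ⟨M, hM, hle, hp⟩ := exists_normal_prime_index_ge hc (by
      haveI : IsMulCommutative (G ⧸ commutator G) :=
        Subgroup.Normal.quotient_commutative_iff_commutator_le.2 le_rfl
      exact Group.isSolvable_of_comm fun a b => IsMulCommutative.is_comm.comm a b)
    have hM1 : M ≠ ⊤ := by
      rintro rfl
      rw [Subgroup.index_top] at hp
      exact Nat.not_prime_one hp
    obtain ⟨g, hg⟩ : ∃ g, g ∉ M := by
      by_contra hh
      push Not at hh
      exact hM1 (eq_top_iff.2 fun g _ => hh g)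
    obtain ⟨χ, h1, h2⟩ := exists_irr_le_charKer_notMem M hg
    apply h χ
    change (codegree χ.1).Prime
    have h3 := χ.codegree_mul_charDegree
    rw [χ.charDegree_eq_one_of_le_charKer hle h1, mul_one] at h3
    rcases (Nat.dvd_prime hp).1 (Subgroup.index_dvd_of_le h1) with h4 | h4
    · rw [Subgroup.index_eq_one] at h4
      exact absurd (h4 ▸ Subgroup.mem_top g) h2
    · rw [h3, h4]; exact hp

end Cfsg.Agent.S4797
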