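import Cfsg.Statements.S4798
import Cfsg.Agent.CT.Codegree


set_option autoImplicit false
open Cfsg

namespace Cfsg.Agent.S4798


/-- Let p be a prime and χ a faithful irreducible complex character of the finite group G (χ(g) = χ(1) only for g = 1), so that its codegree is #G / χ(1). Then #G / χ(1) is a power of p if and only if χ is induced from a character of a Sylow p-subgroup of G. -/
theorem result {G : Type*} [Group G] [Fintype G] (p : ℕ) [Fact p.Prime] (χ : Cfsg.IrrCharacter G) (hfaith : ∀ g : G, (χ : G → ℂ) g = (χ : G → ℂ) 1 → g = 1) : (∃ k : ℕ, Nat.card G = p ^ k * Cfsg.charDegree (χ : G → ℂ)) ↔ ∃ (P : Sylow p G) (θ : ↥(P : Subgroup G) → ℂ), Cfsg.IsCharacter ↥(P : Subgroup G) θ ∧ (χ : G → ℂ) = Cfsg.indFun (P : Subgroup G) θ := by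
  classical
  have hp := (Fact.out : p.Prime)
  constructor
  · rintro ⟨k, hk⟩
    obtain ⟨P⟩ : Nonempty (Sylow p G) := inferInstance
    haveI := Fintype.ofFinite (P : Subgroup G)
    obtain ⟨n, hn⟩ := IsPGroup.iff_card.1 P.isPGroup'
    have h1 := (P : Subgroup G).card_mul_index
    rw [hn, hk] at h1
    have hcop : ∀ j, (p ^ j).Coprime (P : Subgroup G).index := fun j =>
      Nat.Coprime.pow_left j ((Nat.Prime.coprime_iff_not_dvd hp).2 P.not_dvd_index)
    have hkn : k ≤ n := (Nat.pow_dvd_pow_iff_le_right hp.one_lt).1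
      ((hcop k).dvd_of_dvd_mul_right (h1 ▸ Dvd.intro _ rfl))
    obtain ⟨j, rfl⟩ := Nat.exists_eq_add_of_le hkn
    rw [pow_add, mul_assoc] at h1
    have h2 := Nat.eq_of_mul_eq_mul_left (pow_pos hp.pos k) h1
    have h3 : ∃ θ : IrrCharacter (P : Subgroup G),
        classInner (fun x : (P : Subgroup G) => χ.1 x) θ.1 ≠ 0 ∧ charDegree θ.1 ≤ p ^ j := by
      by_contra hc
      push Not at hc
      obtain ⟨m, hm⟩ := isCharacter_iff_exists_sum.1 (χ.isCharacter.res (P : Subgroup G))
      have h4 : charDegree χ.1 = ∑ θ, m θ * charDegree θ.1 := by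
        have := congrFun hm 1
        simp only [OneMemClass.coe_one, IrrCharacter.one_eq_charDegree] at this
        exact_mod_cast this
      have h5 : p ^ (j + 1) ∣ charDegree χ.1 := by
        rw [h4]
        refine Finset.dvd_sum fun θ _ => ?_
        by_cases h0 : m θ = 0
        · simp [h0]
        · have h6 := hc θ (by
            rw [hm, classInner_sum_irr]; exact_mod_cast h0)
          obtain ⟨i, hi⟩ := θ.exists_charDegree_eq_pow P.isPGroup'
          rw [hi] at h6 ⊢
          exact (pow_dvd_pow p ((Nat.pow_lt_pow_iff_right hp.one_lt).1 h6)).mul_left _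
      rw [← h2] at h5
      have := (Nat.pow_dvd_pow_iff_le_right hp.one_lt).1 ((hcop _).dvd_of_dvd_mul_right h5)
      omega
    obtain ⟨θ, hθ, hd⟩ := h3
    refine ⟨P, θ.1, θ.isCharacter, χ.eq_indFun_of_charDegree θ.isCharacter hθ ?_⟩
    rw [← h2, mul_comm]
    exact Nat.mul_le_mul_right _ hd
  · rintro ⟨P, θ, hθ, he⟩
    have h1 := hθ.isIrr_of_indFun (he ▸ χ.2)
    have h2 := hθ.charDegree_indFun
    rw [← he] at h2
    obtain ⟨c, hc⟩ := IrrCharacter.charDegree_dvd_card (⟨θ, h1⟩ : IrrCharacter (P : Subgroup G))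
    obtain ⟨n, hn⟩ := IsPGroup.iff_card.1 P.isPGroup'
    obtain ⟨k, -, hk⟩ := (Nat.dvd_prime_pow hp).1 (show c ∣ p ^ n by rw [← hn, hc]; exact Dvd.intro_left _ rfl)
    refine ⟨k, ?_⟩
    rw [h2, ← (P : Subgroup G).card_mul_index, hc, hk]
    ring

end Cfsg.Agent.S4798
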