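import Cfsg.Statements.S4802
import Cfsg.Agent.CT.Vanish

set_option autoImplicit false
open Cfsg

namespace Cfsg.Agent.S4802


/-- Let N < M be normal subgroups of the finite group G and g ∈ M ∖ N. Then the conjugacy class of g is exactly M ∖ N if and only if every irreducible complex character of G whose kernel contains N takes the same value at all elements of M ∖ N, and every irreducible complex character of G whose kernel does not contain N vanishes at g. -/
theorem result {G : Type*} [Group G] [Finite G] (N M : Subgroup G) [N.Normal] [M.Normal] (hNM : N < M) (g : G) (hgM : g ∈ M) (hgN : g ∉ N) : {h : G | IsConj g h} = (M : Set G) \ (N : Set G) ↔ ((∀ χ : Cfsg.IrrCharacter G, (∀ x ∈ N, (χ : G → ℂ) x = (χ : G → ℂ) 1) → ∀ x ∈ M, x ∉ N → ∀ y ∈ M, y ∉ N → (χ : G → ℂ) x = (χ : G → ℂ) y) ∧ (∀ χ : Cfsg.IrrCharacter G, (∃ x ∈ N, (χ : G → ℂ) x ≠ (χ : G → ℂ) 1) → (χ : G → ℂ) g = 0)) := by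
  constructor
  · intro h
    have h1 : ∀ x ∈ M, x ∉ N → IsConj g x := fun x hx hx' => by
      have : x ∈ {h : G | IsConj g h} := by rw [h]; exact ⟨hx, hx'⟩
      exact this
    refine ⟨fun χ _ x hx hx' y hy hy' => ?_, fun χ ⟨x, hx, hχ⟩ => ?_⟩
    · rw [← χ.isClassFunction.eq_of_isConj (h1 x hx hx'),
        χ.isClassFunction.eq_of_isConj (h1 y hy hy')]
    · have := Fintype.ofFinite N
      have h2 := χ.sum_coset_eq_zero N (fun h3 => hχ (χ.mem_charKer.1 (h3 hx))) g
      rw [Finset.sum_congr rfl (fun (d : N) _ => (χ.isClassFunction.eq_of_isConj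
        (h1 (g * d) (M.mul_mem hgM (hNM.le d.2))
          (fun h3 => hgN ((N.mul_mem_cancel_right d.2).1 h3)))).symm),
        Finset.sum_const, nsmul_eq_mul] at h2
      exact (mul_eq_zero.1 h2).resolve_left
        (Nat.cast_ne_zero.2 Finset.univ_nonempty.card_pos.ne')
  · rintro ⟨h1, h2⟩
    ext x
    constructor
    · intro hx
      obtain ⟨c, rfl⟩ := isConj_iff.1 hx
      refine ⟨Subgroup.Normal.conj_mem inferInstance g hgM c, fun h3 => hgN ?_⟩
      exact (Subgroup.Normal.mem_comm_iff inferInstance).1 h3 |> fun h4 => by simpa using h4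
    · rintro ⟨hx, hx'⟩
      refine isConj_of_forall_eq_zero_or_eq fun χ => ?_
      by_cases h3 : ∀ x ∈ N, χ.1 x = χ.1 1
      · exact Or.inr (h1 χ h3 g hgM hgN x hx hx')
      · push Not at h3
        exact Or.inl (h2 χ h3)

end Cfsg.Agent.S4802
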