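import Cfsg.Statements.S4805
import Cfsg.Agent.Grp.OneClass
import Cfsg.Agent.CT.Kernel

set_option autoImplicit false
open Cfsg

namespace Cfsg.Agent.S4805

open scoped ComplexConjugate commutatorElement

/-- Let G be a finite group, g an element outside the centre of G, and χ an irreducible complex character of degree greater than one with χ(g) ≠ 0 such that every other irreducible character of degree greater than one vanishes at g. Then g lies in the derived subgroup G′ and χ(g) = −[G : G′]/χ(1); G′ is the union of the kernel of χ (the elements where χ takes the value χ(1)) and the conjugacy class of g, and χ vanishes outside G′; every irreducible character of degree greater than one whose kernel contains that of χ equals χ; and G is solvable. -/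
theorem result {G : Type*} [Group G] [Finite G] (g : G) (hg : g ∉ Subgroup.center G) (χ : Cfsg.IrrCharacter G) (hχ1 : Cfsg.charDegree (χ : G → ℂ) ≠ 1) (hχg : (χ : G → ℂ) g ≠ 0) (hother : ∀ ψ : Cfsg.IrrCharacter G, Cfsg.charDegree (ψ : G → ℂ) ≠ 1 → ψ ≠ χ → (ψ : G → ℂ) g = 0) : g ∈ commutator G ∧ (χ : G → ℂ) g = -(((commutator G).index : ℂ) / (χ : G → ℂ) 1) ∧ ((commutator G : Set G) = {x : G | (χ : G → ℂ) x = (χ : G → ℂ) 1} ∪ {h : G | IsConj g h}) ∧ (∀ x : G, x ∉ commutator G → (χ : G → ℂ) x = 0) ∧ (∀ ψ : Cfsg.IrrCharacter G, Cfsg.charDegree (ψ : G → ℂ) ≠ 1 → (∀ x : G, (χ : G → ℂ) x = (χ : G → ℂ) 1 → (ψ : G → ℂ) x = (ψ : G → ℂ) 1) → ψ = χ) ∧ Group.IsSolvable G := by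
  classical
  have hg1 : g ≠ 1 := fun e => hg (e ▸ Subgroup.one_mem _)
  have hsplit : ∀ f : IrrCharacter G → ℂ, (∀ ψ : IrrCharacter G, ψ.1 g = 0 → f ψ = 0) →
      ∑ ψ, f ψ = ∑ ψ : IrrCharacter G with commutator G ≤ charKer ψ.1, f ψ + f χ := by
    intro f hf
    rw [← Finset.sum_filter_add_sum_filter_not Finset.univ
      (fun ψ : IrrCharacter G => commutator G ≤ charKer ψ.1)]
    congr 1
    refine Finset.sum_eq_single_of_mem χ ?_ fun ψ hψ hne => hf ψ (hother ψ ?_ hne)
    · simpa [← IrrCharacter.charDegree_eq_one_iff_commutator_le] using hχ1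
    · simpa [← IrrCharacter.charDegree_eq_one_iff_commutator_le] using hψ
  have h1 := hsplit (fun ψ => ψ.1 1 * ψ.1 g) fun ψ h => by simp [h]
  rw [sum_irr_one_mul, if_neg hg1, sum_irr_one_mul_le_charKer] at h1
  have h10 := χ.one_ne_zero
  have hgH : g ∈ commutator G := by
    by_contra hn
    rw [if_neg hn, zero_add] at h1
    exact mul_ne_zero h10 hχg h1.symm
  rw [if_pos hgH] at h1
  have hval : χ.1 g = -(((commutator G).index : ℂ) / χ.1 1) := by
    field_simp
    linear_combination -h1
  have hidx : ((commutator G).index : ℂ) ≠ 0 :=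
    Nat.cast_ne_zero.2 Subgroup.FiniteIndex.index_ne_zero
  have hconj : conj (χ.1 g) = χ.1 g := by
    rw [hval, χ.one_eq_charDegree]; simp
  have h2 : ∀ x : G, ¬ IsConj g x →
      (if x ∈ commutator G then ((commutator G).index : ℂ) else 0) + χ.1 x * χ.1 g = 0 := by
    intro x hx
    have := hsplit (fun ψ => ψ.1 x * conj (ψ.1 g)) fun ψ h => by simp [h]
    rw [sum_irr_mul_conj, if_neg (fun e => hx e.symm), hconj] at this
    rw [← sum_irr_one_mul_le_charKer]
    refine Eq.trans ?_ this.symm
    congr 1
    refine Finset.sum_congr rfl fun ψ hψ => ?_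
    rw [apply_eq_one_of_mem_charKer ((Finset.mem_filter.1 hψ).2 hgH), ψ.one_eq_charDegree,
      mul_comm]
    simp
  have hcl : ∀ x : G, IsConj g x → x ∈ commutator G := fun x hx => by
    obtain ⟨c, rfl⟩ := isConj_iff.1 hx
    exact Subgroup.Normal.conj_mem inferInstance g hgH c
  have hvan : ∀ x : G, x ∉ commutator G → χ.1 x = 0 := fun x hx => by
    have := h2 x fun e => hx (hcl x e)
    rw [if_neg hx, zero_add] at this
    exact (mul_eq_zero.1 this).resolve_right hχg
  have hker : ∀ x ∈ commutator G, ¬ IsConj g x → χ.1 x = χ.1 1 := fun x hx hn => by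
    have := h2 x hn
    rw [if_pos hx, hval] at this
    field_simp at this
    have h3 : ((commutator G).index : ℂ) * (χ.1 1 - χ.1 x) = 0 := by linear_combination this
    exact (sub_eq_zero.1 ((mul_eq_zero.1 h3).resolve_left hidx)).symm
  have hKH : charKer χ.1 ≤ commutator G := fun x hx => by
    by_contra hn
    exact h10 ((apply_eq_one_of_mem_charKer hx).symm.trans (hvan x hn))
  have hgK : g ∉ charKer χ.1 := fun e => by
    rw [apply_eq_one_of_mem_charKer e, χ.one_eq_charDegree] at h1
    have h3 : (commutator G).index + charDegree χ.1 * charDegree χ.1 = 0 := by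
      exact_mod_cast h1.symm
    exact Subgroup.FiniteIndex.index_ne_zero (Nat.eq_zero_of_add_eq_zero_right h3)
  have hcj : ∀ x ∈ commutator G, x ∉ charKer χ.1 → IsConj g x := fun x hx hxK => by
    by_contra hn
    exact hxK (χ.mem_charKer.2 (hker x hx hn))
  have hone : OneCl G (charKer χ.1) := by
    refine ⟨inferInstance, lt_of_le_of_ne hKH fun e => hgK (e ▸ hgH),
      fun x hx hxK y hy hyK => (hcj x hx hxK).symm.trans (hcj y hy hyK), fun y hy => ?_⟩
    by_contra hn
    have := χ.mem_charCenter.1 (χ.mem_charCenter_iff_commutator.2 hy)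
    rw [hvan y hn, norm_zero] at this
    exact χ.charDegree_pos.ne (by exact_mod_cast this)
  refine ⟨hgH, hval, ?_, hvan, fun ψ hψ hk => ?_, hone.isSolvable⟩
  · ext x
    constructor
    · intro hx
      by_cases e : IsConj g x
      · exact Or.inr e
      · exact Or.inl (hker x hx e)
    · rintro (hx | hx)
      · exact hKH (χ.mem_charKer.2 hx)
      · exact hcl x hx
  · by_contra hne
    have h0 := hother ψ hψ hne
    haveI := Fintype.ofFinite G
    have h3 := ψ.sum_coset_eq_zero (commutator G)
      (fun e => hψ (ψ.charDegree_eq_one_iff_commutator_le.2 e)) 1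
    have h4 : ∀ n : commutator G, ψ.1 (1 * n) =
        if (n : G) ∈ charKer χ.1 then (charDegree ψ.1 : ℂ) else 0 := by
      intro n
      rw [one_mul]
      split_ifs with hn
      · rw [hk n (apply_eq_one_of_mem_charKer hn), ψ.one_eq_charDegree]
      · obtain ⟨c, e⟩ := isConj_iff.1 (hcj n n.2 hn)
        rw [← e, ψ.2.isCharacter.isClassFunction, h0]
    simp_rw [h4] at h3
    have h5 : ∑ n : commutator G, (if (n : G) ∈ charKer χ.1 then charDegree ψ.1 else 0) = 0 := by
      exact_mod_cast h3
    have h6 := Finset.sum_eq_zero_iff.1 h5 1 (Finset.mem_univ _)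
    rw [if_pos (show ((1 : commutator G) : G) ∈ charKer χ.1 from Subgroup.one_mem _)] at h6
    exact ψ.charDegree_pos.ne' h6

end Cfsg.Agent.S4805
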