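import Cfsg.Statements.S4808
import Cfsg.Agent.CT.Codegree


set_option autoImplicit false
open Cfsg

namespace Cfsg.Agent.S4808


/-- The codegree of an irreducible complex character χ of a finite group G is [G : ker χ] / χ(1), where ker χ is the set of elements at which χ takes the value χ(1). A prime divides the order of G if and only if it divides the codegree of some irreducible complex character of G. -/
theorem result {G : Type*} [Group G] [Finite G] (p : ℕ) (hp : p.Prime) : p ∣ Nat.card G ↔ ∃ χ : Cfsg.IrrCharacter G, p ∣ (Nat.card G / (Nat.card {g : G // (χ : G → ℂ) g = (χ : G → ℂ) 1} * Cfsg.charDegree (χ : G → ℂ))) := by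
  classical
  haveI := Fact.mk hp
  refine ⟨fun hd => ?_, fun ⟨χ, hχ⟩ => hχ.trans χ.codegree_dvd_card⟩
  by_contra hc
  push Not at hc
  change ∀ χ : IrrCharacter G, ¬ p ∣ codegree χ.1 at hc
  obtain ⟨g, hg⟩ := exists_prime_orderOf_dvd_card' (G := G) p hd
  have hg1 : g ≠ 1 := by
    rintro rfl
    rw [orderOf_one] at hg
    exact hp.one_lt.ne hg
  have key : ∀ χ : IrrCharacter G, g ∉ charKer χ.1 → χ.1 g = 0 := by
    intro χ hχ
    rw [← χ.deflate_apply (charKer χ.1) le_rfl]
    apply IrrCharacter.eq_zero_of_ordProj_dvd (p := p)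
    · rw [χ.charDegree_deflate]
      have h1 : p ^ (Nat.card (G ⧸ charKer χ.1)).factorization p ∣
          codegree χ.1 * charDegree χ.1 := by
        rw [χ.codegree_mul_charDegree]; exact Nat.ordProj_dvd _ _
      exact (Nat.Coprime.pow_left _
        ((Nat.Prime.coprime_iff_not_dvd hp).2 (hc χ))).dvd_of_dvd_mul_left h1
    · have h1 : orderOf (g : G ⧸ charKer χ.1) ∣ p :=
        hg ▸ orderOf_map_dvd (QuotientGroup.mk' (charKer χ.1)) g
      rcases (Nat.dvd_prime hp).1 h1 with h2 | h2
      · rw [orderOf_eq_one_iff, QuotientGroup.eq_one_iff] at h2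
        exact absurd h2 hχ
      · rw [h2]
  have h2 := sum_irr_one_mul g
  rw [if_neg hg1] at h2
  have h3 : ∑ ψ : IrrCharacter G, ψ.1 1 * ψ.1 g =
      ((∑ ψ : IrrCharacter G, if g ∈ charKer ψ.1 then charDegree ψ.1 ^ 2 else 0 : ℕ) : ℂ) := by
    push_cast
    refine Finset.sum_congr rfl fun ψ _ => ?_
    split_ifs with h
    · rw [ψ.mem_charKer.1 h, ψ.one_eq_charDegree, sq]
    · rw [key ψ h, mul_zero]
  rw [h3] at h2
  have h4 := Finset.sum_eq_zero_iff.1 (Nat.cast_eq_zero.1 h2) (IrrCharacter.triv G)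
    (Finset.mem_univ _)
  rw [if_pos (((IrrCharacter.triv G).mem_charKer (g := g)).2 rfl),
    IrrCharacter.charDegree_triv] at h4
  simp at h4

end Cfsg.Agent.S4808
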