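import Cfsg.Statements.S4813
import Cfsg.Agent.CT.Degrees2
import Cfsg.Agent.S4466

set_option autoImplicit false
open Cfsg

namespace Cfsg.Agent.S4813

/-- If every irreducible complex character of the finite group G of degree greater than one has prime degree, then G has at most three distinct irreducible character degrees. -/
theorem result {G : Type*} [Group G] [Finite G] (hprime : ∀ d ∈ Cfsg.charDegrees G, d = 1 ∨ d.Prime) : Nat.card ↥(Cfsg.charDegrees G) ≤ 3 := by
  classical
  have := Fintype.ofFinite G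
  have h : ∀ χ : IrrCharacter G, charDegree χ.1 ≠ 1 → (charDegree χ.1).Prime := fun χ hχ =>
    (hprime _ ⟨χ, rfl⟩).resolve_left hχ
  have hs := S4466.result h
  have key : ∀ m n : ℕ, (∀ χ : IrrCharacter G,
      charDegree χ.1 = 1 ∨ charDegree χ.1 = m ∨ charDegree χ.1 = n) →
      Nat.card (charDegrees G) ≤ 3 := fun m n hcd => by
    refine (Set.ncard_le_ncard (t := {1, m, n}) ?_ (Set.toFinite _)).trans
      ((Set.ncard_insert_le _ _).trans (Nat.succ_le_succ
        ((Set.ncard_insert_le _ _).trans (by simp))))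
    rintro d ⟨ψ, rfl⟩
    exact hcd ψ
  by_cases hab : commutator G = ⊥
  · exact key 1 1 fun χ => Or.inl (χ.charDegree_eq_one_iff_commutator_le.2 (hab ▸ bot_le))
  obtain ⟨K, hK, -, h1, h2⟩ := exists_maximal_nonabelian_quotient (D := (⊥ : Subgroup G))
    (by rwa [le_bot_iff])
  obtain ⟨p, hp, ⟨⟨k, hk⟩, χ, h3, h4, -⟩ | ⟨N, hN, -, -, h4, ⟨k, h5⟩, h6, h7, h8, χ, -, h9⟩⟩ :=
    minimal_nonabelian_quotient_structure h1 h2 inferInstance
  · refine key p p fun ψ => ?_
    by_contra hψ
    push Not at hψ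
    have h5 : ¬ p ∣ charDegree ψ.1 := fun hd =>
      hψ.2.1 ((Nat.prime_dvd_prime_iff_eq hp (h ψ hψ.1)).1 hd).symm
    have h6 := h ⟨_, gallagher_isIrr ψ.isCharacter (isIrr_res_of_index_pow hp hk ψ h5)
      (χ.deflate K h3)⟩
    simp only [IrrCharacter.deflate_apply] at h6
    rw [show (fun g => χ.1 g * ψ.1 g) = χ.1 * ψ.1 from rfl,
      χ.isCharacter.charDegree_mul ψ.isCharacter] at h6
    exact Nat.not_prime_mul h4 hψ.1 (h6 fun h => h4 (Nat.eq_one_of_mul_eq_one_right h))
  · have h10 : N.index ≠ 1 := Subgroup.index_eq_one.not.2 h7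
    have h11 : N.index.Prime := h9 ▸ h χ (h9 ▸ h10)
    refine key p N.index fun ξ => ?_
    obtain ⟨ψ, hψ⟩ := ξ.exists_under N
    rcases frobenius_section_degree h4 h8 ψ with ⟨η, hη⟩ | h12
    · have h12 : charDegree ψ.1 = 1 := by
        by_contra h12
        exact Nat.not_prime_mul h10 h12
          (hη ▸ h η (hη ▸ fun h => h10 (Nat.eq_one_of_mul_eq_one_right h)))
      rcases charDegree_eq_or_eq_of_prime_index h11 ξ hψ with h13 | h13
      · exact Or.inl (h13.trans h12)
      · exact Or.inr (Or.inr (by rw [h13, h12, mul_one]))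
    · have h13 : p ∣ charDegree ξ.1 := (hp.dvd_of_dvd_pow
        ((h5 ▸ dvd_pow_self p (by omega) : p ∣ K.relIndex N).trans h12)).trans
          (clifford_charDegree_dvd ξ hψ)
      exact Or.inr (Or.inl ((Nat.prime_dvd_prime_iff_eq hp (h ξ fun h =>
        hp.ne_one (Nat.dvd_one.1 (h ▸ h13)))).1 h13).symm)

end Cfsg.Agent.S4813
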