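import Cfsg.Statements.S4814
import Cfsg.Agent.CT.ClassSum
import Cfsg.Agent.CT.Values

set_option autoImplicit false
open Cfsg

namespace Cfsg.Agent.S4814


/-- Let G be a finite group such that the sum, over the irreducible complex characters χ of G, of 1/χ(1)² is less than 2. Then every element of G is a product of two commutators. -/
theorem result {G : Type*} [Group G] [Finite G]
    (h : ∑ᶠ χ : Cfsg.IrrCharacter G, 1 / ‖(χ : G → ℂ) 1‖ ^ 2 < (2 : ℝ)) (g : G) :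
    ∃ a b c d : G, (a * b * a⁻¹ * b⁻¹) * (c * d * c⁻¹ * d⁻¹) = g := by
  classical
  have := Fintype.ofFinite G
  rw [finsum_eq_sum_of_fintype] at h
  by_contra hcon
  push Not at hcon
  have hG : (Nat.card G : ℂ) ≠ 0 := Nat.cast_ne_zero.2 Nat.card_pos.ne'
  let f : (G × G) × (G × G) → G := fun t =>
    (t.1.1 * t.1.2 * t.1.1⁻¹ * t.1.2⁻¹) * (t.2.1 * t.2.2 * t.2.1⁻¹ * t.2.2⁻¹)
  have h1 := card_fiber_eq_sum_irr f g
  have h2 : IsEmpty {t // f t = g} := ⟨fun t => hcon _ _ _ _ t.2⟩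
  rw [Nat.card_of_isEmpty (α := {t // f t = g}), Nat.cast_zero, mul_zero] at h1
  have h3 : ∀ χ : IrrCharacter G, χ.1 1 * ∑ t, χ.1 (f t * g⁻¹) =
      (Nat.card G : ℂ) ^ 4 * (χ.1 g⁻¹ / χ.1 1 ^ 3) := by
    intro χ
    have h0 := χ.one_ne_zero
    have h4 : χ.1 1 ^ 2 * (χ.1 1 ^ 2 * ∑ t, χ.1 (f t * g⁻¹)) =
        (Nat.card G : ℂ) ^ 2 * ((Nat.card G : ℂ) ^ 2 * χ.1 g⁻¹) := by
      rw [Fintype.sum_prod_type_right, Finset.mul_sum, ← χ.one_sq_mul_sum_commutator_mul g⁻¹,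
        mul_left_comm, Finset.mul_sum (a := (Nat.card G : ℂ) ^ 2)]
      congr 1
      refine Finset.sum_congr rfl fun q _ => ?_
      rw [← χ.one_sq_mul_sum_commutator_mul]
      simp only [f, mul_assoc]
    field_simp
    linear_combination h4
  simp only [h3, ← Finset.mul_sum] at h1
  have h5 : ∑ χ : IrrCharacter G, χ.1 g⁻¹ / χ.1 1 ^ 3 = 0 :=
    (mul_eq_zero.1 h1.symm).resolve_left (pow_ne_zero _ hG)
  rw [← Finset.add_sum_erase _ _ (Finset.mem_univ (IrrCharacter.triv G))] at h h5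
  simp only [IrrCharacter.triv_apply, norm_one, one_pow, div_one] at h h5
  have h6 : ‖∑ χ ∈ Finset.univ.erase (IrrCharacter.triv G), χ.1 g⁻¹ / χ.1 1 ^ 3‖ ≤
      ∑ χ ∈ Finset.univ.erase (IrrCharacter.triv G), 1 / ‖χ.1 1‖ ^ 2 := by
    refine (norm_sum_le _ _).trans (Finset.sum_le_sum fun χ _ => ?_)
    have h0 : 0 < ‖χ.1 1‖ := norm_pos_iff.2 χ.one_ne_zero
    rw [norm_div, norm_pow, div_le_div_iff₀ (by positivity) (by positivity)]
    have := χ.isCharacter.norm_le_norm_one g⁻¹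
    calc ‖χ.1 g⁻¹‖ * ‖χ.1 1‖ ^ 2 ≤ ‖χ.1 1‖ * ‖χ.1 1‖ ^ 2 := by gcongr
      _ = 1 * ‖χ.1 1‖ ^ 3 := by ring
  rw [eq_neg_of_add_eq_zero_right h5, norm_neg, norm_one] at h6
  linarith

end Cfsg.Agent.S4814
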