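import Cfsg.Statements.S4825
import Cfsg.Agent.Blk.CoverDeg

set_option autoImplicit false
open Cfsg

namespace Cfsg.Agent.S4825

/-- Let p be a prime, G a finite group with Sylow p-subgroup P, M a maximal ideal of the algebraic integers containing p, and B a p-block of G with defect group P. Let N be a normal subgroup of G not containing P and θ an irreducible character of N. Then the number of irreducible characters in B of degree prime to p lying over θ (having θ as a constituent on restriction to N) is either 0 or at least 2, and when p ≤ 3 it is divisible by p. -/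
theorem result {G : Type*} [Group G] [Fintype G] (p : ℕ) [Fact p.Prime] (P : Sylow p G) (M : Ideal Cfsg.AlgInt) (hM : Cfsg.IsPModular p M) (B : Set (Cfsg.IrrCharacter G)) (hB : Cfsg.IsPBlock M B) (hBP : Cfsg.IsDefectGroup p M B P) (N : Subgroup G) [N.Normal] [Fintype N] (hPN : ¬ (P : Subgroup G) ≤ N) (θ : Cfsg.IrrCharacter N) :
    (Nat.card {χ : Cfsg.IrrCharacter G // χ ∈ B ∧ ¬ p ∣ Cfsg.charDegree (χ : G → ℂ) ∧ Cfsg.classInner (fun n : N => (χ : G → ℂ) n) (θ : N → ℂ) ≠ 0} = 0 ∨
      2 ≤ Nat.card {χ : Cfsg.IrrCharacter G // χ ∈ B ∧ ¬ p ∣ Cfsg.charDegree (χ : G → ℂ) ∧ Cfsg.classInner (fun n : N => (χ : G → ℂ) n) (θ : N → ℂ) ≠ 0}) ∧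
    (p ≤ 3 → p ∣ Nat.card {χ : Cfsg.IrrCharacter G // χ ∈ B ∧ ¬ p ∣ Cfsg.charDegree (χ : G → ℂ) ∧ Cfsg.classInner (fun n : N => (χ : G → ℂ) n) (θ : N → ℂ) ≠ 0}) := by
  classical
  have := hM.charP
  set S := (irrFinset B).filter (fun χ : IrrCharacter G => classInner (fun n : N => χ.1 n) θ.1 ≠ 0)
    with hS
  have hidx : p ∣ N.index := by
    by_contra h
    exact hPN (sylow_le_of_not_dvd_index h P.isPGroup')
  have h1 := sum_charDegree_sq_over_eq_omega θ B
  have hmem : omega θ.1 (gaTrunc ℂ N (idemC B)) ∈ valO M := by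
    rw [← (hB.isBlockUnion hM).toC_idemO hM]
    exact omega_gaTrunc_toC_mem N θ (IsFixedGA.of_mem_center (idemO_mem_center B) N)
  have h2 : p ∣ ∑ χ ∈ S, charDegree χ.1 ^ 2 := by
    have h3 := congrArg (red M) h1
    rw [red_natCast, red_mul (natCast_mem_valO _) (mul_mem (mul_mem (natCast_mem_valO _)
      (pow_mem (natCast_mem_valO _) 2)) hmem), red_natCast,
      (CharP.cast_eq_zero_iff (resK M) p _).2 hidx, zero_mul] at h3
    exact (CharP.cast_eq_zero_iff (resK M) p _).1 h3
  set T := S.filter (fun χ : IrrCharacter G => ¬ p ∣ charDegree χ.1) with hT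
  have h3 : p ∣ ∑ χ ∈ T, charDegree χ.1 ^ 2 := by
    rw [← Finset.sum_filter_add_sum_filter_not S (fun χ : IrrCharacter G => p ∣ charDegree χ.1)]
      at h2
    exact (Nat.dvd_add_right (Finset.dvd_sum fun χ hχ =>
      (Finset.mem_filter.1 hχ).2.trans (dvd_pow_self _ two_ne_zero))).1 h2
  have hcard : Nat.card {χ : Cfsg.IrrCharacter G // χ ∈ B ∧ ¬ p ∣ Cfsg.charDegree (χ : G → ℂ) ∧
      Cfsg.classInner (fun n : N => (χ : G → ℂ) n) (θ : N → ℂ) ≠ 0} = T.card := by
    refine Nat.subtype_card T fun χ => ?_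
    simp only [hT, hS, Finset.mem_filter, mem_irrFinset]
    tauto
  rw [hcard]
  have hp : p.Prime := Fact.out
  constructor
  · by_contra h
    have h4 : T.card = 1 := by omega
    obtain ⟨χ, hχ⟩ := Finset.card_eq_one.1 h4
    have h5 : χ ∈ T := hχ ▸ Finset.mem_singleton_self χ
    rw [hχ, Finset.sum_singleton] at h3
    exact (Finset.mem_filter.1 h5).2 (hp.dvd_of_dvd_pow h3)
  · intro hp3
    have h4 : ∀ χ ∈ T, charDegree χ.1 ^ 2 ≡ 1 [MOD p] := fun χ hχ => by
      have h5 := (Finset.mem_filter.1 hχ).2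
      generalize charDegree χ.1 = d at h5
      have := hp.two_le
      unfold Nat.ModEq
      rw [Nat.pow_mod]
      rw [Nat.dvd_iff_mod_eq_zero] at h5
      have h6 := Nat.mod_lt d hp.pos
      interval_cases p <;> interval_cases d % _ <;> simp_all
    have h5 : ∑ χ ∈ T, charDegree χ.1 ^ 2 ≡ ∑ χ ∈ T, 1 [MOD p] := Nat.ModEq.sum h4
    rw [Finset.sum_const, smul_eq_mul, mul_one] at h5
    exact (Nat.modEq_zero_iff_dvd.1 (h5.symm.trans (Nat.modEq_zero_iff_dvd.2 h3)))

end Cfsg.Agent.S4825
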