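import Cfsg.Statements.S4828
import Cfsg.Agent.Blk.PairReg

set_option autoImplicit false
open Cfsg

namespace Cfsg.Agent.S4828

/-- Let p be a prime, M a maximal ideal of the algebraic integers containing p, and (Q, e) a Brauer pair of the finite group G (Q a p-subgroup, e a block of C_G(Q)). Then (Q, e) is a maximal Brauer pair of some block of G if and only if e contains an irreducible character θ such that θ takes the value θ(1) at every element of Z(Q) = Q ∩ C_G(Q), the p-part of θ(1) times the p-part of the order of Z(Q) equals the p-part of the order of C_G(Q) (θ has defect zero as a character of C_G(Q)/Z(Q)), and every element of N_G(Q) of p-power order that stabilizes e lies in Q·C_G(Q) (the stabilizer of e in N_G(Q) has index prime to p over Q·C_G(Q)). -/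
theorem result {G : Type*} [Group G] [Finite G] (p : ℕ) [Fact p.Prime] (M : Ideal Cfsg.AlgInt) (hM : Cfsg.IsPModular p M) (Q : Subgroup G) (e : Set (Cfsg.IrrCharacter (Subgroup.centralizer (Q : Set G)))) (he : Cfsg.IsBrauerPair p M Q e) :
    (∃ B : Set (Cfsg.IrrCharacter G), Cfsg.IsMaximalBrauerPair p M B Q e) ↔
      ∃ θ ∈ e, (∀ z : Subgroup.centralizer (Q : Set G), (z : G) ∈ Q → (θ : Subgroup.centralizer (Q : Set G) → ℂ) z = (θ : Subgroup.centralizer (Q : Set G) → ℂ) 1) ∧
        (Cfsg.charDegree (θ : Subgroup.centralizer (Q : Set G) → ℂ)).factorization p + (Nat.card ↥(Q ⊓ Subgroup.centralizer (Q : Set G))).factorization p = (Nat.card (Subgroup.centralizer (Q : Set G))).factorization p ∧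
        (∀ g : G, g ∈ Subgroup.normalizer (Q : Set G) → Cfsg.StabilizesBlock (Subgroup.centralizer (Q : Set G)) e g → (∃ k : ℕ, orderOf g = p ^ k) → g ∈ Q ⊔ Subgroup.centralizer (Q : Set G)) := by
  haveI := hM.charP
  have hp := he.isPair hM
  have hZ : (Q.subgroupOf (Subgroup.centralizer (Q : Set G))).Normal :=
    Subgroup.normal_subgroupOf_of_le_normalizer (centralizer_le_normalizer' Q)
  have key := he.2.isDefectGroup_iff_of_central_quotient hM
    (isPGroup_subgroupOf he.1 (Subgroup.centralizer (Q : Set G)))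
    (fun g _ z hz => Subtype.ext (g.2 z hz))
  rw [he.2.isDefectGroup_subgroupOf_iff' hM, card_subgroupOf] at key
  have key2 : ¬ p ∣ (cenIn ⊤ Q ⊔ Q).relIndex (pairStab ⊤ Q (subIdem M _ e)) ↔
      ∀ g : G, g ∈ Subgroup.normalizer (Q : Set G) →
        StabilizesBlock (Subgroup.centralizer (Q : Set G)) e g → (∃ k : ℕ, orderOf g = p ^ k) →
          g ∈ Q ⊔ Subgroup.centralizer (Q : Set G) := by
    rw [not_dvd_relIndex_iff_forall_pElement (le_normalizer_sup'
      (pairStab_le_normalizer_cenIn top_le_normalizer_top _ _) (pairStab_le_normalizer _ _ _)),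
      cenIn_top, sup_comm]
    refine forall_congr' fun g => ?_
    rw [mem_pairStab]
    exact ⟨fun h h1 h2 => h ⟨trivial, h1, (he.2.stabilizesBlock_centralizer_iff hM h1).1 h2⟩,
      fun h h1 => h h1.2.1 ((he.2.stabilizesBlock_centralizer_iff hM h1.2.1).2 h1.2.2)⟩
  constructor
  · rintro ⟨B, hB⟩
    have hm := hB.isMaxPair hM
    obtain ⟨h1, h2⟩ := (hm.pairOf.isMaxPair_iff le_rfl top_le_normalizer_top
      (hB.isPBlock.isBlk_top hM)).1 hm
    rw [cenIn_top] at h1
    obtain ⟨θ, hθ, h3, h4⟩ := key.1 h1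
    exact ⟨θ, hθ, fun z hz => θ.le_charKer_iff.1 h3 z hz, h4, key2.1 h2⟩
  · rintro ⟨θ, hθ, h1, h2, h3⟩
    obtain ⟨c, hc, hpo⟩ := hp.exists_isPairOf le_rfl le_top
    obtain ⟨B, hB, rfl⟩ := IsBlk.exists_idemK_eq hM hc
    refine ⟨B, (hM.isMaximalBrauerPair_iff hB he.2).2 ((hpo.isMaxPair_iff le_rfl
      top_le_normalizer_top hc).2 ⟨?_, key2.2 h3⟩)⟩
    rw [cenIn_top]
    exact key.2 ⟨θ, hθ, θ.le_charKer_iff.2 fun z hz => h1 z hz, h2⟩

end Cfsg.Agent.S4828
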