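import Cfsg.Statements.S4836
import Cfsg.Agent.CT.Gagola


set_option autoImplicit false
open Cfsg

namespace Cfsg.Agent.S4836


/-- Let G be a finite group of order greater than 2 with an irreducible character χ that is nonzero on exactly two conjugacy classes. Then χ is faithful (it takes the value χ(1) only at the identity), it is the only faithful irreducible character of G, and it is the only irreducible character of G that is nonzero on exactly two conjugacy classes. -/
theorem result {G : Type*} [Group G] [Finite G] (hG : 2 < Nat.card G) (χ : Cfsg.IrrCharacter G) (hχ : Nat.card {C : ConjClasses G // ∃ g ∈ C.carrier, (χ : G → ℂ) g ≠ 0} = 2) :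
    (∀ g : G, (χ : G → ℂ) g = (χ : G → ℂ) 1 → g = 1) ∧
      (∀ ψ : Cfsg.IrrCharacter G, (∀ g : G, (ψ : G → ℂ) g = (ψ : G → ℂ) 1 → g = 1) → ψ = χ) ∧
      (∀ ψ : Cfsg.IrrCharacter G, Nat.card {C : ConjClasses G // ∃ g ∈ C.carrier, (ψ : G → ℂ) g ≠ 0} = 2 → ψ = χ) := by
  obtain ⟨N, a, h⟩ := exists_isGagola hG χ hχ
  have key : ∀ ψ : IrrCharacter G, charKer ψ.1 = ⊥ → ψ = χ := by
    intro ψ hψ
    by_contra hc
    have := h.le_charKer ψ hc
    rw [hψ] at this
    exact h.ne_bot (le_bot_iff.1 this)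
  refine ⟨χ.charKer_eq_bot_iff.1 h.charKer_eq_bot, fun ψ hψ => key ψ (ψ.charKer_eq_bot_iff.2 hψ),
    fun ψ hψ => ?_⟩
  obtain ⟨N', a', h'⟩ := exists_isGagola hG ψ hψ
  exact key ψ h'.charKer_eq_bot

end Cfsg.Agent.S4836
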