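import Cfsg.Statements.S4838
import Cfsg.Agent.CT.Gagola


set_option autoImplicit false
open Cfsg

namespace Cfsg.Agent.S4838


/-- Let G be a finite group of order greater than 2 with an irreducible character χ nonzero on exactly two conjugacy classes, N the normal p-subgroup of elements where χ is nonzero, and P a Sylow p-subgroup of G. Then (a) for every x outside N the centralizer of x in G has the same order as the centralizer of xN in G/N; (b) the centre of P lies in N, and equals N exactly when P is normal in G; (c) N, viewed inside P, is a term of the upper central series of P. -/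
theorem result {G : Type*} [Group G] [Finite G] (hG : 2 < Nat.card G) (χ : Cfsg.IrrCharacter G) (hχ : Nat.card {C : ConjClasses G // ∃ g ∈ C.carrier, (χ : G → ℂ) g ≠ 0} = 2) (p : ℕ) [Fact p.Prime] (N : Subgroup G) [N.Normal] (hN : ∀ g : G, g ∈ N ↔ (χ : G → ℂ) g ≠ 0) (hNp : IsPGroup p N) (hN1 : N ≠ ⊥) (P : Sylow p G) :
    (∀ x : G, x ∉ N → Nat.card (Subgroup.centralizer ({x} : Set G)) = Nat.card (Subgroup.centralizer ({(x : G ⧸ N)} : Set (G ⧸ N)))) ∧
      ((Subgroup.center ↥(P : Subgroup G)).map (P : Subgroup G).subtype ≤ N ∧
        ((Subgroup.center ↥(P : Subgroup G)).map (P : Subgroup G).subtype = N ↔ (P : Subgroup G).Normal)) ∧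
      (∃ i : ℕ, Subgroup.upperCentralSeries ↥(P : Subgroup G) i = N.subgroupOf (P : Subgroup G)) := by
  obtain ⟨N', a, h⟩ := exists_isGagola hG χ hχ
  obtain rfl := h.eq_of_forall hN
  have hNP : N ≤ (P : Subgroup G) := (le_pCore inferInstance hNp).trans (pCore_le_sylow P)
  have hp := (Fact.out : p.Prime)
  -- centralizers in `P` of elements outside `N` are small
  have key : ∀ z : (P : Subgroup G), (z : G) ∉ N →
      Nat.card N ≤ (Subgroup.centralizer ({z} : Set (P : Subgroup G))).index := by
    intro z hz
    have h1 : Nat.card (Subgroup.centralizer ({z} : Set (P : Subgroup G))) ∣ N.index := by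
      rw [centralizer_singleton_subgroupOf, card_subgroupOf]
      refine (Subgroup.card_dvd_of_le inf_le_left).trans ?_
      rw [h.card_centralizer hz]
      exact Subgroup.card_subgroup_dvd_card _
    obtain ⟨j, hj⟩ := IsPGroup.iff_card.1
      (P.isPGroup'.to_subgroup (Subgroup.centralizer ({z} : Set (P : Subgroup G))))
    rw [← Subgroup.relIndex_mul_index hNP, hj] at h1
    have h2 : p ^ j ∣ N.relIndex P :=
      (Nat.Coprime.pow_left j ((Nat.Prime.coprime_iff_not_dvd hp).2 P.not_dvd_index)).dvd_of_dvd_mul_right h1
    have h3 := Nat.le_of_dvd (Nat.pos_of_ne_zero Subgroup.index_ne_zero_of_finite) h2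
    have h4 := (Subgroup.centralizer ({z} : Set (P : Subgroup G))).card_mul_index
    rw [hj, ← card_mul_relIndex hNP] at h4
    by_contra hc
    push Not at hc
    have h5 : p ^ j * (Subgroup.centralizer ({z} : Set (P : Subgroup G))).index <
        N.relIndex P * Nat.card N :=
      Nat.mul_lt_mul_of_le_of_lt h3 hc (Nat.pos_of_ne_zero Subgroup.index_ne_zero_of_finite)
    rw [h4, mul_comm] at h5
    exact lt_irrefl _ h5
  have hZ : (Subgroup.center ↥(P : Subgroup G)).map (P : Subgroup G).subtype ≤ N := by
    rintro _ ⟨z, hz, rfl⟩
    by_contra hc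
    have h1 := key z hc
    have h2 : Subgroup.centralizer ({z} : Set (P : Subgroup G)) = ⊤ :=
      Subgroup.centralizer_eq_top_iff_subset.2 (Set.singleton_subset_iff.2 hz)
    rw [h2, Subgroup.index_top] at h1
    exact absurd h.one_lt_card (not_lt.2 h1)
  refine ⟨fun x hx => h.card_centralizer hx, ⟨hZ, fun he => ?_, fun hn => ?_⟩, ?_⟩
  · have h1 : (P : Subgroup G) ≤ Subgroup.centralizer (N : Set G) := by
      rw [← he, map_subtype_center]
      exact Subgroup.le_centralizer_iff.1 inf_le_right
    rw [h.centralizer_eq_pCore hNp] at h1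
    rw [le_antisymm h1 (pCore_le_sylow P)]
    infer_instance
  · refine le_antisymm hZ ?_
    haveI := normal_map_subtype_of_characteristic (P : Subgroup G) (Subgroup.center (P : Subgroup G))
    apply h.le_of_normal
    rw [map_subtype_center]
    exact inf_centralizer_ne_bot_of_isPGroup P.isPGroup' P.isPGroup' Subgroup.le_normalizer
      (fun hc => h.ne_bot (le_bot_iff.1 (hc ▸ hNP)))
  · haveI := P.isPGroup'.isNilpotent
    have main : ∀ i : ℕ, (∃ j : ℕ, Subgroup.upperCentralSeries ↥(P : Subgroup G) j =
        N.subgroupOf (P : Subgroup G)) ∨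
        Subgroup.upperCentralSeries ↥(P : Subgroup G) i ≤ N.subgroupOf (P : Subgroup G) := by
      intro i
      induction i with
      | zero => right; rw [Subgroup.upperCentralSeries_zero]; exact bot_le
      | succ i ih =>
        rcases ih with ih | ih
        · exact Or.inl ih
        · by_cases hc : Subgroup.upperCentralSeries ↥(P : Subgroup G) (i + 1) ≤
              N.subgroupOf (P : Subgroup G)
          · exact Or.inr hc
          · left
            obtain ⟨z, hz, hzN⟩ := SetLike.not_le_iff_exists.1 hc
            have h1 := key z hzN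
            have h2 := index_centralizer_le_card
              (K := Subgroup.upperCentralSeries ↥(P : Subgroup G) i) (x := z) (fun g => by
                rw [← commutatorElement_inv]
                exact inv_mem (Subgroup.mem_upperCentralSeries_succ_iff.1 hz g))
            refine ⟨i, Subgroup.eq_of_le_of_card_ge ih ?_⟩
            rw [card_subgroupOf_of_le hNP]
            exact h1.trans h2
    obtain ⟨n, hn⟩ := Group.IsNilpotent.nilpotent (P : Subgroup G)
    rcases main n with h1 | h1
    · exact h1
    · exact ⟨n, le_antisymm h1 (hn ▸ le_top)⟩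

end Cfsg.Agent.S4838
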