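import Cfsg.Statements.S4839
import Cfsg.Agent.CT.Gagola
import Cfsg.Agent.Grp.Baer


set_option autoImplicit false
open Cfsg

namespace Cfsg.Agent.S4839

universe u

variable {G : Type u} [Group G] [Finite G] {χ : IrrCharacter G} {N : Subgroup G} {a : ℕ}

theorem card_lt_sq (h : IsGagola χ N a) (hNp : IsPGroup 2 N)
    (hC : Subgroup.centralizer (N : Set G) = N) {z : G} (hz : z * z ∈ N) :
    Nat.card N < Nat.card (N ⊓ Subgroup.centralizer ({z} : Set G) : Subgroup G) ^ 2 := by
  haveI := h.normal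
  haveI := h.isMulCommutative
  have hcomm : ∀ x ∈ N, ∀ y ∈ N, x * y = y * x := fun x hx y hy => setLike_mul_comm hx hy
  have hsq : ∀ x ∈ N, x * x = 1 := fun x hx => by
    rw [← sq]; exact (h.isElementaryAbelian hNp).2 x hx
  by_cases hzN : z ∈ N
  · rw [inf_eq_left.2 (h.le_centralizer hzN), sq]
    have := h.one_lt_card
    nlinarith
  have hconj : ∀ n ∈ N, z⁻¹ * n * z ∈ N := fun n hn => h.normal.conj_mem' n hn z
  have hne : ∀ w : G, w ∉ N → w * w ≠ 1 := by
    intro w hw hww
    apply hw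
    rw [← hC, Subgroup.mem_centralizer_iff]
    intro n hn
    obtain ⟨c, hc⟩ := isConj_iff.1 (h.isConj_mul hw hn)
    have h1 : w * n * (w * n) = 1 := by
      rw [← hc]
      calc c * w * c⁻¹ * (c * w * c⁻¹) = c * (w * w) * c⁻¹ := by group
        _ = 1 := by rw [hww]; group
    have h2 := hsq n hn
    calc n * w = (w * w) * n * w * (n * n) := by rw [hww, h2]; group
      _ = w * (w * n * (w * n)) * n := by group
      _ = w * n := by rw [h1]; group
  let φ : N →* N := MonoidHom.mk' (fun n => ⟨z⁻¹ * n * z * n, mul_mem (hconj n n.2) n.2⟩) (by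
    intro x y
    apply Subtype.ext
    have := hcomm _ (hconj y y.2) _ x.2
    simp only [Subgroup.coe_mul]
    calc z⁻¹ * (x * y) * z * (x * y) = z⁻¹ * x * z * (z⁻¹ * y * z * x) * y := by group
      _ = _ := by rw [this]; group)
  have hφ : ∀ n : N, (φ n : G) = z⁻¹ * n * z * n := fun n => rfl
  have hker : ∀ n : N, n ∈ φ.ker ↔ z * n = n * z := by
    intro n
    rw [MonoidHom.mem_ker, Subtype.ext_iff, hφ, OneMemClass.coe_one]
    have h2 := hsq n n.2
    constructor
    · intro h1
      calc z * n = z * (z⁻¹ * n * z * n) * n := by rw [h1]; group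
        _ = n * z * (n * n) := by group
        _ = n * z := by rw [h2]; group
    · intro h1
      calc z⁻¹ * n * z * n = z⁻¹ * (n * z) * n := by group
        _ = 1 := by rw [← h1]; simpa [mul_assoc] using h2
  have hle : φ.range ≤ φ.ker := by
    rintro _ ⟨n, rfl⟩
    rw [hker, hφ]
    have h1 := hcomm _ hz _ n.2
    have h2 := hcomm _ (hconj n n.2) _ n.2
    calc z * (z⁻¹ * n * z * n) = n * z * (z * z)⁻¹ * (z * z * n) := by group
      _ = n * (z⁻¹ * n * z) * z := by rw [h1]; group
      _ = _ := by rw [← h2]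
  have hlt : φ.range < φ.ker := by
    refine lt_of_le_of_ne hle fun he => ?_
    have h1 : (⟨z * z, hz⟩ : N) ∈ φ.ker := by rw [hker]; group
    rw [← he] at h1
    obtain ⟨n, hn⟩ := h1
    have h2 : z⁻¹ * n * z * n = z * z := congrArg Subtype.val hn
    refine hne (z * n) (fun hc => hzN (by simpa using mul_mem hc (inv_mem n.2))) ?_
    calc z * n * (z * n) = z * z * (z⁻¹ * n * z * n) := by group
      _ = 1 := by rw [h2]; exact hsq _ hz
  have h1 := card_lt_of_lt hlt
  have h2 := φ.ker.card_mul_index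
  rw [Subgroup.index_ker] at h2
  have h3 : Nat.card φ.ker =
      Nat.card (N ⊓ Subgroup.centralizer ({z} : Set G) : Subgroup G) := by
    rw [inf_comm, ← card_subgroupOf]
    congr 2
    ext n
    rw [hker, Subgroup.mem_subgroupOf, Subgroup.mem_centralizer_singleton_iff, eq_comm]
  rw [← h3, ← h2, sq]
  exact Nat.mul_lt_mul_of_pos_left h1 Nat.card_pos

theorem not_dvd_two (h : IsGagola χ N a) (hNp : IsPGroup 2 N) (hN : N = pCore 2 G) :
    ¬ 2 ∣ N.index := by
  haveI := h.normal
  have hC : Subgroup.centralizer (N : Set G) = N := by rw [h.centralizer_eq_pCore hNp, ← hN]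
  have key : {z : G | z * z ∈ N} ⊆ pCore 2 G := by
    apply subset_pCore_of_pairwise_isPGroup
    · intro x hx g
      have := h.normal.conj_mem _ hx g
      show _ ∈ N
      convert this using 1
      group
    · intro z hz u hu
      have h1 := card_lt_sq h hNp hC hz
      have h2 := card_lt_sq h hNp hC hu
      set A := N ⊓ Subgroup.centralizer ({z} : Set G)
      set B := N ⊓ Subgroup.centralizer ({u} : Set G)
      have hne : A ⊓ B ≠ ⊥ := by
        intro hc
        haveI := h.isMulCommutative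
        have hn : B ≤ Subgroup.normalizer (A : Set G) := by
          refine le_trans ?_ (Subgroup.centralizer_le_normalizer _)
          intro b hb
          rw [Subgroup.mem_centralizer_iff]
          intro x hx
          exact setLike_mul_comm hx.1 hb.1
        have h3 := card_sup_of_disjoint hn hc
        have h4 : Nat.card (A ⊔ B : Subgroup G) ≤ Nat.card N :=
          Subgroup.card_le_of_le (sup_le inf_le_left inf_le_left)
        rw [h3] at h4
        have h5 : Nat.card N * Nat.card N < Nat.card A ^ 2 * Nat.card B ^ 2 :=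
          Nat.mul_lt_mul'' h1 h2
        have h6 : (Nat.card A * Nat.card B) ^ 2 ≤ Nat.card N ^ 2 := Nat.pow_le_pow_left h4 2
        rw [mul_pow] at h6
        rw [← sq] at h5
        omega
      obtain ⟨⟨x, hx⟩, hx1⟩ := Subgroup.ne_bot_iff_exists_ne_one.1 hne
      refine ⟨_, h.isPGroup_centralizer hNp hx.1.1 (fun hc => hx1 (Subtype.ext hc)), ?_, ?_⟩
      · exact Subgroup.mem_centralizer_singleton_iff.2
          (Subgroup.mem_centralizer_singleton_iff.1 hx.1.2).symm
      · exact Subgroup.mem_centralizer_singleton_iff.2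
          (Subgroup.mem_centralizer_singleton_iff.1 hx.2.2).symm
  intro hd
  obtain ⟨y, hy⟩ := exists_prime_orderOf_dvd_card' (G := G ⧸ N) 2 hd
  obtain ⟨z, rfl⟩ := QuotientGroup.mk_surjective y
  have h1 : z * z ∈ N := by
    rw [← QuotientGroup.eq_one_iff, QuotientGroup.mk_mul, ← sq, ← hy, pow_orderOf_eq_one]
  have h2 : z ∈ N := by rw [hN]; exact key h1
  rw [(QuotientGroup.eq_one_iff z).2 h2, orderOf_one] at hy
  omega

theorem not_dvd_odd (h : IsGagola χ N a) {p : ℕ} [hp : Fact p.Prime] (hp2 : p ≠ 2)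
    (hNp : IsPGroup p N) (hN : N = pCore p G) : ¬ p ∣ N.index := by
  haveI := h.normal
  have hC : Subgroup.centralizer (N : Set G) = N := by rw [h.centralizer_eq_pCore hNp, ← hN]
  obtain ⟨⟨x, hx⟩, hx1⟩ := Subgroup.ne_bot_iff_exists_ne_one.1 h.ne_bot
  have hx1 : x ≠ 1 := fun hc => hx1 (Subtype.ext hc)
  have h2 : 2 ∣ Nat.card G := by
    refine dvd_trans ?_ (Subgroup.index_dvd_card (Subgroup.centralizer ({x} : Set G)))
    have h1 := h.index_centralizer hx hx1
    obtain ⟨m, hm⟩ := IsPGroup.iff_card.1 hNp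
    have h3 : Odd (Nat.card N) := by rw [hm]; exact (hp.out.odd_of_ne_two hp2).pow
    rw [← h1] at h3
    exact even_iff_two_dvd.1 (Nat.odd_add_one.1 h3 |> Nat.not_odd_iff_even.1)
  obtain ⟨t, ht⟩ := exists_prime_orderOf_dvd_card' (G := G) 2 h2
  have hnot : ∀ R : Subgroup G, IsPGroup p R → t ∉ R := by
    intro R hR htR
    obtain ⟨k, hk⟩ := exists_orderOf_eq_pow_of_mem hR htR
    rw [ht] at hk
    exact hp2 ((Nat.prime_dvd_prime_iff_eq Nat.prime_two hp.out).1
      (Nat.prime_two.dvd_of_dvd_pow (dvd_of_eq hk))).symm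
  have hfix : ∀ n ∈ N, t * n = n * t → n = 1 := by
    intro n hn hc
    by_contra h1
    exact hnot _ (h.isPGroup_centralizer hNp hn h1) (Subgroup.mem_centralizer_singleton_iff.2 hc)
  have htt : t * t = 1 := by rw [← sq, ← ht, pow_orderOf_eq_one]
  have hinv : ∀ n ∈ N, t * n * t⁻¹ = n⁻¹ := fun n hn =>
    conj_eq_inv_of_fixedPointFree (Subgroup.le_normalizer_of_normal (Subgroup.mem_top t))
      (by rw [htt]; exact one_mem _) hfix hn
  have hcent : Subgroup.centralizer ({(t : G ⧸ N)} : Set (G ⧸ N)) = ⊤ := by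
    rw [eq_top_iff]
    intro y _
    obtain ⟨g, rfl⟩ := QuotientGroup.mk_surjective y
    rw [Subgroup.mem_centralizer_singleton_iff, ← QuotientGroup.mk_mul, ← QuotientGroup.mk_mul,
      QuotientGroup.eq, ← hC, Subgroup.mem_centralizer_iff]
    intro n hn
    have h3 := hinv _ (h.normal.conj_mem n hn g)
    have h4 := hinv _ (h.normal.conj_mem' n hn t)
    have h5 := hinv _ hn
    have h6 : t⁻¹ * n⁻¹ * t = n := by rw [← h5]; group
    calc n * ((g * t)⁻¹ * (t * g)) = t⁻¹ * g⁻¹ * (g * (t * n * t⁻¹) * g⁻¹) * t * g := by group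
      _ = t⁻¹ * g⁻¹ * (g * n * g⁻¹)⁻¹ * t * g := by rw [h5]; group
      _ = t⁻¹ * g⁻¹ * (t * (g * n * g⁻¹) * t⁻¹) * t * g := by rw [h3]
      _ = _ := by group
  set H := Subgroup.centralizer ({t} : Set G) with hH
  have hcard : Nat.card H = N.index := by
    rw [hH, h.card_centralizer (hnot N hNp), hcent, Subgroup.card_top]; rfl
  have hdisj : N ⊓ H = ⊥ := by
    rw [eq_bot_iff]
    intro n hn
    exact hfix n hn.1 (Subgroup.mem_centralizer_singleton_iff.1 hn.2).symm
  have hsup : N ⊔ H = ⊤ := by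
    apply Subgroup.eq_top_of_card_eq
    rw [card_sup_of_disjoint Subgroup.le_normalizer_of_normal hdisj, hcard, Subgroup.card_mul_index]
  intro hd
  rw [← hcard] at hd
  obtain ⟨z, hzH, hz⟩ := exists_orderOf_eq_prime_of_dvd_card hd
  have hz1 : z ≠ 1 := by
    rintro rfl
    rw [orderOf_one] at hz
    exact hp.out.one_lt.ne hz
  have hzN : z ∉ N := fun hc => hz1 (Subgroup.mem_bot.1 (hdisj ▸ ⟨hc, hzH⟩ : z ∈ (⊥ : Subgroup G)))
  have hne := inf_centralizer_ne_bot_of_isPGroup (isPGroup_zpowers_iff.2 ⟨1, by rw [hz, pow_one]⟩)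
    hNp Subgroup.le_normalizer_of_normal h.ne_bot
  rw [centralizer_zpowers] at hne
  obtain ⟨⟨n, hn⟩, hn1⟩ := Subgroup.ne_bot_iff_exists_ne_one.1 hne
  let f : Subgroup.centralizer ({z} : Set G) →
      Subgroup.centralizer ({(z : G ⧸ N)} : Set (G ⧸ N)) := fun g => ⟨(g : G), by
    rw [Subgroup.mem_centralizer_singleton_iff, ← QuotientGroup.mk_mul, ← QuotientGroup.mk_mul,
      Subgroup.mem_centralizer_singleton_iff.1 g.2]⟩
  have hf : Function.Surjective f := by
    rintro ⟨y, hy⟩
    obtain ⟨g, rfl⟩ := QuotientGroup.mk_surjective y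
    obtain ⟨k, hk, m, hm, rfl⟩ := mem_sup_normal_right.1
      (show g ∈ H ⊔ N by rw [sup_comm, hsup]; trivial)
    have hkm : ((k * m : G) : G ⧸ N) = k := by
      rw [QuotientGroup.mk_mul, (QuotientGroup.eq_one_iff m).2 hm, mul_one]
    refine ⟨⟨k, ?_⟩, Subtype.ext hkm.symm⟩
    rw [hkm, Subgroup.mem_centralizer_singleton_iff, ← QuotientGroup.mk_mul,
      ← QuotientGroup.mk_mul, QuotientGroup.eq] at hy
    have : (k * z)⁻¹ * (z * k) ∈ (⊥ : Subgroup G) := by
      rw [← hdisj]
      exact ⟨hy, H.mul_mem (H.inv_mem (H.mul_mem hk hzH)) (H.mul_mem hzH hk)⟩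
    rw [Subgroup.mem_centralizer_singleton_iff]
    exact inv_mul_eq_one.1 (Subgroup.mem_bot.1 this)
  have hinj := ((Nat.bijective_iff_surjective_and_card f).2 ⟨hf, h.card_centralizer hzN⟩).1
  apply hn1
  have : (⟨n, hn.2⟩ : Subgroup.centralizer ({z} : Set G)) = 1 := by
    apply hinj
    apply Subtype.ext
    exact (QuotientGroup.eq_one_iff n).2 hn.1
  have h7 : n = 1 := congrArg Subtype.val this
  exact Subtype.ext h7


/-- Let G be a finite group of order greater than 2 with an irreducible character χ nonzero on exactly two conjugacy classes, and let N be the normal p-subgroup of elements where χ is nonzero. Then N is the whole p-core O_p(G) if and only if G is a doubly transitive Frobenius group with kernel N: G has a Frobenius complement H whose Frobenius kernel is N and whose order is one less than that of N. -/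
theorem result {G : Type*} [Group G] [Finite G] (hG : 2 < Nat.card G) (χ : Cfsg.IrrCharacter G) (hχ : Nat.card {C : ConjClasses G // ∃ g ∈ C.carrier, (χ : G → ℂ) g ≠ 0} = 2) (p : ℕ) [Fact p.Prime] (N : Subgroup G) [N.Normal] (hN : ∀ g : G, g ∈ N ↔ (χ : G → ℂ) g ≠ 0) (hNp : IsPGroup p N) (hN1 : N ≠ ⊥) :
    N = Cfsg.pCore p G ↔ ∃ H : Subgroup G, Cfsg.IsFrobeniusComplement H ∧ Cfsg.frobeniusKernel H = (N : Set G) ∧ Nat.card H + 1 = Nat.card N := by
  obtain ⟨N', a, h⟩ := exists_isGagola hG χ hχ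
  obtain rfl := h.eq_of_forall hN
  have hp := (Fact.out : p.Prime)
  constructor
  · intro he
    have hd : ¬ p ∣ N.index := by
      by_cases hp2 : p = 2
      · subst hp2; exact not_dvd_two h hNp he
      · exact not_dvd_odd h hp2 hNp he
    have hC : ∀ n ∈ N, n ≠ 1 → Subgroup.centralizer ({n} : Set G) = N := by
      intro n hn hn1
      obtain ⟨P, hP⟩ := h.exists_sylow_eq_centralizer hNp hn hn1
      refine le_antisymm ?_ (h.le_centralizer hn)
      rw [← hP]
      exact sylow_le_of_normal_of_not_dvd_index P hd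
    obtain ⟨⟨x, hx⟩, hx1⟩ := Subgroup.ne_bot_iff_exists_ne_one.1 h.ne_bot
    have hx1 : x ≠ 1 := fun hc => hx1 (Subtype.ext hc)
    have hi := h.index_centralizer hx hx1
    rw [hC x hx hx1] at hi
    have hT : N ≠ ⊤ := by
      intro hc
      rw [hc, Subgroup.index_top, Subgroup.card_top] at hi
      omega
    obtain ⟨H, h1, h2, h3⟩ := exists_isFrobeniusComplement_of_centralizer_le hN1 hT
      (fun n hn hn1 => (hC n hn hn1).le)
    exact ⟨H, h1, h3, by rw [← hi, h2.symm.index_eq_card]⟩
  · rintro ⟨H, h1, h2, h3⟩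
    obtain ⟨-, hc⟩ := h1.isComplement'_of_eq h2
    have hd : ¬ p ∣ N.index := by
      rw [hc.symm.index_eq_card]
      intro hd
      have h4 := dvd_card_of_isPGroup_of_ne_bot hNp hN1
      rw [← h3] at h4
      exact hp.one_lt.ne' (Nat.dvd_one.1 ((Nat.dvd_add_right hd).1 h4))
    obtain ⟨S, hS⟩ := exists_sylow_eq_of_not_dvd_index hNp hd
    exact le_antisymm (le_pCore inferInstance hNp) (hS ▸ pCore_le_sylow S)

end Cfsg.Agent.S4839
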