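import Cfsg.Statements.S4840
import Cfsg.Agent.CT.Gagola
import Cfsg.Agent.Grp.RankOne
import Cfsg.Agent.Blk.DihGrp
import Cfsg.Agent.Grp.Tate
import Cfsg.Agent.Grp.Frobenius


set_option autoImplicit false
open Cfsg

namespace Cfsg.Agent.S4840

universe u v

section

variable {H : Type u} [Group H] {Q : Subgroup H} {z i j : H}

theorem q8_normal (h : IsQ8Data Q z i j) : (Subgroup.zpowers z).Normal :=
  ⟨fun n hn g => by
    obtain ⟨k, rfl⟩ := hn
    have : Commute g (z ^ k) := (show Commute g z from h.z_center g).zpow_right k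
    rw [this.eq, mul_inv_cancel_right]
    exact ⟨k, rfl⟩⟩

theorem q8_mk_eq [Finite H] (h : IsQ8Data Q z i j) {e w : H} :
    (e : H ⧸ Subgroup.zpowers z) = w ↔ w = e ∨ w = z * e := by
  rw [QuotientGroup.eq]
  constructor
  · intro h1
    obtain ⟨n, hn⟩ := mem_powers_iff_mem_zpowers.2 h1
    have hn' : z ^ n = e⁻¹ * w := hn
    rw [eq_inv_mul_iff_mul_eq] at hn'
    rcases Nat.even_or_odd' n with ⟨k, rfl | rfl⟩
    · left; rw [← hn', pow_mul, _root_.sq, h.z_sq, one_pow, mul_one]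
    · right; rw [← hn', pow_succ, pow_mul, _root_.sq, h.z_sq, one_pow, one_mul, h.z_center]
  · rintro (rfl | rfl)
    · simp
    · rw [← h.z_center, inv_mul_cancel_left]; exact Subgroup.mem_zpowers z

theorem q8_orderOf (h : IsQ8Data Q z i j) {x : H} (hx : x * x = z) : orderOf x = 4 := by
  haveI : Fact (Nat.Prime 2) := ⟨Nat.prime_two⟩
  refine orderOf_eq_prime_pow (p := 2) (n := 1) ?_ ?_
  · rw [pow_one, _root_.sq, hx]; exact h.z_ne
  · rw [show 2 ^ (1 + 1) = 2 * 2 from rfl, pow_mul, _root_.sq x, hx, _root_.sq, h.z_sq]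

theorem q8_ij_sq (h : IsQ8Data Q z i j) : i * j * (i * j) = z := by
  calc i * j * (i * j) = i * j * (z * (j * i)) := by rw [← h.comm]
    _ = z * (i * (j * j) * i) := by rw [← mul_assoc, h.z_center]; simp only [mul_assoc]
    _ = z := by rw [h.j_sq, h.z_center i, mul_assoc, h.i_sq, h.z_sq, mul_one]

theorem q8_ne (h : IsQ8Data Q z i j) : i * j ≠ j * i := by
  intro h1
  have := h.comm
  rw [h1] at this
  exact h.z_ne (right_eq_mul.1 this)

theorem q8_card_le [Finite H] (h : IsQ8Data Q z i j) : Nat.card Q ≤ 8 := by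
  classical
  have h1 : (Q : Set H) ⊆ (([1, i, j, i * j, z * 1, z * i, z * j, z * (i * j)] : List H).toFinset :
      Set H) := by
    intro w hw
    obtain ⟨e, he, hw'⟩ := h.cases w hw
    rcases he with rfl | rfl | rfl | rfl <;> rcases hw' with rfl | rfl <;> simp
  have h2 := Set.ncard_le_ncard h1
  rw [Set.ncard_coe_finset] at h2
  exact h2.trans (List.toFinset_card_le _)

theorem q8_cases [Finite H] (h : IsQ8Data Q z i j) {w : H} (hw : w ∈ Q) (hw2 : w * w = z) :
    (i : H ⧸ Subgroup.zpowers z) = w ∨ (j : H ⧸ Subgroup.zpowers z) = w ∨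
      ((i * j : H) : H ⧸ Subgroup.zpowers z) = w := by
  obtain ⟨e, he, hw'⟩ := h.cases w hw
  rcases he with rfl | rfl | rfl | rfl
  · exfalso
    apply h.z_ne
    rcases hw' with rfl | rfl
    · simpa using hw2.symm
    · rw [← hw2, mul_one, h.z_sq]
  · exact Or.inl ((q8_mk_eq h).2 hw')
  · exact Or.inr (Or.inl ((q8_mk_eq h).2 hw'))
  · exact Or.inr (Or.inr ((q8_mk_eq h).2 hw'))

theorem q8_conj_sq (h : IsQ8Data Q z i j) {w : H} (hw2 : w * w = z) (g : H) :
    g * w * g⁻¹ * (g * w * g⁻¹) = z := by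
  rw [conj_mul, hw2, h.z_center, mul_inv_cancel_right]

theorem mem_of_sq_mem [Finite H] {s : H} (ho : ¬ 2 ∣ orderOf s) {K : Subgroup H}
    (h : s * s ∈ K) : s ∈ K := by
  obtain ⟨k, hk⟩ : Odd (orderOf s) := Nat.odd_iff.2 (by omega)
  have : s = (s * s) ^ (k + 1) := by
    rw [← _root_.sq, ← pow_mul, show 2 * (k + 1) = orderOf s + 1 by omega, pow_succ,
      pow_orderOf_eq_one, one_mul]
  rw [this]
  exact K.pow_mem h _

theorem q8_fix [Finite H] [Q.Normal] (h : IsQ8Data Q z i j) (hQ : IsPGroup 2 Q) {s x : H}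
    (hx : x ∈ Q) (hx2 : x * x = z) (ho : ¬ 2 ∣ orderOf s)
    (hs : (x : H ⧸ Subgroup.zpowers z) = (s * x * s⁻¹ : H)) :
    s ∈ Subgroup.centralizer (Q : Set H) := by
  refine mem_of_sq_mem ho (mem_centralizer_of_relIndex_le_two (R := Subgroup.zpowers x) hQ
    (Subgroup.zpowers_le.2 hx) ?_ (Subgroup.le_normalizer_of_normal (Subgroup.mem_top _)) ?_ ?_)
  · have h1 := card_mul_relIndex (Subgroup.zpowers_le.2 hx)
    rw [Nat.card_zpowers, q8_orderOf h hx2] at h1
    have := q8_card_le h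
    omega
  · rw [centralizer_zpowers, Subgroup.mem_centralizer_singleton_iff]
    have h1 : s * (s * x * s⁻¹) * s⁻¹ = x := by
      rcases (q8_mk_eq h).1 hs with h1 | h1
      · rw [h1, h1]
      · rw [h1, ← mul_assoc, h.z_center s, mul_assoc, mul_assoc, ← mul_assoc s, h1, ← mul_assoc,
          h.z_sq, one_mul]
    conv_rhs => rw [← h1]
    group
  · intro h1
    apply ho
    refine h1.trans ?_
    rw [← _root_.sq]
    exact orderOf_pow_dvd 2

theorem q8_sixteen [Finite H] [Q.Normal] (h : IsQ8Data Q z i j) (hQ : IsPGroup 2 Q) {r : H}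
    (hr : r ∈ commutator H) (ho : ¬ 2 ∣ orderOf r) (hrQ : r ∉ Subgroup.centralizer (Q : Set H)) :
    16 ∣ Nat.card H := by
  classical
  haveI := q8_normal h
  haveI : Fact (Nat.Prime 2) := ⟨Nat.prime_two⟩
  set T := (Subgroup.centralizer {(i : H ⧸ Subgroup.zpowers z)}).comap
    (QuotientGroup.mk' (Subgroup.zpowers z)) with hT
  have hmem : ∀ g, g ∈ T ↔ (i : H ⧸ Subgroup.zpowers z) = (g * i * g⁻¹ : H) := by
    intro g
    rw [hT, Subgroup.mem_comap, Subgroup.mem_centralizer_singleton_iff, QuotientGroup.mk'_apply,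
      QuotientGroup.mk_mul, QuotientGroup.mk_mul, QuotientGroup.mk_inv, eq_mul_inv_iff_mul_eq,
      eq_comm]
  have hidx : T.index ≤ 3 := by
    rw [hT, Subgroup.index_comap_of_surjective _ (QuotientGroup.mk'_surjective _),
      ← card_isConj_eq_index_centralizer]
    have h1 : {x | IsConj (i : H ⧸ Subgroup.zpowers z) x} ⊆
        (([(i : H ⧸ Subgroup.zpowers z), (j : H ⧸ Subgroup.zpowers z), ((i * j : H) :
          H ⧸ Subgroup.zpowers z)] : List _).toFinset : Set _) := by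
      intro x hx
      obtain ⟨g, rfl⟩ := isConj_iff.1 hx
      obtain ⟨g, rfl⟩ := QuotientGroup.mk_surjective g
      have := q8_cases h (Subgroup.Normal.conj_mem inferInstance i h.i_mem g)
        (q8_conj_sq h h.i_sq g)
      rw [← QuotientGroup.mk_inv, ← QuotientGroup.mk_mul, ← QuotientGroup.mk_mul]
      rcases this with h1 | h1 | h1 <;> rw [← h1] <;> simp
    have h2 := Set.ncard_le_ncard h1
    rw [Set.ncard_coe_finset] at h2
    exact h2.trans (List.toFinset_card_le _)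
  have hQT : Q ≤ T := by
    intro w hw
    rw [hT, Subgroup.mem_comap, Subgroup.mem_centralizer_singleton_iff]
    have hc : Commute (i : H ⧸ Subgroup.zpowers z) (j : H ⧸ Subgroup.zpowers z) := by
      show _ * _ = _ * _
      rw [← QuotientGroup.mk_mul, ← QuotientGroup.mk_mul, eq_comm]
      exact (q8_mk_eq h).2 (Or.inr h.comm)
    obtain ⟨e, he, hw'⟩ := h.cases w hw
    rw [QuotientGroup.mk'_apply, ← (q8_mk_eq h).2 hw']
    rcases he with rfl | rfl | rfl | rfl
    · simp
    · rfl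
    · exact hc.symm
    · exact ((Commute.refl _).mul_right hc).symm
  have h8 : 8 ∣ Nat.card Q := by
    obtain ⟨k, hk⟩ := IsPGroup.iff_card.1 hQ
    have h1 : Subgroup.zpowers i < Q := by
      refine lt_of_le_of_ne (Subgroup.zpowers_le.2 h.i_mem) fun h1 => q8_ne h ?_
      obtain ⟨n, hn⟩ : j ∈ Subgroup.zpowers i := h1 ▸ h.j_mem
      rw [← hn]
      exact (Commute.refl i).zpow_right n
    have h2 := card_lt_of_lt h1
    rw [Nat.card_zpowers, q8_orderOf h h.i_sq, hk] at h2
    have h3 : 2 < k := (Nat.pow_lt_pow_iff_right one_lt_two).1 h2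
    rw [hk]
    exact pow_dvd_pow 2 h3
  have h2 : 2 ∣ T.normalCore.index := by
    by_contra h2
    have h3 : T.normalCore.index ∣ 6 := by
      rw [Subgroup.normalCore_eq_ker, Subgroup.index_ker]
      refine (Subgroup.card_subgroup_dvd_card _).trans ?_
      rw [Nat.card_perm]
      exact Nat.factorial_dvd_factorial hidx
    have h4 : T.normalCore.index ∣ 3 :=
      Nat.Coprime.dvd_of_dvd_mul_left (n := 3)
        ((Nat.Prime.coprime_iff_not_dvd Nat.prime_two).2 h2).symm h3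
    haveI : Fact (Nat.Prime 3) := ⟨Nat.prime_three⟩
    haveI : IsCyclic (H ⧸ T.normalCore) := isCyclic_of_card_dvd_prime (p := 3) h4
    have h5 := (Subgroup.Normal.quotient_commutative_iff_commutator_le (N := T.normalCore)).1
      inferInstance
    exact hrQ (q8_fix h hQ h.i_mem h.i_sq ho ((hmem r).1 (T.normalCore_le (h5 hr))))
  rw [← T.normalCore.card_mul_index]
  exact Nat.mul_dvd_mul (h8.trans (Subgroup.card_dvd_of_le
    (Subgroup.normal_le_normalCore.2 hQT))) h2

theorem isCyclic_of_fpf [Finite H] {V : Type v} [Group V] [Finite V] (φ : H →* MulAut V)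
    (hV : 1 < Nat.card V) {B : Subgroup H} (hB : ∀ b ∈ B, b ≠ 1 → ∀ v, φ b v = v → v = 1)
    (hc : IsMulCommutative B) : IsCyclic B := by
  haveI : Finite (V ⋊[φ] H) := Finite.of_equiv _ SemidirectProduct.equivProd.symm
  haveI : (SemidirectProduct.inl : V →* V ⋊[φ] H).range.Normal := by
    rw [SemidirectProduct.range_inl_eq_ker_rightHom]; infer_instance
  have h1 := isCyclic_of_fixedPointFree_of_comm (N := (SemidirectProduct.inl : V →* V ⋊[φ] H).range)
    (A := B.map SemidirectProduct.inr) Subgroup.le_normalizer_of_normal ?_ ?_ inferInstance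
  · exact (B.equivMapOfInjective _ SemidirectProduct.inr_injective).isCyclic.2 h1
  · intro h
    have h2 := (MonoidHom.ofInjective (f := (SemidirectProduct.inl : V →* V ⋊[φ] H))
      SemidirectProduct.inl_injective)
    have h3 := Nat.card_congr h2.toEquiv
    rw [h, Subgroup.card_bot] at h3
    omega
  · rintro _ ⟨b, hb, rfl⟩ h1 _ ⟨v, rfl⟩ h
    have h2 : φ b v = v := by
      apply SemidirectProduct.inl_injective (φ := φ)
      rw [SemidirectProduct.inl_aut, h, map_inv, mul_inv_cancel_right]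
    rw [hB b hb (fun h => h1 (by rw [h, map_one])) v h2, map_one]

/-- the fixed points -/
def fixSub {V : Type v} [Group V] (α : MulAut V) : Subgroup V :=
  (α : V →* V).eqLocus (MonoidHom.id V)

theorem mem_fixSub {V : Type v} [Group V] {α : MulAut V} {v : V} : v ∈ fixSub α ↔ α v = v :=
  Iff.rfl

theorem card_fixSub_conj {V : Type v} [Group V] (α β : MulAut V) :
    Nat.card (fixSub (β * α * β⁻¹)) = Nat.card (fixSub α) := by
  refine (Nat.card_congr (Equiv.subtypeEquiv β.toEquiv fun v => ?_)).symm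
  simp [mem_fixSub]

theorem fixSub_inv {V : Type v} [Group V] (α : MulAut V) : fixSub α⁻¹ = fixSub α := by
  ext v
  rw [mem_fixSub, mem_fixSub, MulAut.inv_apply, MulEquiv.symm_apply_eq, eq_comm]

theorem card_mul_le {V : Type v} [Group V] [Finite V] {A B : Subgroup V} (h : A ⊓ B = ⊥) :
    Nat.card A * Nat.card B ≤ Nat.card V := by
  rw [← Nat.card_prod]
  refine Nat.card_le_card_of_injective (fun x : A × B => (x.1 : V) * x.2) ?_
  exact Subgroup.mul_injective_of_disjoint (disjoint_iff.2 h)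

theorem main [Finite H] (hs : Group.IsSolvable H) {p : ℕ} [hp : Fact p.Prime]
    (h0 : pCore p H = ⊥) {V : Type v} [Group V] [Finite V] (φ : H →* MulAut V)
    (hV : 1 < Nat.card V) (hfpf : ∀ h, h ≠ 1 → ¬ p ∣ orderOf h → ∀ v, φ h v = v → v = 1)
    (hcov : ∀ r : H, (∃ k, orderOf r = p ^ k) → ∀ v, ∃ g, φ (g * r * g⁻¹) v = v)
    (hcard : ∃ k, Nat.card H = (Nat.card V - 1) * p ^ k) {r : H} (hr : r ∈ commutator H)
    (hrp : ∃ k, orderOf r = p ^ k) : r = 1 := by
  classical
  have hcyc : ∀ B : Subgroup H, (∀ b ∈ B, b ≠ 1 → ¬ p ∣ orderOf b) → IsMulCommutative B →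
      IsCyclic B := fun B hB hc =>
    isCyclic_of_fpf φ hV (fun b hb hb1 => hfpf b hb1 (hB b hb hb1)) hc
  have hF : ∀ g ∈ fittingSubgroup H, (∃ k, orderOf g = p ^ k) → g = 1 := fun g hg h => by
    have := mem_pCore_of_mem_fittingSubgroup hg h
    rwa [h0, Subgroup.mem_bot] at this
  have hnd : ∀ {q : ℕ}, q.Prime → q ≠ p → ∀ {t : H}, (∃ k, orderOf t = p ^ k) →
      ¬ q ∣ orderOf t := by
    rintro q hq hqp t ⟨k, hk⟩ h
    rw [hk] at h
    exact hqp ((Nat.prime_dvd_prime_iff_eq hq hp.out).1 (hq.dvd_of_dvd_pow h))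
  have hcore : ∀ (q : ℕ) [Fact q.Prime], q ≠ p →
      (∀ r ∈ commutator H, ¬ q ∣ orderOf r → r ∈ Subgroup.centralizer (pCore q H : Set H)) ∨
      (q = 2 ∧ ∃ z i j, IsQ8Data (pCore q H) z i j) := by
    intro q hq hqp
    refine centralized_or_isQ8Data (isPGroup_pCore q H) fun B hB hc => hcyc B ?_ hc
    intro b hb _
    obtain ⟨k, hk⟩ := (isPGroup_pCore q H).exists_orderOf_eq_pow ⟨b, hB hb⟩
    rw [Subgroup.orderOf_mk] at hk
    intro h
    rw [hk] at h
    exact hqp ((Nat.prime_dvd_prime_iff_eq hp.out hq.out).1 (hp.out.dvd_of_dvd_pow h)).symm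
  have hcentF : ∀ g : H, (∀ q : ℕ, q.Prime → g ∈ Subgroup.centralizer (pCore q H : Set H)) →
      g ∈ Subgroup.centralizer (fittingSubgroup H : Set H) := by
    intro g hg
    have : fittingSubgroup H ≤ Subgroup.centralizer {g} := by
      rw [fittingSubgroup_eq_iSup_pCore]
      refine iSup_le fun q x hx => ?_
      exact Subgroup.mem_centralizer_singleton_iff.2
        (Subgroup.mem_centralizer_iff.1 (hg q q.2) x hx)
    exact Subgroup.mem_centralizer_iff.2 fun x hx =>
      Subgroup.mem_centralizer_singleton_iff.1 (this hx)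
  have hodd : ∀ t ∈ commutator H, (∃ k, orderOf t = p ^ k) → ∀ q : ℕ, q.Prime → q ≠ 2 →
      t ∈ Subgroup.centralizer (pCore q H : Set H) := by
    intro t ht htp q hq hq2
    by_cases hqp : q = p
    · subst hqp
      rw [h0]
      simp [Subgroup.mem_centralizer_iff]
    haveI : Fact q.Prime := ⟨hq⟩
    exact ((hcore q hqp).resolve_right fun h => hq2 h.1) t ht (hnd hq hqp htp)
  by_cases hr2 : r ∈ Subgroup.centralizer (pCore 2 H : Set H)
  · refine hF r (centralizer_fittingSubgroup_le hs (hcentF r fun q hq => ?_)) hrp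
    by_cases hq2 : q = 2
    · rw [hq2]; exact hr2
    · exact hodd r hr hrp q hq hq2
  exfalso
  have hp2 : 2 ≠ p := by
    rintro rfl
    apply hr2
    rw [h0]
    simp [Subgroup.mem_centralizer_iff]
  haveI : Fact (Nat.Prime 2) := ⟨Nat.prime_two⟩
  obtain ⟨-, z, i, j, h⟩ := (hcore 2 hp2).resolve_left fun h =>
    hr2 (h r hr (hnd Nat.prime_two hp2 hrp))
  have hQ := isPGroup_pCore 2 H
  set Q := pCore 2 H with hQdef
  haveI := q8_normal h
  have h16 : 16 ∣ Nat.card V - 1 := by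
    obtain ⟨k, hk⟩ := hcard
    have h1 := q8_sixteen h hQ hr (hnd Nat.prime_two hp2 hrp) hr2
    rw [hk] at h1
    exact Nat.Coprime.dvd_of_dvd_mul_right (Nat.Coprime.pow 4 k
      ((Nat.coprime_primes Nat.prime_two hp.out).2 hp2)) h1
  -- the conjugates of `r` and `r⁻¹`
  let C : Set H := {t | IsConj r t ∨ IsConj r⁻¹ t}
  have hCinv : ∀ t ∈ C, t⁻¹ ∈ C := by
    rintro t (ht | ht) <;> obtain ⟨g, rfl⟩ := isConj_iff.1 ht
    · exact Or.inr (isConj_iff.2 ⟨g, by group⟩)
    · exact Or.inl (isConj_iff.2 ⟨g, by group⟩)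
  have hCo : ∀ t ∈ C, orderOf t = orderOf r := by
    rintro t (ht | ht)
    · exact (orderOf_eq_of_isConj ht)
    · exact (orderOf_eq_of_isConj ht).trans (orderOf_inv r)
  have hCp : ∀ t ∈ C, ∃ k, orderOf t = p ^ k := fun t ht => hCo t ht ▸ hrp
  have hCc : ∀ t ∈ C, t ∈ commutator H := by
    rintro t (ht | ht) <;> obtain ⟨g, rfl⟩ := isConj_iff.1 ht
    · exact Subgroup.Normal.conj_mem inferInstance _ hr g
    · exact Subgroup.Normal.conj_mem inferInstance _ (inv_mem hr) g
  have hCQ : ∀ t ∈ C, t ∉ Subgroup.centralizer (Q : Set H) := by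
    rintro t (ht | ht) h1 <;> obtain ⟨g, hg⟩ := isConj_iff.1 ht.symm
    · exact hr2 (hg ▸ Subgroup.Normal.conj_mem inferInstance _ h1 g)
    · exact hr2 (inv_mem_iff.1 (hg ▸ Subgroup.Normal.conj_mem inferInstance _ h1 g))
  have hCfix : ∀ t ∈ C, Nat.card (fixSub (φ t)) = Nat.card (fixSub (φ r)) := by
    rintro t (ht | ht) <;> obtain ⟨g, rfl⟩ := isConj_iff.1 ht
    · rw [map_mul, map_mul, map_inv, card_fixSub_conj]
    · rw [map_mul, map_mul, map_inv, map_inv, card_fixSub_conj, fixSub_inv]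
  have hfix : ∀ t ∈ C, ∀ x ∈ Q, x * x = z →
      (x : H ⧸ Subgroup.zpowers z) ≠ (t * x * t⁻¹ : H) := fun t ht x hx hx2 h1 =>
    hCQ t ht (q8_fix h hQ hx hx2 (hnd Nat.prime_two hp2 (hCp t ht)) h1)
  have hfix2 : ∀ t ∈ C, ∀ x ∈ Q, ∀ y : H, x * x = z →
      (y : H ⧸ Subgroup.zpowers z) = (t * x * t⁻¹ : H) →
      (x : H ⧸ Subgroup.zpowers z) ≠ (t * y * t⁻¹ : H) := by
    intro t ht x hx y hx2 h1 h2
    have ho := hnd Nat.prime_two hp2 (hCp t ht)
    refine hCQ t ht (mem_of_sq_mem ho (q8_fix h hQ hx hx2 (fun h3 => ho (h3.trans ?_)) ?_))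
    · rw [← _root_.sq]
      exact orderOf_pow_dvd 2
    · rw [h2]
      simp only [QuotientGroup.mk_mul, QuotientGroup.mk_inv, h1]
      group
  have hcj : ∀ (g : H), ∀ x ∈ Q, g * x * g⁻¹ ∈ Q := fun g x hx =>
    Subgroup.Normal.conj_mem inferInstance x hx g
  let S : Set H := {t ∈ C | (j : H ⧸ Subgroup.zpowers z) = (t * i * t⁻¹ : H)}
  have hSj : ∀ t ∈ S, ((i * j : H) : H ⧸ Subgroup.zpowers z) = (t * j * t⁻¹ : H) := by
    rintro t ⟨ht, h1⟩
    rcases q8_cases h (hcj t j h.j_mem) (q8_conj_sq h h.j_sq t) with h2 | h2 | h2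
    · exact absurd h2 (hfix2 t ht i h.i_mem j h.i_sq h1)
    · exact absurd h2 (hfix t ht j h.j_mem h.j_sq)
    · exact h2
  have hCS : ∀ t ∈ C, t ∈ S ∨ t⁻¹ ∈ S := by
    intro t ht
    rcases q8_cases h (hcj t i h.i_mem) (q8_conj_sq h h.i_sq t) with h2 | h2 | h2
    · exact absurd h2 (hfix t ht i h.i_mem h.i_sq)
    · exact Or.inl ⟨ht, h2⟩
    rcases q8_cases h (hcj t⁻¹ i h.i_mem) (q8_conj_sq h h.i_sq t⁻¹) with h3 | h3 | h3
    · exact absurd h3 (hfix _ (hCinv t ht) i h.i_mem h.i_sq)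
    · exact Or.inr ⟨hCinv t ht, h3⟩
    · refine absurd ?_ (hfix2 t ht i h.i_mem _ h.i_sq h2)
      rw [QuotientGroup.mk_mul, QuotientGroup.mk_mul _ t, h3]
      simp only [QuotientGroup.mk_mul, QuotientGroup.mk_inv]
      group
  have hinj : Set.InjOn (fun t : H => (t * i * t⁻¹, t * j * t⁻¹)) S := by
    rintro t ⟨ht, -⟩ t' ⟨ht', -⟩ h1
    simp only [Prod.mk.injEq] at h1
    have hl : ∀ x : H, t * x * t⁻¹ = t' * x * t'⁻¹ → Commute (t⁻¹ * t') x := by
      intro x hx
      calc t⁻¹ * t' * x = t⁻¹ * (t' * x * t'⁻¹) * t' := by group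
        _ = _ := by rw [← hx]; group
    have h2 : t⁻¹ * t' ∈ Subgroup.centralizer (Q : Set H) := by
      refine Subgroup.mem_centralizer_iff.2 fun w hw => Eq.symm ?_
      obtain ⟨e, he, hw'⟩ := h.cases w hw
      have h3 : Commute (t⁻¹ * t') e := by
        rcases he with rfl | rfl | rfl | rfl
        · exact Commute.one_right _
        · exact hl _ h1.1
        · exact hl _ h1.2
        · exact (hl _ h1.1).mul_right (hl _ h1.2)
      rcases hw' with rfl | rfl
      · exact h3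
      · exact Commute.mul_right (h.z_center _) h3
    have h3 := hcentF (t⁻¹ * t') fun q hq => by
      by_cases hq2 : q = 2
      · rw [hq2]; exact h2
      · exact mul_mem (inv_mem (hodd t (hCc t ht) (hCp t ht) q hq hq2))
          (hodd t' (hCc t' ht') (hCp t' ht') q hq hq2)
    have h4 : IsCyclic (Subgroup.centralizer (fittingSubgroup H : Set H)) := by
      refine hcyc _ (fun b hb hb1 hpb => ?_) ?_
      · obtain ⟨c, hc, hco⟩ := exists_orderOf_eq_prime_of_dvd_card (G := H) (p := p)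
          (H := Subgroup.zpowers b) (by rwa [Nat.card_zpowers])
        have := hF c (centralizer_fittingSubgroup_le hs (Subgroup.zpowers_le.2 hb hc))
          ⟨1, by rw [hco, pow_one]⟩
        rw [this, orderOf_one] at hco
        exact hp.out.one_lt.ne hco
      · exact Subgroup.le_centralizer_iff_isMulCommutative.1
          (Subgroup.centralizer_le (centralizer_fittingSubgroup_le hs))
    have h5 : Commute (t⁻¹ * t') t := Subgroup.mem_centralizer_iff.1
      (commutator_le_centralizer_of_isCyclic h4 (hCc t ht)) _ h3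
    obtain ⟨k, hk⟩ := hrp
    have h6 : (t⁻¹ * t') ^ p ^ k = 1 := by
      have h7 := h5.symm.mul_pow (p ^ k)
      rw [mul_inv_cancel_left, ← hk, ← hCo t' ht', pow_orderOf_eq_one, hCo t' ht', ← hCo t ht,
        pow_orderOf_eq_one, one_mul, hCo t ht, hk] at h7
      exact h7.symm
    obtain ⟨m, -, hm⟩ := (Nat.dvd_prime_pow hp.out).1 (orderOf_dvd_of_pow_eq_one h6)
    exact inv_mul_eq_one.1 (hF _ (centralizer_fittingSubgroup_le hs h3) ⟨m, hm⟩)
  have hS4 : S.ncard ≤ 4 := by
    have h1 := Set.ncard_le_ncard_of_injOn (t := (([(j, i * j), (j, z * (i * j)), (z * j, i * j),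
      (z * j, z * (i * j))] : List (H × H)).toFinset : Set (H × H))) _ (fun t ht => by
        rcases (q8_mk_eq h).1 ht.2 with h1 | h1 <;>
          rcases (q8_mk_eq h).1 (hSj t ht) with h2 | h2 <;> simp [h1, h2]) hinj
    rw [Set.ncard_coe_finset] at h1
    exact h1.trans (List.toFinset_card_le _)
  set u := Nat.card (fixSub (φ r)) with hu
  have hu2 : u * u ≤ Nat.card V := by
    have h1 : i * r * i⁻¹ ∈ C := Or.inl (isConj_iff.2 ⟨i, rfl⟩)
    have h2 := card_mul_le (A := fixSub (φ r)) (B := fixSub (φ (i * r * i⁻¹))) (by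
      rw [eq_bot_iff]
      rintro v ⟨h2, h3⟩
      refine hfpf (r⁻¹ * (i * r * i⁻¹)) (fun h4 => ?_) (fun h4 => ?_) v ?_
      · refine hfix r (Or.inl (IsConj.refl r)) i h.i_mem h.i_sq (congrArg _ ?_)
        rw [inv_mul_eq_one, eq_mul_inv_iff_mul_eq] at h4
        rw [h4, mul_inv_cancel_right]
      · have h5 : r⁻¹ * (i * r * i⁻¹) ∈ Q := by
          have := Q.mul_mem (hcj r⁻¹ i h.i_mem) (Q.inv_mem h.i_mem)
          simpa only [inv_inv, mul_assoc] using this
        obtain ⟨k, hk⟩ := hQ.exists_orderOf_eq_pow ⟨_, h5⟩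
        rw [Subgroup.orderOf_mk] at hk
        rw [hk] at h4
        exact hp2 ((Nat.prime_dvd_prime_iff_eq hp.out Nat.prime_two).1
          (hp.out.dvd_of_dvd_pow h4)).symm
      · rw [map_mul, MulAut.mul_apply, mem_fixSub.1 h3, map_inv]
        exact mem_fixSub.1 ((fixSub_inv (φ r)).ge h2))
    rwa [hCfix _ h1] at h2
  have hcov' : Nat.card V - 1 ≤ 4 * (u - 1) := by
    have h1 : (Set.univ \ {1} : Set V) ⊆ ⋃ t ∈ S, ((fixSub (φ t) : Set V) \ {1}) := by
      rintro v ⟨-, hv⟩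
      obtain ⟨g, hg⟩ := hcov r hrp v
      rcases hCS (g * r * g⁻¹) (Or.inl (isConj_iff.2 ⟨g, rfl⟩)) with h2 | h2
      · exact Set.mem_biUnion h2 ⟨hg, hv⟩
      · refine Set.mem_biUnion h2 ⟨?_, hv⟩
        rw [map_inv, fixSub_inv]
        exact hg
    have h2 := Set.ncard_le_ncard h1
    rw [Set.ncard_sdiff_singleton_of_mem (Set.mem_univ _), Set.ncard_univ] at h2
    refine h2.trans (((Set.toFinite S).ncard_biUnion_le _).trans ?_)
    rw [finsum_mem_congr rfl (g := fun _ => u - 1),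
      finsum_mem_eq_finite_toFinset_sum _ (Set.toFinite S), Finset.sum_const, smul_eq_mul,
      ← Set.ncard_eq_toFinset_card]
    · exact Nat.mul_le_mul_right _ hS4
    · intro t ht
      rw [Set.ncard_sdiff_singleton_of_mem (Subgroup.one_mem _), ← hCfix t ht.1]
      rfl
  have h17 := Nat.le_of_dvd (by omega) h16
  have : u ≤ 3 := by
    by_contra h1
    have : 4 * u ≤ u * u := Nat.mul_le_mul_right u (by omega)
    omega
  omega

end

/-- Let G be a finite solvable group of order greater than 2 with an irreducible character nonzero on exactly two conjugacy classes. Then there is exactly one prime p with O_p(G) ≠ 1, and the quotient G/O_p(G) has a normal p-complement and commutative Sylow p-subgroups. -/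
theorem result {G : Type*} [Group G] [Finite G] [hs : Group.IsSolvable G] (hG : 2 < Nat.card G) (χ : Cfsg.IrrCharacter G) (hχ : Nat.card {C : ConjClasses G // ∃ g ∈ C.carrier, (χ : G → ℂ) g ≠ 0} = 2) :
    ∃ p : ℕ, p.Prime ∧ (∀ q : ℕ, q.Prime → (Cfsg.pCore q G ≠ ⊥ ↔ q = p)) ∧
      Cfsg.HasNormalPComplement p (G ⧸ Cfsg.pCore p G) ∧ ∀ Q : Sylow p (G ⧸ Cfsg.pCore p G), IsMulCommutative (Q : Subgroup (G ⧸ Cfsg.pCore p G)) := by
  obtain ⟨N, a, h⟩ := exists_isGagola hG χ hχ
  obtain ⟨p, hp, hN⟩ := h.exists_prime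
  haveI : Fact p.Prime := ⟨hp⟩
  haveI := h.normal
  have hNp : N ≤ pCore p G := le_pCore h.normal hN
  have hC := h.centralizer_eq_pCore hN
  let φ : G ⧸ pCore p G →* MulAut N := QuotientGroup.lift _ MulAut.conjNormal (fun g hg => by
    rw [← hC] at hg
    ext n
    simp only [MulAut.conjNormal_apply, MulAut.one_apply]
    rw [← Subgroup.mem_centralizer_iff.1 hg n n.2, mul_inv_cancel_right])
  have hφ : ∀ (g : G) (v : N), φ g v = v ↔ g ∈ Subgroup.centralizer {(v : G)} := by
    intro g v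
    rw [Subgroup.mem_centralizer_singleton_iff, Subtype.ext_iff, ← mul_inv_eq_iff_eq_mul]
    rfl
  have hmain : ∀ r ∈ commutator (G ⧸ pCore p G), (∃ k, orderOf r = p ^ k) → r = 1 := by
    intro r hr hrp
    refine main inferInstance (pCore_quotient_pCore p) φ h.one_lt_card ?_ ?_ ?_ hr hrp
    · intro g hg1 hg v hv
      by_contra hv1
      obtain ⟨g, rfl⟩ := QuotientGroup.mk_surjective g
      obtain ⟨k, hk⟩ := (h.isPGroup_centralizer hN v.2 (fun h => hv1 (Subtype.ext h))).exists_orderOf_eq_pow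
        ⟨g, (hφ g v).1 hv⟩
      rw [Subgroup.orderOf_mk] at hk
      obtain ⟨m, -, hm⟩ := (Nat.dvd_prime_pow hp).1
        (hk ▸ orderOf_map_dvd (QuotientGroup.mk' (pCore p G)) g)
      rcases Nat.eq_zero_or_pos m with rfl | hm0
      · exact hg1 (orderOf_eq_one_iff.1 hm)
      · exact hg (hm ▸ dvd_pow_self p hm0.ne')
    · rintro r ⟨k, hk⟩ v
      by_cases hv1 : v = 1
      · exact ⟨1, by rw [hv1, map_one]⟩
      obtain ⟨P, hP⟩ := h.exists_sylow_eq_centralizer hN v.2 (fun h => hv1 (Subtype.ext h))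
      obtain ⟨S, hS⟩ := (IsPGroup.of_card (G := Subgroup.zpowers r)
        (by rw [Nat.card_zpowers, hk])).exists_le_sylow
      obtain ⟨g, hg⟩ := MulAction.exists_smul_eq (G ⧸ pCore p G) S
        (P.mapSurjective (QuotientGroup.mk'_surjective (pCore p G)))
      have h1 : g * r * g⁻¹ ∈ ((g • S : Sylow p (G ⧸ pCore p G)) : Subgroup _) := by
        rw [Sylow.coe_subgroup_smul]
        exact Subgroup.smul_mem_pointwise_smul _ (MulAut.conj g) _ (hS (Subgroup.mem_zpowers r))
      rw [hg] at h1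
      obtain ⟨x, hx, hx'⟩ := h1
      exact ⟨g, hx' ▸ (hφ x v).2 (hP ▸ hx)⟩
    · obtain ⟨⟨v, hv⟩, hv1⟩ := (Subgroup.ne_bot_iff_exists_ne_one).1 h.ne_bot
      have hv1' : v ≠ 1 := fun h => hv1 (Subtype.ext h)
      have h1 : pCore p G ≤ Subgroup.centralizer {v} :=
        hC ▸ Subgroup.centralizer_le (Set.singleton_subset_iff.2 hv)
      obtain ⟨k, hk⟩ := IsPGroup.iff_card.1 (h.isPGroup_centralizer hN hv hv1')
      obtain ⟨m, -, hm⟩ := (Nat.dvd_prime_pow hp).1
        (hk ▸ Subgroup.relIndex_dvd_card (pCore p G) (Subgroup.centralizer {v}))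
      refine ⟨m, ?_⟩
      rw [← h.index_centralizer hv hv1', Nat.add_sub_cancel, ← hm, mul_comm,
        Subgroup.relIndex_mul_index h1]
      rfl
  have hinf : ∀ Q : Sylow p (G ⧸ pCore p G), commutator (G ⧸ pCore p G) ⊓ (Q : Subgroup _) = ⊥ := by
    intro Q
    rw [eq_bot_iff]
    rintro r ⟨h1, h2⟩
    obtain ⟨k, hk⟩ := Q.isPGroup'.exists_orderOf_eq_pow ⟨r, h2⟩
    rw [Subgroup.orderOf_mk] at hk
    exact hmain r h1 ⟨k, hk⟩
  refine ⟨p, hp, fun q hq => ⟨fun hq1 => ?_, ?_⟩, ?_, fun Q => ?_⟩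
  · by_contra hqp
    haveI : Fact q.Prime := ⟨hq⟩
    exact h.ne_bot (disjoint_self.1 ((IsPGroup.disjoint_of_ne q p hqp _ _ (isPGroup_pCore q G)
      hN).mono_left (h.le_of_normal _ hq1)))
  · rintro rfl h1
    exact h.ne_bot (eq_bot_iff.2 (h1 ▸ hNp))
  · obtain ⟨Q⟩ : Nonempty (Sylow p (G ⧸ pCore p G)) := inferInstance
    exact hasNormalPComplement_of_inf_commutator_le Q (by rw [hinf Q]; exact bot_le)
  · rw [← Subgroup.le_centralizer_iff_isMulCommutative, ← Subgroup.commutator_eq_bot_iff_le_centralizer,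
      eq_bot_iff, ← hinf Q]
    exact le_inf (Subgroup.commutator_mono le_top le_top) (Subgroup.commutator_le_self _)

end Cfsg.Agent.S4840
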