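import Cfsg.Statements.S4843
import Cfsg.Agent.CT.Forms
import Cfsg.Agent.CT.ClassSum
import Cfsg.Agent.CT.Kernel
import Cfsg.Agent.Grp.Fitting


set_option autoImplicit false
open Cfsg

namespace Cfsg.Agent.S4843

section
universe u v
open scoped ComplexConjugate commutatorElement

theorem sum_conj_of_irr_comp {Γ : Type u} [Group Γ] {H : Type v} [Group H] [Fintype H]
    (f : H →* Γ) {Ξ : Γ → ℂ} (hΞ : IsCharacter Γ Ξ) (hirr : IsIrrCharacter H (fun h => Ξ (f h)))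
    (a c : Γ) : Ξ 1 * ∑ h : H, Ξ (f h * a * (f h)⁻¹ * c) = Nat.card H * (Ξ a * Ξ c) := by
  obtain ⟨n, X, hX⟩ := isCharacter_iff_matrix.1 hΞ
  have hirr' : IsIrrCharacter H (fun h => ((X.comp f) h).trace) := by
    simpa only [hX, MonoidHom.comp_apply] using hirr
  obtain ⟨s, hs⟩ := matrix_schur_scalar hirr' (T := ∑ h : H, X (f h * a * (f h)⁻¹)) (fun g => by
    rw [Finset.sum_mul, Finset.mul_sum, ← Equiv.sum_comp (Equiv.mulLeft g)]
    refine Finset.sum_congr rfl fun h _ => ?_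
    simp only [Equiv.coe_mulLeft, MonoidHom.comp_apply, ← map_mul]
    congr 1
    simp only [map_mul]; group)
  have h1 : (Nat.card H : ℂ) * Ξ a = s * Ξ 1 := by
    have := congrArg Matrix.trace hs
    rw [Matrix.trace_sum, Matrix.trace_smul] at this
    simp_rw [← hX, hΞ.isClassFunction a] at this
    rw [Finset.sum_const, Finset.card_univ, ← Nat.card_eq_fintype_card, nsmul_eq_mul] at this
    rw [this, hX 1, map_one, smul_eq_mul]
  have h2 : ∑ h : H, Ξ (f h * a * (f h)⁻¹ * c) = s * Ξ c := by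
    have := congrArg (fun M => Matrix.trace (M * X c)) hs
    simp only [Finset.sum_mul, Matrix.trace_sum, ← map_mul, ← hX, smul_mul_assoc, one_mul,
      Matrix.trace_smul, smul_eq_mul] at this
    exact this
  rw [h2]
  linear_combination (-Ξ c) * h1

end


/-- Let G be a finite group with a faithful irreducible character χ (taking the value χ(1) only at the identity) and let k be prime to the order of G, so that g ↦ χ(g^k) is a Galois conjugate of χ. If the pointwise product g ↦ χ(g)·χ(g^k) is again an irreducible character, then the Fitting subgroup of G equals its centre. -/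
theorem result {G : Type*} [Group G] [Finite G] (χ : Cfsg.IrrCharacter G) (hfaith : ∀ g : G, (χ : G → ℂ) g = (χ : G → ℂ) 1 → g = 1) (k : ℕ) (hk : Nat.Coprime k (Nat.card G)) (hirr : Cfsg.IsIrrCharacter G (fun g => (χ : G → ℂ) g * (χ : G → ℂ) (g ^ k))) : Cfsg.fittingSubgroup G = Subgroup.center G := by
  classical
  haveI := Fintype.ofFinite G
  have hf : charKer χ.1 = ⊥ := χ.charKer_eq_bot_iff.2 hfaith
  refine le_antisymm ?_ center_le_fittingSubgroup
  by_contra hne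
  set F := fittingSubgroup G with hF
  set Z := Subgroup.center G with hZ
  obtain ⟨x, hxF, hxZ, hx⟩ : ∃ x ∈ F, x ∉ Z ∧ ∀ y ∈ F, y * x * y⁻¹ * x⁻¹ ∈ Z := by
    have hnil := isNilpotent_map (QuotientGroup.mk' Z) (isNilpotent_fittingSubgroup G)
    haveI : Nontrivial (F.map (QuotientGroup.mk' Z)) :=
      (Subgroup.nontrivial_iff_ne_bot _).2 (fun h => hne (map_mk_eq_bot_iff.1 h))
    have h1 := inf_center_ne_bot_of_isNilpotent hnil (top_ne_bot : (⊤ : Subgroup _) ≠ ⊥)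
    rw [top_inf_eq] at h1
    obtain ⟨⟨⟨_, x, hx, rfl⟩, hc⟩, h2⟩ := Subgroup.ne_bot_iff_exists_ne_one.1 h1
    refine ⟨x, hx, fun h => h2 (Subtype.ext (Subtype.ext ((QuotientGroup.eq_one_iff x).2 h))),
      fun y hy => ?_⟩
    have := congrArg Subtype.val (Subgroup.mem_center_iff.1 hc ⟨_, y, hy, rfl⟩)
    rw [← QuotientGroup.eq_one_iff]
    simp only [Subgroup.coe_mul, QuotientGroup.mk'_apply] at this
    simp [this]
  obtain ⟨m, hm⟩ : ∃ m : ℕ, ∀ g : G, (g ^ m) ^ k = g⁻¹ := by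
    obtain ⟨j, hj⟩ : ∃ j : ℕ, ∀ g : G, (g ^ k) ^ j = g := by
      rcases Nat.eq_zero_or_pos (Nat.card G - 1) with h | h
      · have : Nat.card G = 1 := by have := Nat.card_pos (α := G); omega
        haveI := (Nat.card_eq_one_iff_unique.1 this).1
        exact ⟨0, fun g => Subsingleton.elim _ _⟩
      · obtain ⟨j, -, hj⟩ := Nat.exists_mul_mod_eq_one_of_coprime hk (by omega)
        refine ⟨j, fun g => ?_⟩
        rw [← pow_mul, ← pow_mod_natCard, hj, pow_one]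
    refine ⟨j * (Nat.card G - 1), fun g => ?_⟩
    rw [← pow_mul, mul_comm, ← mul_assoc, pow_mul, pow_mul, hj, eq_inv_iff_mul_eq_one, ← pow_succ,
      Nat.sub_add_cancel Nat.card_pos, pow_card_eq_one']
  have hψ := χ.isCharacter.comp_pow hk
  have h1 := χ.one_mul_sum_conj_mul' x x⁻¹
  have h2 := sum_conj_of_irr_comp ((MonoidHom.id G).prod (MonoidHom.id G))
    ((χ.isCharacter.comp (MonoidHom.fst G G)).mul (hψ.comp (MonoidHom.snd G G))) hirr
    (x, x ^ m) (x⁻¹, x⁻¹ ^ m)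
  simp only [Pi.mul_apply, MonoidHom.coe_fst, MonoidHom.coe_snd, Prod.fst_one, Prod.snd_one,
    one_pow, MonoidHom.prod_apply, MonoidHom.id_apply, Prod.fst_mul, Prod.snd_mul, Prod.fst_inv,
    Prod.snd_inv, hm, inv_inv] at h2
  have h3 : ∀ g : G, χ.1 (g * x * g⁻¹ * x⁻¹) * χ.1 ((g * x ^ m * g⁻¹ * x⁻¹ ^ m) ^ k) =
      χ.1 (g * x * g⁻¹ * x⁻¹) * (starRingEnd ℂ) (χ.1 (g * x * g⁻¹ * x⁻¹)) := by
    intro g
    have hyF : g * x * g⁻¹ * x⁻¹ ∈ F :=
      F.mul_mem ((fittingSubgroup_normal G).conj_mem x hxF g) (F.inv_mem hxF)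
    by_cases hc : Commute (g * x * g⁻¹ * x⁻¹) x
    · have hc' : Commute (g * x * g⁻¹) x⁻¹ := by
        have := (hc.mul_left (Commute.refl x)).inv_right
        rwa [inv_mul_cancel_right] at this
      rw [← conj_pow, ← hc'.mul_pow, hm, χ.apply_inv]
    · rw [χ.isCharacter.eq_zero_of_commutator_mem_charCenter (x := x)
        (χ.center_le_charCenter (hx _ hyF)), zero_mul, zero_mul]
      rw [hf, Subgroup.mem_bot, commutatorElement_eq_one_iff_commute]
      exact hc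
  simp_rw [h3] at h2
  have hd : (starRingEnd ℂ) (χ.1 1) = χ.1 1 := by rw [← χ.apply_inv, inv_one]
  have hw : (starRingEnd ℂ) (χ.1 x * χ.1 x⁻¹) = χ.1 x * χ.1 x⁻¹ := by
    rw [map_mul, ← χ.apply_inv, ← χ.apply_inv, inv_inv, mul_comm]
  have h1' := congrArg (starRingEnd ℂ) h1
  rw [map_mul, map_mul, hd, hw, map_sum, map_natCast] at h1'
  have h4 : ∑ g : G, Complex.normSq (χ.1 1 * χ.1 (g * x * g⁻¹ * x⁻¹) - χ.1 x * χ.1 x⁻¹) = 0 := by
    apply Complex.ofReal_injective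
    push_cast
    simp_rw [← Complex.mul_conj, map_sub, hw, map_mul, hd]
    have : ∀ g : G, (χ.1 1 * χ.1 (g * x * g⁻¹ * x⁻¹) - χ.1 x * χ.1 x⁻¹) *
        (χ.1 1 * (starRingEnd ℂ) (χ.1 (g * x * g⁻¹ * x⁻¹)) - χ.1 x * χ.1 x⁻¹) =
        χ.1 1 * χ.1 1 * (χ.1 (g * x * g⁻¹ * x⁻¹) * (starRingEnd ℂ) (χ.1 (g * x * g⁻¹ * x⁻¹))) -
        (χ.1 x * χ.1 x⁻¹ * χ.1 1) * χ.1 (g * x * g⁻¹ * x⁻¹) -
        (χ.1 x * χ.1 x⁻¹ * χ.1 1) * (starRingEnd ℂ) (χ.1 (g * x * g⁻¹ * x⁻¹)) +
        (χ.1 x * χ.1 x⁻¹) ^ 2 := fun g => by ring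
    simp_rw [this]
    rw [Finset.sum_add_distrib, Finset.sum_sub_distrib, Finset.sum_sub_distrib, ← Finset.mul_sum,
      ← Finset.mul_sum, ← Finset.mul_sum, Finset.sum_const, Finset.card_univ,
      ← Nat.card_eq_fintype_card, nsmul_eq_mul]
    linear_combination h2 - (χ.1 x * χ.1 x⁻¹) * h1 - (χ.1 x * χ.1 x⁻¹) * h1'
  rw [Finset.sum_eq_zero_iff_of_nonneg (fun _ _ => Complex.normSq_nonneg _)] at h4
  apply hxZ
  rw [Subgroup.mem_center_iff]
  intro g
  have h5 := h4 g (Finset.mem_univ _)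
  have h6 := h4 1 (Finset.mem_univ _)
  rw [Complex.normSq_eq_zero, sub_eq_zero] at h5 h6
  rw [← h6, one_mul, inv_one, mul_one, mul_inv_cancel] at h5
  have h7 := hfaith _ (mul_left_cancel₀ χ.one_ne_zero h5)
  rwa [mul_inv_eq_one, mul_inv_eq_iff_eq_mul] at h7

end Cfsg.Agent.S4843
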