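import Cfsg.Statements.S4845
import Cfsg.Agent.CT.Monomial
import Cfsg.Agent.CT.Galois
import Cfsg.Agent.CT.Burnside
import Cfsg.Agent.Grp.Basic


set_option autoImplicit false
open Cfsg

namespace Cfsg.Agent.S4845

section
universe u

open scoped commutatorElement

theorem eq_of_card_eq_of_isCyclic {C : Type u} [Group C] [Finite C] [IsCyclic C]
    {A B : Subgroup C} (h : Nat.card A = Nat.card B) : A = B := by
  classical
  haveI := Fintype.ofFinite C
  have key : ∀ A : Subgroup C, (A : Set C).toFinset =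
      Finset.univ.filter (fun x : C => x ^ Nat.card A = 1) := by
    intro A
    refine Finset.eq_of_subset_of_card_le (fun x hx => ?_) ?_
    · rw [Set.mem_toFinset] at hx
      exact Finset.mem_filter.2 ⟨Finset.mem_univ _,
        congrArg Subtype.val (pow_card_eq_one' (x := (⟨x, hx⟩ : A)))⟩
    · refine (IsCyclic.card_pow_eq_one_le Nat.card_pos).trans ?_
      rw [Set.toFinset_card, Nat.card_eq_fintype_card]
      exact le_of_eq (Fintype.card_congr (Equiv.refl _))
  apply SetLike.coe_injective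
  rw [← Set.toFinset_inj, key, key, h]

/-- nonlinear characters of the same degree have the same kernel -/
def SameKer (P : Type u) [Group P] : Prop :=
  ∀ χ ψ : IrrCharacter P, charDegree χ.1 ≠ 1 → charDegree χ.1 = charDegree ψ.1 →
    charKer χ.1 = charKer ψ.1

variable {P : Type u} [Group P] [Finite P]

theorem SameKer.quotient (h : SameKer P) (N : Subgroup P) [N.Normal] : SameKer (P ⧸ N) := by
  intro χ ψ h1 h2
  have := h (χ.inflate N) (ψ.inflate N) (by rwa [χ.charDegree_inflate])
    (by rwa [χ.charDegree_inflate, ψ.charDegree_inflate])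
  rw [χ.charKer_inflate, ψ.charKer_inflate] at this
  exact Subgroup.comap_injective (QuotientGroup.mk'_surjective N) this

theorem SameKer.charKer_le (h : SameKer P) (χ : IrrCharacter P) (h1 : charDegree χ.1 ≠ 1) :
    charKer χ.1 ≤ commutator P := by
  intro g hg
  rw [mem_commutator_iff_forall_unitsHom]
  intro f
  have h2 := h χ (χ.twist f) h1 (χ.charDegree_twist f).symm
  have h3 := hg
  rw [h2, IrrCharacter.mem_charKer, IrrCharacter.twist_apply, IrrCharacter.twist_apply,
    χ.mem_charKer.1 hg, map_one] at h3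
  exact Units.ext (mul_right_cancel₀ χ.one_ne_zero h3)

theorem eq_of_lt_of_card_prime {p : ℕ} (hp : p.Prime) {A B : Subgroup P} (hB : Nat.card B = p)
    (h : A ≤ B) : A = ⊥ ∨ A = B := by
  have := Subgroup.card_dvd_of_le h
  rw [hB, Nat.dvd_prime hp] at this
  rcases this with h1 | h1
  · exact Or.inl (Subgroup.card_eq_one.1 h1)
  · exact Or.inr (Subgroup.eq_of_le_of_card_ge h (by rw [hB, h1]))

theorem le_center_of_card_prime {p : ℕ} [hp : Fact p.Prime] (hP : IsPGroup p P) {N : Subgroup P}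
    [N.Normal] (hN : Nat.card N = p) : N ≤ Subgroup.center P := by
  have h1 : N ≠ ⊥ := by
    rintro rfl
    exact hp.out.one_lt.ne (by simpa using hN)
  rcases eq_of_lt_of_card_prime hp.out hN (inf_le_left : N ⊓ Subgroup.center P ≤ N) with h | h
  · exact absurd h (inf_center_ne_bot_of_isNilpotent hP.isNilpotent h1)
  · exact inf_eq_left.1 h

theorem exists_charDegree_eq_pow {p : ℕ} [hp : Fact p.Prime] (hP : IsPGroup p P)
    (χ : IrrCharacter P) : ∃ k, charDegree χ.1 = p ^ k := by
  obtain ⟨n, hn⟩ := hP.exists_card_eq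
  obtain ⟨k, -, hk⟩ := (Nat.dvd_prime_pow hp.out).1 (hn ▸ χ.charDegree_dvd_card)
  exact ⟨k, hk⟩

omit [Finite P] in
theorem commutator_pow_left {z y : P} (h : ⁅z, y⁆ ∈ Subgroup.center P) (n : ℕ) :
    ⁅z ^ n, y⁆ = ⁅z, y⁆ ^ n := by
  induction n with
  | zero => simp
  | succ n ih =>
    have hc := Subgroup.mem_center_iff.1 ((Subgroup.center P).pow_mem h n) z
    calc ⁅z ^ (n + 1), y⁆ = z * ⁅z ^ n, y⁆ * z⁻¹ * ⁅z, y⁆ := by
          simp only [commutatorElement_def, pow_succ']; group
      _ = ⁅z, y⁆ ^ (n + 1) := by rw [ih, hc, mul_inv_cancel_right, pow_succ]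

theorem index_center_le {p : ℕ} (ψ : IrrCharacter P) (hN : Nat.card (charKer ψ.1) = p)
    (hZ : charKer ψ.1 ≤ Subgroup.center P) :
    (Subgroup.center P).index ≤ p * (charCenter ψ.1).index := by
  rw [← Subgroup.relIndex_mul_index ψ.center_le_charCenter]
  refine Nat.mul_le_mul_right _ ?_
  obtain ⟨l, -, hl⟩ := ψ.isCharacter.exists_centerHom
    (fun h => ψ.one_ne_zero (congrFun h 1))
  haveI : Finite l.range := Finite.of_surjective _ l.rangeRestrict_surjective
  obtain ⟨⟨_, z, rfl⟩, hz⟩ := IsCyclic.exists_generator (α := l.range)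
  have hp0 : 0 < p := hN ▸ Nat.card_pos
  set Q := charCenter ψ.1 ⧸ (Subgroup.center P).subgroupOf (charCenter ψ.1)
  have h1 : ∀ q : Q, q ∈ Subgroup.zpowers (z : Q) := by
    intro q
    obtain ⟨w, rfl⟩ := QuotientGroup.mk_surjective q
    obtain ⟨k, hk⟩ := hz ⟨l w, w, rfl⟩
    refine ⟨k, ?_⟩
    have hk' : l z ^ k = l w := congrArg Subtype.val hk
    show (z : Q) ^ k = w
    rw [← QuotientGroup.mk_zpow, QuotientGroup.eq]
    have : (z ^ k)⁻¹ * w ∈ l.ker := by
      rw [MonoidHom.mem_ker, map_mul, map_inv, map_zpow, hk', inv_mul_cancel]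
    rw [hl] at this
    exact hZ this
  have h2 : (z : Q) ^ p = 1 := by
    rw [← QuotientGroup.mk_pow, QuotientGroup.eq_one_iff, Subgroup.mem_subgroupOf,
      Subgroup.mem_center_iff]
    intro y
    have h3 := (ψ.mem_charCenter_iff_commutator.1 z.2) y
    have h4 := commutator_pow_left (hZ h3) p
    have h5 : ⁅(z : P), y⁆ ^ p = 1 := by
      have := pow_card_eq_one' (x := (⟨_, h3⟩ : charKer ψ.1))
      rw [hN] at this
      exact congrArg Subtype.val this
    rw [h5, commutatorElement_eq_one_iff_mul_comm] at h4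
    exact h4.symm
  show Nat.card Q ≤ p
  rw [← orderOf_eq_card_of_forall_mem_zpowers h1]
  exact orderOf_le_of_pow_eq_one hp0 h2

theorem card_commutator_le {p : ℕ} [hp : Fact p.Prime] (P : Type u) [Group P] [Finite P] :
    IsPGroup p P → SameKer P → Nat.card (commutator P) ≤ p := by
  refine induction_on_card (P := fun P _ _ =>
    IsPGroup p P → SameKer P → Nat.card (commutator P) ≤ p) ?_ P
  intro P _ _ ih hP hS
  classical
  haveI := Fintype.ofFinite P
  by_contra hlt
  push Not at hlt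
  have hD1 : ⊥ < commutator P := by
    rw [bot_lt_iff_ne_bot]
    intro h
    rw [h, Subgroup.card_bot] at hlt
    exact absurd hp.out.one_lt (not_lt.2 hlt.le)
  obtain ⟨N₀, hN₀n, -, hN₀, hN₀c, -⟩ := exists_normal_relIndex_eq_of_isPGroup hP hD1
  rw [Subgroup.relIndex_bot_left] at hN₀c
  have hN₀1 : N₀ ≠ ⊥ := by
    rintro rfl
    exact hp.out.one_lt.ne (by simpa using hN₀c)
  have hq := ih (P ⧸ N₀) (card_quotient_lt hN₀1) (hP.to_quotient N₀) (hS.quotient N₀)
  rw [← map_commutator_eq_of_surjective _ (QuotientGroup.mk'_surjective N₀), card_map_mk] at hq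
  have hD : Nat.card (commutator P) = p ^ 2 := by
    obtain ⟨j, hj⟩ := (hP.to_subgroup (commutator P)).exists_card_eq
    have h1 := card_mul_relIndex hN₀
    rw [hN₀c] at h1
    have h2 : p ^ j ≤ p ^ 2 := by rw [← hj, ← h1, sq]; exact Nat.mul_le_mul_left _ hq
    have h3 : p ^ 1 < p ^ j := by rwa [← hj, pow_one]
    rw [Nat.pow_le_pow_iff_right hp.out.one_lt] at h2
    rw [Nat.pow_lt_pow_iff_right hp.out.one_lt] at h3
    rw [hj, show j = 2 by omega]
  have hsub : ∀ A : Subgroup P, A ≤ commutator P → A ≠ ⊥ → A ≠ commutator P → Nat.card A = p := by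
    intro A h1 h2 h3
    obtain ⟨i, hi, hA⟩ := (Nat.dvd_prime_pow hp.out).1 (hD ▸ Subgroup.card_dvd_of_le h1)
    interval_cases i
    · exact absurd (Subgroup.card_eq_one.1 hA) h2
    · rw [hA, pow_one]
    · exact absurd (Subgroup.eq_of_le_of_card_ge h1 (by rw [hD, hA])) h3
  have hex : ∃ ψ : IrrCharacter P, charDegree ψ.1 ≠ 1 ∧ charKer ψ.1 ≠ ⊥ := by
    have : ¬ commutator P ≤ N₀ := fun h => by
      have := Subgroup.card_le_of_le h
      omega
    obtain ⟨g, hg1, hg2⟩ := SetLike.not_le_iff_exists.1 this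
    obtain ⟨ψ, h1, h2⟩ := exists_irr_le_charKer_notMem N₀ hg2
    refine ⟨ψ, fun h => h2 (ψ.charDegree_eq_one_iff_commutator_le.1 h hg1), fun h => hN₀1 ?_⟩
    rwa [h, le_bot_iff] at h1
  obtain ⟨ψ, ⟨hψ1, hψ2⟩, hmin⟩ := Set.exists_min_image
    {ψ : IrrCharacter P | charDegree ψ.1 ≠ 1 ∧ charKer ψ.1 ≠ ⊥} (fun ψ => charDegree ψ.1)
    (Set.toFinite _) hex
  set N := charKer ψ.1 with hN
  have hND : N ≤ commutator P := hS.charKer_le ψ hψ1
  have hND' : N ≠ commutator P := fun h => hψ1 (ψ.charDegree_eq_one_iff_commutator_le.2 h.ge)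
  have hNc : Nat.card N = p := hsub N hND hψ2 hND'
  have hNZ : N ≤ Subgroup.center P := le_center_of_card_prime hP hNc
  have hDN : ∀ g ∈ commutator P, ∀ x : P, ⁅g, x⁆ ∈ N := by
    intro g hg x
    have h1 : Nat.card ((commutator P).map (QuotientGroup.mk' N)) = p := by
      have h2 := card_mul_relIndex hND
      rw [hNc, hD, sq] at h2
      rw [card_map_mk, Nat.eq_of_mul_eq_mul_left hp.out.pos h2]
    haveI : ((commutator P).map (QuotientGroup.mk' N)).Normal :=
      Subgroup.Normal.map inferInstance _ (QuotientGroup.mk'_surjective N)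
    have h2 := le_center_of_card_prime (hP.to_quotient N) h1 ⟨g, hg, rfl⟩
    rw [← QuotientGroup.eq_one_iff]
    show QuotientGroup.mk' N ⁅g, x⁆ = 1
    rw [map_commutatorElement, commutatorElement_eq_one_iff_mul_comm]
    exact (Subgroup.mem_center_iff.1 h2 _).symm
  have hψd := ψ.sq_charDegree_eq_index_of_commutator_le
    (fun g hg => ψ.mem_charCenter_iff_commutator.2 (hDN g hg))
  obtain ⟨χ, hχ⟩ := exists_irr_not_le_charKer hψ2
  have hχ1 : charDegree χ.1 ≠ 1 := fun h =>
    hχ (hND.trans (χ.charDegree_eq_one_iff_commutator_le.1 h))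
  have hlt2 : charDegree χ.1 < charDegree ψ.1 := by
    have h1 := χ.sq_charDegree_le_index_center.trans (index_center_le ψ hNc hNZ)
    rw [← hψd] at h1
    have h2 : charDegree χ.1 ≠ charDegree ψ.1 := fun h => hχ (hS χ ψ hχ1 h).ge
    obtain ⟨a, ha⟩ := exists_charDegree_eq_pow hP χ
    obtain ⟨b, hb⟩ := exists_charDegree_eq_pow hP ψ
    rw [ha, hb] at h1 h2 ⊢
    rw [← pow_mul, ← pow_mul, ← pow_succ', Nat.pow_le_pow_iff_right hp.out.one_lt] at h1
    rw [Nat.pow_lt_pow_iff_right hp.out.one_lt]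
    have : a ≠ b := fun h => h2 (by rw [h])
    omega
  have hfaith : charKer χ.1 = ⊥ := by
    by_contra h
    exact absurd (hmin χ ⟨hχ1, h⟩) (not_le.2 hlt2)
  obtain ⟨H, lam, hH⟩ := isMGroup_of_isPGroup hP χ.1 χ.2
  have hHi : charDegree χ.1 = H.index := by
    rw [hH, (isCharacter_unitsHom lam).charDegree_indFun]
    have := IrrCharacter.charDegree_ofHom lam
    rw [show charDegree (fun h : H => (lam h : ℂ)) = 1 from this, mul_one]
  set K := ⁅H, H⁆ with hK
  have hKH : K ≤ H := Subgroup.commutator_le_self H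
  have hKD : K ≤ commutator P := Subgroup.commutator_mono le_top le_top
  have hKmap : K = (commutator H).map H.subtype := by
    rw [commutator_def, Subgroup.map_commutator, ← MonoidHom.range_eq_map, Subgroup.range_subtype]
  have hKZ : K ⊓ Subgroup.center P = ⊥ := by
    rw [eq_bot_iff, ← hfaith]
    rintro z ⟨hz1, hz2⟩
    rw [IrrCharacter.mem_charKer, hH, indFun_apply_of_mem_center H _ hz2 (hKH hz1), indFun_one]
    rw [hKmap] at hz1
    obtain ⟨y, hy, rfl⟩ := hz1
    have := mem_commutator_iff_forall_unitsHom.1 hy lam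
    simp [this]
  have hKN : ¬ K ≤ N := by
    intro h
    obtain ⟨θ, hθ⟩ := ψ.exists_under H
    have h1 : charDegree θ.1 = 1 := by
      rw [θ.charDegree_eq_one_iff_commutator_le]
      refine le_trans ?_ ((ψ.isCharacter.res H).charKer_le_of_constituent θ hθ)
      rw [ψ.isCharacter.charKer_res]
      intro y hy
      exact h (hKmap ▸ ⟨y, hy, rfl⟩)
    have h2 := ψ.charDegree_le_index_mul θ.isCharacter hθ
    rw [h1, mul_one, ← hHi] at h2
    omega
  have hKN' : K ⊓ N = ⊥ := by
    rw [eq_bot_iff, ← hKZ]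
    exact inf_le_inf_left _ hNZ
  have hsup : N ⊔ K = commutator P := by
    by_contra h
    have h1 := hsub (N ⊔ K) (sup_le hND hKD) (fun h => hψ2 (by
      rw [eq_bot_iff, ← h]; exact le_sup_left)) h
    have h2 := Subgroup.eq_of_le_of_card_ge (le_sup_left : N ≤ N ⊔ K) (by rw [h1, hNc])
    exact hKN (h2 ▸ le_sup_right)
  have hDH : ⁅commutator P, H⁆ = ⊥ := by
    rw [Subgroup.commutator_eq_bot_iff_le_centralizer, ← hsup, sup_le_iff]
    refine ⟨hNZ.trans (Subgroup.center_le_centralizer _), ?_⟩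
    rw [← Subgroup.commutator_eq_bot_iff_le_centralizer, eq_bot_iff, ← hKN', le_inf_iff]
    refine ⟨Subgroup.commutator_mono hKH le_rfl, Subgroup.commutator_le.2 fun g hg x _ => ?_⟩
    exact hDN g (hKD hg) x
  have h3 : ⁅⁅H, H⁆, (⊤ : Subgroup P)⁆ = ⊥ := by
    refine Subgroup.commutator_commutator_eq_bot_of_rotate ?_ ?_ <;>
    · rw [eq_bot_iff, ← hDH]
      exact Subgroup.commutator_mono (Subgroup.commutator_mono le_top le_top) le_rfl
  rw [Subgroup.commutator_eq_bot_iff_le_centralizer, Subgroup.coe_top,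
    Subgroup.centralizer_univ] at h3
  apply hKN
  rw [← inf_eq_left.2 (show K ≤ _ from h3), hKZ]
  exact bot_le
end


/-- Let p be a prime and P a finite non-commutative p-group. Then every two irreducible characters of P of the same degree greater than 1 are Galois conjugate (one is obtained from the other by composing with g ↦ g^k for some k prime to the order of P) if and only if the centre of P is cyclic and the derived subgroup of P has order p. -/
theorem result {P : Type*} [Group P] [Finite P] (p : ℕ) [Fact p.Prime] (hP : IsPGroup p P) (hna : ¬ IsMulCommutative P) :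
    (∀ χ ψ : Cfsg.IrrCharacter P, Cfsg.charDegree (χ : P → ℂ) ≠ 1 → Cfsg.charDegree (χ : P → ℂ) = Cfsg.charDegree (ψ : P → ℂ) → ∃ k : ℕ, Nat.Coprime k (Nat.card P) ∧ ∀ g : P, (ψ : P → ℂ) g = (χ : P → ℂ) (g ^ k)) ↔
      (IsCyclic (Subgroup.center P) ∧ Nat.card (commutator P) = p) := by
  classical
  have hp : p.Prime := Fact.out
  have hD1 : commutator P ≠ ⊥ := fun h => hna ((commutator_eq_bot_iff P).1 h)
  constructor
  · intro h
    have hle : ∀ χ ψ : IrrCharacter P, charDegree χ.1 ≠ 1 → charDegree χ.1 = charDegree ψ.1 →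
        charKer χ.1 ≤ charKer ψ.1 := by
      intro χ ψ h1 h2 g hg
      obtain ⟨k, -, hk⟩ := h χ ψ h1 h2
      rw [IrrCharacter.mem_charKer, hk, hk, one_pow]
      exact χ.mem_charKer.1 ((charKer χ.1).pow_mem hg k)
    have hS : SameKer P := fun χ ψ h1 h2 =>
      le_antisymm (hle χ ψ h1 h2) (hle ψ χ (h2 ▸ h1) h2.symm)
    have hD : Nat.card (commutator P) = p :=
      le_antisymm (card_commutator_le P hP hS) (Nat.le_of_dvd Nat.card_pos
        (dvd_card_of_isPGroup_of_ne_bot (hP.to_subgroup _) hD1))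
    refine ⟨?_, hD⟩
    obtain ⟨χ, hχ⟩ := exists_irr_not_le_charKer hD1
    have h1 : charDegree χ.1 ≠ 1 := fun h => hχ (χ.charDegree_eq_one_iff_commutator_le.1 h)
    rcases eq_of_lt_of_card_prime hp hD (hS.charKer_le χ h1) with h2 | h2
    · exact χ.isCyclic_center_of_faithful h2
    · exact absurd h2.ge hχ
  · rintro ⟨hc, hD⟩ χ ψ h1 h2
    have hDZ : commutator P ≤ Subgroup.center P := le_center_of_card_prime hP hD
    have hfaith : ∀ χ : IrrCharacter P, charDegree χ.1 ≠ 1 → charKer χ.1 = ⊥ := by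
      intro χ h1
      by_contra h
      have h3 := inf_center_ne_bot_of_isNilpotent hP.isNilpotent h
      obtain ⟨x, ⟨hx1, hx2⟩, hx⟩ := exists_orderOf_eq_prime_of_dvd_card
        (dvd_card_of_isPGroup_of_ne_bot (hP.to_subgroup _) h3)
      apply h1
      rw [χ.charDegree_eq_one_iff_commutator_le]
      have h4 : (Subgroup.zpowers x).subgroupOf (Subgroup.center P) =
          (commutator P).subgroupOf (Subgroup.center P) := by
        have hz : Subgroup.zpowers x ≤ Subgroup.center P := Subgroup.zpowers_le.2 hx2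
        apply eq_of_card_eq_of_isCyclic
        rw [card_subgroupOf_of_le hz, card_subgroupOf_of_le hDZ, Nat.card_zpowers, hx, hD]
      intro g hg
      have : (⟨g, hDZ hg⟩ : Subgroup.center P) ∈
          (Subgroup.zpowers x).subgroupOf (Subgroup.center P) := by rw [h4]; exact hg
      exact (Subgroup.zpowers_le.2 hx1) this
    have hvan : ∀ χ : IrrCharacter P, charDegree χ.1 ≠ 1 → ∀ g, g ∉ Subgroup.center P →
        χ.1 g = 0 := by
      intro χ h1
      have h3 := χ.charCenter_eq_center_of_faithful (hfaith χ h1)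
      rw [← h3, ← χ.sq_charDegree_eq_index_iff]
      exact χ.sq_charDegree_eq_index_of_commutator_le (h3 ▸ hDZ)
    have hhom : ∀ χ : IrrCharacter P, charDegree χ.1 ≠ 1 → ∃ l : Subgroup.center P →* ℂˣ,
        (∀ z : Subgroup.center P, χ.1 z = χ.1 1 * l z) ∧ Function.Injective l := by
      intro χ h1
      obtain ⟨l, -, h3, h4⟩ := χ.isCharacter.exists_hom_of_le_charCenter
        (fun h => χ.one_ne_zero (congrFun h 1)) χ.center_le_charCenter
      refine ⟨l, h3, ?_⟩
      rw [← MonoidHom.ker_eq_bot_iff, h4, hfaith χ h1, Subgroup.bot_subgroupOf]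
    obtain ⟨l, hl, hl'⟩ := hhom χ h1
    obtain ⟨m, hm, hm'⟩ := hhom ψ (h2 ▸ h1)
    obtain ⟨z, hz⟩ := IsCyclic.exists_generator (α := Subgroup.center P)
    have hzo := orderOf_eq_card_of_forall_mem_zpowers hz
    have e1 : IsPrimitiveRoot (l z) (orderOf z) := by
      rw [← orderOf_injective l hl' z]; exact IsPrimitiveRoot.orderOf _
    have e2 : IsPrimitiveRoot (m z) (orderOf z) := by
      rw [← orderOf_injective m hm' z]; exact IsPrimitiveRoot.orderOf _
    haveI : NeZero (orderOf z) := ⟨(orderOf_pos z).ne'⟩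
    obtain ⟨k, -, hk1, hk2⟩ := (IsPrimitiveRoot.coe_units_iff.2 e1).isPrimitiveRoot_iff.1
      (IsPrimitiveRoot.coe_units_iff.2 e2)
    have hkP : k.Coprime (Nat.card P) := by
      obtain ⟨n, hn⟩ := hP.exists_card_eq
      rw [hn]
      refine Nat.Coprime.pow_right _ (hk1.coprime_dvd_right ?_)
      rw [hzo, ← hD]
      exact Subgroup.card_dvd_of_le hDZ
    refine ⟨k, hkP, fun g => ?_⟩
    by_cases hg : g ∈ Subgroup.center P
    · have e3 := hm ⟨g, hg⟩
      have e4 := hl (⟨g, hg⟩ ^ k)
      simp only [SubgroupClass.coe_pow] at e3 e4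
      rw [e3, e4, χ.one_eq_charDegree, ψ.one_eq_charDegree, h2]
      congr 2
      obtain ⟨j, hj⟩ := hz ⟨g, hg⟩
      have e5 : l z ^ k = m z := Units.ext (by simpa using hk2)
      rw [← hj, map_pow, map_zpow, map_zpow, ← e5, ← zpow_natCast, ← zpow_natCast, ← zpow_mul,
        ← zpow_mul, mul_comm]
    · rw [hvan ψ (h2 ▸ h1) g hg, hvan χ h1]
      intro h
      obtain ⟨j, hj⟩ := exists_pow_eq_self_of_coprime (x := g) (n := k)
        (hkP.coprime_dvd_right (orderOf_dvd_natCard g))
      exact hg (hj ▸ (Subgroup.center P).pow_mem h j)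

end Cfsg.Agent.S4845
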