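import Cfsg.Statements.S4848
import Cfsg.Agent.CT.NonVan
import Cfsg.Agent.Grp.Frobenius

set_option autoImplicit false
open Cfsg

namespace Cfsg.Agent.S4848


/-- Let p be a prime and G a finite non-commutative group in which every vanishing element (an element at which some irreducible character is zero) has order a positive power of p. Then either G is a p-group, or the centre of G equals O_p(G) and G/Z(G) is a Frobenius group with a Frobenius complement of p-power order. -/
theorem result {G : Type*} [Group G] [Finite G] (hna : ¬ IsMulCommutative G) (p : ℕ) [Fact p.Prime] (hvan : ∀ g : G, (∃ χ : Cfsg.IrrCharacter G, (χ : G → ℂ) g = 0) → ∃ m : ℕ, 1 ≤ m ∧ orderOf g = p ^ m) :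
    IsPGroup p G ∨ (Subgroup.center G = Cfsg.pCore p G ∧ ∃ H : Subgroup (G ⧸ Subgroup.center G), Cfsg.IsFrobeniusComplement H ∧ IsPGroup p H) := by
  classical
  have hp : p.Prime := Fact.out
  have hnc : HasNormalPComplement p G := hasNormalPComplement_of_dvd_charDegree fun χ hχ => by
    obtain ⟨g, hg⟩ := χ.exists_eq_zero hχ
    obtain ⟨m, -, hm⟩ := hvan g ⟨χ, hg⟩
    exact χ.isCharacter.dvd_charDegree_of_eq_zero hp (hm ▸ pow_orderOf_eq_one g) hg
  obtain ⟨P⟩ : Nonempty (Sylow p G) := inferInstance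
  have hc := hnc.isComplement' P
  set K := pPrimeCore p G with hK
  have hmul : ∀ g : G, ∃ k ∈ K, ∃ y ∈ (P : Subgroup G), k * y = g := fun g => by
    obtain ⟨⟨k, y⟩, h⟩ := hc.2 g
    exact ⟨k, k.2, y, y.2, h⟩
  have hKP : ∀ g ∈ K, g ∈ (P : Subgroup G) → g = 1 := fun g h1 h2 =>
    Subgroup.disjoint_def.1 hc.disjoint h1 h2
  have key : ∀ y ∈ (P : Subgroup G), ∀ c ∈ K, c ≠ 1 → y * c = c * y →
      y ∈ Subgroup.center G := by
    intro y hy c hc hc1 hyc
    have hyo := exists_orderOf_eq_pow_of_mem P.isPGroup' hy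
    have hnv : ∀ χ : IrrCharacter G, χ.1 (y * c) ≠ 0 := fun χ h0 => by
      obtain ⟨m, -, hm⟩ := hvan _ ⟨χ, h0⟩
      have h1 := pRegPart_mul_of_commute (p := p) hyc hyo (not_dvd_orderOf_of_mem_pPrimeCore hc)
      exact hc1 (h1.symm.trans (pRegPart_eq_one_iff.2 ⟨m, hm⟩))
    have h1 : ((y * c : G) : G ⧸ K) ∈ Subgroup.center (G ⧸ K) :=
      mem_center_of_nonvanishing_of_isNilpotent
        (hasNormalPComplement_iff_isPGroup_quotient.1 hnc).isNilpotent
        fun ψ => hnv (ψ.inflate K)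
    have h2 : ∀ x : G, x * y * x⁻¹ * y⁻¹ ∈ K := fun x => by
      rw [QuotientGroup.mk_mul, (QuotientGroup.eq_one_iff c).2 hc, mul_one] at h1
      rw [← QuotientGroup.eq_one_iff]
      simp [Subgroup.mem_center_iff.1 h1 (x : G ⧸ K)]
    have h3 : y ∈ Subgroup.centralizer (K : Set G) := by
      refine mem_centralizer_of_forall_mem_charInertia_of_coprime ?_ fun θ => ?_
      · obtain ⟨m, hm⟩ := hyo
        rw [hm]
        exact (coprime_card_pPrimeCore p).pow_right m
      · obtain ⟨x, hx⟩ := exists_conj_mem_charInertia_of_nonvanishing hnv θ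
        have h4 : x * y * x⁻¹ * y⁻¹ * (y * (x * c * x⁻¹) * y⁻¹) ∈ K :=
          K.mul_mem (h2 x) ((inferInstance : K.Normal).conj_mem _
            ((inferInstance : K.Normal).conj_mem _ hc x) y)
        have h5 := (charInertia θ.1).mul_mem ((charInertia θ.1).inv_mem (θ.le_charInertia h4)) hx
        convert h5 using 1
        group
    rw [Subgroup.mem_center_iff]
    intro g
    obtain ⟨k, hk, u, hu, rfl⟩ := hmul g
    have h4 := hKP _ (h2 u) ((P : Subgroup G).mul_mem ((P : Subgroup G).mul_mem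
      ((P : Subgroup G).mul_mem hu hy) ((P : Subgroup G).inv_mem hu)) ((P : Subgroup G).inv_mem hy))
    have h5 : u * y = y * u := by
      rw [mul_inv_eq_one, mul_inv_eq_iff_eq_mul] at h4
      exact h4
    rw [mul_assoc, h5, ← mul_assoc, h3 k hk, mul_assoc]
  have hPZ : ¬ (P : Subgroup G) ≤ Subgroup.center G := by
    intro h
    obtain ⟨χ, hχ⟩ : ∃ χ : IrrCharacter G, charDegree χ.1 ≠ 1 := by
      by_contra h1
      push Not at h1
      exact hna ((commutator_eq_bot_iff G).1 (le_bot_iff.1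
        (commutator_le_of_forall_charDegree_eq_one (N := ⊥) fun χ _ => h1 χ)))
    obtain ⟨g, hg⟩ := χ.exists_eq_zero hχ
    obtain ⟨m, -, hm⟩ := hvan g ⟨χ, hg⟩
    obtain ⟨x, hx⟩ := exists_conj_mem_sylow P ⟨m, hm⟩
    have h1 := χ.mem_charCenter.1 (χ.center_le_charCenter (h hx))
    rw [χ.isClassFunction g x, hg, norm_zero] at h1
    exact χ.charDegree_pos.ne (by exact_mod_cast h1)
  by_cases hK1 : K = ⊥
  · left
    have h1 : (P : Subgroup G) = ⊤ := by
      rw [eq_top_iff]
      intro g _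
      obtain ⟨k, hk, u, hu, rfl⟩ := hmul g
      rw [hK1, Subgroup.mem_bot] at hk
      rwa [hk, one_mul]
    exact (h1 ▸ P.isPGroup').of_equiv Subgroup.topEquiv
  right
  obtain ⟨c, hc, hc1⟩ := (Subgroup.bot_or_exists_ne_one K).resolve_left hK1
  have hZK : ∀ z ∈ Subgroup.center G, z ∈ K → z = 1 := fun z hz hzK => by
    by_contra h
    exact hPZ fun y hy => key y hy z hzK h (Subgroup.mem_center_iff.1 hz y)
  have hZ : IsPGroup p (Subgroup.center G) := fun z => by
    obtain ⟨m, hm⟩ := pRegPart_eq_one_iff.1 (hZK _ (pRegPart_mem p z.2)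
      (hasNormalPComplement_iff_forall_mem_pPrimeCore.1 hnc _ (not_dvd_orderOf_pRegPart _)))
    exact ⟨m, Subtype.ext (by simpa [← hm] using pow_orderOf_eq_one (z : G))⟩
  have hZP : Subgroup.center G ≤ P := (le_pCore inferInstance hZ).trans (pCore_le_sylow P)
  refine ⟨le_antisymm (le_pCore inferInstance hZ) fun y hy => key y (pCore_le_sylow P hy) c hc hc1
    (pPrimeCore_le_centralizer_pCore p hc y hy), (P : Subgroup G).map (QuotientGroup.mk' _),
    ?_, P.isPGroup'.map _⟩
  haveI : (K.map (QuotientGroup.mk' (Subgroup.center G))).Normal :=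
    Subgroup.Normal.map inferInstance _ (QuotientGroup.mk'_surjective _)
  refine isFrobeniusComplement_of_isComplement' (N := K.map (QuotientGroup.mk' _)) ?_ ?_ ?_ ?_
  · refine Subgroup.isComplement'_of_disjoint_and_mul_eq_univ ?_ ?_
    · rw [Subgroup.disjoint_def]
      rintro _ ⟨k, hk, rfl⟩ ⟨u, hu, h⟩
      have h1 : u⁻¹ * k ∈ Subgroup.center G := QuotientGroup.eq.1 h
      have h2 : k ∈ (P : Subgroup G) := by
        simpa using (P : Subgroup G).mul_mem hu (hZP h1)
      rw [hKP k hk h2, map_one]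
    · rw [Set.eq_univ_iff_forall]
      intro x
      obtain ⟨g, rfl⟩ := QuotientGroup.mk_surjective x
      obtain ⟨k, hk, u, hu, rfl⟩ := hmul g
      exact ⟨_, ⟨k, hk, rfl⟩, _, ⟨u, hu, rfl⟩, rfl⟩
  · intro h
    rw [Subgroup.map_eq_bot_iff, QuotientGroup.ker_mk'] at h
    exact hc1 (hZK c (h hc) hc)
  · intro h
    rw [Subgroup.map_eq_bot_iff, QuotientGroup.ker_mk'] at h
    exact hPZ h
  · rintro _ ⟨a, ha, rfl⟩ ha1 _ ⟨n, hn, rfl⟩ h
    by_contra hn1
    have h1 : (a * n)⁻¹ * (n * a) ∈ Subgroup.center G := QuotientGroup.eq.1 h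
    have h2 : (a * n)⁻¹ * (n * a) ∈ K := by
      have := K.mul_mem (K.inv_mem hn) ((inferInstance : K.Normal).conj_mem' _ hn a)
      convert this using 1
      group
    have h3 := key a ha n hn (fun h => hn1 (by rw [h, map_one])) (inv_mul_eq_one.1 (hZK _ h1 h2))
    exact ha1 ((QuotientGroup.eq_one_iff a).2 h3)

end Cfsg.Agent.S4848
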