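import Cfsg.Statements.S4850
import Cfsg.Agent.CT.VanOrbit
-- import your own Cfsg.Agent.* helpers here

set_option autoImplicit false
open Cfsg

namespace Cfsg.Agent.S4850

open scoped commutatorElement

universe u v

section aux

variable {G : Type u} [Group G] [Finite G] {p : ℕ} [hp : Fact p.Prime]

def Van (g : G) : Prop := ∃ χ : IrrCharacter G, χ.1 g = 0

theorem Van.of_mk {N : Subgroup G} [N.Normal] {g : G} (h : Van (g : G ⧸ N)) : Van g :=
  let ⟨χ, hχ⟩ := h
  ⟨χ.inflate N, hχ⟩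

def Good (p : ℕ) (N : Subgroup G) : Prop :=
  ∀ M : Subgroup G, M.Normal → ⁅M, M⁆ ≤ N → ∀ k : ℕ, (∀ x ∈ M, x ^ p ^ k ∈ N) →
    ∀ x ∈ M, x ∉ N → Van x

theorem exists_good (hs : Group.IsSolvable G) (n : ℕ) : ∀ (K : Subgroup G) [K.Normal],
    K.index = n → pCore p (G ⧸ K) = ⊥ → p ∣ K.index →
    ∃ (N : Subgroup G) (_ : N.Normal), K < N ∧ ¬ p ∣ K.relIndex N ∧ Good p N ∧
      pCore p (G ⧸ N) ≠ ⊥ := by
  induction n using Nat.strong_induction_on with
  | _ n ih =>
  intro K _ hn hK hd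
  have : Nontrivial (G ⧸ K) := Finite.one_lt_card_iff_nontrivial.1
    (lt_of_lt_of_le hp.out.one_lt (Nat.le_of_dvd Nat.card_pos hd))
  have hsK : Group.IsSolvable (G ⧸ K) := inferInstance
  set F := fittingSubgroup (G ⧸ K) with hF
  have hF1 : ¬ p ∣ Nat.card F := fun h => by
    obtain ⟨g, hg, hg'⟩ := exists_orderOf_eq_prime_of_dvd_card h
    have h1 := mem_pCore_of_mem_fittingSubgroup (p := p) hg ⟨1, by rw [hg', pow_one]⟩
    rw [hK, Subgroup.mem_bot] at h1
    rw [h1, orderOf_one] at hg'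
    exact hp.out.one_lt.ne hg'
  set N := F.comap (QuotientGroup.mk' K) with hN
  have hKN : K < N := lt_of_le_of_ne (le_comap_mk K F) fun h => fittingSubgroup_ne_bot hsK (by
    rw [← hF, ← map_comap_mk K F, ← hN, ← h, map_mk_eq_bot_iff])
  have hrel : ¬ p ∣ K.relIndex N := by rwa [hN, relIndex_comap_mk]
  have hgood : Good p N := fun M hM hc k hk x hx hxN => by
    have : (M.map (QuotientGroup.mk' K)).Normal := hM.map _ (QuotientGroup.mk'_surjective K)
    refine Van.of_mk (N := K) (exists_eq_zero_of_comm_over_nilpotent (p := p) (F := F)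
      (M := M.map (QuotientGroup.mk' K)) (isNilpotent_fittingSubgroup _) hF1
      (inf_le_right.trans (centralizer_fittingSubgroup_le hsK)) ?_ (k := k) ?_ ⟨x, hx, rfl⟩ hxN)
    · rw [← Subgroup.map_commutator, Subgroup.map_le_iff_le_comap]
      exact hc
    · rintro _ ⟨y, hy, rfl⟩
      exact hk y hy
  by_cases h : pCore p (G ⧸ N) = ⊥
  · have h1 := Subgroup.relIndex_mul_index hKN.le
    have h2 : p ∣ N.index := ((hp.out.dvd_mul).1 (h1 ▸ hd)).resolve_left hrel
    obtain ⟨N', hN', h3, h4, h5, h6⟩ := ih N.index (hn ▸ Subgroup.index_strictAnti hKN) N rfl h h2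
    refine ⟨N', hN', hKN.trans h3, fun h7 => ?_, h5, h6⟩
    rw [← Subgroup.relIndex_mul_relIndex K N N' hKN.le h3.le] at h7
    exact ((hp.out.dvd_mul).1 h7).elim hrel h4
  · exact ⟨N, inferInstance, hKN, hrel, hgood, h⟩

theorem exists_sub {L : Subgroup G} [L.Normal] (hL : IsPGroup p L) (hL1 : L ≠ ⊥) (V : G → Prop)
    (h1 : ∀ x, Van x → V x)
    (h2 : ∀ M : Subgroup G, M.Normal → M ≤ L → IsMulCommutative M → ∀ x ∈ M, x ≠ 1 → V x) :
    ∃ T : Subgroup G, T.Normal ∧ T ≤ L ∧ (∀ x ∈ T, x ≠ 1 → V x) ∧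
      (p ^ 2 ∣ Nat.card T ∨ T = L) := by
  obtain ⟨M, hM, hML⟩ := exists_isMinNormal_le (inferInstance : L.Normal) hL1
  have := hM.1
  have hMp : IsPGroup p M := hL.to_le hML
  have hMc : IsMulCommutative M := (hM.isElementaryAbelian_of_isPGroup hMp).1
  by_cases h3 : p ^ 2 ∣ Nat.card M ∨ M = L
  · exact ⟨M, hM.1, hML, h2 M hM.1 hML hMc, h3⟩
  push Not at h3
  have hMcard : Nat.card M = p := by
    obtain ⟨k, hk⟩ := IsPGroup.iff_card.1 hMp
    have h4 := dvd_card_of_isPGroup_of_ne_bot hMp hM.2.1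
    rw [hk] at h3 h4 ⊢
    rcases k with _ | _ | k
    · exact absurd (Nat.le_of_dvd one_pos h4) hp.out.one_lt.not_ge
    · simp
    · exact absurd (pow_dvd_pow p (by omega)) h3.1
  obtain ⟨T, hT, hMT, hTL, hc⟩ := exists_chiefFactor_above hM.1 inferInstance
    (lt_of_le_of_ne hML h3.2)
  have hTp : IsPGroup p T := hL.to_le hTL
  have hTcard : p ^ 2 ∣ Nat.card T := by
    obtain ⟨k, hk⟩ := IsPGroup.iff_card.1 hTp
    have h4 := card_lt_of_lt hMT
    rw [hk, hMcard] at *
    exact pow_dvd_pow p (by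
      have := (Nat.pow_lt_pow_iff_right hp.out.one_lt).1 (show p ^ 1 < p ^ k by simpa using h4)
      omega)
  refine ⟨T, hT, hTL, ?_, Or.inl hTcard⟩
  by_cases h4 : IsMulCommutative T
  · exact h2 T hT hTL h4
  intro x hx hx1
  by_cases hxM : x ∈ M
  · exact h2 M hM.1 hML hMc x hxM hx1
  have h5 : M ≤ Subgroup.centralizer (T : Set G) := by
    have h6 := inf_centralizer_ne_bot_of_isPGroup hTp hMp Subgroup.le_normalizer_of_normal hM.2.1
    exact inf_eq_left.1 ((hM.2.2 _ inferInstance inf_le_left).resolve_left h6)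
  have h6 : T ⊓ Subgroup.centralizer (T : Set G) = M :=
    (hc _ inferInstance (le_inf hMT.le h5) inf_le_left).resolve_right fun h =>
      h4 (Subgroup.le_centralizer_iff_isMulCommutative.1 (inf_eq_left.1 h))
  have h7 : ⁅T, T⁆ ≤ M := by
    have h8 := ((isMinNormal_map_mk_of_chief hT hMT hc).isElementaryAbelian_of_isPGroup
      (hTp.map _)).1
    rw [← map_mk_eq_bot_iff, Subgroup.map_commutator, Subgroup.commutator_eq_bot_iff_le_centralizer]
    exact Subgroup.le_centralizer_iff_isMulCommutative.2 h8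
  obtain ⟨y, hy, hxy⟩ : ∃ y ∈ T, ¬ y * x = x * y := by
    by_contra h
    push Not at h
    exact hxM (h6 ▸ ⟨hx, h⟩)
  have hz : ⁅x⁻¹, y⁆ ∈ M := h7 (Subgroup.commutator_mem_commutator (T.inv_mem hx) hy)
  set z := ⁅x⁻¹, y⁆ with hzd
  have hz1 : z ≠ 1 := fun h => hxy (by
    rw [hzd, commutatorElement_eq_one_iff_commute] at h
    exact (Commute.inv_left_iff.1 h).eq.symm)
  have h8 : ∀ i : ℕ, y ^ i * x * (y ^ i)⁻¹ = x * z ^ i := fun i => by
    induction i with
    | zero => simp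
    | succ i ih =>
      have h9 : y * z ^ i = z ^ i * y := h5 (M.pow_mem hz i) y hy
      calc y ^ (i + 1) * x * (y ^ (i + 1))⁻¹ = y * (y ^ i * x * (y ^ i)⁻¹) * y⁻¹ := by group
        _ = y * x * y⁻¹ * (y * z ^ i) * y⁻¹ := by rw [ih]; group
        _ = x * z ^ (i + 1) := by
          rw [h9, pow_succ']
          generalize z ^ i = w
          rw [hzd, commutatorElement_def]
          group
  refine h1 x (exists_eq_zero_of_forall_isConj_mul hM.2.1 fun m hm => ?_)
  have h9 : Subgroup.zpowers z = M := by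
    refine Subgroup.eq_of_le_of_card_ge (Subgroup.zpowers_le.2 hz) ?_
    rw [hMcard, Nat.card_zpowers]
    have h10 := Subgroup.orderOf_dvd_natCard M hz
    rw [hMcard] at h10
    exact ((Nat.dvd_prime hp.out).1 h10).elim (fun h => absurd (orderOf_eq_one_iff.1 h) hz1) ge_of_eq
  obtain ⟨i, rfl⟩ := mem_powers_iff_mem_zpowers.2 (h9 ▸ hm : m ∈ Subgroup.zpowers z)
  exact isConj_iff.2 ⟨_, h8 i⟩

theorem final {O N T : Subgroup G} [O.Normal] [N.Normal] (hON : O < N)
    (hN : ¬ p ∣ O.relIndex N) (hNT : N ≤ T) (hT : p ^ 2 ∣ O.relIndex T) {b : ℕ}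
    (h : ∀ x ∈ T, x ^ p ^ 2 ∈ N → x ∉ N → orderOf x = b) : False := by
  rw [← card_map_mk] at hN hT
  obtain ⟨A', hA'⟩ := Sylow.exists_subgroup_card_pow_prime p hT
  set A := A'.map (T.map (QuotientGroup.mk' O)).subtype with hA
  have hAT : A ≤ T.map (QuotientGroup.mk' O) := Subgroup.map_subtype_le _
  have hAc : Nat.card A = p ^ 2 := (card_map_subtype _).trans hA'
  have hAp : IsPGroup p A := IsPGroup.of_card hAc
  have hNn : (N.map (QuotientGroup.mk' O)).Normal :=
    Subgroup.Normal.map inferInstance _ (QuotientGroup.mk'_surjective O)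
  have hmem : ∀ {K : Subgroup G}, O ≤ K → ∀ x : G,
      (x : G ⧸ O) ∈ K.map (QuotientGroup.mk' O) ↔ x ∈ K := fun {K} hK x => by
    change x ∈ (K.map (QuotientGroup.mk' O)).comap (QuotientGroup.mk' O) ↔ _
    rw [comap_map_mk, sup_eq_left.2 hK]
  have hd : ∀ a ∈ A, a ∈ N.map (QuotientGroup.mk' O) → a = 1 := fun a ha ha' =>
    (inf_eq_bot_of_coprime_card (coprime_card_of_isPGroup hAp hN)).le ⟨ha, ha'⟩
  have key : ∀ a ∈ A, a ≠ 1 → ∀ n ∈ N.map (QuotientGroup.mk' O), a * n = n * a → ∀ x : G,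
      (x : G ⧸ O) = a * n → orderOf x = b := fun a ha ha1 n hn hc x hx => by
    refine h x ((hmem (hON.le.trans hNT) x).1 (hx ▸ Subgroup.mul_mem _ (hAT ha)
      (Subgroup.map_mono hNT hn))) ((hmem hON.le _).1 ?_) fun hx' => ha1 (hd a ha ?_)
    · have h1 : a ^ p ^ 2 = 1 := by
        rw [← hAc]
        exact congrArg Subtype.val (pow_card_eq_one' (x := (⟨a, ha⟩ : A)))
      rw [QuotientGroup.mk_pow, hx, (show Commute a n from hc).mul_pow, h1, one_mul]
      exact Subgroup.pow_mem _ hn _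
    · have h1 := Subgroup.mul_mem _ ((hmem hON.le x).2 hx') (Subgroup.inv_mem _ hn)
      rwa [hx, mul_inv_cancel_right] at h1
  have lift : ∀ a ∈ A, a ≠ 1 → ∃ x : G, (x : G ⧸ O) = a ∧ ∃ k, b = p ^ k := fun a ha ha1 => by
    obtain ⟨x, ⟨k, hk⟩, hx⟩ := exists_pElement_lift (QuotientGroup.mk' O)
      (QuotientGroup.mk'_surjective O) (exists_orderOf_eq_pow_of_mem hAp ha)
    exact ⟨x, hx, k, (key a ha ha1 1 (Subgroup.one_mem _) (by simp) x (by simpa using hx)).symm.trans hk⟩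
  have hcyc : IsCyclic A := by
    refine isCyclic_of_fixedPointFree_of_comm (N := N.map (QuotientGroup.mk' O))
      Subgroup.le_normalizer_of_normal (fun h1 => hON.not_ge (map_mk_eq_bot_iff.1 h1))
      (fun a ha ha1 n hn hc => ?_) (IsPGroup.isMulCommutative_of_card_eq_prime_sq hAc)
    obtain ⟨-, -, k, hk⟩ := lift a ha ha1
    obtain ⟨x, hx⟩ := QuotientGroup.mk_surjective (a * n)
    have h1 := key a ha ha1 n hn hc x hx
    have h2 : orderOf (a * n) ∣ p ^ k := by
      rw [← hx, ← hk, ← h1]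
      exact orderOf_map_dvd (QuotientGroup.mk' O) x
    obtain ⟨j, -, hj⟩ := (Nat.dvd_prime_pow hp.out).1 h2
    rw [← pRegPart_mul_of_commute (p := p) hc (exists_orderOf_eq_pow_of_mem hAp ha)
      (not_dvd_card_iff_forall_orderOf.1 hN n hn)]
    exact pRegPart_eq_one_iff.2 ⟨j, hj⟩
  obtain ⟨a, ha⟩ := IsCyclic.exists_ofOrder_eq_natCard (α := A)
  have h1 : (a : G ⧸ O) ^ p ≠ 1 := fun h1 => by
    have h2 := orderOf_dvd_of_pow_eq_one (show a ^ p = 1 from Subtype.ext h1)
    rw [ha, hAc] at h2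
    have := Nat.le_of_dvd hp.out.pos h2
    have := hp.out.one_lt
    nlinarith
  have h2 : (a : G ⧸ O) ≠ 1 := fun h2 => h1 (by rw [h2, one_pow])
  obtain ⟨x, hx, k, hk⟩ := lift a a.2 h2
  have h3 := key a a.2 h2 1 (Subgroup.one_mem _) (by simp) x (by simpa using hx)
  have h4 := key _ (A.pow_mem a.2 p) h1 1 (Subgroup.one_mem _) (by simp) (x ^ p) (by simp [hx])
  rw [orderOf_pow, h3, hk] at h4
  rcases k with _ | k
  · rw [hk, pow_zero, orderOf_eq_one_iff] at h3
    exact h2 (by rw [← hx, h3, QuotientGroup.mk_one])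
  · rw [Nat.gcd_eq_right (dvd_pow_self p (by omega)), pow_succ, Nat.mul_div_cancel _ hp.out.pos] at h4
    have := hp.out.one_lt
    have := pow_pos hp.out.pos k
    nlinarith

theorem not_sq_dvd (hs : Group.IsSolvable G) {b : ℕ}
    (hb : ∀ x : G, p ∣ orderOf x → Van x → orderOf x = b) : ¬ p ^ 2 ∣ (pCore p G).index := by
  intro hd
  obtain ⟨N, hN, hON, hN1, hgood, hL1⟩ := exists_good hs _ (pCore p G) rfl (pCore_quotient_pCore p)
    ((dvd_pow_self p two_ne_zero).trans hd)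
  have hfin : ∀ T : Subgroup G, N ≤ T → p ^ 2 ∣ N.relIndex T →
      (∀ x ∈ T, x ^ p ^ 2 ∈ N → x ∉ N → Van x) → False := fun T h1 h2 h3 => by
    refine final hON hN1 h1 (h2.trans ?_) (b := b) fun x hx hx1 hx2 => hb x ?_ (h3 x hx hx1 hx2)
    · exact Subgroup.relIndex_dvd_of_le_left T hON.le
    · by_contra h4
      refine hx2 ((QuotientGroup.eq_one_iff x).1 ?_)
      have h5 := pow_gcd_eq_one.2 ⟨show (x : G ⧸ N) ^ orderOf x = 1 by
        rw [← QuotientGroup.mk_pow, pow_orderOf_eq_one, QuotientGroup.mk_one],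
        show (x : G ⧸ N) ^ p ^ 2 = 1 from (QuotientGroup.eq_one_iff _).2 hx1⟩
      rwa [((hp.out.coprime_iff_not_dvd.2 h4).symm.pow_right 2).gcd_eq_one, pow_one] at h5
  obtain ⟨T, hT, hTL, hV, h⟩ := exists_sub (isPGroup_pCore p (G ⧸ N)) hL1
    (fun y => ∀ x : G, (x : G ⧸ N) = y → Van x) (fun y hy x hx => Van.of_mk (hx ▸ hy))
    (fun M hM hML hc y hy hy1 x hx => by
      obtain ⟨k, hk⟩ := IsPGroup.iff_card.1 ((isPGroup_pCore p (G ⧸ N)).to_le hML)
      refine hgood (M.comap (QuotientGroup.mk' N)) inferInstance ?_ k (fun z hz => ?_) x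
        (hx ▸ hy : (x : G ⧸ N) ∈ M) fun h => hy1 (hx ▸ (QuotientGroup.eq_one_iff x).2 h)
      · rw [← map_mk_eq_bot_iff, Subgroup.map_commutator, map_comap_mk,
          Subgroup.commutator_eq_bot_iff_le_centralizer]
        exact Subgroup.le_centralizer_iff_isMulCommutative.2 hc
      · rw [← QuotientGroup.eq_one_iff, QuotientGroup.mk_pow, ← hk]
        exact congrArg Subtype.val (pow_card_eq_one' (x := (⟨z, hz⟩ : M))))
  have hV' : ∀ x ∈ T.comap (QuotientGroup.mk' N), x ∉ N → Van x := fun x hx hx1 =>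
    hV x hx (fun h => hx1 ((QuotientGroup.eq_one_iff x).1 h)) x rfl
  by_cases h2 : p ^ 2 ∣ Nat.card T
  · exact hfin _ (le_comap_mk N T) (by rwa [relIndex_comap_mk]) fun x hx _ => hV' x hx
  obtain rfl := h.resolve_left h2
  set L := (pCore p (G ⧸ N)).comap (QuotientGroup.mk' N) with hL
  have hNL : N ≤ L := le_comap_mk _ _
  have hpL : p ∣ N.relIndex L := by
    rw [hL, relIndex_comap_mk]
    exact dvd_card_of_isPGroup_of_ne_bot (isPGroup_pCore _ _) hL1
  have h3 : p ∣ L.index := by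
    by_contra h3
    rw [← Subgroup.relIndex_mul_index hON.le, ← Subgroup.relIndex_mul_index hNL] at hd
    have h4 := ((hp.out.coprime_iff_not_dvd.2 h3).pow_left 2).dvd_of_dvd_mul_right
      (((hp.out.coprime_iff_not_dvd.2 hN1).pow_left 2).dvd_of_dvd_mul_left hd)
    rw [hL, relIndex_comap_mk] at h4
    exact h2 h4
  have h4 : pCore p (G ⧸ L) = ⊥ := by
    let e := (QuotientGroup.quotientQuotientEquivQuotient N L hNL).symm.trans
      (QuotientGroup.quotientMulEquivOfEq (map_comap_mk N (pCore p (G ⧸ N))))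
    rw [← map_pCore_equiv p e.symm, pCore_quotient_pCore, Subgroup.map_bot]
  obtain ⟨N₂, hN₂, hLN, hN₂1, hgood₂, hL₂⟩ := exists_good hs _ L rfl h4 h3
  obtain ⟨M, hM, hML⟩ := exists_isMinNormal_le (inferInstance : (pCore p (G ⧸ N₂)).Normal) hL₂
  have := hM.1
  have hMp : IsPGroup p M := (isPGroup_pCore _ _).to_le hML
  have hMe := hM.isElementaryAbelian_of_isPGroup hMp
  have hN₂M := le_comap_mk N₂ M
  refine hfin (M.comap (QuotientGroup.mk' N₂)) (hNL.trans (hLN.le.trans hN₂M)) ?_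
    fun x hx hx1 hx2 => ?_
  · rw [← Subgroup.relIndex_mul_relIndex N L _ hNL (hLN.le.trans hN₂M),
      ← Subgroup.relIndex_mul_relIndex L N₂ _ hLN.le hN₂M, relIndex_comap_mk N₂, sq]
    exact mul_dvd_mul hpL ((dvd_card_of_isPGroup_of_ne_bot hMp hM.2.1).mul_left _)
  by_cases h5 : x ∈ N₂
  · refine hV' x ((QuotientGroup.eq_one_iff x).1 ?_) hx2
    rw [← card_map_mk] at hN₂1
    have h6 : ¬ p ∣ orderOf (x : G ⧸ L) := not_dvd_card_iff_forall_orderOf.1 hN₂1 _ ⟨x, h5, rfl⟩
    have h7 := pow_gcd_eq_one.2 ⟨pow_orderOf_eq_one (x : G ⧸ L),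
      show (x : G ⧸ L) ^ p ^ 2 = 1 from (QuotientGroup.eq_one_iff _).2 (hNL hx1)⟩
    rwa [((hp.out.coprime_iff_not_dvd.2 h6).symm.pow_right 2).gcd_eq_one, pow_one] at h7
  · obtain ⟨k, hk⟩ := IsPGroup.iff_card.1 hMp
    refine hgood₂ _ inferInstance ?_ k (fun z hz => ?_) x hx h5
    · rw [← map_mk_eq_bot_iff, Subgroup.map_commutator, map_comap_mk,
        Subgroup.commutator_eq_bot_iff_le_centralizer]
      exact Subgroup.le_centralizer_iff_isMulCommutative.2 hMe.1
    · rw [← QuotientGroup.eq_one_iff, QuotientGroup.mk_pow, ← hk]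
      exact congrArg Subtype.val (pow_card_eq_one' (x := (⟨z, hz⟩ : M)))

end aux


/-- Let p be a prime and G a finite solvable group whose vanishing elements (elements at which some irreducible character is zero) of order divisible by p all have the same order, with at least one such element. Let P be a Sylow p-subgroup of G. Then the derived subgroup of P is subnormal in G and the image of P in G/O_p(G) is cyclic. -/
theorem result {G : Type*} [Group G] [Finite G] [hs : Group.IsSolvable G] (p : ℕ) [Fact p.Prime] (b : ℕ) (hvo : {n : ℕ | p ∣ n ∧ ∃ (g : G) (χ : Cfsg.IrrCharacter G), orderOf g = n ∧ (χ : G → ℂ) g = 0} = {b}) (P : Sylow p G) :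
    ((commutator ↥(P : Subgroup G)).map (P : Subgroup G).subtype).IsSubnormal ∧ IsCyclic ↥((P : Subgroup G).map (QuotientGroup.mk' (Cfsg.pCore p G))) := by
  have hp : p.Prime := Fact.out
  have h1 := not_sq_dvd (p := p) hs (b := b) fun x hx ⟨χ, hχ⟩ =>
    (Set.ext_iff.1 hvo (orderOf x)).1 ⟨hx, x, χ, rfl, hχ⟩
  have h2 : IsCyclic ↥((P : Subgroup G).map (QuotientGroup.mk' (pCore p G))) := by
    refine isCyclic_of_card_dvd_prime (p := p) ?_
    obtain ⟨k, hk⟩ := IsPGroup.iff_card.1 (P.isPGroup'.map (QuotientGroup.mk' (pCore p G)))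
    have h3 := Subgroup.card_subgroup_dvd_card ((P : Subgroup G).map (QuotientGroup.mk' (pCore p G)))
    rw [hk] at h3 ⊢
    rcases k with _ | _ | k
    · simp
    · simp
    · exact absurd ((pow_dvd_pow p (by omega)).trans h3) h1
  refine ⟨?_, h2⟩
  have h3 : (commutator ↥(P : Subgroup G)).map (P : Subgroup G).subtype ≤ pCore p G := by
    rw [Subgroup.map_subtype_commutator, ← map_mk_eq_bot_iff, Subgroup.map_commutator,
      Subgroup.commutator_eq_bot_iff_le_centralizer]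
    exact Subgroup.le_centralizer_iff_isMulCommutative.2 inferInstance
  exact Subgroup.IsSubnormal.trans h3 (isSubnormal_of_isNilpotent (isPGroup_pCore p G).isNilpotent _)
    (Subgroup.Normal.isSubnormal inferInstance)

end Cfsg.Agent.S4850
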