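import Cfsg.Statements.S4862
import Cfsg.Agent.CT.RealPrime


set_option autoImplicit false
open Cfsg

namespace Cfsg.Agent.S4862


/-- Let p be an odd prime and G a finite group such that the subgroup generated by the p-elements of G is solvable and every real-valued irreducible complex character of G has degree prime to p. Let K be the subgroup generated by the 2-elements of G and P a Sylow p-subgroup of G. Then every normal subgroup M of G contained in K and in the derived subgroup of P is centralized by K. -/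
theorem result {G : Type*} [Group G] [Finite G] (p : ℕ) [Fact p.Prime] (hp : p ≠ 2) (hsolv : Group.IsSolvable ↥(Subgroup.closure {g : G | ∃ k : ℕ, orderOf g = p ^ k})) (hreal : ∀ χ : Cfsg.IrrCharacter G, (∀ g : G, ((χ : G → ℂ) g).im = 0) → ¬ p ∣ Cfsg.charDegree (χ : G → ℂ)) (P : Sylow p G) (M : Subgroup G) (hM : M.Normal) (hMK : M ≤ (Subgroup.closure {g : G | ∃ k : ℕ, orderOf g = 2 ^ k})) (hMP : M ≤ ⁅(P : Subgroup G), (P : Subgroup G)⁆) : (Subgroup.closure {g : G | ∃ k : ℕ, orderOf g = 2 ^ k}) ≤ Subgroup.centralizer (M : Set G) := by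
-----
  haveI := Fintype.ofFinite G
  haveI := Fintype.ofFinite M
  have hMP' : M ≤ P := hMP.trans (Subgroup.commutator_le_self _)
  have hodd : ¬ 2 ∣ Nat.card M := by
    obtain ⟨k, hk⟩ := (P.isPGroup'.to_le hMP').exists_card_eq
    rw [hk]
    exact fun h => hp ((Nat.prime_dvd_prime_iff_eq Nat.prime_two Fact.out).1
      (Nat.prime_two.dvd_of_dvd_pow h)).symm
  refine (Subgroup.closure_le _).2 fun t ht => ?_
  by_contra hc
  obtain ⟨θ, s, hθ1, hθs⟩ := exists_irr_cconj_eq_smul ht hc
  obtain ⟨χ, hχr, hχ⟩ := exists_real_over_of_odd_card hodd hθs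
  have h1 := χ.over_triv_iff.2 (χ.apply_eq_of_le_commutator (hreal χ hχr) P.isPGroup' hMP)
  obtain ⟨g, hg⟩ := clifford_exists_smul χ (θ := IrrCharacter.triv M) h1 hχ
  exact hθ1 (hg.symm.trans (IrrCharacter.smul_triv g))

end Cfsg.Agent.S4862
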