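import Cfsg.Statements.S4863
import Cfsg.Agent.CT.RealPrime


set_option autoImplicit false
open Cfsg

namespace Cfsg.Agent.S4863


/-- Let p be a prime and G a finite group such that the subgroup generated by the p-elements of G (the smallest normal subgroup of index prime to p) is solvable and every real-valued irreducible complex character of G has degree prime to p. Let K be the subgroup generated by the 2-elements of G (the smallest normal subgroup of odd index). Let U be the largest normal subgroup of G containing K such that the index of K in U is a power of p (so that U/K is the p-core of G/K). Then the Sylow p-subgroups of U are normal in U. -/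
theorem result {G : Type*} [Group G] [Finite G] (p : ℕ) [Fact p.Prime] (hsolv : Group.IsSolvable ↥(Subgroup.closure {g : G | ∃ k : ℕ, orderOf g = p ^ k})) (hreal : ∀ χ : Cfsg.IrrCharacter G, (∀ g : G, ((χ : G → ℂ) g).im = 0) → ¬ p ∣ Cfsg.charDegree (χ : G → ℂ)) (U : Subgroup G) (hU : U.Normal) (hKU : (Subgroup.closure {g : G | ∃ k : ℕ, orderOf g = 2 ^ k}) ≤ U) (hUp : ∃ a : ℕ, (Subgroup.closure {g : G | ∃ k : ℕ, orderOf g = 2 ^ k}).relIndex U = p ^ a) (hmax : ∀ V : Subgroup G, V.Normal → (Subgroup.closure {g : G | ∃ k : ℕ, orderOf g = 2 ^ k}) ≤ V → (∃ b : ℕ, (Subgroup.closure {g : G | ∃ k : ℕ, orderOf g = 2 ^ k}).relIndex V = p ^ b) → V ≤ U) (Q : Sylow p ↥U) : (Q : Subgroup ↥U).Normal := by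
-----
  haveI : Fact (Nat.Prime 2) := ⟨Nat.prime_two⟩
  have hi : ¬ 2 ∣ U.index := fun h =>
    not_dvd_index_pPrimeResidual (G := G) 2 (h.trans (Subgroup.index_dvd_of_le hKU))
  refine sylow_normal_of_real_not_dvd ?_ (real_not_dvd_of_odd_index hi hreal) ?_ Q
  · exact isSolvable_pPrimeResidual_subgroup hsolv _
  · have h1 : pPrimeResidual 2 U = (pPrimeResidual 2 G).subgroupOf U := by
      rw [← map_subtype_pPrimeResidual_of_index hi, Subgroup.subgroupOf,
        Subgroup.comap_map_eq_self_of_injective U.subtype_injective]
    rw [h1]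
    exact hUp

end Cfsg.Agent.S4863
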