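import Cfsg.Statements.S4865
import Cfsg.Agent.CT.RelGl2
import Cfsg.Agent.S4861


set_option autoImplicit false
open Cfsg

namespace Cfsg.Agent.S4865

theorem exists_normal {G : Type*} [Group G] [Finite G] (p : ℕ) [Fact p.Prime]
    (hsolv : Group.IsSolvable (pPrimeResidual p G))
    (hreal : ∀ χ : IrrCharacter G, (∀ g : G, (χ.1 g).im = 0) → ¬ p ∣ charDegree χ.1)
    (P : Sylow p G) : ∃ Q : Subgroup G, Q.Normal ∧ Q ≤ P ∧ Q ≤ pPrimeResidual 2 G ∧
      ¬ p ∣ Q.relIndex (pPrimeResidual 2 G) := by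
  obtain ⟨Q⟩ : Nonempty (Sylow p (pPrimeResidual 2 G)) := inferInstance
  haveI := Cfsg.Agent.S4861.result p hsolv hreal Q
  haveI := Q.characteristic_of_normal this
  refine ⟨(Q : Subgroup (pPrimeResidual 2 G)).map (Subgroup.subtype _), inferInstance,
    (Q.isPGroup'.map _).le_sylow_of_normal P, Subgroup.map_subtype_le _, ?_⟩
  rw [Subgroup.relIndex, Subgroup.subgroupOf,
    Subgroup.comap_map_eq_self_of_injective (Subgroup.subtype_injective _)]
  exact Q.not_dvd_index


/-- Let p be a prime and G a finite group such that the subgroup generated by the p-elements of G is solvable and every real-valued irreducible complex character of G has degree prime to p. Let N be the normalizer of a Sylow p-subgroup of G. Then there is a bijection from the real-valued irreducible characters of G onto the real-valued irreducible characters of N of degree prime to p under which corresponding degrees are congruent modulo p up to sign. -/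
theorem result {G : Type*} [Group G] [Finite G] (p : ℕ) [Fact p.Prime] (hsolv : Group.IsSolvable ↥(Subgroup.closure {g : G | ∃ k : ℕ, orderOf g = p ^ k})) (hreal : ∀ χ : Cfsg.IrrCharacter G, (∀ g : G, ((χ : G → ℂ) g).im = 0) → ¬ p ∣ Cfsg.charDegree (χ : G → ℂ)) (P : Sylow p G) : ∃ f : {χ : Cfsg.IrrCharacter G // ∀ g : G, ((χ : G → ℂ) g).im = 0} → {ξ : Cfsg.IrrCharacter ↥(Subgroup.normalizer ((P : Subgroup G) : Set G)) // (∀ n, ((ξ : ↥(Subgroup.normalizer ((P : Subgroup G) : Set G)) → ℂ) n).im = 0) ∧ ¬ p ∣ Cfsg.charDegree (ξ : ↥(Subgroup.normalizer ((P : Subgroup G) : Set G)) → ℂ)}, Function.Bijective f ∧ ∀ χ, ((Cfsg.charDegree ((f χ).1 : ↥(Subgroup.normalizer ((P : Subgroup G) : Set G)) → ℂ) : ZMod p) = (Cfsg.charDegree (χ.1 : G → ℂ) : ZMod p) ∨ (Cfsg.charDegree ((f χ).1 : ↥(Subgroup.normalizer ((P : Subgroup G) : Set G)) → ℂ) : ZMod p) = -(Cfsg.charDegree (χ.1 : G → ℂ) : ZMod p)) := by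
  haveI : Fact (Nat.Prime 2) := ⟨Nat.prime_two⟩
  obtain ⟨Q, _, h1, h2, h3⟩ := exists_normal p hsolv hreal P
  obtain ⟨R, h4, h5⟩ := exists_relBij_real P.isPGroup' P.not_dvd_index h1 h2 h3
    (Nat.not_even_iff_odd.1 (mt even_iff_two_dvd.1 (not_dvd_index_pPrimeResidual 2))) rfl hreal
  obtain ⟨f, h6, h7⟩ := h4.exists_bijective
  exact ⟨f, h6, fun χ => h5 _ _ χ.2 (f χ).2.1 (h7 χ)⟩

end Cfsg.Agent.S4865
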