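import Cfsg.Statements.S4864
import Cfsg.Agent.S4865


set_option autoImplicit false
open Cfsg

namespace Cfsg.Agent.S4864

open IrrCharacter in
theorem aux {G : Type*} [Group G] [Finite G] {p : ℕ} [hp : Fact p.Prime] {K : Subgroup G}
    [K.Normal] (hodd : Odd K.index) (hK : ¬ p ∣ Nat.card K)
    (hreal : ∀ χ : IrrCharacter G, (∀ g : G, (χ.1 g).im = 0) → ¬ p ∣ charDegree χ.1)
    (P : Sylow p G) {x : G} (hx : IsConj x x⁻¹) :
    ∃ y ∈ Subgroup.normalizer ((P : Subgroup G) : Set G), IsConj x y := by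
  set N := Subgroup.normalizer ((P : Subgroup G) : Set G) with hN
  obtain ⟨R, h1, -⟩ := exists_relBij_real P.isPGroup' P.not_dvd_index bot_le bot_le
    (by rwa [Subgroup.relIndex_bot_left]) hodd hN hreal
  obtain ⟨f, hf, -⟩ := h1.exists_bijective
  obtain ⟨k, hk⟩ := P.isPGroup'.exists_card_eq
  have hC : K ⊓ N = K ⊓ Subgroup.centralizer ((P : Subgroup G) : Set G) :=
    inf_normalizer_eq_inf_centralizer Subgroup.le_normalizer_of_normal (inf_eq_bot_of_coprime_card
      (hk ▸ (((Nat.Prime.coprime_iff_not_dvd hp.out).2 hK).pow_left k).symm))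
  have hodd' : Odd (K.subgroupOf N).index :=
    hodd.of_dvd_nat (Subgroup.relIndex_dvd_index_of_normal _ _)
  have hNL : N ≤ Subgroup.normalizer ((K ⊓ N : Subgroup G) : Set G) :=
    (le_inf Subgroup.le_normalizer_of_normal Subgroup.le_normalizer).trans
      Subgroup.inf_normalizer_le_normalizer_inf
  have h2 : ∀ ξ : IrrCharacter N, (∀ g, (ξ.1 g).im = 0) → ¬ p ∣ charDegree ξ.1 := by
    intro ξ hξ
    obtain ⟨η, hη⟩ := exists_rmult_under (inf_le_right (a := K)) ξ
    rw [((real_rmult_of_odd inf_le_right hNL (by rwa [Subgroup.inf_relIndex_right])).2 ξ η hξ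
      hη).2, hp.out.dvd_mul, not_or]
    refine ⟨not_dvd_relIndex_of_le' ((Subgroup.le_centralizer_iff.1 (hC.le.trans inf_le_right)).trans
      (centralizer_le_ezStab η)) fun h => P.not_dvd_index (h.trans
        (Dvd.intro _ (Subgroup.relIndex_mul_index Subgroup.le_normalizer))), fun h => hK ?_⟩
    exact (h.trans η.charDegree_dvd_card).trans (Subgroup.card_dvd_of_le inf_le_left)
  have h3 := Nat.card_eq_of_bijective f hf
  rw [Nat.card_congr (Equiv.subtypeEquivRight fun ξ => and_iff_left_of_imp (h2 ξ)),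
    card_real_irr_eq_card_real_classes, card_real_irr_eq_card_real_classes] at h3
  let F : {C : ConjClasses N // ∃ g, ConjClasses.mk g = C ∧ IsConj g g⁻¹} →
      {C : ConjClasses G // ∃ g, ConjClasses.mk g = C ∧ IsConj g g⁻¹} := fun C =>
    ⟨ConjClasses.map N.subtype C.1, by
      obtain ⟨_, g, rfl, hg⟩ := C
      exact ⟨g, rfl, N.subtype.map_isConj hg⟩⟩
  have h4 : Function.Injective F := by
    rintro ⟨_, a, rfl, ha⟩ ⟨_, b, rfl, hb⟩ h
    have h5 : ∀ {a : N}, IsConj a a⁻¹ → (a : G) ∈ Subgroup.centralizer ((P : Subgroup G) : Set G) :=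
      fun {a} ha => (hC.le ⟨(exists_isConj_inv_of_odd_index hodd' ha).1, a.2⟩).2
    obtain ⟨g, hg⟩ := isConj_iff.1 (ConjClasses.mk_eq_mk_iff_isConj.1
      (show ConjClasses.mk (a : G) = ConjClasses.mk (b : G) from congrArg Subtype.val h))
    obtain ⟨n, hn, h6⟩ := P.conj_eq_normalizer_conj_of_mem_centralizer a g⁻¹ (h5 ha)
      (by rw [inv_inv, hg]; exact h5 hb)
    refine Subtype.ext (ConjClasses.mk_eq_mk_iff_isConj.2 (isConj_iff.2 ⟨⟨n, hn⟩⁻¹, ?_⟩))
    refine Subtype.ext ?_
    rw [← hg]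
    simpa using h6.symm
  obtain ⟨⟨_, y, rfl, hy⟩, h5⟩ := (h4.bijective_of_nat_card_le h3.le).2 ⟨_, x, rfl, hx⟩
  exact ⟨y, y.2, (ConjClasses.mk_eq_mk_iff_isConj.1
    (show ConjClasses.mk (y : G) = ConjClasses.mk x from congrArg Subtype.val h5)).symm⟩


/-- Let p be a prime and G a finite group such that the subgroup generated by the p-elements of G is solvable and every real-valued irreducible complex character of G has degree prime to p. Then the normalizer of a Sylow p-subgroup of G contains an element of every real conjugacy class of G: every element conjugate to its inverse is conjugate to an element of that normalizer. -/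
theorem result {G : Type*} [Group G] [Finite G] (p : ℕ) [Fact p.Prime] (hsolv : Group.IsSolvable ↥(Subgroup.closure {g : G | ∃ k : ℕ, orderOf g = p ^ k})) (hreal : ∀ χ : Cfsg.IrrCharacter G, (∀ g : G, ((χ : G → ℂ) g).im = 0) → ¬ p ∣ Cfsg.charDegree (χ : G → ℂ)) (P : Sylow p G) (x : G) (hx : IsConj x x⁻¹) : ∃ y ∈ Subgroup.normalizer ((P : Subgroup G) : Set G), IsConj x y := by
  haveI : Fact (Nat.Prime 2) := ⟨Nat.prime_two⟩
  obtain ⟨Q, _, h1, h2, h3⟩ := S4865.exists_normal p hsolv hreal P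
  have hs := QuotientGroup.mk'_surjective Q
  have hker := QuotientGroup.ker_mk' Q
  haveI := (pPrimeResidual_normal 2 G).map _ hs
  obtain ⟨y, hy, h4⟩ := aux (K := (pPrimeResidual 2 G).map (QuotientGroup.mk' Q))
    ((Nat.not_even_iff_odd.1 (mt even_iff_two_dvd.1 (not_dvd_index_pPrimeResidual 2))).of_dvd_nat
      (Subgroup.index_map_dvd _ hs)) (by rwa [← Subgroup.relIndex_ker, hker])
    (fun χ hχ => by rw [← χ.charDegree_comap _ hs]; exact hreal _ fun g => hχ _)
    (P.mapSurjective hs) ((QuotientGroup.mk' Q).map_isConj hx)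
  obtain ⟨c, rfl⟩ := isConj_iff.1 h4
  obtain ⟨c, rfl⟩ := hs c
  refine ⟨c * x * c⁻¹, ?_, isConj_iff.2 ⟨c, rfl⟩⟩
  rw [← Subgroup.comap_map_eq_self (hker.le.trans h1),
    ← Subgroup.comap_normalizer_eq_of_surjective _ hs]
  exact hy

end Cfsg.Agent.S4864
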