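import Cfsg.Statements.S4866
import Cfsg.Agent.CT.OddIndex


set_option autoImplicit false
open Cfsg

namespace Cfsg.Agent.S4866


/-- Let K be a normal subgroup of odd index in the finite group G. Then G has as many orbits on the real-valued irreducible complex characters of K (acting by conjugation) as it has orbits on the conjugacy classes of K that are real in K; equivalently, the number of G-orbits of real-valued irreducible characters of K equals the number of G-conjugacy classes of elements of K that are conjugate in K to their inverses. -/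
theorem result {G : Type*} [Group G] [Finite G] (K : Subgroup G) [K.Normal] (hodd : Odd K.index) : Nat.card (Quot (fun θ η : {θ : Cfsg.IrrCharacter ↥K // (∀ k : ↥K, ((θ : ↥K → ℂ) k).im = 0)} => ∃ g : G, ∀ k k' : ↥K, (k' : G) = g * (k : G) * g⁻¹ → (η.1 : ↥K → ℂ) k' = (θ.1 : ↥K → ℂ) k)) = Nat.card (Quot (fun x y : {x : ↥K // IsConj x x⁻¹} => ∃ g : G, (y.1 : G) = g * x.1 * g⁻¹)) := by
  classical
  haveI := Fintype.ofFinite G
  have hrel : ∀ θ η : IrrCharacter K, (∃ g : G, ∀ k k' : K, (k' : G) = g * (k : G) * g⁻¹ →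
      η.1 k' = θ.1 k) ↔ ∃ g : G, g • θ = η := by
    intro θ η
    refine exists_congr fun g => ⟨fun h => Subtype.ext (funext fun n => ?_), ?_⟩
    · rw [IrrCharacter.smul_apply]
      exact (h _ n (by simp [mul_assoc])).symm
    · rintro rfl k k' h
      rw [IrrCharacter.smul_apply]
      exact congrArg θ.1 (Subtype.ext (by simp [h, mul_assoc]))
  choose F hF hF' using fun θ : {θ : IrrCharacter K // ∀ k, (θ.1 k).im = 0} =>
    existsUnique_real_over hodd θ.1 θ.2
  trans Nat.card {χ : IrrCharacter G // ∀ g, (χ.1 g).im = 0}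
  · refine Nat.card_congr (Equiv.ofBijective
      (Quot.lift (fun θ => ⟨F θ, (hF θ).2⟩) ?_) ⟨?_, ?_⟩)
    · intro θ η h
      obtain ⟨g, hg⟩ := (hrel _ _).1 h
      refine Subtype.ext (hF' η _ ⟨?_, (hF θ).2⟩)
      rw [← hg, IrrCharacter.classInner_res_smul (F θ).isClassFunction]
      exact (hF θ).1
    · rintro ⟨θ⟩ ⟨η⟩ h
      have h' : F θ = F η := congrArg Subtype.val h
      exact Quot.sound ((hrel _ _).2 (clifford_exists_smul (F θ) (hF θ).1 (h' ▸ (hF η).1)))
    · rintro ⟨χ, hχ⟩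
      obtain ⟨θ, hθ⟩ := χ.exists_under K
      have hr := real_of_under χ (fun n _ => hχ n) θ hθ (odd_index_charInertia hodd θ)
      exact ⟨Quot.mk _ ⟨θ, hr⟩, Subtype.ext (hF' ⟨θ, hr⟩ χ ⟨hθ, hχ⟩).symm⟩
  · rw [card_real_irr_eq_card_real_classes]
    symm
    refine Nat.card_congr (Equiv.ofBijective
      (Quot.lift (fun x => ⟨ConjClasses.mk (x.1 : G), x.1, rfl,
        by simpa using K.subtype.map_isConj x.2⟩) ?_) ⟨?_, ?_⟩)
    · rintro x y ⟨g, hg⟩
      exact Subtype.ext (ConjClasses.mk_eq_mk_iff_isConj.2 (isConj_iff.2 ⟨g, hg.symm⟩))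
    · rintro ⟨x⟩ ⟨y⟩ h
      obtain ⟨g, hg⟩ := isConj_iff.1 (ConjClasses.mk_eq_mk_iff_isConj.1 (congrArg Subtype.val h))
      exact Quot.sound ⟨g, hg.symm⟩
    · rintro ⟨_, g, rfl, hg⟩
      obtain ⟨h1, h2⟩ := exists_isConj_inv_of_odd_index hodd hg
      exact ⟨Quot.mk _ ⟨⟨g, h1⟩, h2⟩, rfl⟩

end Cfsg.Agent.S4866
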