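import Cfsg.Statements.S4870
import Cfsg.Agent.CT.Gallagher
import Cfsg.Agent.CT.Kernel
import Cfsg.Agent.Grp.Basic


set_option autoImplicit false
open Cfsg

namespace Cfsg.Agent.S4870


/-- Let G be a finite group with a non-abelian minimal normal subgroup N, and let φ be an irreducible complex character of N with stabilizer I in G (the elements g with φ(g n g⁻¹) = φ(n) for all n ∈ N) such that φ extends to an irreducible character of I. Put d = φ(1)·[G : I]. Then the number of linear characters of G is at most [G : I] times the number of irreducible characters of G of degree d. -/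
theorem result {G : Type*} [Group G] [Finite G] (N : Subgroup G) (hN : N.Normal) (hN1 : N ≠ ⊥) (hmin : ∀ M : Subgroup G, M.Normal → M ≤ N → M = ⊥ ∨ M = N) (hna : ¬ IsMulCommutative ↥N) (φ : Cfsg.IrrCharacter ↥N) (I : Subgroup G) (hI : ∀ g : G, g ∈ I ↔ ∀ n n' : ↥N, (n' : G) = g * (n : G) * g⁻¹ → (φ : ↥N → ℂ) n' = (φ : ↥N → ℂ) n) (hNI : N ≤ I) (hext : ∃ ψ : Cfsg.IrrCharacter ↥I, ∀ n : ↥N, (ψ : ↥I → ℂ) (Subgroup.inclusion hNI n) = (φ : ↥N → ℂ) n) : Nat.card {χ : Cfsg.IrrCharacter G // Cfsg.charDegree (χ : G → ℂ) = 1} ≤ I.index * Nat.card {χ : Cfsg.IrrCharacter G // Cfsg.charDegree (χ : G → ℂ) = Cfsg.charDegree (φ : ↥N → ℂ) * I.index} := by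
  classical
  haveI := Fintype.ofFinite G
  have hIeq : I = charInertia φ.1 := by
    ext g; rw [hI, mem_charInertia_iff_forall]
  obtain ⟨ψ, hψ⟩ := hext
  have hNG : N ≤ commutator G := by
    rcases IsMinNormal.commutator_eq_self_or_comm (M := N) ⟨hN, hN1, hmin⟩ with h | h
    · rw [← h]; exact Subgroup.commutator_mono le_top le_top
    · exact absurd h hna
  have hc := card_extensions (N := N.subgroupOf I) ψ.isCharacter (θ := φ.subgroupOf hNI)
    (fun n => hψ ⟨n, n.2⟩)
  have hover : ∀ η : {η : IrrCharacter I // ∀ n : N.subgroupOf I, η.1 n = (φ.subgroupOf hNI).1 n},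
      classInner (fun n : N => η.1.1 ⟨n, hNI n.2⟩) φ.1 ≠ 0 := by
    intro η
    have : (fun n : N => η.1.1 ⟨n, hNI n.2⟩) = φ.1 := funext fun n => η.2 ⟨⟨n, hNI n.2⟩, n.2⟩
    rw [this, φ.classInner_self]; exact one_ne_zero
  have hle : Nat.card {η : IrrCharacter I //
      ∀ n : N.subgroupOf I, η.1 n = (φ.subgroupOf hNI).1 n} ≤
      Nat.card {χ : IrrCharacter G // charDegree χ.1 = charDegree φ.1 * I.index} := by
    refine Nat.card_le_card_of_injective (fun η => ⟨⟨indFun I η.1.1,
      clifford_corr_isIrr hNI hIeq.ge η.1 (hover η)⟩, ?_⟩) ?_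
    · rw [η.1.isCharacter.charDegree_indFun, mul_comm]
      congr 1
      exact charDegree_congr (η.2 1)
    · intro η η' h
      exact Subtype.ext (clifford_corr_inj hNI hIeq.ge (hover η) (hover η')
        (congrArg (fun x => x.1.1) h))
  rw [card_linear_irr]
  refine le_trans ?_ (Nat.mul_le_mul_left _ hle)
  rw [hc]
  have h1 : (N.subgroupOf I ⊔ commutator I).map I.subtype ≤ commutator G := by
    rw [Subgroup.map_sup, sup_le_iff]
    refine ⟨(Subgroup.map_comap_le _ _).trans hNG, ?_⟩
    rw [commutator_def, Subgroup.map_commutator]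
    exact Subgroup.commutator_mono le_top le_top
  have h2 := Subgroup.index_map_subtype (N.subgroupOf I ⊔ commutator I)
  rw [mul_comm, ← h2]
  exact Nat.le_of_dvd (Nat.pos_of_ne_zero Subgroup.index_ne_zero_of_finite)
    (Subgroup.index_dvd_of_le h1)

end Cfsg.Agent.S4870
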