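import Cfsg.Statements.S4872
import Cfsg.Agent.CT.TwistForm
import Cfsg.Agent.Blk.Over
import Cfsg.Agent.Blk.RealBlock


set_option autoImplicit false
open Cfsg

namespace Cfsg.Agent.S4872

open scoped ComplexConjugate

/-- a symplectic character vanishing on the elements of even order takes, at a real element,
a value divisible by twice the centralizer order -/
theorem val_lt {G : Type*} [Group G] [Fintype G] {M : Ideal AlgInt} (hM : IsPModular 2 M)
    {Φ : G → ℂ} (hΦ : HasForm (-1) Φ) (h0 : ∀ g, 2 ∣ orderOf g → Φ g = 0) {x : G}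
    (hx : IsConj x x⁻¹) :
    valM M (Φ x / Nat.card (Subgroup.centralizer ({x} : Set G))) < 1 := by
  classical
  haveI : Fact (Nat.Prime 2) := ⟨Nat.prime_two⟩
  by_cases hxo : 2 ∣ orderOf x
  · rw [h0 x hxo, zero_div, map_zero]
    exact zero_lt_one
  obtain ⟨D, t, hD, hDC, hDi, ht, htD, htt⟩ := exists_sylow_centralizer_of_real hx
  let Z := Subgroup.zpowers x
  have hcomm : ∀ (y : Z) (d : D), Commute (y : G) (d : G) := by
    intro y d
    obtain ⟨k, hk⟩ := Subgroup.mem_zpowers_iff.1 y.2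
    rw [← hk]
    exact (Commute.symm (Subgroup.mem_centralizer_singleton_iff.1 (hDC d.2))).zpow_left k
  let f : Z × D →* G := Z.subtype.noncommCoprod D.subtype hcomm
  have hf : ∀ k : Z × D, f k = k.1 * k.2 := fun k => rfl
  have hvan : ∀ (y : Z) (d : D), d ≠ 1 → Φ (y * d) = 0 := by
    intro y d hd
    apply h0
    have hy : ¬ 2 ∣ orderOf (y : G) := fun h => hxo (h.trans (orderOf_dvd_of_mem_zpowers y.2))
    rw [← pPart_ne_one_iff, (hcomm y d).eq, pPart_mul_of_commute (hcomm y d).symm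
      (exists_orderOf_eq_pow_of_mem hD d.2) hy]
    exact fun h => hd (Subtype.ext h)
  have hDc : (Nat.card D : ℂ) ≠ 0 := Nat.cast_ne_zero.2 Nat.card_pos.ne'
  have heven : ∀ l : IrrCharacter Z, ∃ m : ℕ,
      classInner (fun y : Z => Φ y) l.1 = Nat.card D * (2 * m) := by
    intro l
    obtain ⟨μ, rfl⟩ := (IrrCharacter.equivHomOfComm Z).surjective l
    obtain ⟨m, ⟨m', rfl⟩, hm⟩ := hΦ.even_classInner_twist f (μ.comp (MonoidHom.fst Z D)) t
      (fun k => ⟨(k.1, ⟨t * k.2⁻¹ * t⁻¹, htD _ (D.inv_mem k.2.2)⟩), by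
        obtain ⟨j, hj⟩ := Subgroup.mem_zpowers_iff.1 k.1.2
        have h1 : t * (k.1 : G)⁻¹ * t⁻¹ = k.1 := by
          rw [← hj, ← zpow_neg, ← conj_zpow, ht]
          simp
        rw [hf, hf, (hcomm k.1 k.2).eq]
        conv_lhs => rw [← h1]
        simp [mul_assoc], rfl⟩) (1, ⟨t * t, htt⟩) (by simp [hf]) (by simp)
    refine ⟨m', ?_⟩
    rw [classInner_def, Fintype.sum_prod_type, Nat.card_prod] at hm
    have h2 : ∀ y : Z, ∑ d : D, Φ (f (y, d)) * conj ((μ.comp (MonoidHom.fst Z D)) (y, d) : ℂ) =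
        Φ y * conj (μ y : ℂ) := by
      intro y
      rw [Finset.sum_eq_single 1]
      · simp [hf]
      · intro d _ hd
        rw [hf, hvan y d hd, zero_mul]
      · simp
    simp only [h2] at hm
    rw [classInner_def, IrrCharacter.equivHomOfComm_apply]
    simp only [IrrCharacter.ofHom_apply]
    push_cast at hm
    rw [two_mul, ← hm]
    field_simp
  choose m hm using heven
  have h1 := (hΦ.isCharacter.isClassFunction.res Z).eq_sum_irr ⟨x, Subgroup.mem_zpowers x⟩
  simp only [hm] at h1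
  have h2 : Φ x / Nat.card (Subgroup.centralizer ({x} : Set G)) =
      2 * ((∑ l : IrrCharacter Z, m l * l.1 ⟨x, Subgroup.mem_zpowers x⟩) *
        (D.relIndex (Subgroup.centralizer {x}) : ℂ)⁻¹) := by
    rw [h1, ← card_mul_relIndex_of_le hDC]
    have : (D.relIndex (Subgroup.centralizer {x}) : ℂ) ≠ 0 :=
      Nat.cast_ne_zero.2 (fun h => hDi (h ▸ dvd_zero 2))
    push_cast
    field_simp
    rw [Finset.mul_sum]
    refine Finset.sum_congr rfl fun l _ => ?_
    ring
  rw [h2, map_mul]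
  have h3 : (∑ l : IrrCharacter Z, m l * l.1 ⟨x, Subgroup.mem_zpowers x⟩) *
      (D.relIndex (Subgroup.centralizer {x}) : ℂ)⁻¹ ∈ valO M :=
    mul_mem (sum_mem fun l _ => mul_mem (natCast_mem_valO _) (l.mem_valO _))
      (hM.inv_natCast_mem hDi)
  exact mul_lt_one_of_lt_of_le hM.valM_p_lt_one (mem_valO_iff.1 h3)

/-- Let N be a normal subgroup of the finite group G with G/N a 2-group, and let φ be an irreducible complex character of N of 2-defect zero (the 2-part of #N divides φ(1)) whose complex conjugate is G-conjugate to φ. Then some irreducible character of G with Frobenius–Schur indicator +1 contains φ with multiplicity exactly one on restriction to N. -/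
theorem result {G : Type*} [Group G] [Finite G] (N : Subgroup G) [N.Normal] (h2 : IsPGroup 2 (G ⧸ N)) (φ : Cfsg.IrrCharacter ↥N) (hdef : 2 ^ (Nat.card ↥N).factorization 2 ∣ Cfsg.charDegree (φ : ↥N → ℂ)) (hconj : ∃ g : G, ∀ n n' : ↥N, (n' : G) = g * (n : G) * g⁻¹ → (φ : ↥N → ℂ) n' = (starRingEnd ℂ) ((φ : ↥N → ℂ) n)) : ∃ χ : Cfsg.IrrCharacter G, (Nat.card G : ℂ)⁻¹ * ∑ᶠ g : G, (χ : G → ℂ) (g * g) = 1 ∧ (Nat.card ↥N : ℂ)⁻¹ * ∑ᶠ n : ↥N, (χ : G → ℂ) n * (starRingEnd ℂ) ((φ : ↥N → ℂ) n) = 1 := by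
  classical
  haveI : Fact (Nat.Prime 2) := ⟨Nat.prime_two⟩
  haveI := Fintype.ofFinite G
  haveI := Fintype.ofFinite N
  haveI := Fintype.ofFinite (ConjClasses G)
  by_contra hne
  push Not at hne
  obtain ⟨M, hM⟩ := exists_isPModular Nat.prime_two
  obtain ⟨g₀, hg₀⟩ := hconj
  have hcc : φ.cconj = g₀⁻¹ • φ := by
    ext n
    rw [IrrCharacter.cconj_apply, IrrCharacter.inv_smul_apply]
    exact (hg₀ n _ rfl).symm
  set Φ := indFun N φ.1 with hΦ
  have hΦc : IsCharacter G Φ := φ.isCharacter.indFun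
  have hreal : ∀ g, conj (Φ g) = Φ g := by
    intro g
    have h1 := congrFun (indFun_conj N φ.1) g
    rw [← h1]
    have h2 : (fun h => conj (φ.1 h)) = conjChar g₀⁻¹ φ.1 := congrArg Subtype.val hcc
    rw [h2, indFun_conjChar]
  obtain ⟨a, ha⟩ : ∃ a, N.index = 2 ^ a := h2.exists_card_eq
  have hform : HasForm (-1) Φ := by
    refine hasForm_of_even (Or.inr rfl) hΦc (fun g => Complex.conj_eq_iff_im.1 (hreal g))
      fun χ hχ => ?_
    rw [neg_neg] at hχ
    rw [φ.isCharacter.classInner_indFun_eq_res χ.isCharacter]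
    by_cases h0 : classInner (fun n : N => χ.1 n) φ.1 = 0
    · exact ⟨0, Even.zero, by rw [h0, Nat.cast_zero]⟩
    obtain ⟨e, he, hed⟩ := exists_classInner_res_dvd_relIndex χ h0
    refine ⟨e, ?_, he⟩
    have h1 : e ∣ 2 ^ a := hed.trans (ha ▸ Subgroup.relIndex_dvd_index_of_normal _ _)
    obtain ⟨j, -, rfl⟩ := (Nat.dvd_prime_pow Nat.prime_two).1 h1
    rcases j with _ | j
    · exfalso
      refine hne χ hχ ?_
      rw [finsum_eq_sum_of_fintype, ← classInner_def, he]
      simp
    · exact ⟨2 ^ j, by ring⟩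
  have hvan : ∀ g, 2 ∣ orderOf g → Φ g = 0 := by
    intro g hg
    refine indFun_eq_zero_of_forall_isConj N φ.1 fun h hh => φ.eq_zero_of_ordProj_dvd hdef ?_
    obtain ⟨c, hc⟩ := isConj_iff.1 hh
    rw [← Subgroup.orderOf_coe, ← hc]
    exact ((MulAut.conj c).orderOf_eq g).symm ▸ hg
  set n := N.relIndex (charInertia φ.1) with hn
  have hn0 : (n : ℂ) ≠ 0 := Nat.cast_ne_zero.2 Subgroup.index_ne_zero_of_finite
  have hA : ∀ x, Φ x / n ∈ valO M := by
    intro x
    by_cases hx : x ∈ N
    · have := φ.res_indFun_eq_sum_orbit ⟨x, hx⟩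
      rw [hΦ, this, mul_div_cancel_left₀ _ hn0]
      exact sum_mem fun ψ _ => ψ.mem_valO _
    · rw [hΦ, indFun_eq_zero_of_normal N _ hx, zero_div]
      exact zero_mem _
  have hB : ∀ x, Φ x / Nat.card (Subgroup.centralizer ({x} : Set G)) ∈ valO M := by
    intro x
    by_cases hx : x ∈ N
    swap
    · rw [hΦ, indFun_eq_zero_of_normal N _ hx, zero_div]
      exact zero_mem _
    obtain ⟨χ, hχ⟩ := φ.exists_over
    have h1 := clifford_res_eq χ hχ ⟨x, hx⟩
    have h2 := clifford_res_eq χ hχ 1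
    have h3 := φ.res_indFun_eq_sum_orbit ⟨x, hx⟩
    have h4 := φ.res_indFun_eq_sum_orbit 1
    have h5 := indFun_one N φ.1
    have h6 : Φ x / Nat.card (Subgroup.centralizer ({x} : Set G)) =
        centralChar χ.1 x * (φ.1 1 / Nat.card N) := by
      have h7 : (Nat.card (Subgroup.centralizer ({x} : Set G)) : ℂ) *
          (Subgroup.centralizer ({x} : Set G)).index = Nat.card N * N.index := by
        rw [← Nat.cast_mul, ← Nat.cast_mul, Subgroup.card_mul_index, Subgroup.card_mul_index]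
      have h8 : (Nat.card (Subgroup.centralizer ({x} : Set G)) : ℂ) ≠ 0 :=
        Nat.cast_ne_zero.2 Nat.card_pos.ne'
      have h9 : (Nat.card N : ℂ) ≠ 0 := Nat.cast_ne_zero.2 Nat.card_pos.ne'
      have h10 := χ.one_ne_zero
      simp only [OneMemClass.coe_one] at h1 h2 h3 h4
      rw [h5] at h4
      have h11 : ∑ ψ ∈ irrFinset (MulAction.orbit G φ), ψ.1 1 ≠ 0 := fun h => by
        rw [h, mul_zero] at h2
        exact h10 h2
      rw [centralChar, hΦ, h3, h1, h2]
      field_simp
      linear_combination (∑ ψ ∈ irrFinset (MulAction.orbit G φ), ψ.1 ⟨x, hx⟩) *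
        ((-(Nat.card N : ℂ)) * h4 - φ.1 1 * h7)
    rw [h6]
    refine mul_mem (centralChar_mem_valO χ x) ?_
    rw [φ.one_eq_charDegree, hM.natCast_div_mem_iff φ.charDegree_pos.ne'
      Nat.card_pos.ne']
    exact (Nat.prime_two.pow_dvd_iff_le_factorization φ.charDegree_pos.ne').1 hdef
  let F : G → resK M := fun x =>
    red M (Φ x / n) * red M (Φ x / Nat.card (Subgroup.centralizer ({x} : Set G)))
  have hF : ∀ x y, IsConj x y → F x = F y := by
    intro x y h
    simp only [F]
    rw [hΦc.isClassFunction.eq_of_isConj h, card_centralizer_eq_of_isConj h]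
  have hsum : ∑ K : ConjClasses G, F (Quotient.out K) = 1 := by
    have h1 := hΦc.isClassFunction.classInner_eq_sum_conjClasses hΦc.isClassFunction
    rw [hΦ, IrrCharacter.classInner_indFun_indFun, if_pos (MulAction.mem_orbit_self φ), ← hΦ,
      ← hn] at h1
    have h2 : ∑ K : ConjClasses G, Φ (Quotient.out K) / n * (Φ (Quotient.out K) /
        Nat.card (Subgroup.centralizer ({Quotient.out K} : Set G))) = 1 := by
      rw [← div_self hn0]
      conv_rhs => rw [div_eq_mul_inv]; congr; rw [h1]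
      rw [Finset.sum_mul]
      refine Finset.sum_congr rfl fun K _ => ?_
      rw [hreal]
      ring
    rw [← red_one, ← h2]
    refine Eq.trans ?_ (red_sum _ fun K _ => mul_mem (hA _) (hB _)).symm
    exact Finset.sum_congr rfl fun K _ => (red_mul (hA _) (hB _)).symm
  have hout : ∀ x : G, IsConj (Quotient.out (ConjClasses.mk x) : G) x := fun x =>
    ConjClasses.mk_eq_mk_iff_isConj.1 (Quotient.out_eq _)
  have hinv : ∀ x, F x⁻¹ = F x := by
    intro x
    simp only [F]
    rw [hform.apply_inv_eq, centralizer_singleton_inv']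
  haveI := hM.charP
  have hzero : ∑ K : ConjClasses G, F (Quotient.out K) = 0 := by
    refine Finset.sum_involution (fun K _ => ConjClasses.mk (Quotient.out K : G)⁻¹) ?_ ?_
      (fun _ _ => Finset.mem_univ _) ?_
    · intro K _
      rw [hF _ _ (hout _), hinv, CharTwo.add_self_eq_zero]
    · intro K _ hK h
      apply hK
      have h1 : IsConj (Quotient.out K : G) (Quotient.out K : G)⁻¹ :=
        ConjClasses.mk_eq_mk_iff_isConj.1 ((Quotient.out_eq K).trans h.symm)
      simp only [F]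
      rw [red_eq_zero_of_lt (val_lt hM hform hvan h1), mul_zero]
    · intro K _
      conv_rhs => rw [← Quotient.out_eq K]
      refine ConjClasses.mk_eq_mk_iff_isConj.2 ?_
      obtain ⟨c, hc⟩ := isConj_iff.1 (hout (Quotient.out K : G)⁻¹)
      refine isConj_iff.2 ⟨c, ?_⟩
      rw [← conj_inv, hc, inv_inv]
  rw [hzero] at hsum
  exact zero_ne_one hsum

end Cfsg.Agent.S4872
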