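import Cfsg.Statements.S4871
import Cfsg.Agent.S4872


set_option autoImplicit false
open Cfsg

namespace Cfsg.Agent.S4871

open scoped ComplexConjugate

theorem card_le_index {G : Type*} [Group G] [Finite G] (I : Subgroup G) (s : Finset (G →* ℂˣ))
    (hs : ∀ α ∈ s, ∀ x ∈ I, α x = 1) : s.card ≤ I.index := by
  classical
  let K := I ⊔ commutator G
  haveI : K.Normal := Subgroup.Normal.of_commutator_le G le_sup_right
  have hK : ∀ α ∈ s, K ≤ α.ker := fun α hα =>
    sup_le (fun x hx => hs α hα x hx) (Abelianization.commutator_subset_ker α)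
  have h1 : Nat.card s ≤ Nat.card (G ⧸ K →* ℂˣ) := by
    haveI : Finite (G ⧸ K →* ℂˣ) := Nat.finite_of_card_ne_zero (by
      rw [card_unitsHom]; exact Subgroup.index_ne_zero_of_finite)
    refine Nat.card_le_card_of_injective (fun α => QuotientGroup.lift K α.1 (hK α.1 α.2)) ?_
    intro α β h
    refine Subtype.ext (MonoidHom.ext fun g => ?_)
    exact DFunLike.congr_fun h (g : G ⧸ K)
  rw [card_unitsHom] at h1
  have h2 : (commutator (G ⧸ K)).index ≤ K.index :=
    Nat.le_of_dvd Nat.card_pos (Subgroup.index_dvd_card _)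
  have h3 : K.index ≤ I.index :=
    Nat.le_of_dvd (Nat.pos_of_ne_zero Subgroup.index_ne_zero_of_finite)
      (Subgroup.index_dvd_of_le le_sup_left)
  simpa using h1.trans (h2.trans h3)

theorem exists_inverting {G : Type*} [Group G] [Finite G] (N P : Subgroup G) (hN : N.Normal)
    (hodd : ¬ 2 ∣ Nat.card N) (hc : IsMulCommutative N) (hP : IsPGroup 2 P) (hP1 : P ≠ ⊥)
    (hprod : N ⊔ P = ⊤) (hmin : N ≠ ⊥ ∧ ∀ M : Subgroup G, M.Normal → M ≠ ⊥ → N ≤ M) :
    ∃ z : G, ∀ n ∈ N, z * n * z⁻¹ = n⁻¹ := by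
  haveI : Fact (Nat.Prime 2) := ⟨Nat.prime_two⟩
  haveI : Nontrivial P := (Subgroup.nontrivial_iff_ne_bot P).2 hP1
  haveI := hP.center_nontrivial
  obtain ⟨k, hk0, hk⟩ := (hP.to_subgroup (Subgroup.center P)).nontrivial_iff_card.1 inferInstance
  obtain ⟨z, hz⟩ := exists_prime_orderOf_dvd_card' (G := Subgroup.center P) 2
    (by rw [hk]; exact dvd_pow_self 2 hk0.ne')
  have hz2 : orderOf ((z : P) : G) = 2 := by rw [Subgroup.orderOf_coe, Subgroup.orderOf_coe, hz]
  set w : G := ((z : P) : G)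
  have hww : w * w = 1 := by rw [← sq, ← hz2, pow_orderOf_eq_one]
  have hPw : P ≤ Subgroup.centralizer {w} := fun x hx =>
    Subgroup.mem_centralizer_singleton_iff.2
      (congrArg Subtype.val (Subgroup.mem_center_iff.1 z.2 ⟨x, hx⟩))
  have hcomm : ∀ a ∈ N, ∀ b ∈ N, a * b = b * a := fun a ha b hb =>
    congrArg Subtype.val (hc.is_comm.comm (⟨a, ha⟩ : N) ⟨b, hb⟩)
  have hF : (N ⊓ Subgroup.centralizer {w}).Normal := by
    rw [← Subgroup.normalizer_eq_top_iff, eq_top_iff, ← hprod]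
    refine sup_le (fun x hx => ?_) (fun x hx => ?_)
    · refine Subgroup.centralizer_le_normalizer _ fun y hy => hcomm y hy.1 x hx
    · refine Subgroup.mem_normalizer_fintype fun y hy => ⟨hN.conj_mem y hy.1 x, ?_⟩
      exact Subgroup.mul_mem _ (Subgroup.mul_mem _ (hPw hx) hy.2) (Subgroup.inv_mem _ (hPw hx))
  have hbot : N ⊓ Subgroup.centralizer {w} = ⊥ := by
    by_contra hne
    have h1 : N ≤ Subgroup.centralizer {w} := (hmin.2 _ hF hne).trans inf_le_right
    have h2 : ∀ g : G, g * w = w * g := fun g =>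
      Subgroup.mem_centralizer_singleton_iff.1 (hprod.ge.trans (sup_le h1 hPw) trivial)
    have h3 : (Subgroup.zpowers w).Normal := ⟨fun y hy g => by
      obtain ⟨j, rfl⟩ := Subgroup.mem_zpowers_iff.1 hy
      rw [← conj_zpow, h2, mul_inv_cancel_right]
      exact hy⟩
    have h4 := hmin.2 _ h3 (by
      rw [Ne, Subgroup.zpowers_eq_bot, ← orderOf_eq_one_iff, hz2]; decide)
    have h5 := Subgroup.card_dvd_of_le h4
    rw [Nat.card_zpowers, hz2] at h5
    rcases (Nat.dvd_prime Nat.prime_two).1 h5 with h | h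
    · exact hmin.1 (Subgroup.card_eq_one.1 h)
    · exact hodd (h ▸ dvd_rfl)
  refine ⟨w, fun n hn => ?_⟩
  have hn' := hN.conj_mem n hn w
  have h1 : n * (w * n * w⁻¹) ∈ N ⊓ Subgroup.centralizer {w} := by
    refine ⟨N.mul_mem hn hn', Subgroup.mem_centralizer_singleton_iff.2 ?_⟩
    conv_rhs => rw [hcomm n hn _ hn']
    calc n * (w * n * w⁻¹) * w = n * w * n := by group
      _ = (w * w) * n * (w * w)⁻¹ * w * n := by rw [hww]; group
      _ = _ := by group
  rw [hbot, Subgroup.mem_bot] at h1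
  exact eq_inv_of_mul_eq_one_right h1

/-- Let G be a finite group that is the semidirect product of a normal elementary abelian subgroup N of odd order by a non-trivial 2-subgroup P, with N the unique minimal normal subgroup of G. Consider the strongly real irreducible complex characters of G (Frobenius–Schur indicator +1) whose degree is 1 or even. Then their average degree is at least 4/3: four times their number is at most three times the sum of their degrees. -/
theorem result {G : Type*} [Group G] [Finite G] (N P : Subgroup G) (hN : N.Normal) (q : ℕ) [Fact q.Prime] (hq : q ≠ 2) (hNel : Cfsg.IsElementaryAbelian q N) (hP : IsPGroup 2 ↥P) (hP1 : P ≠ ⊥) (hdisj : N ⊓ P = ⊥) (hprod : N ⊔ P = ⊤) (hmin : N ≠ ⊥ ∧ ∀ M : Subgroup G, M.Normal → M ≠ ⊥ → N ≤ M) : 4 * Nat.card {χ : Cfsg.IrrCharacter G // (Cfsg.charDegree (χ : G → ℂ) = 1 ∨ 2 ∣ Cfsg.charDegree (χ : G → ℂ)) ∧ (Nat.card G : ℂ)⁻¹ * ∑ᶠ g : G, (χ : G → ℂ) (g * g) = 1} ≤ 3 * (∑ᶠ χ : {χ : Cfsg.IrrCharacter G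 // (Cfsg.charDegree (χ : G → ℂ) = 1 ∨ 2 ∣ Cfsg.charDegree (χ : G → ℂ)) ∧ (Nat.card G : ℂ)⁻¹ * ∑ᶠ g : G, (χ : G → ℂ) (g * g) = 1}, Cfsg.charDegree (χ.1 : G → ℂ)) := by
  classical
  haveI : Fact (Nat.Prime 2) := ⟨Nat.prime_two⟩
  haveI := Fintype.ofFinite G
  haveI := Fintype.ofFinite N
  have hodd : ¬ 2 ∣ Nat.card N := by
    obtain ⟨k, hk⟩ := hNel.isPGroup.exists_card_eq
    rw [hk]
    exact fun h => hq ((Nat.prime_dvd_prime_iff_eq Nat.prime_two Fact.out).1
      (Nat.prime_two.dvd_of_dvd_pow h)).symm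
  obtain ⟨z, hz⟩ := exists_inverting N P hN hodd hNel.1 hP hP1 hprod hmin
  have hQ : IsPGroup 2 (G ⧸ N) := by
    refine hP.of_surjective ((QuotientGroup.mk' N).comp P.subtype) fun x => ?_
    obtain ⟨g, rfl⟩ := QuotientGroup.mk_surjective x
    have hg : g ∈ ((N ⊔ P : Subgroup G) : Set G) := by rw [hprod]; trivial
    rw [Subgroup.normal_mul] at hg
    obtain ⟨n, hn, y, hy, rfl⟩ := hg
    exact ⟨⟨y, hy⟩, by simp [(QuotientGroup.eq_one_iff _).2 hn]⟩
  obtain ⟨a, ha⟩ : ∃ a, N.index = 2 ^ a := hQ.exists_card_eq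
  haveI := hNel.1
  obtain ⟨l, hl⟩ : ∃ l : N →* ℂˣ, l ≠ 1 := by
    have h1 : 1 < Nat.card (N →* ℂˣ) := by
      rw [Nat.card_congr (IrrCharacter.equivHomOfComm N), card_irr_of_comm]
      exact Subgroup.one_lt_card_iff_ne_bot N |>.2 hmin.1
    haveI : Finite (N →* ℂˣ) := Nat.finite_of_card_ne_zero (by omega)
    haveI := Finite.one_lt_card_iff_nontrivial.1 h1
    exact exists_ne 1
  set φ := IrrCharacter.ofHom l with hφ
  have hzφ : ∀ n n' : N, (n' : G) = z * n * z⁻¹ → φ.1 n' = conj (φ.1 n) := by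
    intro n n' h
    rw [← IrrCharacter.cconj_apply, IrrCharacter.cconj_apply']
    exact congrArg φ.1 (Subtype.ext (h.trans (hz n n.2)))
  obtain ⟨χ, hχ1, hχ2⟩ := S4872.result N hQ φ (by
    rw [Nat.factorization_eq_zero_of_not_dvd hodd]; simp) ⟨z, hzφ⟩
  rw [finsum_eq_sum_of_fintype, ← classInner_def] at hχ2
  have hχ0 : classInner (fun n : N => χ.1 n) φ.1 ≠ 0 := by rw [hχ2]; exact one_ne_zero
  set I := charInertia φ.1 with hI
  have hdeg : charDegree χ.1 = I.index := by
    obtain ⟨e, -, he, -, hd, -⟩ := clifford χ hχ0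
    rw [hχ2] at he
    have : e = 1 := by exact_mod_cast he.symm
    rw [hd, this, hφ, IrrCharacter.charDegree_ofHom, one_mul, mul_one]
  have hI2 : 2 ∣ I.index := by
    have h1 : I.index ∣ 2 ^ a := ha ▸ Subgroup.index_dvd_of_le φ.le_charInertia
    obtain ⟨j, -, hj⟩ := (Nat.dvd_prime_pow Nat.prime_two).1 h1
    rcases j with _ | j
    · exfalso
      rw [pow_zero, Subgroup.index_eq_one] at hj
      have h2 : z ∈ I := hj ▸ Subgroup.mem_top z
      have h3 : φ.cconj = φ := by
        ext n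
        rw [IrrCharacter.cconj_apply, ← hzφ n ⟨_, hN.conj_mem n n.2 z⟩ rfl]
        exact mem_charInertia.1 h2 n
      have h4 := φ.eq_triv_of_odd_of_cconj_eq (Nat.odd_iff.2 (Nat.two_dvd_ne_zero.1 hodd)) h3
      rw [← IrrCharacter.ofHom_one] at h4
      exact hl (IrrCharacter.ofHom_injective h4)
    · rw [hj]; exact dvd_pow_self 2 (Nat.succ_ne_zero j)
  have hI0 : 0 < I.index := Nat.pos_of_ne_zero Subgroup.index_ne_zero_of_finite
  haveI : Finite (G →* ℂˣ) := Nat.finite_of_card_ne_zero (by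
      rw [card_unitsHom]; exact Subgroup.index_ne_zero_of_finite)
  haveI := Fintype.ofFinite (G →* ℂˣ)
  let A : Finset (G →* ℂˣ) := Finset.univ.filter fun α => ∀ g, α (g * g) = 1
  let S : Finset (IrrCharacter G) := Finset.univ.filter fun ψ =>
    (charDegree ψ.1 = 1 ∨ 2 ∣ charDegree ψ.1) ∧ fsInd ψ.1 = 1
  let L := S.filter fun ψ => charDegree ψ.1 = 1
  let O := A.image fun α => χ.twist α
  have hAN : ∀ α ∈ A, ∀ n ∈ N, α n = 1 := by
    intro α hα n hn
    simp only [A, Finset.mem_filter, Finset.mem_univ, true_and] at hα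
    have h1 : orderOf (α n) ∣ 2 := by
      rw [orderOf_dvd_iff_pow_eq_one, ← map_pow, sq, hα]
    have h2 : orderOf (α n) ∣ Nat.card N :=
      (orderOf_map_dvd α n).trans (N.orderOf_dvd_natCard hn)
    rcases (Nat.dvd_prime Nat.prime_two).1 h1 with h | h
    · exact orderOf_eq_one_iff.1 h
    · exact absurd (h ▸ h2) hodd
  have hL : L.card ≤ A.card := by
    refine le_trans (Finset.card_le_card (t := A.image IrrCharacter.ofHom) ?_)
      Finset.card_image_le
    intro ψ hψ
    simp only [L, S, Finset.mem_filter, Finset.mem_univ, true_and] at hψ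
    obtain ⟨α, rfl⟩ := ψ.exists_eq_ofHom hψ.2
    refine Finset.mem_image_of_mem _ ?_
    simp only [A, Finset.mem_filter, Finset.mem_univ, true_and]
    intro g
    have h1 := congrFun (congrArg Subtype.val (IrrCharacter.cconj_eq_of_fsInd_eq_one hψ.1.2)) g
    rw [IrrCharacter.cconj_apply', IrrCharacter.ofHom_apply, IrrCharacter.ofHom_apply] at h1
    rw [map_mul]
    conv_lhs => congr; rw [← Units.val_injective h1]
    simp
  have hA : A.card ≤ I.index * O.card := by
    refine Finset.card_le_mul_card_image A I.index fun ψ hψ => ?_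
    obtain ⟨β, hβ, rfl⟩ := Finset.mem_image.1 hψ
    obtain ⟨η, hη, hηχ⟩ := clifford_corr_surj φ.le_charInertia le_rfl χ hχ0
    have key : ∀ α ∈ A, classInner (fun n : N => (η.twist (α.comp I.subtype)).1
        ⟨n, φ.le_charInertia n.2⟩) φ.1 ≠ 0 ∧
        indFun I (η.twist (α.comp I.subtype)).1 = (χ.twist α).1 := by
      intro α hα
      constructor
      · simpa [IrrCharacter.twist_apply, hAN α hα] using hη
      · have := indFun_res_mul I η.1 (IrrCharacter.ofHom α).isClassFunction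
        rw [hηχ] at this
        exact this
    have hη1 : charDegree η.1 = 1 := by
      have h1 := η.isCharacter.charDegree_indFun
      rw [hηχ, hdeg] at h1
      exact (Nat.eq_of_mul_eq_mul_left hI0 (h1.symm.trans (mul_one _).symm))
    obtain ⟨μ, rfl⟩ := η.exists_eq_ofHom hη1
    rw [← Finset.card_image_of_injective _ (mul_left_injective β⁻¹)]
    refine card_le_index I _ fun γ hγ x hx => ?_
    obtain ⟨α, hα, rfl⟩ := Finset.mem_image.1 hγ
    obtain ⟨hαA, hαβ⟩ := Finset.mem_filter.1 hα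
    have h1 := clifford_corr_inj φ.le_charInertia le_rfl (key α hαA).1 (key β hβ).1
      (by rw [(key α hαA).2, (key β hβ).2, hαβ])
    have h2 := congrFun (congrArg Subtype.val h1) ⟨x, hx⟩
    simp only [IrrCharacter.twist_apply, IrrCharacter.ofHom_apply, MonoidHom.comp_apply,
      Subgroup.subtype_apply, mul_left_inj' (Units.ne_zero _), Units.val_inj] at h2
    simp [h2]
  have hO : O ⊆ S \ L := by
    intro ψ hψ
    obtain ⟨α, hα, rfl⟩ := Finset.mem_image.1 hψ
    simp only [A, Finset.mem_filter, Finset.mem_univ, true_and] at hα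
    simp only [L, S, Finset.mem_sdiff, Finset.mem_filter, Finset.mem_univ, true_and,
      IrrCharacter.charDegree_twist, hdeg]
    refine ⟨⟨Or.inr hI2, ?_⟩, fun h => by omega⟩
    rw [← hχ1, fsInd_def]
    simp [IrrCharacter.twist_apply, hα]
  have hSL : L ⊆ S := Finset.filter_subset _ _
  have hmain : 4 * S.card ≤ 3 * ∑ ψ ∈ S, charDegree ψ.1 := by
    have h1 : ∑ ψ ∈ L, charDegree ψ.1 = L.card := by
      rw [Finset.card_eq_sum_ones]
      exact Finset.sum_congr rfl fun ψ hψ => (Finset.mem_filter.1 hψ).2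
    have h2 : ∑ ψ ∈ O, charDegree ψ.1 = O.card * I.index := by
      rw [← smul_eq_mul, ← Finset.sum_const]
      refine Finset.sum_congr rfl fun ψ hψ => ?_
      obtain ⟨α, -, rfl⟩ := Finset.mem_image.1 hψ
      rw [IrrCharacter.charDegree_twist, hdeg]
    have h3 : ((S \ L) \ O).card * 2 ≤ ∑ ψ ∈ (S \ L) \ O, charDegree ψ.1 := by
      rw [← smul_eq_mul]
      refine Finset.card_nsmul_le_sum _ _ _ fun ψ hψ => ?_
      simp only [L, S, Finset.mem_sdiff, Finset.mem_filter, Finset.mem_univ, true_and] at hψ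
      have := ψ.charDegree_pos
      have h4 := hψ.1.1.1
      have h5 : charDegree ψ.1 ≠ 1 := fun h => hψ.1.2 ⟨hψ.1.1, h⟩
      omega
    rw [← Finset.sum_sdiff hSL, ← Finset.sum_sdiff hO, ← Finset.card_sdiff_add_card_eq_card hSL,
      ← Finset.card_sdiff_add_card_eq_card hO, h1, h2]
    have h4 : 2 ≤ I.index := Nat.le_of_dvd hI0 hI2
    nlinarith
  rw [finsum_eq_sum_of_fintype, Nat.card_eq_fintype_card, Fintype.card_subtype,
    ← Finset.sum_subtype S (by simp [S, fsInd_def]) (fun ψ : IrrCharacter G => charDegree ψ.1)]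
  exact hmain

end Cfsg.Agent.S4871
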