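import Cfsg.Statements.S4873
import Cfsg.Agent.CT.OddIndex


set_option autoImplicit false
open Cfsg

namespace Cfsg.Agent.S4873


/-- Let N be a normal subgroup of odd index in the finite group G. Then every irreducible complex character of N with Frobenius–Schur indicator +1 lies under exactly one irreducible character of G with Frobenius–Schur indicator +1. -/
theorem result {G : Type*} [Group G] [Finite G] (N : Subgroup G) [N.Normal] (hodd : Odd N.index) (φ : Cfsg.IrrCharacter ↥N) (hφ : (Nat.card ↥N : ℂ)⁻¹ * ∑ᶠ g : ↥N, (φ : ↥N → ℂ) (g * g) = 1) : ∃! χ : Cfsg.IrrCharacter G, (Nat.card G : ℂ)⁻¹ * ∑ᶠ g : G, (χ : G → ℂ) (g * g) = 1 ∧ (∑ᶠ n : ↥N, (χ : G → ℂ) n * (starRingEnd ℂ) ((φ : ↥N → ℂ) n)) ≠ 0 := by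
  classical
  haveI := Fintype.ofFinite G
  rw [← fsInd_def] at hφ
  have hN0 : (Nat.card N : ℂ)⁻¹ ≠ 0 := inv_ne_zero (Nat.cast_ne_zero.2 Nat.card_pos.ne')
  have key : ∀ χ : IrrCharacter G,
      (∑ᶠ n : N, χ.1 n * (starRingEnd ℂ) (φ.1 n)) ≠ 0 ↔ classInner (fun n : N => χ.1 n) φ.1 ≠ 0 := by
    intro χ
    rw [classInner_def, finsum_eq_sum_of_fintype, mul_ne_zero_iff_left hN0]
  obtain ⟨χ, ⟨h1, h2⟩, h3⟩ := existsUnique_real_over hodd φ (φ.real_of_fsInd_eq_one hφ)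
  refine ⟨χ, ⟨?_, (key χ).2 h1⟩, fun ψ hψ => h3 ψ ⟨(key ψ).1 hψ.2, ?_⟩⟩
  · rw [← fsInd_def, fsInd_eq_of_real_over hodd χ h1 h2, hφ]
  · exact ψ.real_of_fsInd_eq_one hψ.1

end Cfsg.Agent.S4873
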