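import Cfsg.Statements.S4878
import Cfsg.Agent.Pass.Exc

set_option autoImplicit false
open Cfsg

namespace Cfsg.Agent.S4878

/-- Let p be a prime and G a finite p-solvable group of order divisible by p in which all non-identity p-elements are conjugate. Then G has at least p conjugacy classes of p-regular elements; or G has exactly p − 1 of them and is isomorphic to the one-dimensional affine group over the field with p elements; or p = 11, G has exactly 9 of them, G has order 121·120 and G is a Frobenius group whose complement is isomorphic to SL(2,5). -/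
theorem result {G : Type*} [Group G] [Finite G] (p : ℕ) [Fact p.Prime] (hsolv : Cfsg.IsPSolvable p G) (hdiv : p ∣ Nat.card G) (hconj : ∀ x y : G, x ≠ 1 → y ≠ 1 → (∃ k : ℕ, orderOf x = p ^ k) → (∃ k : ℕ, orderOf y = p ^ k) → IsConj x y) : p ≤ Nat.card {c : ConjClasses G // ∃ g : G, ConjClasses.mk g = c ∧ ¬ p ∣ orderOf g} ∨ (Nat.card {c : ConjClasses G // ∃ g : G, ConjClasses.mk g = c ∧ ¬ p ∣ orderOf g} = p - 1 ∧ Nonempty (G ≃* ↥(Cfsg.affineGroup (ZMod p)))) ∨ (p = 11 ∧ Nat.card {c : ConjClasses G // ∃ g : G, ConjClasses.mk g = c ∧ ¬ p ∣ orderOf g} = 9 ∧ (Nat.card G = 121 * 120 ∧ ∃ H : Subgroup G, Cfsg.IsFrobeniusComplement H ∧ Nonempty (↥H ≃* Matrix.SpecialLinearGroup (Fin 2) (ZMod 5)))) := by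
  rw [or_iff_not_imp_left]
  intro hk
  by_cases hO : pPrimeCore p G = ⊥
  · obtain ⟨H, hc, hH, h⟩ := Pass.core hsolv hO hdiv hconj
    obtain ⟨e⟩ := nonempty_mulEquiv_quotient_of_isComplement' hc
    have h1 : Nat.card (Pass.RC p G) = Nat.card (ConjClasses H) := le_antisymm
      (Pass.card_rc_le hsolv hH (hc.index_eq_card ▸ (isPGroup_pCore p G).exists_card_eq))
      (Nat.card_le_card_of_surjective _ (Pass.rc_surjective
        (e.symm.toMonoidHom.comp (QuotientGroup.mk' _))
        (e.symm.surjective.comp (QuotientGroup.mk'_surjective _)) hH))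
    rw [h1] at hk ⊢
    refine (h.resolve_left hk).imp id fun ⟨h2, h3, ⟨e'⟩, h4⟩ => ⟨h2, ?_, ?_, H, ?_, ⟨e'⟩⟩
    · rw [Pass.card_classes_congr e', Pass.card_classes_sl25]
    · rw [← hc.card_mul, h3, Nat.card_congr e'.toEquiv, Pass.card_sl25]
    · refine isFrobeniusComplement_of_isComplement' hc (fun h => ?_) (fun h => ?_)
        fun a ha ha1 => h4 a fun h => ha1 (Subgroup.mem_bot.1 (hc.disjoint.le_bot ⟨h, ha⟩))
      · simp [h] at h3
      · have := Nat.card_congr e'.toEquiv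
        rw [h, Pass.card_sl25] at this
        simp at this
  exfalso
  set N := pPrimeCore p G with hN
  have hNp : ¬ p ∣ Nat.card N := not_dvd_card_pPrimeCore p
  obtain ⟨H, hc, hH, h⟩ := Pass.core (hsolv.quotient N) (pPrimeCore_quotient_pPrimeCore p)
    (((Nat.Prime.dvd_mul Fact.out).1 (N.card_mul_index ▸ hdiv)).resolve_left hNp)
    fun x y hx hy hx' hy' => by
      obtain ⟨x, h1, rfl⟩ := exists_pElement_lift _ (QuotientGroup.mk'_surjective N) hx'
      obtain ⟨y, h2, rfl⟩ := exists_pElement_lift _ (QuotientGroup.mk'_surjective N) hy'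
      exact MonoidHom.map_isConj _ (hconj x y (fun h => hx (by rw [h, map_one]))
        (fun h => hy (by rw [h, map_one])) h1 h2)
  obtain ⟨e⟩ := nonempty_mulEquiv_quotient_of_isComplement' hc
  set M := (pCore p (G ⧸ N)).comap (QuotientGroup.mk' N) with hM
  let e' : G ⧸ M ≃* H := ((QuotientGroup.quotientMulEquivOfEq (map_comap_mk N _).symm).trans
    (QuotientGroup.quotientQuotientEquivQuotient N M (le_comap_mk N _))).symm.trans e.symm
  have hQ : ¬ p ∣ Nat.card (G ⧸ M) := by rwa [Nat.card_congr e'.toEquiv]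
  have hreg : ∀ n ∈ N, ¬ p ∣ orderOf n := fun n hn h => hNp (h.trans (N.orderOf_dvd_natCard hn))
  obtain ⟨⟨n, hn⟩, hn1⟩ := Subgroup.ne_bot_iff_exists_ne_one.1 hO
  have hF : ∀ (x y : G) hx hy, (x : G ⧸ M) = y →
      ConjClasses.map (QuotientGroup.mk' M) (⟨ConjClasses.mk x, x, rfl, hx⟩ : Pass.RC p G).1 =
      ConjClasses.map (QuotientGroup.mk' M) (⟨ConjClasses.mk y, y, rfl, hy⟩ : Pass.RC p G).1 :=
    fun x y _ _ h => congrArg ConjClasses.mk h
  have hne : ∀ (x : G) hx, x ≠ 1 → (⟨ConjClasses.mk x, x, rfl, hx⟩ : Pass.RC p G) ≠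
      ⟨ConjClasses.mk 1, 1, rfl, hreg 1 N.one_mem⟩ := fun x _ hx h =>
    hx (isConj_one_left.1 (ConjClasses.mk_eq_mk_iff_isConj.1 (congrArg Subtype.val h)))
  have hNM : N ≤ M := le_comap_mk N _
  obtain ⟨h1, h2⟩ := Pass.fiber_of_card_le (Pass.rc_surjective (QuotientGroup.mk' M)
    (QuotientGroup.mk'_surjective M) hQ) (hne n (hreg n hn) fun h => hn1 (Subtype.ext h))
    (hF _ _ (hreg n hn) (hreg 1 N.one_mem) ((QuotientGroup.eq_one_iff n).2 (hNM hn)))
  rw [Pass.card_classes_congr e'] at h1 h2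
  change ¬ p ≤ Nat.card (Pass.RC p G) at hk
  rcases h with h | ⟨h, -⟩ | ⟨rfl, h3, ⟨e₁⟩, h4⟩
  · omega
  · omega
  rw [Pass.card_classes_congr e₁, Pass.card_classes_sl25] at h2
  replace h2 := fun (x y : G) hx hy hx1 hy1 h => ConjClasses.mk_eq_mk_iff_isConj.1
    (congrArg Subtype.val (h2 (by omega) _ _ (hne x hx hx1) (hne y hy hy1) (hF x y hx hy h)))
  have h5 : M.index = 120 := (Nat.card_congr (e'.trans e₁).toEquiv).trans Pass.card_sl25
  have hfree : ∀ g, g ∉ M → ∀ x ∈ M, Commute g x → x ∈ N := fun g hg x hx h =>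
    (QuotientGroup.eq_one_iff x).1 (h4 g hg x hx (h.map (QuotientGroup.mk' N)).eq)
  have hr : ∀ g, g ∉ M → ¬ 11 ∣ orderOf g := fun g hg h => by
    have h6 := orderOf_pow_orderOf_div (orderOf_pos g).ne' h
    refine hreg _ (hfree g hg _ ?_ ((Commute.refl g).pow_right _)) h6.symm.dvd
    exact mem_of_coprime_orderOf_index (by rw [h6, h5]; norm_num)
  refine Pass.exc_false hNM hO hNp ((relIndex_comap_mk N _).trans h3) h5
    (z := (e'.trans e₁).symm (-1)) (((e'.trans e₁).symm.orderOf_eq _).trans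
      (orderOf_eq_prime (by decide) (by decide))) ?_ hfree (fun a ha b hb ha1 hb1 => ?_)
    fun g hg m hm => ?_
  · rw [Subgroup.mem_center_iff]
    intro g
    obtain ⟨g, rfl⟩ := (e'.trans e₁).symm.surjective g
    rw [← map_mul, ← map_mul, mul_neg_one, neg_one_mul]
  · exact h2 a b (hreg a ha) (hreg b hb) ha1 hb1 (((QuotientGroup.eq_one_iff a).2 (hNM ha)).trans
      ((QuotientGroup.eq_one_iff b).2 (hNM hb)).symm)
  · have hgm : g * m ∉ M := fun h => hg ((M.mul_mem_cancel_right hm).1 h)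
    exact h2 g (g * m) (hr g hg) (hr _ hgm) (fun h => hg (h ▸ M.one_mem))
      (fun h => hgm (h ▸ M.one_mem)) (QuotientGroup.mk_mul_of_mem g hm).symm

end Cfsg.Agent.S4878
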