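import Cfsg.Statements.S4885
import Cfsg.Agent.CT.PQSolv
import Cfsg.Agent.Blk.Fong
import Cfsg.Agent.Blk.PrincDeg

set_option autoImplicit false
open Cfsg

namespace Cfsg.Agent.S4885

/-- Let p and q be primes dividing the order of the finite group G, and suppose G is p-solvable and q-solvable. Fix maximal ideals of the algebraic integers containing p and q, defining the principal p-block and the principal q-block. If the irreducible characters of degree prime to p in the principal p-block are exactly the irreducible characters of degree prime to q in the principal q-block, then p = q. -/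
theorem result {G : Type*} [Group G] [Finite G] (p q : ℕ) [Fact p.Prime] [Fact q.Prime] (hp : p ∣ Nat.card G) (hq : q ∣ Nat.card G) (hps : Cfsg.IsPSolvable p G) (hqs : Cfsg.IsPSolvable q G) (Mp Mq : Ideal Cfsg.AlgInt) (hMp : Cfsg.IsPModular p Mp) (hMq : Cfsg.IsPModular q Mq) (h : ∀ χ : Cfsg.IrrCharacter G, (χ ∈ Cfsg.principalBlock Mp G ∧ ¬ p ∣ Cfsg.charDegree (χ : G → ℂ)) ↔ (χ ∈ Cfsg.principalBlock Mq G ∧ ¬ q ∣ Cfsg.charDegree (χ : G → ℂ))) : p = q := by
  by_contra hpq
  obtain ⟨-, h4⟩ := not_dvd_card_pPrimeResidual_of_degrees hpq G hps hqs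
    (fun χ h1 h2 => ((h χ).1 ⟨(hps.mem_principalBlock_iff hMp χ).2 h1, h2⟩).2)
    (fun χ h1 h2 => ((h χ).2 ⟨(hqs.mem_principalBlock_iff hMq χ).2 h1, h2⟩).2)
  obtain ⟨P⟩ : Nonempty (Sylow p G) := inferInstance
  have hP : (P : Subgroup G) ≤ pPrimeCore q G :=
    (le_pPrimeResidual_of_isPGroup P.2).trans (le_pPrimeCore_of_not_dvd inferInstance h4)
  have hne : (P : Subgroup G) ≠ ⊥ := P.ne_bot_of_dvd_card hp
  have : Nontrivial (P : Subgroup G) := (Subgroup.nontrivial_iff_ne_bot _).2 hne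
  obtain ⟨D, hD, -⟩ := (eq_top_or_exists_le_coatom (⊥ : Subgroup P)).resolve_left bot_ne_top
  obtain ⟨hDn, hDi⟩ := index_eq_of_isCoatom_of_isPGroup P.isPGroup' hD
  obtain ⟨g, hg⟩ : ∃ g, g ∉ D := by
    by_contra h1
    push Not at h1
    exact hD.1 (eq_top_iff.2 fun x _ => h1 x)
  obtain ⟨μ, -, hμg⟩ := exists_unitsHom_le_ker_ne_one (N := D) (by
    have : IsCyclic (P ⧸ D) := isCyclic_of_prime_card (p := p) hDi
    rw [← Subgroup.Normal.quotient_commutative_iff_commutator_le]
    exact IsCyclic.isMulCommutative) hg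
  have := Fintype.ofFinite (P : Subgroup G)
  have hμ : IrrCharacter.ofHom μ ∈ principalBlock Mp P :=
    ((IsPSolvable.of_isPGroup P.isPGroup').mem_principalBlock_iff hMp _).2 (by
      rw [eq_bot_of_isPGroup_of_not_dvd (P.isPGroup'.to_subgroup _) (not_dvd_card_pPrimeCore p)]
      exact bot_le)
  obtain ⟨χ, hχ, hd, hχμ⟩ := hMp.exists_principal_over_not_dvd P le_rfl hμ
    (by simpa using (Fact.out : p.Prime).ne_one)
  have h5 := hP.trans ((hqs.mem_principalBlock_iff hMq χ).1 ((h χ).1 ⟨hχ, hd⟩).1)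
  have h6 := (χ.isCharacter.comp (P : Subgroup G).subtype).charKer_le_of_constituent _ hχμ
  rw [χ.isCharacter.charKer_comp, IrrCharacter.charKer_ofHom] at h6
  exact hμg (h6 (h5 g.2))

end Cfsg.Agent.S4885
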