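import Cfsg.Statements.S4888
import Cfsg.Agent.Blk.PrincThompson

set_option autoImplicit false
open Cfsg

namespace Cfsg.Agent.S4888

/-- Let G be a finite group, p a prime and M a maximal ideal of the algebraic integers containing p. Then all height-zero irreducible characters of the principal p-block of G (equivalently, all its characters of degree prime to p) have the same degree if and only if G has a normal p-complement. -/
theorem result {G : Type*} [Group G] [Finite G] (p : ℕ) [Fact p.Prime] (M : Ideal Cfsg.AlgInt) (hM : Cfsg.IsPModular p M) : (∃ d : ℕ, ∀ χ : Cfsg.IrrCharacter G, χ ∈ (Cfsg.principalBlock M G) → Cfsg.blockHeight p (Cfsg.principalBlock M G) (χ : G → ℂ) = 0 → Cfsg.charDegree (χ : G → ℂ) = d) ↔ Cfsg.HasNormalPComplement p G := by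
  have hh : ∀ χ ∈ principalBlock M G, blockHeight p (principalBlock M G) χ.1 = 0 ↔
      ¬ p ∣ charDegree χ.1 := fun χ hχ => by
    rw [blockHeight_eq_of_full hM.blockDefect_principalBlock hχ, Nat.factorization_eq_zero_iff]
    have := χ.charDegree_pos
    have hp : p.Prime := Fact.out
    constructor
    · rintro (h | h | h)
      · exact absurd hp h
      · exact h
      · omega
    · exact fun h => Or.inr (Or.inl h)
  constructor
  · rintro ⟨d, hd⟩
    have h1 : d = 1 := by
      rw [← hd _ hM.triv_mem_principalBlock ((hh _ hM.triv_mem_principalBlock).2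
        (by simpa using (Fact.out : p.Prime).ne_one))]
      simp
    have := hM.hasNormalPComplement_of_principal (K := ⊤) fun χ hχ h =>
      (IrrCharacter.charDegree_eq_one_iff_commutator_le χ).1 ((hd χ hχ ((hh χ hχ).2 h)).trans h1)
    exact this.of_surjective (⊤ : Subgroup G).subtype fun g => ⟨⟨g, trivial⟩, rfl⟩
  · intro h
    refine ⟨1, fun χ hχ h0 => ?_⟩
    have h1 := (hh χ hχ).1 h0
    have h2 := (hM.mem_principalBlock_iff_of_hasNormalPComplement h χ).1 hχ
    obtain ⟨k, hk⟩ := isPGroup_quotient_iff_index.1 (hasNormalPComplement_iff_isPGroup_quotient.1 h)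
    have h3 : charDegree χ.1 ∣ p ^ k :=
      hk ▸ χ.charDegree_dvd_index_charKer.trans (Subgroup.index_dvd_of_le h2)
    exact Nat.Coprime.eq_one_of_dvd
      (((Nat.Prime.coprime_iff_not_dvd Fact.out).2 h1).symm.pow_right k) h3

end Cfsg.Agent.S4888
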