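import Cfsg.Statements.S4890
import Cfsg.Agent.Blk.NormalDef

set_option autoImplicit false
open Cfsg

namespace Cfsg.Agent.S4890

/-- Let G be a finite group, p a prime, M a maximal ideal of the algebraic integers containing p, and B a p-block of G with a defect group that is normal in G. Then all height-zero irreducible characters of B have the same degree if and only if B is a nilpotent block. -/
theorem result {G : Type*} [Group G] [Finite G] (p : ℕ) [Fact p.Prime] (M : Ideal Cfsg.AlgInt) (hM : Cfsg.IsPModular p M) (B : Set (Cfsg.IrrCharacter G)) (hB : Cfsg.IsPBlock M B) (D : Subgroup G) (hD : Cfsg.IsDefectGroup p M B D) (hDn : D.Normal) : (∃ d : ℕ, ∀ χ : Cfsg.IrrCharacter G, χ ∈ B → Cfsg.blockHeight p B (χ : G → ℂ) = 0 → Cfsg.charDegree (χ : G → ℂ) = d) ↔ Cfsg.IsNilpotentBlock p M B := by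
  classical
  haveI : Fintype G := Fintype.ofFinite _
  have hp : p.Prime := Fact.out
  constructor
  · rintro ⟨d, hd⟩
    have hπ := QuotientGroup.mk'_surjective ⁅D, D⁆
    have hk : (QuotientGroup.mk' ⁅D, D⁆).ker ≤ ⁅D, D⁆ := (QuotientGroup.ker_mk' _).le
    have hkD := hk.trans (Subgroup.commutator_le_left D D)
    obtain ⟨b, hb, hbB, -⟩ := hB.exists_dominated_of_isPGroup hM _ hπ (hD.isPGroup.to_le hkD)
    refine hD.isNilpotentBlock_of_dominated hM hB hπ hk hb hbB
      (hb.isNilpotentBlock_of_charDegree_eq hM (n := d) fun χ hχ => ?_)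
    haveI := Subgroup.Normal.map hDn _ hπ
    have hab : IsMulCommutative (D.map (QuotientGroup.mk' ⁅D, D⁆)) := by
      rw [← Subgroup.commutator_self_eq_bot_iff, ← Subgroup.map_commutator,
        Subgroup.map_eq_bot_iff, QuotientGroup.ker_mk']
    have h1 := (hD.map_of_normal hM hB hπ hb hbB).blockHeight_eq_zero_of_normal hM hb hab hχ
    rw [← hD.blockHeight_comap_of_normal hM hB hπ hkD hb hbB hχ] at h1
    rw [← hd _ (hbB hχ) h1, IrrCharacter.charDegree_comap]
  · intro h
    obtain ⟨e, S⟩ := hD.exists_starSetup hM hB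
    obtain ⟨χ, hχ, h0⟩ := exists_blockHeight_eq_zero (hB.nonempty hM) p
    obtain ⟨Φ, hΦ⟩ := S.exists_equiv_irr (S.isConj_of_nilpotent h) hχ h0
    refine ⟨charDegree χ.1, fun ψ hψ hψ0 => ?_⟩
    obtain ⟨η, hη⟩ := Φ.surjective ⟨ψ, hψ⟩
    have h1 := (hΦ η).2
    rw [hη] at h1
    have h2 := S.blockHeight_of_charDegree_eq hχ hψ h1
    obtain ⟨n, hn⟩ := IsPGroup.iff_card.1 hD.isPGroup
    have h3 := η.charDegree_dvd_card
    rw [hn] at h3
    obtain ⟨m, -, hm⟩ := (Nat.dvd_prime_pow hp).1 h3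
    rw [hm, hψ0, h0, Nat.factorization_pow_self hp] at h2
    have h4 : m = 0 := by omega
    rw [hm, h4, pow_zero, one_mul] at h1
    exact h1

end Cfsg.Agent.S4890
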